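import Mathlib

/-! The alternating group of degree `n + 1` embeds in `PSL_n(F)`, `n ≥ 4`. -/

set_option autoImplicit false

namespace Cfsg.Agent.H19.AltPSL

open Equiv Matrix

variable {n : ℕ} {F : Type*} [Field F]

/-- The vertices of the simplex in `F^n`. -/
noncomputable def b (x : Fin (n + 1)) : Fin n → F :=
  Fin.lastCases (motive := fun _ => Fin n → F) 0 (fun i => Pi.single i 1) x

lemma b_last : (b (Fin.last n) : Fin n → F) = 0 := by simp [b]

lemma b_cast (i : Fin n) : (b i.castSucc : Fin n → F) = Pi.single i 1 := by simp [b]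

/-- The linear part of the permutation of the vertices. -/
noncomputable def M (σ : Perm (Fin (n + 1))) : Matrix (Fin n) (Fin n) F :=
  Matrix.of fun j i => b (σ i.castSucc) j - b (σ (Fin.last n)) j

lemma M_mulVec (σ : Perm (Fin (n + 1))) (x : Fin (n + 1)) :
    (M σ : Matrix (Fin n) (Fin n) F) *ᵥ b x = b (σ x) - b (σ (Fin.last n)) := by
  induction x using Fin.lastCases with
  | last => simp [b_last]
  | cast i =>
    rw [b_cast, Matrix.mulVec_single_one]
    ext j
    simp [M]

lemma M_mul (σ τ : Perm (Fin (n + 1))) :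
    (M (σ * τ) : Matrix (Fin n) (Fin n) F) = M σ * M τ := by
  ext j i
  have h1 : ((M (σ * τ) : Matrix (Fin n) (Fin n) F) *ᵥ b i.castSucc) j = M (σ * τ) j i := by
    rw [b_cast, Matrix.mulVec_single_one]
    rfl
  have h2 : ((M σ * M τ : Matrix (Fin n) (Fin n) F) *ᵥ b i.castSucc) j
      = (M σ * M τ : Matrix (Fin n) (Fin n) F) j i := by
    rw [b_cast, Matrix.mulVec_single_one]
    rfl
  rw [← h1, ← h2, ← Matrix.mulVec_mulVec, M_mulVec, M_mulVec, Matrix.mulVec_sub, M_mulVec, M_mulVec]
  simp

lemma M_one : (M (1 : Perm (Fin (n + 1))) : Matrix (Fin n) (Fin n) F) = 1 := by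
  ext j i
  simp [M, b_cast, b_last, Matrix.one_apply, Pi.single_apply, eq_comm]

/-- The representation. -/
noncomputable def ρ : Perm (Fin (n + 1)) →* Matrix (Fin n) (Fin n) F where
  toFun := M
  map_one' := M_one
  map_mul' := M_mul

theorem exists_injective (hn : 5 ≤ n) :
    ∃ f : alternatingGroup (Fin (n + 1)) →* Matrix.ProjectiveSpecialLinearGroup (Fin n) F,
      Function.Injective f := by
  classical
  have hcard : 5 ≤ Nat.card (Fin (n + 1)) := by simp; omega
  let A := alternatingGroup (Fin (n + 1))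
  let δ : A →* Fˣ := (Matrix.GeneralLinearGroup.det (n := Fin n) (R := F)).comp
    ((ρ (n := n) (F := F)).toHomUnits.comp A.subtype)
  have hδ : ∀ a : A, δ a = 1 := by
    intro a
    have h1 : commutator A ≤ δ.ker := Abelianization.commutator_subset_ker δ
    rw [commutator_alternatingGroup_eq_top hcard] at h1
    exact h1 (Subgroup.mem_top a)
  have hdet : ∀ a : A, (M a.1 : Matrix (Fin n) (Fin n) F).det = 1 := by
    intro a
    have := congrArg Units.val (hδ a)
    simpa [δ, ρ] using this
  let ρ' : A →* Matrix.SpecialLinearGroup (Fin n) F :=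
    { toFun := fun a => ⟨M a.1, hdet a⟩
      map_one' := by
        apply Subtype.ext
        exact M_one
      map_mul' := by
        intro a b
        apply Subtype.ext
        exact M_mul a.1 b.1 }
  let φ : A →* Matrix.ProjectiveSpecialLinearGroup (Fin n) F :=
    (QuotientGroup.mk' _).comp ρ'
  refine ⟨φ, ?_⟩
  haveI : IsSimpleGroup A := alternatingGroup.isSimpleGroup hcard
  rcases (inferInstance : φ.ker.Normal).eq_bot_or_eq_top with h | h
  · exact (MonoidHom.ker_eq_bot_iff φ).1 h
  · exfalso
    let i0 : Fin (n + 1) := ⟨0, by omega⟩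
    let i1 : Fin (n + 1) := ⟨1, by omega⟩
    let i2 : Fin (n + 1) := ⟨2, by omega⟩
    let σ0 : Perm (Fin (n + 1)) := swap i0 i1 * swap i1 i2
    have hσ : σ0 ∈ alternatingGroup (Fin (n + 1)) := by
      rw [Equiv.Perm.mem_alternatingGroup, Equiv.Perm.sign_mul, Equiv.Perm.sign_swap, Equiv.Perm.sign_swap]
      · simp
      · simp [i1, i2, Fin.ext_iff]
      · simp [i0, i1, Fin.ext_iff]
    have hker : (⟨σ0, hσ⟩ : A) ∈ φ.ker := by rw [h]; trivial
    have h1 : φ ⟨σ0, hσ⟩ = 1 := hker
    have h2 : ρ' ⟨σ0, hσ⟩ ∈ Subgroup.center (Matrix.SpecialLinearGroup (Fin n) F) :=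
      (QuotientGroup.eq_one_iff _).1 h1
    have hn' : Nonempty (Fin n) := ⟨⟨0, by omega⟩⟩
    obtain ⟨r, _, hr⟩ := Matrix.SpecialLinearGroup.mem_center_iff.1 h2
    have h3 : (M σ0 : Matrix (Fin n) (Fin n) F) = Matrix.scalar (Fin n) r := hr.symm
    let j0 : Fin n := ⟨0, by omega⟩
    let j1 : Fin n := ⟨1, by omega⟩
    have hj : j1 ≠ j0 := by simp [j0, j1, Fin.ext_iff]
    have h4 := congrFun (congrFun h3 j1) j0
    have h01 : i0 ≠ i1 := by
      intro h
      have : i0.val = i1.val := congrArg Fin.val h
      change 0 = 1 at this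
      omega
    have h02 : i0 ≠ i2 := by
      intro h
      have : i0.val = i2.val := congrArg Fin.val h
      change 0 = 2 at this
      omega
    have hl0 : Fin.last n ≠ i0 := by
      intro h
      have : (Fin.last n).val = i0.val := congrArg Fin.val h
      change n = 0 at this
      omega
    have hl1 : Fin.last n ≠ i1 := by
      intro h
      have : (Fin.last n).val = i1.val := congrArg Fin.val h
      change n = 1 at this
      omega
    have hl2 : Fin.last n ≠ i2 := by
      intro h
      have : (Fin.last n).val = i2.val := congrArg Fin.val h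
      change n = 2 at this
      omega
    have h5 : σ0 j0.castSucc = j1.castSucc := by
      have e0 : j0.castSucc = i0 := rfl
      have e1 : j1.castSucc = i1 := rfl
      rw [e0, e1]
      simp only [σ0, Perm.mul_apply]
      rw [swap_apply_of_ne_of_ne h01 h02, swap_apply_left]
    have h6 : σ0 (Fin.last n) = Fin.last n := by
      simp only [σ0, Perm.mul_apply]
      rw [swap_apply_of_ne_of_ne hl1 hl2, swap_apply_of_ne_of_ne hl0 hl1]
    simp only [M, Matrix.of_apply, h5, h6, b_last, b_cast] at h4
    simp [Matrix.scalar_apply, Matrix.diagonal_apply_ne, hj] at h4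

end Cfsg.Agent.H19.AltPSL
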