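import Mathlib
import Cfsg.Agent.Lib.H19.Kazarin2

/-!
Automorphism orbits: counting formula, comparison with conjugacy classes, non-nilpotent groups,
direct products.
-/

set_option linter.unusedSectionVars false
set_option linter.style.haveILetI false
set_option linter.unusedVariables false

namespace Cfsg.Agent.H19.AutOrb

open Subgroup

universe u

/-- The number of orbits of `Aut G` on `G`. -/
noncomputable def oN (G : Type*) [Group G] : ℕ :=
  Nat.card (MulAction.orbitRel.Quotient (MulAut G) G)

/-- The size of the `Aut G`-orbit of `g`. -/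
noncomputable def orbSize {G : Type*} [Group G] (g : G) : ℕ :=
  (MulAction.orbit (MulAut G) g).ncard

theorem card_eq_sum_fiber {X Q : Type*} [Fintype X] [Fintype Q] [DecidableEq Q] (q : X → Q)
    (hq : Function.Surjective q) :
    (Fintype.card Q : ℝ) = ∑ x : X, (((Finset.univ.filter (fun y => q y = q x)).card : ℕ) : ℝ)⁻¹ := by
  classical
  rw [← Finset.sum_fiberwise (s := Finset.univ) (g := q)]
  rw [Fintype.card, Finset.card_eq_sum_ones]
  push_cast
  refine Finset.sum_congr rfl (fun ω _ => ?_)
  obtain ⟨x₀, rfl⟩ := hq ω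
  have h1 : ∀ x ∈ Finset.univ.filter (fun y => q y = q x₀),
      (((Finset.univ.filter (fun y => q y = q x)).card : ℕ) : ℝ)⁻¹ =
        (((Finset.univ.filter (fun y => q y = q x₀)).card : ℕ) : ℝ)⁻¹ := by
    intro x hx
    rw [Finset.mem_filter] at hx
    rw [hx.2]
  rw [Finset.sum_congr rfl h1, Finset.sum_const, nsmul_eq_mul]
  have hne : (((Finset.univ.filter (fun y => q y = q x₀)).card : ℕ) : ℝ) ≠ 0 := by
    have : 0 < (Finset.univ.filter (fun y => q y = q x₀)).card :=
      Finset.card_pos.mpr ⟨x₀, by simp⟩
    exact_mod_cast this.ne'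
  exact (mul_inv_cancel₀ hne).symm

variable {G : Type*} [Group G] [Finite G]

theorem oN_eq_sum [Fintype G] : (oN G : ℝ) = ∑ g : G, ((orbSize g : ℕ) : ℝ)⁻¹ := by
  classical
  let Q := MulAction.orbitRel.Quotient (MulAut G) G
  letI : Finite Q := Quotient.finite _
  letI : Fintype Q := Fintype.ofFinite Q
  let q : G → Q := fun g => Quotient.mk'' g
  have hq : Function.Surjective q := Quotient.mk''_surjective
  have h := card_eq_sum_fiber q hq
  unfold oN
  rw [Nat.card_eq_fintype_card, h]
  refine Finset.sum_congr rfl (fun g _ => ?_)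
  congr 2
  unfold orbSize
  rw [← Set.ncard_coe_finset]
  congr 1
  ext y
  simp only [Finset.coe_filter, Finset.mem_univ, true_and, Set.mem_setOf_eq, q]
  rw [Quotient.eq'']
  exact MulAction.orbitRel_apply

theorem index_le_orbSize (g : G) : (centralizer ({g} : Set G)).index ≤ orbSize g := by
  rw [← Cfsg.Agent.H19.ncard_class_eq_index]
  apply Set.ncard_le_ncard _ (Set.toFinite _)
  intro h hh
  rw [ConjClasses.mem_carrier_iff_mk_eq, ConjClasses.mk_eq_mk_iff_isConj] at hh
  obtain ⟨c, hc⟩ := isConj_iff.mp hh
  refine ⟨MulAut.conj c⁻¹, ?_⟩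
  show MulAut.conj c⁻¹ g = h
  rw [← hc, MulAut.conj_apply]
  group

theorem oN_le_classes : oN G ≤ Nat.card (ConjClasses G) := by
  let Q := MulAction.orbitRel.Quotient (MulAut G) G
  letI : Finite Q := Quotient.finite _
  let q : G → Q := fun g => Quotient.mk'' g
  let f : ConjClasses G → Q := Quot.lift q (by
    intro a b hab
    have hab' : IsConj a b := hab
    obtain ⟨c, hc⟩ := isConj_iff.mp hab'
    show Quotient.mk'' a = Quotient.mk'' b
    rw [Quotient.eq'']
    refine MulAction.orbitRel_apply.mpr ⟨MulAut.conj c⁻¹, ?_⟩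
    show MulAut.conj c⁻¹ b = a
    rw [← hc, MulAut.conj_apply]
    group)
  have hf : Function.Surjective f := by
    intro ω
    obtain ⟨g, rfl⟩ := Quotient.mk''_surjective ω
    exact ⟨ConjClasses.mk g, rfl⟩
  exact Nat.card_le_card_of_surjective f hf

/-- Centerless groups. -/
theorem classes_of_center_bot (hZ : center G = ⊥) (hnt : Nontrivial G) :
    Nat.card (ConjClasses G) * (Nat.card G).minFac ≤ Nat.card G := by
  classical
  letI : Fintype G := Fintype.ofFinite G
  letI : Fintype (ConjClasses G) := Fintype.ofFinite _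
  set n := Nat.card G with hn
  have hn1 : n ≠ 1 := by
    rw [hn]
    exact Finite.one_lt_card.ne'
  set p := n.minFac with hp
  have hpp : p.Prime := Nat.minFac_prime hn1
  let q : G → ConjClasses G := ConjClasses.mk
  have hq : Function.Surjective q := ConjClasses.mk_surjective
  have hsum := card_eq_sum_fiber q hq
  have hfib : ∀ g : G, (Finset.univ.filter (fun y => q y = q g)).card =
      (centralizer ({g} : Set G)).index := by
    intro g
    rw [← Cfsg.Agent.H19.ncard_class_eq_index, ← Set.ncard_coe_finset]
    congr 1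
    ext y
    simp [ConjClasses.mem_carrier_iff_mk_eq, q]
  have hbound : ∀ g : G, ((((centralizer ({g} : Set G)).index : ℕ) : ℝ))⁻¹ ≤
      (if g = 1 then 1 else (p : ℝ)⁻¹) := by
    intro g
    by_cases hg : g = 1
    · rw [if_pos hg]
      subst hg
      have : (centralizer ({(1 : G)} : Set G)) = ⊤ := by
        ext y
        simp [mem_centralizer_singleton_iff]
      rw [this, Subgroup.index_top]
      simp
    · rw [if_neg hg]
      have h1 : (centralizer ({g} : Set G)).index ≠ 1 := by
        intro h
        rw [Subgroup.index_eq_one] at h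
        apply hg
        have : g ∈ center G := by
          rw [Subgroup.mem_center_iff]
          intro y
          have hy : y ∈ centralizer ({g} : Set G) := by rw [h]; trivial
          rw [mem_centralizer_singleton_iff] at hy
          exact hy
        rw [hZ] at this
        exact (Subgroup.mem_bot.mp this)
      have h2 : p ≤ (centralizer ({g} : Set G)).index :=
        Nat.minFac_le_of_dvd (Nat.two_le_iff _ |>.mpr ⟨(Subgroup.index_ne_zero_of_finite), h1⟩)
          (Subgroup.index_dvd_card _)
      have hp0 : (0 : ℝ) < p := by exact_mod_cast hpp.pos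
      apply inv_anti₀ hp0
      exact_mod_cast h2
  have hcard : Nat.card (ConjClasses G) = Fintype.card (ConjClasses G) := Nat.card_eq_fintype_card
  have hR : (Nat.card (ConjClasses G) : ℝ) ≤ 1 + ((n : ℝ) - 1) * (p : ℝ)⁻¹ := by
    rw [hcard, hsum]
    calc ∑ x : G, (((Finset.univ.filter (fun y => q y = q x)).card : ℕ) : ℝ)⁻¹
        ≤ ∑ x : G, (if x = 1 then 1 else (p : ℝ)⁻¹) := by
          refine Finset.sum_le_sum (fun g _ => ?_)
          rw [hfib]
          exact hbound g
      _ = 1 + ((n : ℝ) - 1) * (p : ℝ)⁻¹ := by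
          have h3 : ∀ x : G, (if x = 1 then (1 : ℝ) else (p : ℝ)⁻¹) =
              (p : ℝ)⁻¹ + (if x = 1 then (1 - (p : ℝ)⁻¹) else 0) := by
            intro x
            split_ifs <;> ring
          simp only [h3]
          rw [Finset.sum_add_distrib, Finset.sum_const, Finset.sum_ite_eq' Finset.univ (1 : G)]
          simp only [Finset.mem_univ, if_true, Finset.card_univ, nsmul_eq_mul]
          have hnn : (Fintype.card G : ℝ) = n := by
            rw [hn, Nat.card_eq_fintype_card]
          rw [hnn]
          ring
  have hp0 : (0 : ℝ) < p := by exact_mod_cast hpp.pos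
  have hR2 : ((Nat.card (ConjClasses G) : ℝ)) * p ≤ (n : ℝ) - 1 + p := by
    have := mul_le_mul_of_nonneg_right hR hp0.le
    calc _ ≤ _ := this
      _ = (n : ℝ) - 1 + p := by
        field_simp
        ring
  have hN : Nat.card (ConjClasses G) * p + 1 ≤ n + p := by
    have hn0 : 1 ≤ n := Nat.card_pos
    have h4 : ((Nat.card (ConjClasses G) * p + 1 : ℕ) : ℝ) ≤ ((n + p : ℕ) : ℝ) := by
      push_cast
      linarith
    exact_mod_cast h4
  obtain ⟨m, hm⟩ : p ∣ n := Nat.minFac_dvd n
  rw [hm] at hN ⊢
  have h5 : Nat.card (ConjClasses G) < m + 1 := by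
    by_contra hcon
    push_neg at hcon
    have : (m + 1) * p ≤ Nat.card (ConjClasses G) * p := Nat.mul_le_mul_right _ hcon
    nlinarith
  have h6 : Nat.card (ConjClasses G) ≤ m := by omega
  calc Nat.card (ConjClasses G) * p ≤ m * p := Nat.mul_le_mul_right _ h6
    _ = p * m := mul_comm _ _

/-- `k(G) ≤ |N| k(G/N)` for central `N`. -/
theorem classes_le_center_mul :
    Nat.card (ConjClasses G) ≤ Nat.card (center G) * Nat.card (ConjClasses (G ⧸ center G)) := by
  classical
  letI : Finite (ConjClasses (G ⧸ center G)) := inferInstance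
  let rep : ConjClasses (G ⧸ center G) → G := fun c => Quotient.out (Quotient.out c)
  have hrep : ∀ c, ConjClasses.mk ((rep c : G) : G ⧸ center G) = c := by
    intro c
    have h1 : ((rep c : G) : G ⧸ center G) = Quotient.out c := Quotient.out_eq _
    rw [h1]
    exact Quotient.out_eq c
  let Φ : center G × ConjClasses (G ⧸ center G) → ConjClasses G :=
    fun x => ConjClasses.mk (rep x.2 * (x.1 : G))
  have hΦ : Function.Surjective Φ := by
    intro c
    obtain ⟨g, rfl⟩ := ConjClasses.mk_surjective c
    set c' := ConjClasses.mk ((g : G) : G ⧸ center G) with hc'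
    have h1 : IsConj ((rep c' : G) : G ⧸ center G) ((g : G) : G ⧸ center G) := by
      rw [← ConjClasses.mk_eq_mk_iff_isConj, hrep]
    obtain ⟨t, ht⟩ := isConj_iff.mp h1
    obtain ⟨t', rfl⟩ := QuotientGroup.mk_surjective t
    have h2 : ((t' * rep c' * t'⁻¹ : G) : G ⧸ center G) = ((g : G) : G ⧸ center G) := by
      simpa using ht
    rw [QuotientGroup.eq] at h2
    set n' : G := (t' * rep c' * t'⁻¹)⁻¹ * g with hn'
    have hn'Z : n' ∈ center G := h2
    refine ⟨(⟨n', hn'Z⟩, c'), ?_⟩
    show ConjClasses.mk (rep c' * n') = ConjClasses.mk g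
    rw [ConjClasses.mk_eq_mk_iff_isConj, isConj_iff]
    refine ⟨t', ?_⟩
    have h3 : n' * t'⁻¹ = t'⁻¹ * n' := ((Subgroup.mem_center_iff.mp hn'Z) t'⁻¹).symm
    calc t' * (rep c' * n') * t'⁻¹ = t' * rep c' * (n' * t'⁻¹) := by group
      _ = t' * rep c' * (t'⁻¹ * n') := by rw [h3]
      _ = (t' * rep c' * t'⁻¹) * n' := by group
      _ = g := by rw [hn']; group
  have h := Nat.card_le_card_of_surjective Φ hΦ
  rwa [Nat.card_prod] at h

/-- Non-nilpotent groups. -/
theorem classes_of_not_nilpotent : ∀ (m : ℕ) (G : Type u) [Group G] [Finite G], Nat.card G = m →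
    ¬ Group.IsNilpotent G → Nat.card (ConjClasses G) * (Nat.card G).minFac ≤ Nat.card G := by
  intro m
  induction m using Nat.strong_induction_on with
  | _ m IH =>
    intro G _ _ hm hnil
    by_cases hZ : center G = ⊥
    · have hnt : Nontrivial G := by
        by_contra hcon
        rw [not_nontrivial_iff_subsingleton] at hcon
        exact hnil inferInstance
      exact classes_of_center_bot hZ hnt
    · have hZ1 : 1 < Nat.card (center G) := by
        rw [Subgroup.one_lt_card_iff_ne_bot]
        exact hZ
      have hcard : Nat.card G = Nat.card (center G) * Nat.card (G ⧸ center G) := by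
        rw [Subgroup.card_eq_card_quotient_mul_card_subgroup (center G), mul_comm]
      have hlt : Nat.card (G ⧸ center G) < m := by
        rw [← hm, hcard]
        exact lt_mul_of_one_lt_left Nat.card_pos hZ1
      have hnil' : ¬ Group.IsNilpotent (G ⧸ center G) := by
        intro h
        exact hnil (Group.of_quotient_center_nilpotent h)
      have h1 := IH _ hlt (G ⧸ center G) rfl hnil'
      have h2 : Nat.card (G ⧸ center G) ≠ 1 := by
        intro h3
        apply hnil'
        haveI : Subsingleton (G ⧸ center G) := (Nat.card_eq_one_iff_unique.mp h3).1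
        infer_instance
      have h3 : (Nat.card G).minFac ≤ (Nat.card (G ⧸ center G)).minFac := by
        apply Nat.minFac_le_of_dvd (Nat.minFac_prime h2).two_le
        exact (Nat.minFac_dvd _).trans (hcard ▸ dvd_mul_left _ _)
      calc Nat.card (ConjClasses G) * (Nat.card G).minFac
          ≤ (Nat.card (center G) * Nat.card (ConjClasses (G ⧸ center G))) *
              (Nat.card (G ⧸ center G)).minFac :=
            Nat.mul_le_mul classes_le_center_mul h3
        _ = Nat.card (center G) * (Nat.card (ConjClasses (G ⧸ center G)) *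
              (Nat.card (G ⧸ center G)).minFac) := by ring
        _ ≤ Nat.card (center G) * Nat.card (G ⧸ center G) := Nat.mul_le_mul_left _ h1
        _ = Nat.card G := hcard.symm

end Cfsg.Agent.H19.AutOrb
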