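import Mathlib
import Cfsg.Agent.Lib.H19.AutOrb1
import Cfsg.Agent.Lib.H19.PElt1

/-!
Automorphism orbits of `p`-groups: the counting criterion, large classes, the structure of groups
all of whose classes have size at most `p`.
-/

set_option linter.unusedSectionVars false
set_option linter.style.haveILetI false
set_option linter.unusedVariables false

namespace Cfsg.Agent.H19.AutOrb

open Subgroup
open Cfsg.Agent.H19.PElt (card_inf_of_subgroupOf)

variable {G : Type*} [Group G] [Finite G] {p : ℕ} [hp : Fact p.Prime]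

theorem orbSize_pos (g : G) : 0 < orbSize g := by
  unfold orbSize
  rw [Set.ncard_pos (Set.toFinite _)]
  exact ⟨g, MulAction.mem_orbit_self g⟩

theorem criterion (M : Set G) (hZ : ∀ g, g ∉ center G → p ≤ orbSize g)
    (hM1 : ∀ g ∈ M, g ∉ center G ∧ 2 * p ≤ orbSize g)
    (hM2 : 2 * (p - 1) * Nat.card (center G) ≤ M.ncard) : oN G * p ≤ Nat.card G := by
  classical
  letI : Fintype G := Fintype.ofFinite G
  have hp0 : (0 : ℝ) < p := by exact_mod_cast hp.out.pos
  have hp1 : (1 : ℝ) ≤ p := by exact_mod_cast hp.out.one_lt.le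
  have hbound : ∀ g : G, ((orbSize g : ℕ) : ℝ)⁻¹ ≤ (p : ℝ)⁻¹ +
      ((if g ∈ center G then 1 - (p : ℝ)⁻¹ else 0) - (if g ∈ M then (2 * (p : ℝ))⁻¹ else 0)) := by
    intro g
    have hpos : (0 : ℝ) < (orbSize g : ℕ) := by exact_mod_cast orbSize_pos g
    by_cases hgZ : g ∈ center G
    · have hgM : g ∉ M := fun h => (hM1 g h).1 hgZ
      rw [if_pos hgZ, if_neg hgM, sub_zero, add_sub_cancel]
      have : (1 : ℝ) ≤ (orbSize g : ℕ) := by exact_mod_cast orbSize_pos g
      exact inv_le_one_of_one_le₀ this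
    · rw [if_neg hgZ]
      by_cases hgM : g ∈ M
      · rw [if_pos hgM]
        have h2 : (2 * (p : ℝ)) ≤ (orbSize g : ℕ) := by exact_mod_cast (hM1 g hgM).2
        have h3 : ((orbSize g : ℕ) : ℝ)⁻¹ ≤ (2 * (p : ℝ))⁻¹ := inv_anti₀ (by positivity) h2
        have h4 : (p : ℝ)⁻¹ + (0 - (2 * (p : ℝ))⁻¹) = (2 * (p : ℝ))⁻¹ := by
          field_simp
          ring
        rw [h4]
        exact h3
      · rw [if_neg hgM]
        have h2 : (p : ℝ) ≤ (orbSize g : ℕ) := by exact_mod_cast hZ g hgZ
        have h3 : ((orbSize g : ℕ) : ℝ)⁻¹ ≤ (p : ℝ)⁻¹ := inv_anti₀ hp0 h2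
        simpa using h3
  have hsum : (oN G : ℝ) ≤ (Nat.card G : ℝ) * (p : ℝ)⁻¹ +
      ((Nat.card (center G) : ℝ) * (1 - (p : ℝ)⁻¹) - (M.ncard : ℝ) * (2 * (p : ℝ))⁻¹) := by
    rw [oN_eq_sum]
    calc ∑ g : G, ((orbSize g : ℕ) : ℝ)⁻¹ ≤ ∑ g : G, ((p : ℝ)⁻¹ +
        ((if g ∈ center G then 1 - (p : ℝ)⁻¹ else 0) - (if g ∈ M then (2 * (p : ℝ))⁻¹ else 0))) :=
          Finset.sum_le_sum (fun g _ => hbound g)
      _ = _ := by
          have hA : ∑ g : G, (if g ∈ center G then 1 - (p : ℝ)⁻¹ else 0) =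
              ((Finset.univ.filter (fun g : G => g ∈ center G)).card : ℝ) * (1 - (p : ℝ)⁻¹) := by
            rw [Finset.sum_ite, Finset.sum_const, Finset.sum_const_zero, add_zero, nsmul_eq_mul]
          have hB : ∑ g : G, (if g ∈ M then (2 * (p : ℝ))⁻¹ else 0) =
              ((Finset.univ.filter (fun g : G => g ∈ M)).card : ℝ) * (2 * (p : ℝ))⁻¹ := by
            rw [Finset.sum_ite, Finset.sum_const, Finset.sum_const_zero, add_zero, nsmul_eq_mul]
          rw [Finset.sum_add_distrib, Finset.sum_sub_distrib, Finset.sum_const, Finset.card_univ,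
            nsmul_eq_mul, hA, hB]
          have h1 : (Fintype.card G : ℝ) = Nat.card G := by rw [Nat.card_eq_fintype_card]
          have h2 : ((Finset.univ.filter (fun g : G => g ∈ center G)).card : ℝ) =
              Nat.card (center G) := by
            rw [Nat.card_eq_fintype_card, Fintype.card_subtype]
          have h3 : ((Finset.univ.filter (fun g : G => g ∈ M)).card : ℝ) = M.ncard := by
            rw [← Set.ncard_coe_finset]
            congr 2
            ext y
            simp
          rw [h1, h2, h3]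
  have hM2R : 2 * ((p : ℝ) - 1) * (Nat.card (center G) : ℝ) ≤ (M.ncard : ℝ) := by
    have : 2 * ((p - 1 : ℕ) : ℝ) * (Nat.card (center G) : ℝ) ≤ (M.ncard : ℝ) := by
      exact_mod_cast hM2
    rwa [Nat.cast_sub hp.out.one_lt.le, Nat.cast_one] at this
  have hfinal : (Nat.card (center G) : ℝ) * (1 - (p : ℝ)⁻¹) - (M.ncard : ℝ) * (2 * (p : ℝ))⁻¹ ≤ 0 := by
    have h1 : (Nat.card (center G) : ℝ) * (1 - (p : ℝ)⁻¹) =
        (2 * ((p : ℝ) - 1) * (Nat.card (center G) : ℝ)) * (2 * (p : ℝ))⁻¹ := by
      field_simp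
    rw [h1]
    have h2 : (0 : ℝ) ≤ (2 * (p : ℝ))⁻¹ := by positivity
    nlinarith
  have h3 : (oN G : ℝ) ≤ (Nat.card G : ℝ) * (p : ℝ)⁻¹ := by linarith
  have h4 : (oN G : ℝ) * p ≤ Nat.card G := by
    calc (oN G : ℝ) * p ≤ (Nat.card G : ℝ) * (p : ℝ)⁻¹ * p := mul_le_mul_of_nonneg_right h3 hp0.le
      _ = Nat.card G := by field_simp
  exact_mod_cast h4

/-- Class size. -/
noncomputable abbrev cx (x : G) : ℕ := (centralizer ({x} : Set G)).index

theorem cx_eq_one_iff (x : G) : cx x = 1 ↔ x ∈ center G := by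
  rw [cx, Subgroup.index_eq_one]
  constructor
  · intro h
    rw [Subgroup.mem_center_iff]
    intro y
    have hy : y ∈ centralizer ({x} : Set G) := by rw [h]; trivial
    rw [mem_centralizer_singleton_iff] at hy
    exact hy
  · intro h
    ext y
    simp only [Subgroup.mem_top, iff_true]
    rw [mem_centralizer_singleton_iff]
    exact (Subgroup.mem_center_iff.mp h) y

theorem cx_ge (hG : IsPGroup p G) {x : G} (hx : x ∉ center G) : p ≤ cx x := by
  obtain ⟨n, hn⟩ := hG.index (centralizer ({x} : Set G))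
  have h1 : cx x ≠ 1 := fun h => hx ((cx_eq_one_iff x).mp h)
  rw [cx, hn] at *
  have hn0 : n ≠ 0 := by
    rintro rfl
    exact h1 (pow_zero p)
  calc p = p ^ 1 := (pow_one p).symm
    _ ≤ p ^ n := Nat.pow_le_pow_right hp.out.pos (Nat.one_le_iff_ne_zero.mpr hn0)

theorem cx_ge_sq (hG : IsPGroup p G) {x : G} (hx : p < cx x) : p ^ 2 ≤ cx x := by
  obtain ⟨n, hn⟩ := hG.index (centralizer ({x} : Set G))
  have hx' : p < p ^ n := hn ▸ hx
  have hn2 : 2 ≤ n := by
    by_contra hcon
    have : n ≤ 1 := by omega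
    have h2 : p ^ n ≤ p ^ 1 := Nat.pow_le_pow_right hp.out.pos this
    rw [pow_one] at h2
    omega
  show p ^ 2 ≤ (centralizer ({x} : Set G)).index
  rw [hn]
  exact Nat.pow_le_pow_right hp.out.pos hn2

theorem card_lt_mul (hG : IsPGroup p G) {A B : Subgroup G} (hAB : A ≤ B) (hne : A ≠ B) :
    p * Nat.card A ≤ Nat.card B := by
  have h1 := Subgroup.card_mul_index (A.subgroupOf B)
  rw [card_inf_of_subgroupOf, inf_eq_right.mpr hAB] at h1
  have hB : IsPGroup p B := hG.to_subgroup B
  obtain ⟨k, hk⟩ := IsPGroup.iff_card.mp hB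
  have hd : (A.subgroupOf B).index ∣ p ^ k := hk ▸ (Dvd.intro_left _ h1)
  obtain ⟨j, -, hj⟩ := (Nat.dvd_prime_pow hp.out).mp hd
  have hj0 : j ≠ 0 := by
    rintro rfl
    rw [pow_zero, Subgroup.index_eq_one] at hj
    apply hne
    apply le_antisymm hAB
    intro b hb
    have : (⟨b, hb⟩ : B) ∈ A.subgroupOf B := by rw [hj]; trivial
    exact this
  have h3 : p ≤ (A.subgroupOf B).index := by
    rw [hj]
    calc p = p ^ 1 := (pow_one p).symm
      _ ≤ p ^ j := Nat.pow_le_pow_right hp.out.pos (Nat.one_le_iff_ne_zero.mpr hj0)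
  calc p * Nat.card A = Nat.card A * p := mul_comm _ _
    _ ≤ Nat.card A * (A.subgroupOf B).index := Nat.mul_le_mul_left _ h3
    _ = Nat.card B := h1

theorem small_lemma (hG : IsPGroup p G) {x u : G} (hx : p < cx x)
    (hu : ¬ u ∈ centralizer ({x} : Set G)) (h1 : cx u ≤ p) (h2 : cx (u * x) ≤ p) : False := by
  set D := centralizer ({u} : Set G) ⊓ centralizer ({u * x} : Set G) with hD
  have hDC : D ≤ centralizer ({x} : Set G) := by
    intro d hd
    obtain ⟨hd1, hd2⟩ := Subgroup.mem_inf.mp hd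
    rw [mem_centralizer_singleton_iff] at hd1 hd2 ⊢
    -- `d * u = u * d`, `d * (u * x) = u * x * d`
    have h3 : u * (d * x) = u * (x * d) := by
      calc u * (d * x) = (u * d) * x := by group
        _ = (d * u) * x := by rw [hd1]
        _ = d * (u * x) := by group
        _ = u * x * d := hd2
        _ = u * (x * d) := by group
    exact mul_left_cancel h3
  have hidx : D.index ≤ p ^ 2 := by
    calc D.index ≤ cx u * cx (u * x) := Subgroup.index_inf_le
      _ ≤ p * p := Nat.mul_le_mul h1 h2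
      _ = p ^ 2 := (sq p).symm
  have hge := cx_ge_sq hG hx
  have hmul : D.relIndex (centralizer ({x} : Set G)) * cx x = D.index :=
    Subgroup.relIndex_mul_index hDC
  have hrel : D.relIndex (centralizer ({x} : Set G)) = 1 := by
    have hpos : 0 < cx x := Nat.pos_of_ne_zero Subgroup.index_ne_zero_of_finite
    have hrpos : 0 < D.relIndex (centralizer ({x} : Set G)) := by
      rw [Nat.pos_iff_ne_zero]
      intro h0
      rw [h0, zero_mul] at hmul
      exact (Subgroup.index_ne_zero_of_finite) hmul.symm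
    by_contra hne
    have h2' : 2 ≤ D.relIndex (centralizer ({x} : Set G)) := by omega
    have h3 : 2 * p ^ 2 ≤ D.relIndex (centralizer ({x} : Set G)) * cx x := Nat.mul_le_mul h2' hge
    have hp2 : 0 < p ^ 2 := by have := hp.out.pos; positivity
    omega
  rw [Subgroup.relIndex_eq_one] at hrel
  have hxx : x ∈ centralizer ({x} : Set G) := by
    rw [mem_centralizer_singleton_iff]
  have hxD := hrel hxx
  have hxu := (Subgroup.mem_inf.mp hxD).1
  rw [mem_centralizer_singleton_iff] at hxu
  apply hu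
  rw [mem_centralizer_singleton_iff]
  exact hxu.symm

/-- Case of a large class. -/
theorem pgroup_large (hG : IsPGroup p G) {x : G} (hx : p < cx x) : oN G * p ≤ Nat.card G := by
  classical
  set C := centralizer ({x} : Set G) with hC
  let M : Set G := {g | p < cx g}
  have hxZ : x ∉ center G := by
    intro h
    have := (cx_eq_one_iff x).mpr h
    have h1 := hp.out.one_lt
    omega
  have hp2 := hp.out.two_le
  refine criterion M (fun g hg => (cx_ge hG hg).trans (index_le_orbSize g)) ?_ ?_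
  · intro g hg
    refine ⟨fun h => ?_, ?_⟩
    · have h1 := (cx_eq_one_iff g).mpr h
      have h2 : p < cx g := hg
      have h3 := hp.out.one_lt
      omega
    · have h1 := cx_ge_sq hG (show p < cx g from hg)
      have h2 := index_le_orbSize g
      have h3 : 2 * p ≤ p ^ 2 := by
        rw [sq]
        exact Nat.mul_le_mul_right _ hp2
      exact h3.trans (h1.trans h2)
  · -- count
    have hsub : ((C : Set G))ᶜ ⊆ M ∪ (fun u => u * x⁻¹) '' M := by
      intro u hu
      by_cases hum : u ∈ M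
      · exact Or.inl hum
      · right
        refine ⟨u * x, ?_, by group⟩
        by_contra hux
        have h1 : cx u ≤ p := not_lt.mp hum
        have h2 : cx (u * x) ≤ p := not_lt.mp hux
        exact small_lemma hG hx hu h1 h2
    have hcard1 : ((C : Set G))ᶜ.ncard ≤ 2 * M.ncard := by
      calc ((C : Set G))ᶜ.ncard ≤ (M ∪ (fun u => u * x⁻¹) '' M).ncard :=
            Set.ncard_le_ncard hsub (Set.toFinite _)
        _ ≤ M.ncard + ((fun u => u * x⁻¹) '' M).ncard := Set.ncard_union_le _ _
        _ ≤ M.ncard + M.ncard := by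
            have := Set.ncard_image_le (f := fun u => u * x⁻¹) (Set.toFinite M)
            omega
        _ = 2 * M.ncard := by ring
    have hcompl : Nat.card C + ((C : Set G))ᶜ.ncard = Nat.card G := by
      have := Set.ncard_add_ncard_compl (C : Set G) (Set.toFinite _) (Set.toFinite _)
      rw [← Nat.card_coe_set_eq (C : Set G)] at this
      exact this
    have hCmul : Nat.card C * cx x = Nat.card G := Subgroup.card_mul_index C
    have hge := cx_ge_sq hG hx
    have hZC : center G ≤ C := by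
      intro y hy
      rw [hC, mem_centralizer_singleton_iff]
      exact ((Subgroup.mem_center_iff.mp hy) x).symm
    have hZne : center G ≠ C := by
      intro h
      have hxx : x ∈ C := by
        rw [hC, mem_centralizer_singleton_iff]
      rw [← h] at hxx
      exact hxZ hxx
    have hCZ := card_lt_mul hG hZC hZne
    set z := Nat.card (center G) with hz
    set c := Nat.card C with hc
    set e := ((C : Set G))ᶜ.ncard with he
    set m := M.ncard with hm
    -- arithmetic
    obtain ⟨w, hw⟩ : ∃ w, p = w + 2 := ⟨p - 2, by omega⟩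
    have hsubst : p - 1 = w + 1 := by omega
    rw [hsubst]
    have h1 : c + e = c * cx x := by rw [hcompl, hCmul]
    have h2 : c * p ^ 2 ≤ c * cx x := Nat.mul_le_mul_left _ hge
    have h3 : c * p ^ 2 ≤ c + e := h1 ▸ h2
    have h4 : c * (p ^ 2 - 1) ≤ e := by
      have : c * p ^ 2 = c * (p ^ 2 - 1) + c := by
        have hp3 : 1 ≤ p ^ 2 := Nat.one_le_pow _ _ hp.out.pos
        calc c * p ^ 2 = c * ((p ^ 2 - 1) + 1) := by rw [Nat.sub_add_cancel hp3]
          _ = _ := by ring
      omega
    have h5 : (p * z) * (p ^ 2 - 1) ≤ c * (p ^ 2 - 1) := Nat.mul_le_mul_right _ hCZ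
    have h6 : (p * z) * (p ^ 2 - 1) ≤ 2 * m := h5.trans (h4.trans hcard1)
    have h7 : p ^ 2 - 1 = (w + 1) * (w + 3) := by
      subst hw
      have : (w + 2) ^ 2 = (w + 1) * (w + 3) + 1 := by ring
      omega
    rw [h7] at h6
    subst hw
    -- `(w+2) z (w+1)(w+3) ≤ 2 m`
    have h8 : 2 * (2 * (w + 1) * z) ≤ ((w + 2) * z) * ((w + 1) * (w + 3)) := by
      have h9 : 4 ≤ (w + 2) * (w + 3) := by nlinarith
      calc 2 * (2 * (w + 1) * z) = 4 * ((w + 1) * z) := by ring
        _ ≤ ((w + 2) * (w + 3)) * ((w + 1) * z) := Nat.mul_le_mul_right _ h9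
        _ = _ := by ring
    omega

end Cfsg.Agent.H19.AutOrb
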