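import Mathlib
import Cfsg.Agent.Lib.H19.AutOrb2

/-!
Groups with all classes of size at most `p`: class two, commutators in one subgroup of order `p`.
-/

set_option linter.unusedSectionVars false
set_option linter.style.haveILetI false
set_option linter.unusedVariables false

namespace Cfsg.Agent.H19.AutOrb

open Subgroup

variable {G : Type*} [Group G] [Finite G] {p : ℕ} [hp : Fact p.Prime]

/-- Commutator. -/
def cm (x y : G) : G := x * y * x⁻¹ * y⁻¹

theorem cm_eq_one {x y : G} : cm x y = 1 ↔ x * y = y * x := by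
  unfold cm
  rw [mul_inv_eq_one, mul_inv_eq_iff_eq_mul]

theorem mem_C_iff {x y : G} : y ∈ centralizer ({x} : Set G) ↔ x * y = y * x := by
  rw [mem_centralizer_singleton_iff]
  exact eq_comm

theorem cm_swap (x y : G) : cm y x = (cm x y)⁻¹ := by
  unfold cm
  group

theorem centralizer_normal (hG : IsPGroup p G) (hs : ∀ x : G, cx x ≤ p) (x : G) :
    (centralizer ({x} : Set G)).Normal := by
  by_cases hx : x ∈ center G
  · exact Subgroup.normal_of_index_eq_one ((cx_eq_one_iff x).mpr hx)
  · have h1 : cx x = p := le_antisymm (hs x) (cx_ge hG hx)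
    obtain ⟨k, hk⟩ := IsPGroup.iff_card.mp hG
    have hk0 : k ≠ 0 := by
      rintro rfl
      rw [pow_zero] at hk
      have : (centralizer ({x} : Set G)).index ∣ 1 := hk ▸ Subgroup.index_dvd_card _
      have h2 : cx x = 1 := Nat.dvd_one.mp this
      rw [h1] at h2
      exact hp.out.one_lt.ne' h2
    apply Subgroup.normal_of_index_eq_minFac_card
    rw [hk, Nat.Prime.pow_minFac hp.out hk0]
    exact h1

theorem cm_central (hG : IsPGroup p G) (hs : ∀ x : G, cx x ≤ p) (x y : G) : cm x y ∈ center G := by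
  by_cases hxy : x * y = y * x
  · rw [cm_eq_one.mpr hxy]
    exact Subgroup.one_mem _
  set z' := cm x y with hz'
  haveI hCx := centralizer_normal hG hs x
  haveI hCy := centralizer_normal hG hs y
  have hxC : x ∈ centralizer ({x} : Set G) := by rw [mem_C_iff]
  have hyC : y ∈ centralizer ({y} : Set G) := by rw [mem_C_iff]
  have hzx : x * z' = z' * x := by
    have hv : y * x⁻¹ * y⁻¹ ∈ centralizer ({x} : Set G) :=
      hCx.conj_mem _ (Subgroup.inv_mem _ hxC) y
    rw [mem_C_iff] at hv
    have hz2 : z' = x * (y * x⁻¹ * y⁻¹) := by rw [hz']; unfold cm; group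
    rw [hz2, mul_assoc x _ x, ← hv]
  have hzy : y * z' = z' * y := by
    have hu : x * y * x⁻¹ ∈ centralizer ({y} : Set G) := hCy.conj_mem _ hyC x
    rw [mem_C_iff] at hu
    have hz2 : z' = (x * y * x⁻¹) * y⁻¹ := rfl
    rw [hz2]
    calc y * (x * y * x⁻¹ * y⁻¹) = (y * (x * y * x⁻¹)) * y⁻¹ := by group
      _ = ((x * y * x⁻¹) * y) * y⁻¹ := by rw [hu]
      _ = (x * y * x⁻¹) * y⁻¹ * y := by
        have : x * y * x⁻¹ * y * y⁻¹ = x * y * x⁻¹ := by group
        rw [this]
        group
  set W := centralizer ({z'} : Set G) with hW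
  set D := centralizer ({x} : Set G) ⊓ centralizer ({y} : Set G) with hD
  have hDW : D ≤ W := by
    intro d hd
    obtain ⟨hd1, hd2⟩ := Subgroup.mem_inf.mp hd
    rw [mem_C_iff] at hd1 hd2
    rw [hW, mem_C_iff]
    have h1 : Commute d x := hd1.symm
    have h2 : Commute d y := hd2.symm
    have h3 : Commute d z' := by
      rw [hz']
      unfold cm
      exact ((h1.mul_right h2).mul_right h1.inv_right).mul_right h2.inv_right
    exact h3.eq.symm
  set D' := W ⊓ centralizer ({x} : Set G) with hD'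
  have hDD' : D ≤ D' := le_inf hDW inf_le_left
  have hD'W : D' ≤ W := inf_le_left
  have hxW : x ∈ W := by rw [hW, mem_C_iff]; exact hzx.symm
  have hyW : y ∈ W := by rw [hW, mem_C_iff]; exact hzy.symm
  have hne1 : D ≠ D' := by
    intro h
    have : x ∈ D' := Subgroup.mem_inf.mpr ⟨hxW, hxC⟩
    rw [← h] at this
    have h2 := (Subgroup.mem_inf.mp this).2
    rw [mem_C_iff] at h2
    exact hxy h2.symm
  have hne2 : D' ≠ W := by
    intro h
    have : y ∈ D' := by rw [h]; exact hyW
    have h2 := (Subgroup.mem_inf.mp this).2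
    rw [mem_C_iff] at h2
    exact hxy h2
  have h1 := card_lt_mul hG hDD' hne1
  have h2 := card_lt_mul hG hD'W hne2
  have h3 : D.index ≤ p * p := Subgroup.index_inf_le.trans (Nat.mul_le_mul (hs x) (hs y))
  have h4 : Nat.card D * D.index = Nat.card G := Subgroup.card_mul_index D
  have h5 : Nat.card G ≤ Nat.card W := by
    calc Nat.card G = Nat.card D * D.index := h4.symm
      _ ≤ Nat.card D * (p * p) := Nat.mul_le_mul_left _ h3
      _ = p * (p * Nat.card D) := by ring
      _ ≤ p * Nat.card D' := Nat.mul_le_mul_left _ h1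
      _ ≤ Nat.card W := h2
  have hWtop : W = ⊤ := by
    apply Subgroup.eq_top_of_le_card
    exact h5
  rw [Subgroup.mem_center_iff]
  intro t
  have : t ∈ W := by rw [hWtop]; trivial
  rw [hW, mem_C_iff] at this
  exact this.symm

section bilinear

variable (hc : ∀ x y : G, cm x y ∈ center G)
include hc

theorem cm_comm (x y t : G) : t * cm x y = cm x y * t :=
  (Subgroup.mem_center_iff.mp (hc x y)) t

theorem cm_mul_right (x y y' : G) : cm x (y * y') = cm x y * cm x y' := by
  have h1 := cm_comm hc x y' y⁻¹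
  calc cm x (y * y') = (x * y * x⁻¹) * (cm x y' * y⁻¹) := by unfold cm; group
    _ = (x * y * x⁻¹) * (y⁻¹ * cm x y') := by rw [h1]
    _ = cm x y * cm x y' := by unfold cm; group

theorem cm_mul_left (x x' y : G) : cm (x * x') y = cm x y * cm x' y := by
  have h1 := cm_comm hc x' y x
  have h2 : cm (x * x') y = x * (x' * y * x'⁻¹ * y⁻¹) * y * x⁻¹ * y⁻¹ := by
    unfold cm
    group
  have h3 : x * cm x' y * y * x⁻¹ * y⁻¹ = cm x' y * (x * y * x⁻¹ * y⁻¹) := by
    rw [h1]
    group
  unfold cm at *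
  rw [h2, h3]
  exact ((hc x y) |> Subgroup.mem_center_iff.mp) _

theorem cm_pow_right (x y : G) (n : ℕ) : cm x (y ^ n) = (cm x y) ^ n := by
  induction n with
  | zero =>
    rw [pow_zero, pow_zero, cm_eq_one]
    simp
  | succ n ih => rw [pow_succ, cm_mul_right hc, ih, pow_succ]

theorem cm_pow_left (x y : G) (n : ℕ) : cm (x ^ n) y = (cm x y) ^ n := by
  induction n with
  | zero =>
    rw [pow_zero, pow_zero, cm_eq_one]
    simp
  | succ n ih => rw [pow_succ, cm_mul_left hc, ih, pow_succ]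

end bilinear

theorem cm_pow_prime (hG : IsPGroup p G) (hs : ∀ x : G, cx x ≤ p) (x y : G) : (cm x y) ^ p = 1 := by
  have hc := cm_central hG hs
  by_cases hx : x ∈ center G
  · have : cm x y = 1 := by
      rw [cm_eq_one]
      exact ((Subgroup.mem_center_iff.mp hx) y).symm
    rw [this, one_pow]
  · have h1 : cx x = p := le_antisymm (hs x) (cx_ge hG hx)
    haveI := centralizer_normal hG hs x
    have h2 : y ^ p ∈ centralizer ({x} : Set G) := by
      have := Subgroup.pow_index_mem (centralizer ({x} : Set G)) y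
      rwa [show (centralizer ({x} : Set G)).index = p from h1] at this
    rw [mem_C_iff] at h2
    rw [← cm_pow_right hc, cm_eq_one]
    exact h2

theorem line_lemma {y w : G} (hy : y ∈ zpowers w) (hy1 : y ≠ 1) (hw : w ^ p = 1) : w ∈ zpowers y := by
  have hw1 : w ≠ 1 := by
    rintro rfl
    simp at hy
    exact hy1 hy
  obtain ⟨i, rfl⟩ := mem_zpowers_iff.mp hy
  have hord : orderOf w = p := orderOf_eq_prime hw hw1
  have hyp : (w ^ i) ^ p = 1 := by
    rw [← zpow_natCast, ← zpow_mul, mul_comm, zpow_mul, zpow_natCast, hw, one_zpow]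
  have hordy : orderOf (w ^ i) = p := orderOf_eq_prime hyp hy1
  have hle : zpowers (w ^ i) ≤ zpowers w := (Subgroup.zpowers_le).mpr (Subgroup.zpow_mem _ (mem_zpowers w) i)
  have hcard : Nat.card (zpowers w) ≤ Nat.card (zpowers (w ^ i)) := by
    rw [Nat.card_zpowers, Nat.card_zpowers, hord, hordy]
  have heq := Subgroup.eq_of_le_of_card_ge hle hcard
  rw [heq]
  exact mem_zpowers w

section small

variable (hG : IsPGroup p G) (hs : ∀ x : G, cx x ≤ p)
include hG hs

theorem P1 {x t : G} (ht : cm x t ≠ 1) (s : G) : cm x s ∈ zpowers (cm x t) := by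
  have hc := cm_central hG hs
  haveI hn := centralizer_normal hG hs x
  set H := centralizer ({x} : Set G) with hH
  have hx : x ∉ center G := by
    intro h
    apply ht
    rw [cm_eq_one]
    exact ((Subgroup.mem_center_iff.mp h) t).symm
  have h1 : H.index = p := le_antisymm (hs x) (cx_ge hG hx)
  have hQ : Nat.card (G ⧸ H) = p := h1
  haveI : Fact (Nat.card (G ⧸ H)).Prime := ⟨hQ ▸ hp.out⟩
  have htH : ¬ t ∈ H := by
    rw [hH, mem_C_iff]
    exact fun h => ht (cm_eq_one.mpr h)
  have htQ : ((t : G) : G ⧸ H) ≠ 1 := by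
    rw [Ne, QuotientGroup.eq_one_iff]
    exact htH
  have hzp : zpowers ((t : G) : G ⧸ H) = ⊤ := by
    have hcard : Nat.card (zpowers ((t : G) : G ⧸ H)) = p := by
      rw [Nat.card_zpowers]
      have hdvd : orderOf ((t : G) : G ⧸ H) ∣ p := hQ ▸ orderOf_dvd_natCard _
      rcases (Nat.dvd_prime hp.out).mp hdvd with h0 | h0
      · exact absurd (orderOf_eq_one_iff.mp h0) htQ
      · exact h0
    apply Subgroup.eq_top_of_card_eq
    rw [hcard, hQ]
  have hmem : ((s : G) : G ⧸ H) ∈ zpowers ((t : G) : G ⧸ H) := by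
    rw [hzp]
    trivial
  rw [← mem_powers_iff_mem_zpowers] at hmem
  obtain ⟨n, hn'⟩ := hmem
  have h2 : ((t ^ n : G) : G ⧸ H) = ((s : G) : G ⧸ H) := by
    rw [QuotientGroup.mk_pow]
    exact hn'
  rw [QuotientGroup.eq] at h2
  have h3 : cm x ((t ^ n)⁻¹ * s) = 1 := by
    rw [cm_eq_one]
    exact mem_C_iff.mp h2
  have h4 : cm x s = cm x (t ^ n) := by
    have h5 : s = t ^ n * ((t ^ n)⁻¹ * s) := by group
    conv_lhs => rw [h5]
    rw [cm_mul_right hc, h3, mul_one]
  rw [h4, cm_pow_right hc]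
  exact Subgroup.pow_mem _ (mem_zpowers _) _

theorem cm_mem_zpowers {a b : G} (hab : cm a b ≠ 1) (x t : G) : cm x t ∈ zpowers (cm a b) := by
  have hc := cm_central hG hs
  by_cases ht : cm x t = 1
  · rw [ht]
    exact Subgroup.one_mem _
  obtain ⟨u, hu1, hu2⟩ : ∃ u, cm x u ≠ 1 ∧ cm a u ≠ 1 := by
    by_cases h1 : cm a t = 1
    · by_cases h2 : cm x b = 1
      · refine ⟨t * b, ?_, ?_⟩
        · rw [cm_mul_right hc, h2, mul_one]
          exact ht
        · rw [cm_mul_right hc, h1, one_mul]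
          exact hab
      · exact ⟨b, h2, hab⟩
    · exact ⟨t, ht, h1⟩
  have h1 : cm x t ∈ zpowers (cm x u) := P1 hG hs hu1 t
  have hux : cm u x ≠ 1 := by
    rw [cm_swap]
    simpa using hu1
  have hua : cm u a ≠ 1 := by
    rw [cm_swap]
    simpa using hu2
  have h2 : cm u a ∈ zpowers (cm u x) := P1 hG hs hux a
  have h3 : cm u x ∈ zpowers (cm u a) := line_lemma h2 hua (cm_pow_prime hG hs u x)
  have h4 : cm a u ∈ zpowers (cm a b) := P1 hG hs hab u
  have h5 : cm u a ∈ zpowers (cm a b) := by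
    rw [cm_swap a u]
    exact Subgroup.inv_mem _ h4
  have h6 : cm u x ∈ zpowers (cm a b) := (Subgroup.zpowers_le.mpr h5) h3
  have h7 : cm x u ∈ zpowers (cm a b) := by
    rw [cm_swap u x]
    exact Subgroup.inv_mem _ h6
  exact (Subgroup.zpowers_le.mpr h7) h1

/-- Conjugates of `g`. -/
theorem exists_conj_mul {a b : G} (hab : cm a b ≠ 1) {g : G} (hg : g ∉ center G) {w : G}
    (hw : w ∈ zpowers (cm a b)) : ∃ s, s * g * s⁻¹ = g * w := by
  have hc := cm_central hG hs
  obtain ⟨t, ht⟩ : ∃ t, cm g t ≠ 1 := by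
    by_contra hcon
    push_neg at hcon
    apply hg
    rw [Subgroup.mem_center_iff]
    intro t
    exact (cm_eq_one.mp (hcon t)).symm
  have h1 : cm a b ∈ zpowers (cm g t) :=
    line_lemma (cm_mem_zpowers hG hs hab g t) ht (cm_pow_prime hG hs a b)
  have h2 : w⁻¹ ∈ zpowers (cm g t) := (Subgroup.zpowers_le.mpr h1) (Subgroup.inv_mem _ hw)
  rw [← mem_powers_iff_mem_zpowers] at h2
  obtain ⟨n, hn⟩ := h2
  refine ⟨t ^ n, ?_⟩
  have h3 : cm g (t ^ n) = w⁻¹ := by
    rw [cm_pow_right hc]
    exact hn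
  have hwc : w ∈ center G := (Subgroup.zpowers_le.mpr (hc a b)) hw
  have h4 : w * g = g * w := (Subgroup.mem_center_iff.mp hwc) g |>.symm
  rw [← h4]
  have h5 : (t ^ n) * g * (t ^ n)⁻¹ * g⁻¹ = w := by
    have := congrArg (fun y => y⁻¹) h3
    simp only [inv_inv] at this
    rw [← this]
    unfold cm
    group
  rw [← h5]
  group

theorem orb_ge {a b : G} (hab : cm a b ≠ 1) (τ : MulAut G) {g : G} (hg : g ∉ center G)
    (hτ : ∀ w ∈ zpowers (cm a b), τ g ≠ g * w) : 2 * p ≤ orbSize g := by
  classical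
  have hc := cm_central hG hs
  set Z₀ := zpowers (cm a b) with hZ₀
  have hord : orderOf (cm a b) = p := orderOf_eq_prime (cm_pow_prime hG hs a b) hab
  have hcardZ : Nat.card Z₀ = p := by rw [hZ₀, Nat.card_zpowers, hord]
  have hτg : τ g ∉ center G := by
    intro h
    apply hg
    rw [Subgroup.mem_center_iff] at h ⊢
    intro t
    apply τ.injective
    rw [map_mul, map_mul]
    exact h (τ t)
  have hS1 : ∀ w ∈ Z₀, g * w ∈ MulAction.orbit (MulAut G) g := by
    intro w hw
    obtain ⟨s, hs'⟩ := exists_conj_mul hG hs hab hg hw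
    refine ⟨MulAut.conj s, ?_⟩
    show MulAut.conj s g = g * w
    rw [MulAut.conj_apply, hs']
  have hS2 : ∀ w ∈ Z₀, τ g * w ∈ MulAction.orbit (MulAut G) g := by
    intro w hw
    obtain ⟨s, hs'⟩ := exists_conj_mul hG hs hab hτg hw
    refine ⟨MulAut.conj s * τ, ?_⟩
    show MulAut.conj s (τ g) = τ g * w
    rw [MulAut.conj_apply, hs']
  let f : Bool × Z₀ → G := fun x => (if x.1 then g else τ g) * (x.2 : G)
  have hf : Function.Injective f := by
    rintro ⟨b1, w1⟩ ⟨b2, w2⟩ h
    simp only [f] at h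
    cases b1 <;> cases b2 <;> simp only [if_true, if_false, Bool.false_eq_true, reduceIte] at h
    · have : w1 = w2 := Subtype.ext (mul_left_cancel h)
      rw [this]
    · exfalso
      apply hτ ((w2 : G) * (w1 : G)⁻¹) (Subgroup.mul_mem _ w2.2 (Subgroup.inv_mem _ w1.2))
      rw [← mul_assoc, ← h]
      group
    · exfalso
      apply hτ ((w1 : G) * (w2 : G)⁻¹) (Subgroup.mul_mem _ w1.2 (Subgroup.inv_mem _ w2.2))
      rw [← mul_assoc, h]
      group
    · have : w1 = w2 := Subtype.ext (mul_left_cancel h)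
      rw [this]
  have hrange : ∀ x, f x ∈ MulAction.orbit (MulAut G) g := by
    rintro ⟨b1, w⟩
    cases b1
    · exact hS2 w w.2
    · exact hS1 w w.2
  let f' : Bool × Z₀ → MulAction.orbit (MulAut G) g := fun x => ⟨f x, hrange x⟩
  have hf' : Function.Injective f' := fun x y h => hf (congrArg Subtype.val h)
  have h := Nat.card_le_card_of_injective f' hf'
  rw [Nat.card_prod, hcardZ, Nat.card_coe_set_eq] at h
  simpa [orbSize] using h

end small

end Cfsg.Agent.H19.AutOrb
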