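import Mathlib
import Cfsg.Agent.Lib.H19.AutOrb3

/-!
Twisting automorphisms for groups with all classes of size at most `p`; the bound for `p`-groups.
-/

set_option linter.unusedSectionVars false
set_option linter.style.haveILetI false
set_option linter.unusedVariables false

namespace Cfsg.Agent.H19.AutOrb

open Subgroup

variable {G : Type*} [Group G] [Finite G] {p : ℕ} [hp : Fact p.Prime]

/-- `z ^ c` for `c : ZMod p`. -/
def Ez (p : ℕ) (z : G) (c : ZMod p) : G := z ^ c.val

theorem Ez_add {z : G} (hzp : z ^ p = 1) (a b : ZMod p) : Ez p z (a + b) = Ez p z a * Ez p z b := by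
  simp only [Ez, ZMod.val_add]
  rw [← pow_add]
  exact (pow_eq_pow_mod _ hzp).symm

theorem Ez_zero (z : G) : Ez p z 0 = 1 := by simp [Ez]

theorem Ez_inj {z : G} (hzp : z ^ p = 1) (hz1 : z ≠ 1) {a b : ZMod p} (h : Ez p z a = Ez p z b) :
    a = b := by
  have hord : orderOf z = p := orderOf_eq_prime hzp hz1
  unfold Ez at h
  rw [pow_inj_mod, hord, Nat.mod_eq_of_lt (ZMod.val_lt a), Nat.mod_eq_of_lt (ZMod.val_lt b)] at h
  exact ZMod.val_injective p h

theorem Ez_surj {z : G} (hzp : z ^ p = 1) {w : G} (hw : w ∈ zpowers z) : ∃ c : ZMod p, Ez p z c = w := by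
  rw [← mem_powers_iff_mem_zpowers] at hw
  obtain ⟨n, rfl⟩ := hw
  refine ⟨(n : ZMod p), ?_⟩
  simp only [Ez, ZMod.val_natCast]
  exact (pow_eq_pow_mod _ hzp).symm

theorem Ez_natMul {z : G} (hzp : z ^ p = 1) (n : ℕ) (c : ZMod p) :
    Ez p z ((n : ZMod p) * c) = (Ez p z c) ^ n := by
  induction n with
  | zero => simp [Ez_zero]
  | succ n ih =>
    push_cast
    rw [add_mul, one_mul, Ez_add hzp, ih, pow_succ]

theorem Ez_neg {z : G} (hzp : z ^ p = 1) (c : ZMod p) : Ez p z (-c) = (Ez p z c)⁻¹ := by
  have h : Ez p z (-c) * Ez p z c = 1 := by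
    rw [← Ez_add hzp, neg_add_cancel, Ez_zero]
  exact eq_inv_of_mul_eq_one_left h

theorem Ez_central {z : G} (hzc : z ∈ center G) (c : ZMod p) (t : G) :
    Ez p z c * t = t * Ez p z c := by
  have : Ez p z c ∈ center G := Subgroup.pow_mem _ hzc _
  exact ((Subgroup.mem_center_iff.mp this) t).symm

theorem twist_exists {z : G} (hzc : z ∈ center G) (hzp : z ^ p = 1) (W : ZMod p → G) (om : G → ZMod p)
    (β ε : ZMod p → ZMod p → ZMod p) (q : ZMod p → ZMod p)
    (homadd : ∀ g h, om (g * h) = om g + om h)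
    (hW1 : ∀ a h, W a * h = h * W a * Ez p z (β a (om h)))
    (hW2 : ∀ a b, W a * W b = W (a + b) * Ez p z (ε a b))
    (hq : ∀ a b, q (a + b) = q a + q b + β a b + ε a b)
    (hW0 : W 0 = 1) (hq0 : q 0 = 0) (homW : ∀ a, om (W a) = 0) (homE : ∀ c, om (Ez p z c) = 0) :
    ∃ τ : MulAut G, ∀ g, τ g = g * W (om g) * Ez p z (q (om g)) := by
  have hom1 : om 1 = 0 := by
    have := homadd 1 1
    rw [mul_one] at this
    exact left_eq_add.mp this
  let f : G →* G := MonoidHom.mk' (fun g => g * W (om g) * Ez p z (q (om g))) (by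
    intro g h
    simp only [homadd]
    set a := om g
    set b := om h
    have hc := fun c t => Ez_central (p := p) hzc c t
    symm
    calc g * W a * Ez p z (q a) * (h * W b * Ez p z (q b))
        = g * W a * (Ez p z (q a) * h) * W b * Ez p z (q b) := by group
      _ = g * W a * (h * Ez p z (q a)) * W b * Ez p z (q b) := by rw [hc]
      _ = g * (W a * h) * Ez p z (q a) * W b * Ez p z (q b) := by group
      _ = g * (h * W a * Ez p z (β a b)) * Ez p z (q a) * W b * Ez p z (q b) := by rw [hW1]
      _ = g * h * W a * (Ez p z (β a b) * (Ez p z (q a) * W b)) * Ez p z (q b) := by group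
      _ = g * h * W a * (Ez p z (β a b) * (W b * Ez p z (q a))) * Ez p z (q b) := by rw [hc (q a)]
      _ = g * h * W a * ((Ez p z (β a b) * W b) * Ez p z (q a)) * Ez p z (q b) := by group
      _ = g * h * W a * ((W b * Ez p z (β a b)) * Ez p z (q a)) * Ez p z (q b) := by rw [hc (β a b)]
      _ = g * h * (W a * W b) * Ez p z (β a b) * Ez p z (q a) * Ez p z (q b) := by group
      _ = g * h * (W (a + b) * Ez p z (ε a b)) * Ez p z (β a b) * Ez p z (q a) * Ez p z (q b) := by
          rw [hW2]
      _ = g * h * W (a + b) * (Ez p z (ε a b) * Ez p z (β a b) * Ez p z (q a) * Ez p z (q b)) := by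
          group
      _ = g * h * W (a + b) * Ez p z (q (a + b)) := by
          rw [← Ez_add hzp, ← Ez_add hzp, ← Ez_add hzp, hq]
          congr 2
          ring)
  have hf : ∀ g, f g = g * W (om g) * Ez p z (q (om g)) := fun g => rfl
  have hinj : Function.Injective f := by
    rw [injective_iff_map_eq_one]
    intro g hg
    rw [hf] at hg
    have h1 := congrArg om hg
    rw [homadd, homadd, homW, homE, hom1, add_zero, add_zero] at h1
    rw [h1, hW0, hq0, Ez_zero, mul_one, mul_one] at hg
    exact hg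
  have hbij : Function.Bijective f := ⟨hinj, Finite.injective_iff_surjective.mp hinj⟩
  exact ⟨MulEquiv.ofBijective f hbij, hf⟩

/-- Power formula in class two. -/
theorem pow_mul_cm (hc : ∀ x y : G, cm x y ∈ center G) (x y : G) (n : ℕ) :
    (x * y) ^ n = x ^ n * y ^ n * (cm y x) ^ (n.choose 2) := by
  induction n with
  | zero => simp
  | succ n ih =>
    have h1 : y ^ n * x = (cm y x) ^ n * x * y ^ n := by
      have h2 : cm (y ^ n) x * x * y ^ n = y ^ n * x := by
        unfold cm
        group
      rw [← cm_pow_left hc, h2]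
    have hκ : (cm y x) ^ n ∈ center G := Subgroup.pow_mem _ (hc y x) n
    have hκ' : (cm y x) ^ (n.choose 2) ∈ center G := Subgroup.pow_mem _ (hc y x) _
    have hch : (n + 1).choose 2 = n + n.choose 2 := by
      rw [Nat.choose_succ_succ' n 1, Nat.choose_one_right]
    rw [pow_succ, ih, hch, pow_add (cm y x)]
    have h3 : ∀ t, (cm y x) ^ (n.choose 2) * t = t * (cm y x) ^ (n.choose 2) :=
      fun t => ((Subgroup.mem_center_iff.mp hκ') t).symm
    have h4 : ∀ t, (cm y x) ^ n * t = t * (cm y x) ^ n :=
      fun t => ((Subgroup.mem_center_iff.mp hκ) t).symm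
    calc x ^ n * y ^ n * (cm y x) ^ (n.choose 2) * (x * y)
        = x ^ n * y ^ n * ((cm y x) ^ (n.choose 2) * (x * y)) := by group
      _ = x ^ n * y ^ n * ((x * y) * (cm y x) ^ (n.choose 2)) := by rw [h3]
      _ = x ^ n * (y ^ n * x) * y * (cm y x) ^ (n.choose 2) := by group
      _ = x ^ n * ((cm y x) ^ n * x * y ^ n) * y * (cm y x) ^ (n.choose 2) := by rw [h1]
      _ = x ^ n * ((cm y x) ^ n * (x * y ^ n)) * y * (cm y x) ^ (n.choose 2) := by group
      _ = x ^ n * ((x * y ^ n) * (cm y x) ^ n) * y * (cm y x) ^ (n.choose 2) := by rw [h4]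
      _ = x ^ n * x * y ^ n * ((cm y x) ^ n * y) * (cm y x) ^ (n.choose 2) := by group
      _ = x ^ n * x * y ^ n * (y * (cm y x) ^ n) * (cm y x) ^ (n.choose 2) := by rw [h4]
      _ = _ := by rw [pow_succ x, pow_succ y]; group

section small

variable (hG : IsPGroup p G) (hs : ∀ x : G, cx x ≤ p) {a b : G} (hab : cm a b ≠ 1)
include hG hs hab

theorem pow_prime_central (x : G) : x ^ p ∈ center G := by
  have hc := cm_central hG hs
  rw [Subgroup.mem_center_iff]
  intro t
  have h1 : cm (x ^ p) t = 1 := by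
    rw [cm_pow_left hc, cm_pow_prime hG hs]
  exact (cm_eq_one.mp h1).symm

theorem card_center_bound {e : G} (he : e ∉ center G) :
    Nat.card (centralizer ({e} : Set G)) * p = Nat.card G ∧
      p * Nat.card (center G) ≤ Nat.card (centralizer ({e} : Set G)) := by
  have h1 : cx e = p := le_antisymm (hs e) (cx_ge hG he)
  refine ⟨?_, ?_⟩
  · have := Subgroup.card_mul_index (centralizer ({e} : Set G))
    rwa [show (centralizer ({e} : Set G)).index = p from h1] at this
  · apply card_lt_mul hG
    · intro y hy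
      rw [mem_C_iff]
      exact (Subgroup.mem_center_iff.mp hy) e
    · intro h
      have : e ∈ centralizer ({e} : Set G) := by rw [mem_C_iff]
      rw [← h] at this
      exact he this

/-- Finishing lemma. -/
theorem finish {e : G} (he : e ∉ center G)
    (h : ∀ g, g ∉ centralizer ({e} : Set G) → ∃ τ : MulAut G, ∀ w ∈ zpowers (cm a b), τ g ≠ g * w) :
    oN G * p ≤ Nat.card G := by
  classical
  set C := centralizer ({e} : Set G) with hC
  refine criterion ((C : Set G)ᶜ) (fun g hg => (cx_ge hG hg).trans (index_le_orbSize g)) ?_ ?_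
  · intro g hg
    have hgC : g ∉ C := hg
    have hgZ : g ∉ center G := by
      intro hz
      apply hgC
      rw [hC, mem_C_iff]
      exact (Subgroup.mem_center_iff.mp hz) e
    obtain ⟨τ, hτ⟩ := h g hgC
    exact ⟨hgZ, orb_ge hG hs hab τ hgZ hτ⟩
  · obtain ⟨h1, h2⟩ := card_center_bound hG hs hab he
    have hcompl : Nat.card C + ((C : Set G))ᶜ.ncard = Nat.card G := by
      have := Set.ncard_add_ncard_compl (C : Set G) (Set.toFinite _) (Set.toFinite _)
      rw [← Nat.card_coe_set_eq (C : Set G)] at this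
      exact this
    obtain ⟨w, hw⟩ : ∃ w, p = w + 2 := ⟨p - 2, by have := hp.out.two_le; omega⟩
    have hsub : p - 1 = w + 1 := by omega
    rw [hsub]
    have h1' : Nat.card C * p = Nat.card G := h1
    have h3 : ((C : Set G))ᶜ.ncard = Nat.card C * (w + 1) := by
      have : Nat.card C * p = Nat.card C * (w + 1) + Nat.card C := by
        rw [hw]
        ring
      omega
    rw [h3]
    calc 2 * (w + 1) * Nat.card (center G) ≤ p * Nat.card (center G) * (w + 1) := by
          have : 2 ≤ p := hp.out.two_le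
          calc 2 * (w + 1) * Nat.card (center G) = 2 * Nat.card (center G) * (w + 1) := by ring
            _ ≤ p * Nat.card (center G) * (w + 1) :=
              Nat.mul_le_mul_right _ (Nat.mul_le_mul_right _ this)
      _ ≤ Nat.card C * (w + 1) := Nat.mul_le_mul_right _ h2

end small

end Cfsg.Agent.H19.AutOrb
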