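import Mathlib
import Cfsg.Agent.Lib.H19.AutOrb4

/-!
The bound for `p`-groups.
-/

set_option linter.unusedSectionVars false
set_option linter.style.haveILetI false
set_option linter.unusedVariables false

namespace Cfsg.Agent.H19.AutOrb

open Subgroup

variable {G : Type*} [Group G] [Finite G] {p : ℕ} [hp : Fact p.Prime]

section small

variable (hG : IsPGroup p G) (hs : ∀ x : G, cx x ≤ p) {a b : G} (hab : cm a b ≠ 1)
include hG hs hab

theorem exists_om (e : G) : ∃ om : G → ZMod p, (∀ g, Ez p (cm a b) (om g) = cm g e) ∧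
    (∀ g h, om (g * h) = om g + om h) ∧ (∀ g, g * e = e * g → om g = 0) ∧
    (∀ g, ¬ (g * e = e * g) → om g ≠ 0) := by
  have hc := cm_central hG hs
  have hzp := cm_pow_prime hG hs a b
  have hex : ∀ g, ∃ c : ZMod p, Ez p (cm a b) c = cm g e :=
    fun g => Ez_surj hzp (cm_mem_zpowers hG hs hab g e)
  choose om hom using hex
  refine ⟨om, hom, ?_, ?_, ?_⟩
  · intro g h
    apply Ez_inj hzp hab
    rw [Ez_add hzp, hom, hom, hom, cm_mul_left hc]
  · intro g hg
    apply Ez_inj hzp hab
    rw [hom, Ez_zero, cm_eq_one]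
    exact hg
  · intro g hg h0
    apply hg
    have := hom g
    rw [h0, Ez_zero] at this
    exact cm_eq_one.mp this.symm

theorem noncentral_left : a ∉ center G := by
  intro h
  apply hab
  rw [cm_eq_one]
  exact ((Subgroup.mem_center_iff.mp h) b).symm

theorem case_central {c : G} (hcZ : c ∈ center G) (hcp : c ^ p = 1) (hcz : c ∉ zpowers (cm a b)) :
    oN G * p ≤ Nat.card G := by
  have hc := cm_central hG hs
  have hzp := cm_pow_prime hG hs a b
  have hzc := hc a b
  obtain ⟨om, hom, homadd, hom0, homne⟩ := exists_om hG hs hab a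
  have haZ := noncentral_left hG hs hab
  have hc1 : c ≠ 1 := by
    rintro rfl
    exact hcz (Subgroup.one_mem _)
  obtain ⟨τ, hτ⟩ := twist_exists (p := p) hzc hzp (fun u => Ez p c u) om (fun _ _ => 0) (fun _ _ => 0)
    (fun _ => 0) homadd
    (by
      intro u h
      rw [Ez_zero, mul_one]
      exact Ez_central hcZ u h)
    (by
      intro u v
      rw [Ez_zero, mul_one]
      exact (Ez_add hcp u v).symm)
    (by intro u v; simp)
    (by simp [Ez_zero]) rfl
    (by
      intro u
      apply hom0
      exact Ez_central hcZ u a)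
    (by
      intro u
      apply hom0
      exact Ez_central hzc u a)
  refine finish hG hs hab haZ (fun g hg => ⟨τ, ?_⟩)
  intro w hw h
  have hga : ¬ (g * a = a * g) := by
    intro h'
    apply hg
    rw [mem_C_iff]
    exact h'.symm
  have hv := homne g hga
  rw [hτ, Ez_zero, mul_one, mul_right_inj] at h
  have hy1 : Ez p c (om g) ≠ 1 := by
    intro h1
    rw [← Ez_zero (p := p) c] at h1
    exact hv (Ez_inj hcp hc1 h1)
  have hyc : Ez p c (om g) ∈ zpowers c := Subgroup.pow_mem _ (mem_zpowers c) _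
  have h2 := line_lemma hyc hy1 hcp
  rw [h] at h2
  exact hcz ((Subgroup.zpowers_le.mpr hw) h2)

theorem mem_center_of_pow {x : G} {n : ℕ} (hn0 : n ≠ 0) (hnp : n < p) (h : x ^ n ∈ center G) :
    x ∈ center G := by
  have hcop : Nat.Coprime n p := (Nat.coprime_of_lt_prime hn0 hnp hp.out).symm
  have hb := Nat.gcd_eq_gcd_ab n p
  rw [hcop.gcd_eq_one] at hb
  have h1 : x = (x ^ n) ^ (Nat.gcdA n p) * (x ^ p) ^ (Nat.gcdB n p) := by
    rw [← zpow_natCast, ← zpow_natCast, ← zpow_mul, ← zpow_mul, ← zpow_add, ← hb]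
    simp
  rw [h1]
  exact Subgroup.mul_mem _ (Subgroup.zpow_mem _ h _)
    (Subgroup.zpow_mem _ (pow_prime_central hG hs hab x) _)

theorem case_twist {x : G} (hxZ : x ∉ center G) (ε : ZMod p → ZMod p → ZMod p) (q : ZMod p → ZMod p)
    (hW2 : ∀ u v, Ez p x u * Ez p x v = Ez p x (u + v) * Ez p (cm a b) (ε u v))
    (hq : ∀ u v, q (u + v) = q u + q v + (-u * v) + ε u v) (hq0 : q 0 = 0) :
    oN G * p ≤ Nat.card G := by
  have hc := cm_central hG hs
  have hzp := cm_pow_prime hG hs a b
  have hzc := hc a b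
  obtain ⟨om, hom, homadd, hom0, homne⟩ := exists_om hG hs hab x
  obtain ⟨τ, hτ⟩ := twist_exists (p := p) hzc hzp (fun u => Ez p x u) om (fun u v => -u * v) ε q homadd
    (by
      intro u h
      show x ^ u.val * h = h * x ^ u.val * Ez p (cm a b) (-u * om h)
      have h1 : cm (x ^ u.val) h * h * x ^ u.val = x ^ u.val * h := by
        unfold cm
        group
      have h2 : cm (x ^ u.val) h = Ez p (cm a b) (-u * om h) := by
        rw [cm_pow_left hc]
        have h3 : cm x h = Ez p (cm a b) (- om h) := by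
          rw [Ez_neg hzp, hom, cm_swap x h, inv_inv]
        rw [h3, ← Ez_natMul hzp, ZMod.natCast_zmod_val]
        congr 1
        ring
      rw [← h1, h2]
      have h4 := Ez_central (p := p) hzc (-u * om h)
      rw [h4, mul_assoc, h4, mul_assoc])
    hW2 hq
    (by simp [Ez]) hq0
    (by
      intro u
      apply hom0
      show x ^ u.val * x = x * x ^ u.val
      exact (Commute.refl x).pow_left _)
    (by
      intro u
      apply hom0
      exact Ez_central hzc u x)
  refine finish hG hs hab hxZ (fun g hg => ⟨τ, ?_⟩)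
  intro w hw h
  have hga : ¬ (g * x = x * g) := by
    intro h'
    apply hg
    rw [mem_C_iff]
    exact h'.symm
  have hv := homne g hga
  rw [hτ, mul_assoc, mul_right_inj] at h
  have h1 : Ez p x (om g) = w * (Ez p (cm a b) (q (om g)))⁻¹ := by
    rw [← h]
    group
  have h2 : Ez p x (om g) ∈ center G := by
    rw [h1]
    refine Subgroup.mul_mem _ ((Subgroup.zpowers_le.mpr hzc) hw) (Subgroup.inv_mem _ ?_)
    exact Subgroup.pow_mem _ hzc _
  have hn0 : (om g).val ≠ 0 := by
    intro h0
    exact hv ((ZMod.val_eq_zero _).mp h0)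
  exact hxZ (mem_center_of_pow hG hs hab hn0 (ZMod.val_lt _) h2)

theorem exists_x_odd (hodd : p ≠ 2)
    (hΩ : ∀ c ∈ center G, c ^ p = 1 → c ∈ zpowers (cm a b)) : ∃ x, x ∉ center G ∧ x ^ p = 1 := by
  have hc := cm_central hG hs
  have hp3 : 2 < p := lt_of_le_of_ne hp.out.two_le (Ne.symm hodd)
  have hdvd : p ∣ p.choose 2 := hp.out.dvd_choose_self (by norm_num) hp3
  let π : G →* G := MonoidHom.mk' (fun g => g ^ p) (by
    intro x y
    rw [pow_mul_cm hc]
    obtain ⟨k, hk⟩ := hdvd
    rw [hk, pow_mul, cm_pow_prime hG hs, one_pow, mul_one])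
  have hπ : ∀ g, π g = g ^ p := fun g => rfl
  by_contra hcon
  push_neg at hcon
  have hK : π.ker ≤ zpowers (cm a b) := by
    intro g hg
    have hg1 : g ^ p = 1 := hg
    by_cases hgZ : g ∈ center G
    · exact hΩ g hgZ hg1
    · exact absurd hg1 (hcon g hgZ)
  have hR : π.range ≤ center G := by
    rintro _ ⟨g, rfl⟩
    exact pow_prime_central hG hs hab g
  have hord : orderOf (cm a b) = p := orderOf_eq_prime (cm_pow_prime hG hs a b) hab
  have h1 : Nat.card π.ker ≤ p := by
    have := Subgroup.card_le_of_le hK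
    rwa [Nat.card_zpowers, hord] at this
  have h2 : Nat.card π.range ≤ Nat.card (center G) := Subgroup.card_le_of_le hR
  have h3 : Nat.card π.ker * Nat.card π.range = Nat.card G := by
    have := Subgroup.card_mul_index π.ker
    rwa [Subgroup.index_ker] at this
  have haZ := noncentral_left hG hs hab
  obtain ⟨h4, h5⟩ := card_center_bound hG hs hab haZ
  have hZpos : 0 < Nat.card (center G) := Nat.card_pos
  have hp2 := hp.out.two_le
  have h6 : Nat.card G ≤ p * Nat.card (center G) := by
    rw [← h3]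
    exact Nat.mul_le_mul h1 h2
  have h7 : p * Nat.card (center G) * p ≤ Nat.card G := by
    rw [← h4]
    exact Nat.mul_le_mul_right _ h5
  have h8 : p * Nat.card (center G) * p ≤ p * Nat.card (center G) := h7.trans h6
  have h9 : p * Nat.card (center G) * 2 ≤ p * Nat.card (center G) * p :=
    Nat.mul_le_mul_left _ hp2
  have h10 : 0 < p * Nat.card (center G) := Nat.mul_pos hp.out.pos hZpos
  omega

end small

end Cfsg.Agent.H19.AutOrb
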