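import Mathlib
import Cfsg.Agent.Lib.H19.AutOrb5

/-!
The bound for `p`-groups (final), nilpotent groups and all groups.
-/

set_option linter.unusedSectionVars false
set_option linter.style.haveILetI false
set_option linter.unusedVariables false

namespace Cfsg.Agent.H19.AutOrb

open Subgroup

universe u

variable {G : Type*} [Group G] [Finite G] {p : ℕ} [hp : Fact p.Prime]

theorem zmod2_cases : ∀ u : ZMod 2, u = 0 ∨ u = 1 := by decide

theorem zmod2_sum : (1 : ZMod 2) + 1 = 0 := by decide

theorem exists_x_two [hp2 : Fact (Nat.Prime 2)] (hG : IsPGroup 2 G) (hs : ∀ x : G, cx x ≤ 2) {a b : G}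
    (hab : cm a b ≠ 1) (hΩ : ∀ c ∈ center G, c ^ 2 = 1 → c ∈ zpowers (cm a b)) :
    ∃ x, x ∉ center G ∧ x ^ 2 = cm a b := by
  classical
  have hc := cm_central hG hs
  set z := cm a b with hz
  have hzp : z ^ 2 = 1 := cm_pow_prime hG hs a b
  have hzinv : z⁻¹ = z := by
    rw [inv_eq_iff_mul_eq_one, ← sq, hzp]
  have hzc : z ∈ center G := hc a b
  have hsq : ∀ y : G, y ^ 2 ∈ center G := fun y => pow_prime_central hG hs hab y
  let f : center G →* center G := MonoidHom.mk' (fun c => c ^ 2) (by
    intro c d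
    have h : Commute c d := Subtype.ext ((Subgroup.mem_center_iff.mp d.2) c)
    exact h.mul_pow 2)
  have hfa : ∀ c : center G, ((f c : center G) : G) = (c : G) ^ 2 := fun c => rfl
  -- the kernel has two elements
  have hker : Nat.card f.ker = 2 := by
    have h1 : f.ker.map (center G).subtype = zpowers z := by
      ext g
      constructor
      · rintro ⟨c, hc1, rfl⟩
        have hc2 : ((f c : center G) : G) = 1 := by
          have hc1' : f c = 1 := hc1
          rw [hc1']
          rfl
        rw [hfa] at hc2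
        exact hΩ _ c.2 hc2
      · intro hg
        have hgc : g ∈ center G := (Subgroup.zpowers_le.mpr hzc) hg
        refine ⟨⟨g, hgc⟩, ?_, rfl⟩
        show f ⟨g, hgc⟩ = 1
        apply Subtype.ext
        rw [hfa]
        obtain ⟨i, rfl⟩ := mem_zpowers_iff.mp hg
        rw [← zpow_natCast, ← zpow_mul, mul_comm, zpow_mul, zpow_natCast, hzp, one_zpow]
        rfl
    have h2 := Subgroup.card_map_of_injective (K := f.ker) (f := (center G).subtype) (center G).subtype_injective
    rw [h1, Nat.card_zpowers, orderOf_eq_prime hzp hab] at h2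
    exact h2.symm
  have hidx : f.range.index = 2 := by
    have h1 := Subgroup.card_mul_index f.ker
    have h2 := Subgroup.card_mul_index f.range
    rw [Subgroup.index_ker] at h1
    have h3 : Nat.card f.range * f.range.index = Nat.card f.range * 2 := by
      rw [h2, ← h1, hker, mul_comm]
    exact Nat.eq_of_mul_eq_mul_left Nat.card_pos h3
  let u : G → center G := fun y => ⟨y ^ 2 * z, Subgroup.mul_mem _ (hsq y) hzc⟩
  have hfin : ∀ y, y ∉ center G → u y ∈ f.range → ∃ x, x ∉ center G ∧ x ^ 2 = z := by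
    intro y hy hu
    obtain ⟨c, hc1⟩ := hu
    have hc2 : (c : G) ^ 2 = y ^ 2 * z := by
      have := congrArg Subtype.val hc1
      rwa [hfa] at this
    have hcc : ∀ t : G, (c : G) * t = t * c := fun t => ((Subgroup.mem_center_iff.mp c.2) t).symm
    refine ⟨y * (c : G)⁻¹, ?_, ?_⟩
    · intro h
      apply hy
      have : y = (y * (c : G)⁻¹) * c := by group
      rw [this]
      exact Subgroup.mul_mem _ h c.2
    · have hci : ∀ t : G, (c : G)⁻¹ * t = t * (c : G)⁻¹ := fun t => by
        rw [inv_mul_eq_iff_eq_mul, ← mul_assoc, hcc, mul_assoc, mul_inv_cancel, mul_one]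
      calc (y * (c : G)⁻¹) ^ 2 = y * ((c : G)⁻¹ * y) * (c : G)⁻¹ := by rw [sq]; group
        _ = y ^ 2 * ((c : G) ^ 2)⁻¹ := by
          rw [hci y, sq, sq]
          group
        _ = y ^ 2 * (y ^ 2 * z)⁻¹ := by rw [hc2]
        _ = z⁻¹ := by
          have hzz : y ^ 2 * z = z * y ^ 2 := (Subgroup.mem_center_iff.mp hzc) (y ^ 2)
          rw [hzz]
          group
        _ = z := hzinv
  have haZ : a ∉ center G := noncentral_left hG hs hab
  have hbZ : b ∉ center G := by
    intro h
    apply hab
    rw [cm_eq_one]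
    exact (Subgroup.mem_center_iff.mp h) a
  have habZ : a * b ∉ center G := by
    intro h
    apply hab
    have h1 : cm a (a * b) = 1 := by
      rw [cm_eq_one]
      exact (Subgroup.mem_center_iff.mp h) a
    rw [cm_mul_right hc] at h1
    have h2 : cm a a = 1 := by
      rw [cm_eq_one]
    rwa [h2, one_mul] at h1
  by_cases hua : u a ∈ f.range
  · exact hfin a haZ hua
  by_cases hub : u b ∈ f.range
  · exact hfin b hbZ hub
  apply hfin (a * b) habZ
  have h1 := (Subgroup.mul_mem_iff_of_index_two hidx (a := u a) (b := u b)).mpr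
    (iff_of_false hua hub)
  have h2 : u (a * b) = u a * u b := by
    apply Subtype.ext
    show (a * b) ^ 2 * z = (a ^ 2 * z) * (b ^ 2 * z)
    rw [pow_mul_cm hc a b 2]
    have hch : Nat.choose 2 2 = 1 := by decide
    rw [hch, pow_one, cm_swap a b, ← hz, hzinv]
    have h3 : ∀ t, z * t = t * z := fun t => ((Subgroup.mem_center_iff.mp hzc) t).symm
    calc a ^ 2 * b ^ 2 * z * z = a ^ 2 * b ^ 2 * (z * z) := by group
      _ = a ^ 2 * (z * b ^ 2) * z := by rw [h3 (b ^ 2)]; group
      _ = _ := by group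
  rw [h2]
  exact h1

theorem pgroup_small (hG : IsPGroup p G) (hs : ∀ x : G, cx x ≤ p) {a b : G} (hab : cm a b ≠ 1) :
    oN G * p ≤ Nat.card G := by
  classical
  by_cases hcase : ∃ c ∈ center G, c ^ p = 1 ∧ c ∉ zpowers (cm a b)
  · obtain ⟨c, h1, h2, h3⟩ := hcase
    exact case_central hG hs hab h1 h2 h3
  · have hΩ : ∀ c ∈ center G, c ^ p = 1 → c ∈ zpowers (cm a b) := by
      intro c h1 h2
      by_contra h3
      exact hcase ⟨c, h1, h2, h3⟩
    by_cases hp2 : p = 2
    · subst hp2
      obtain ⟨x, hx1, hx2⟩ := exists_x_two hG hs hab hΩ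
      refine case_twist hG hs hab hx1 (fun u v => u * v) (fun _ => 0) ?_ ?_ rfl
      · have hv1 : (1 : ZMod 2).val = 1 := rfl
        have hsum : (1 : ZMod 2) + 1 = 0 := zmod2_sum
        intro u v
        rcases zmod2_cases u with rfl | rfl <;> rcases zmod2_cases v with rfl | rfl
        · simp [Ez]
        · simp [Ez]
        · simp [Ez]
        · rw [hsum]
          simp only [Ez, hv1, ZMod.val_zero, pow_zero, one_mul, mul_one, pow_one]
          rw [← sq, hx2]
      · intro u v
        ring
    · obtain ⟨x, hx1, hx2⟩ := exists_x_odd hG hs hab hp2 hΩ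
      have h2 : (2 : ZMod p) ≠ 0 := by
        intro h
        have h3 : ((2 : ℕ) : ZMod p) = 0 := by exact_mod_cast h
        rw [ZMod.natCast_eq_zero_iff] at h3
        exact hp2 ((Nat.prime_dvd_prime_iff_eq hp.out Nat.prime_two).mp h3)
      refine case_twist hG hs hab hx1 (fun _ _ => 0) (fun u => -(u * (u - 1)) * (2 : ZMod p)⁻¹)
        ?_ ?_ (by simp)
      · intro u v
        rw [Ez_zero, mul_one]
        exact (Ez_add hx2 u v).symm
      · intro u v
        field_simp
        ring

theorem pgroup_main (hG : IsPGroup p G) {a b : G} (hab : a * b ≠ b * a) : oN G * p ≤ Nat.card G := by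
  by_cases h : ∃ x : G, p < cx x
  · obtain ⟨x, hx⟩ := h
    exact pgroup_large hG hx
  · push_neg at h
    exact pgroup_small hG h (fun h' => hab (cm_eq_one.mp h'))

theorem oN_le_card (X : Type*) [Group X] [Finite X] : oN X ≤ Nat.card X := by
  letI : Finite (MulAction.orbitRel.Quotient (MulAut X) X) := Quotient.finite _
  exact Nat.card_le_card_of_surjective (fun g : X => (Quotient.mk'' g :
    MulAction.orbitRel.Quotient (MulAut X) X)) Quotient.mk''_surjective

theorem oN_le_of_mulEquiv {X Y : Type*} [Group X] [Group Y] [Finite X] [Finite Y] (e : X ≃* Y) :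
    oN Y ≤ oN X := by
  letI : Finite (MulAction.orbitRel.Quotient (MulAut X) X) := Quotient.finite _
  let f : MulAction.orbitRel.Quotient (MulAut X) X → MulAction.orbitRel.Quotient (MulAut Y) Y :=
    Quotient.map' e (by
      intro x x' h
      rw [MulAction.orbitRel_apply] at h ⊢
      obtain ⟨α, rfl⟩ := h
      refine ⟨(e.symm.trans α).trans e, ?_⟩
      show e (α (e.symm (e x'))) = e (α x')
      simp)
  have hf : Function.Surjective f := by
    intro ω
    obtain ⟨y, rfl⟩ := Quotient.mk''_surjective ω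
    obtain ⟨x, rfl⟩ := e.surjective y
    exact ⟨Quotient.mk'' x, rfl⟩
  exact Nat.card_le_card_of_surjective f hf

theorem oN_pi_le {I : Type*} [Fintype I] {X : I → Type*} [∀ i, Group (X i)] [∀ i, Finite (X i)] :
    oN (∀ i, X i) ≤ ∏ i, oN (X i) := by
  classical
  letI : ∀ i, Finite (MulAction.orbitRel.Quotient (MulAut (X i)) (X i)) :=
    fun i => Quotient.finite _
  let Φ : (∀ i, MulAction.orbitRel.Quotient (MulAut (X i)) (X i)) →
      MulAction.orbitRel.Quotient (MulAut (∀ i, X i)) (∀ i, X i) :=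
    fun ω => Quotient.mk'' (fun i => Quotient.out (ω i))
  have hΦ : Function.Surjective Φ := by
    intro ω
    obtain ⟨g, rfl⟩ := Quotient.mk''_surjective ω
    refine ⟨fun i => Quotient.mk'' (g i), ?_⟩
    show Quotient.mk'' _ = Quotient.mk'' g
    rw [Quotient.eq'', MulAction.orbitRel_apply]
    have hex : ∀ i, ∃ α : MulAut (X i), α • g i = Quotient.out
        (Quotient.mk'' (g i) : MulAction.orbitRel.Quotient (MulAut (X i)) (X i)) := by
      intro i
      have h1 : (MulAction.orbitRel (MulAut (X i)) (X i)) (Quotient.out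
        (Quotient.mk'' (g i) : MulAction.orbitRel.Quotient (MulAut (X i)) (X i))) (g i) :=
        Quotient.exact (Quotient.out_eq _)
      rw [MulAction.orbitRel_apply] at h1
      exact h1
    choose α hα using hex
    refine ⟨MulEquiv.piCongrRight α, ?_⟩
    funext i
    exact hα i
  have h := Nat.card_le_card_of_surjective Φ hΦ
  rw [Nat.card_pi] at h
  exact h

theorem prod_mul_le {ι : Type*} [Fintype ι] {A B : ι → ℕ} (h : ∀ i, A i ≤ B i) (i₀ : ι) (q : ℕ)
    (h0 : A i₀ * q ≤ B i₀) : (∏ i, A i) * q ≤ ∏ i, B i := by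
  classical
  rw [← Finset.mul_prod_erase Finset.univ A (Finset.mem_univ i₀),
    ← Finset.mul_prod_erase Finset.univ B (Finset.mem_univ i₀)]
  calc (A i₀ * ∏ i ∈ Finset.univ.erase i₀, A i) * q
      = (A i₀ * q) * ∏ i ∈ Finset.univ.erase i₀, A i := by ring
    _ ≤ B i₀ * ∏ i ∈ Finset.univ.erase i₀, B i :=
        Nat.mul_le_mul h0 (Finset.prod_le_prod' (fun i _ => h i))

theorem nilpotent_main (hnil : Group.IsNilpotent G) {a b : G} (hab : a * b ≠ b * a) :
    oN G * (Nat.card G).minFac ≤ Nat.card G := by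
  classical
  obtain ⟨e⟩ : Nonempty ((∀ p : (Nat.card G).primeFactors, ∀ P : Sylow p G, (↑P : Subgroup G)) ≃* G) :=
    (Group.isNilpotent_of_finite_tfae (G := G)).out 0 4 |>.mp hnil
  letI : ∀ p : (Nat.card G).primeFactors, Fintype (Sylow (p : ℕ) G) := fun p => Fintype.ofFinite _
  -- a noncommutative Sylow subgroup
  obtain ⟨q, P₀, x, y, hxy⟩ : ∃ (q : (Nat.card G).primeFactors) (P₀ : Sylow (q : ℕ) G)
      (x y : (↑P₀ : Subgroup G)), x * y ≠ y * x := by
    by_contra hcon
    push_neg at hcon
    apply hab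
    apply e.symm.injective
    rw [map_mul, map_mul]
    funext q P
    exact hcon q P _ _
  haveI hqp : Fact (q : ℕ).Prime := ⟨Nat.prime_of_mem_primeFactors q.2⟩
  have hP₀ : oN (↑P₀ : Subgroup G) * (q : ℕ) ≤ Nat.card (↑P₀ : Subgroup G) :=
    pgroup_main P₀.2 hxy
  have hcardG : Nat.card G = ∏ p : (Nat.card G).primeFactors, ∏ P : Sylow (p : ℕ) G,
      Nat.card (↑P : Subgroup G) := by
    refine (Nat.card_congr e.toEquiv).symm.trans ?_
    rw [Nat.card_pi]
    refine Finset.prod_congr rfl (fun p _ => ?_)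
    rw [Nat.card_pi]
  have hoN : oN G ≤ ∏ p : (Nat.card G).primeFactors, ∏ P : Sylow (p : ℕ) G,
      oN (↑P : Subgroup G) := by
    calc oN G ≤ oN (∀ p : (Nat.card G).primeFactors, ∀ P : Sylow p G, (↑P : Subgroup G)) :=
          oN_le_of_mulEquiv e
      _ ≤ ∏ p : (Nat.card G).primeFactors, oN (∀ P : Sylow (p : ℕ) G, (↑P : Subgroup G)) := oN_pi_le
      _ ≤ _ := Finset.prod_le_prod' (fun p _ => oN_pi_le)
  have hmain : (∏ p : (Nat.card G).primeFactors, ∏ P : Sylow (p : ℕ) G, oN (↑P : Subgroup G)) * (q : ℕ) ≤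
      Nat.card G := by
    refine le_trans ?_ (le_of_eq hcardG.symm)
    apply prod_mul_le _ q
    · exact prod_mul_le (fun P => oN_le_card _) P₀ _ hP₀
    · intro p
      exact Finset.prod_le_prod' (fun P _ => oN_le_card _)
  have hmin : (Nat.card G).minFac ≤ (q : ℕ) :=
    Nat.minFac_le_of_dvd hqp.out.two_le (Nat.dvd_of_mem_primeFactors q.2)
  calc oN G * (Nat.card G).minFac ≤ _ * (q : ℕ) := Nat.mul_le_mul hoN hmin
    _ ≤ _ := hmain

theorem main_theorem {G : Type u} [Group G] [Finite G] (hna : ¬ IsMulCommutative G) :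
    Nat.card (MulAction.orbitRel.Quotient (MulAut G) G) ≤ Nat.card G / (Nat.card G).minFac := by
  have hn1 : 0 < (Nat.card G).minFac := Nat.minFac_pos _
  rw [Nat.le_div_iff_mul_le hn1]
  by_cases hnil : Group.IsNilpotent G
  · obtain ⟨a, b, hab⟩ : ∃ a b : G, a * b ≠ b * a := by
      by_contra hcon
      push_neg at hcon
      exact hna ⟨⟨hcon⟩⟩
    exact nilpotent_main hnil hab
  · have h1 := classes_of_not_nilpotent _ G rfl hnil
    exact (Nat.mul_le_mul_right _ oN_le_classes).trans h1

end Cfsg.Agent.H19.AutOrb
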