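import Mathlib

/-!
Babai's bound on the minimal degree of a primitive group, without the classification:
distinguishing numbers of orbital colours (uniprimitive case) and the commutator 3-cycle
(doubly transitive case).
-/

set_option autoImplicit false
open MulAction
open scoped Classical Pointwise

namespace Cfsg.Agent.H19.Babai

section basic

variable (G : Type*) {Ω : Type*} [Group G] [MulAction G Ω]

/-- the orbital edge relation of the pair `(x, y)`. -/
def Edge (x y u v : Ω) : Prop := ∃ h : G, h • x = u ∧ h • y = v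

variable {G}

lemma Edge.smul {x y u v : Ω} (h : Edge G x y u v) (a : G) : Edge G x y (a • u) (a • v) := by
  obtain ⟨k, rfl, rfl⟩ := h
  exact ⟨a * k, mul_smul _ _ _, mul_smul _ _ _⟩

lemma eqv_smul {x y a b : Ω} (h : Relation.EqvGen (Edge G x y) a b) (g : G) :
    Relation.EqvGen (Edge G x y) (g • a) (g • b) := by
  induction h with
  | rel a b h => exact .rel _ _ (h.smul g)
  | refl a => exact .refl _
  | symm a b _ ih => exact .symm _ _ ih
  | trans a b c _ _ ih1 ih2 => exact .trans _ _ _ ih1 ih2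

lemma eqv_all (hprim : IsPreprimitive G Ω) {x y : Ω} (hxy : x ≠ y) (a b : Ω) :
    Relation.EqvGen (Edge G x y) a b := by
  set B : Set Ω := {v | Relation.EqvGen (Edge G x y) x v} with hBdef
  have hB : IsBlock G B := by
    rw [MulAction.isBlock_iff_smul_eq_of_nonempty]
    rintro g ⟨t, ht, htB⟩
    obtain ⟨s, hs, rfl⟩ := ht
    have h1 : Relation.EqvGen (Edge G x y) (g • x) (g • s) := eqv_smul hs g
    have h2 : Relation.EqvGen (Edge G x y) x (g • s) := htB
    have h3 : Relation.EqvGen (Edge G x y) x (g • x) := .trans _ _ _ h2 (.symm _ _ h1)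
    ext v
    constructor
    · rintro ⟨u, hu, rfl⟩
      exact Relation.EqvGen.trans _ _ _ h3 (eqv_smul hu g)
    · intro hv
      refine ⟨g⁻¹ • v, ?_, by simp⟩
      have h4 : Relation.EqvGen (Edge G x y) (g • x) v := .trans _ _ _ (.symm _ _ h3) hv
      have h5 := eqv_smul h4 g⁻¹
      simp only [inv_smul_smul] at h5
      exact h5
  have hx : x ∈ B := Relation.EqvGen.refl _
  have hy : y ∈ B := Relation.EqvGen.rel _ _ ⟨1, by simp, by simp⟩
  rcases hprim.isTrivialBlock_of_isBlock hB with h | h
  · exact absurd (h hx hy) hxy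
  · have ha : a ∈ B := by rw [h]; trivial
    have hb : b ∈ B := by rw [h]; trivial
    exact .trans _ _ _ (.symm _ _ ha) hb

variable [Finite G]

lemma closed_rev (hprim : IsPreprimitive G Ω) {x y : Ω} (W : Set Ω)
    (hcl : ∀ u v, Edge G x y u v → u ∈ W → v ∈ W) {u v : Ω} (huv : Edge G x y u v)
    (hv : v ∈ W) : u ∈ W := by
  haveI := hprim.toIsPretransitive
  obtain ⟨a, rfl⟩ := MulAction.exists_smul_eq G u v
  have key : ∀ i : ℕ, a ^ (i + 1) • u ∈ W := by
    intro i
    induction i with
    | zero => simpa using hv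
    | succ i ih =>
      have h1 := huv.smul (a ^ (i + 1))
      have h2 : a ^ (i + 1) • a • u = a ^ (i + 1 + 1) • u := by
        rw [← mul_smul, ← pow_succ]
      rw [h2] at h1
      exact hcl _ _ h1 ih
  have hpos : 0 < orderOf a := orderOf_pos a
  have := key (orderOf a - 1)
  rwa [Nat.sub_add_cancel hpos, pow_orderOf_eq_one, one_smul] at this

lemma closed_univ (hprim : IsPreprimitive G Ω) {x y : Ω} (hxy : x ≠ y) (W : Set Ω) {w : Ω}
    (hw : w ∈ W) (hcl : ∀ u v, Edge G x y u v → u ∈ W → v ∈ W) (t : Ω) : t ∈ W := by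
  have key : ∀ a b, Relation.EqvGen (Edge G x y) a b → (a ∈ W ↔ b ∈ W) := by
    intro a b h
    induction h with
    | rel a b h => exact ⟨hcl _ _ h, closed_rev hprim W hcl h⟩
    | refl a => exact Iff.rfl
    | symm a b _ ih => exact ih.symm
    | trans a b c _ _ ih1 ih2 => exact ih1.trans ih2
  exact (key _ _ (eqv_all hprim hxy w t)).1 hw

end basic

section main

variable {G Ω : Type*} [Group G] [Finite G] [MulAction G Ω] [Fintype Ω]

variable (G) in
/-- out-neighbours in the orbital graph of `(x, y)`. -/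
noncomputable def Nb (x y u : Ω) : Finset Ω := Finset.univ.filter (fun v => Edge G x y u v)

variable (G) in
/-- in-neighbours in the orbital graph of `(x, y)`. -/
noncomputable def In (x y w : Ω) : Finset Ω := Finset.univ.filter (fun u => Edge G x y u w)

variable (G) in
/-- points distinguishing `x` from `y`: no element fixing `z` sends `x` to `y`. -/
noncomputable def Dist (x y : Ω) : Finset Ω :=
  Finset.univ.filter (fun z => ¬ ∃ h : G, h • x = y ∧ h • z = z)

variable (G) in
/-- the distinguishing number. -/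
noncomputable def dd (x y : Ω) : ℕ := (Dist G x y).card

lemma mem_Nb {x y u v : Ω} : v ∈ Nb G x y u ↔ Edge G x y u v := by simp [Nb]
lemma mem_In {x y u w : Ω} : u ∈ In G x y w ↔ Edge G x y u w := by simp [In]
lemma mem_Dist {x y z : Ω} : z ∈ Dist G x y ↔ ¬ ∃ h : G, h • x = y ∧ h • z = z := by simp [Dist]

lemma dd_smul_le (a : G) (x y : Ω) : dd G x y ≤ dd G (a • x) (a • y) := by
  refine Finset.card_le_card_of_injOn (fun z => a • z) ?_ ?_
  · intro z hz
    simp only [Finset.mem_coe, mem_Dist] at hz ⊢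
    rintro ⟨h, h1, h2⟩
    refine hz ⟨a⁻¹ * h * a, ?_, ?_⟩
    · rw [mul_smul, mul_smul, h1, inv_smul_smul]
    · rw [mul_smul, mul_smul, h2, inv_smul_smul]
  · intro u _ v _ huv
    exact smul_left_cancel a huv

lemma dd_smul (a : G) (x y : Ω) : dd G (a • x) (a • y) = dd G x y := by
  apply le_antisymm _ (dd_smul_le a x y)
  have := dd_smul_le a⁻¹ (a • x) (a • y)
  simpa using this

lemma dd_comm (x y : Ω) : dd G x y = dd G y x := by
  unfold dd
  congr 1
  ext z
  simp only [mem_Dist]
  constructor
  · rintro h ⟨k, h1, h2⟩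
    refine h ⟨k⁻¹, ?_, ?_⟩
    · rw [← h1, inv_smul_smul]
    · nth_rewrite 1 [← h2]
      rw [inv_smul_smul]
  · rintro h ⟨k, h1, h2⟩
    refine h ⟨k⁻¹, ?_, ?_⟩
    · rw [← h1, inv_smul_smul]
    · nth_rewrite 1 [← h2]
      rw [inv_smul_smul]

lemma dd_triangle (a b c : Ω) : dd G a c ≤ dd G a b + dd G b c := by
  unfold dd
  refine le_trans (Finset.card_le_card ?_) (Finset.card_union_le _ _)
  intro z hz
  rw [Finset.mem_union]
  by_contra hcon
  push Not at hcon
  rw [mem_Dist] at hz
  simp only [mem_Dist, not_not] at hcon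
  obtain ⟨⟨h1, h11, h12⟩, ⟨h2, h21, h22⟩⟩ := hcon
  refine hz ⟨h2 * h1, ?_, ?_⟩
  · rw [mul_smul, h11, h21]
  · rw [mul_smul, h12, h22]

lemma card_Nb_eq (hprim : IsPreprimitive G Ω) (x y u : Ω) :
    (Nb G x y u).card = (Nb G x y x).card := by
  haveI := hprim.toIsPretransitive
  have key : ∀ (a : G) (u : Ω), (Nb G x y u).card ≤ (Nb G x y (a • u)).card := by
    intro a u
    refine Finset.card_le_card_of_injOn (fun z => a • z) ?_ ?_
    · intro z hz
      simp only [Finset.mem_coe, mem_Nb] at hz ⊢
      exact hz.smul a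
    · intro u _ v _ huv
      exact smul_left_cancel a huv
  obtain ⟨a, rfl⟩ := MulAction.exists_smul_eq G x u
  apply le_antisymm
  · have := key a⁻¹ (a • x)
    simpa using this
  · exact key a x

lemma card_In_eq (hprim : IsPreprimitive G Ω) (x y w : Ω) :
    (In G x y w).card = (Nb G x y x).card := by
  haveI := hprim.toIsPretransitive
  have key : ∀ (a : G) (u : Ω), (In G x y u).card ≤ (In G x y (a • u)).card := by
    intro a u
    refine Finset.card_le_card_of_injOn (fun z => a • z) ?_ ?_
    · intro z hz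
      simp only [Finset.mem_coe, mem_In] at hz ⊢
      exact hz.smul a
    · intro u _ v _ huv
      exact smul_left_cancel a huv
  have hc : ∀ u v : Ω, (In G x y u).card = (In G x y v).card := by
    intro u v
    obtain ⟨a, rfl⟩ := MulAction.exists_smul_eq G u v
    apply le_antisymm
    · exact key a u
    · have := key a⁻¹ (a • u)
      simpa using this
  have hsum : ∑ u : Ω, (Finset.univ.filter (fun v => Edge G x y u v)).card
      = ∑ v : Ω, (Finset.univ.filter (fun u => Edge G x y u v)).card :=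
    Finset.sum_card_bipartiteAbove_eq_sum_card_bipartiteBelow (Edge G x y)
  have h1 : ∑ u : Ω, (Finset.univ.filter (fun v => Edge G x y u v)).card
      = Fintype.card Ω * (Nb G x y x).card := by
    change ∑ u : Ω, (Nb G x y u).card = _
    rw [Finset.sum_congr rfl (fun u _ => card_Nb_eq hprim x y u)]
    simp
  have h2 : ∑ v : Ω, (Finset.univ.filter (fun u => Edge G x y u v)).card
      = Fintype.card Ω * (In G x y w).card := by
    change ∑ u : Ω, (In G x y u).card = _
    rw [Finset.sum_congr rfl (fun u _ => hc u w)]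
    simp
  have hpos : 0 < Fintype.card Ω := Fintype.card_pos_iff.2 ⟨x⟩
  rw [h1, h2] at hsum
  exact (Nat.eq_of_mul_eq_mul_left hpos hsum).symm

lemma sum_inter (hprim : IsPreprimitive G Ω) (x y : Ω) :
    ∑ u : Ω, (Nb G x y x ∩ Nb G x y u).card = (Nb G x y x).card * (Nb G x y x).card := by
  have hsum : ∑ u ∈ (Finset.univ : Finset Ω), ((Nb G x y x).filter (fun v => Edge G x y u v)).card
      = ∑ v ∈ Nb G x y x, ((Finset.univ : Finset Ω).filter (fun u => Edge G x y u v)).card :=
    Finset.sum_card_bipartiteAbove_eq_sum_card_bipartiteBelow (Edge G x y)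
  have h1 : ∀ u : Ω, (Nb G x y x ∩ Nb G x y u) = (Nb G x y x).filter (fun v => Edge G x y u v) := by
    intro u
    ext v
    simp [mem_Nb]
  rw [Finset.sum_congr rfl (fun u _ => by rw [h1 u]), hsum]
  change ∑ v ∈ Nb G x y x, (In G x y v).card = _
  rw [Finset.sum_congr rfl (fun v _ => card_In_eq hprim x y v)]
  simp

lemma key_claim (hprim : IsPreprimitive G Ω) {x y z : Ω} (hxy : x ≠ y) (hz : z ≠ x) :
    ∃ v ∈ Nb G x y x, z ∈ Dist G x v := by
  by_contra hcon
  push Not at hcon
  simp only [mem_Dist, not_not, mem_Nb] at hcon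
  have hzW := closed_univ (G := G) hprim hxy {w | ∃ h : G, h • x = w ∧ h • z = z}
    (w := x) ⟨1, by simp, by simp⟩ (by
      rintro u v huv ⟨h0, rfl, h0z⟩
      have h1 : Edge G x y x (h0⁻¹ • v) := by
        have := huv.smul h0⁻¹
        simpa using this
      obtain ⟨h2, h21, h22⟩ := hcon _ h1
      refine ⟨h0 * h2, ?_, ?_⟩
      · rw [mul_smul, h21, smul_inv_smul]
      · rw [mul_smul, h22, h0z]) z
  obtain ⟨h, h1, h2⟩ := hzW
  apply hz
  have : h • x = h • z := by rw [h1, h2]
  exact (smul_left_cancel h this).symm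

lemma dd_of_Edge {x y u v : Ω} (h : Edge G x y u v) : dd G u v = dd G x y := by
  obtain ⟨k, rfl, rfl⟩ := h
  exact dd_smul k x y

/-- Babai's first inequality. -/
lemma card_sub_one_le (hprim : IsPreprimitive G Ω) {x y : Ω} (hxy : x ≠ y) :
    Fintype.card Ω - 1 ≤ (Nb G x y x).card * dd G x y := by
  have hsum : ∑ v ∈ Nb G x y x, ((Finset.univ : Finset Ω).filter (fun z => z ∈ Dist G x v)).card
      = ∑ z ∈ (Finset.univ : Finset Ω), ((Nb G x y x).filter (fun v => z ∈ Dist G x v)).card :=
    Finset.sum_card_bipartiteAbove_eq_sum_card_bipartiteBelow (fun v z => z ∈ Dist G x v)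
  have h1 : ∑ v ∈ Nb G x y x, ((Finset.univ : Finset Ω).filter (fun z => z ∈ Dist G x v)).card
      = (Nb G x y x).card * dd G x y := by
    rw [Finset.sum_congr rfl (g := fun _ => dd G x y)]
    · simp
    · intro v hv
      rw [mem_Nb] at hv
      have : (Finset.univ : Finset Ω).filter (fun z => z ∈ Dist G x v) = Dist G x v := by
        ext z; simp
      rw [this]
      obtain ⟨h, hx, hy⟩ := hv
      have := dd_smul h x y
      rw [hx, hy] at this
      exact this
  rw [← h1, hsum]
  have h2 : Fintype.card Ω - 1 = ∑ z ∈ (Finset.univ : Finset Ω).erase x, 1 := by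
    simp [Finset.card_erase_of_mem]
  rw [h2]
  refine le_trans (Finset.sum_le_sum (f := fun _ => 1)
    (g := fun z => ((Nb G x y x).filter (fun v => z ∈ Dist G x v)).card) ?_) ?_
  · intro z hz
    obtain ⟨v, hv, hv2⟩ := key_claim (G := G) hprim hxy (Finset.ne_of_mem_erase hz)
    exact Finset.card_pos.2 ⟨v, Finset.mem_filter.2 ⟨hv, hv2⟩⟩
  · exact Finset.sum_le_sum_of_subset (Finset.erase_subset _ _)

lemma two_sdiff_le (hprim : IsPreprimitive G Ω) (x y u : Ω) :
    2 * (Nb G x y x \ Nb G x y u).card ≤ dd G x u := by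
  have hc : (Nb G x y x \ Nb G x y u).card = (Nb G x y u \ Nb G x y x).card :=
    Finset.card_sdiff_comm (card_Nb_eq hprim x y u).symm
  have hdis : Disjoint (Nb G x y x \ Nb G x y u) (Nb G x y u \ Nb G x y x) :=
    Finset.disjoint_left.2 (fun a ha hb => (Finset.mem_sdiff.1 ha).2 (Finset.mem_sdiff.1 hb).1)
  have hsub : (Nb G x y x \ Nb G x y u) ∪ (Nb G x y u \ Nb G x y x) ⊆ Dist G x u := by
    intro z hz
    rw [mem_Dist]
    rintro ⟨h, h1, h2⟩
    rcases Finset.mem_union.1 hz with hz | hz
    · obtain ⟨hz1, hz2⟩ := Finset.mem_sdiff.1 hz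
      rw [mem_Nb] at hz1
      apply hz2
      rw [mem_Nb]
      have := hz1.smul h
      rwa [h1, h2] at this
    · obtain ⟨hz1, hz2⟩ := Finset.mem_sdiff.1 hz
      rw [mem_Nb] at hz1
      apply hz2
      rw [mem_Nb]
      have := hz1.smul h⁻¹
      rw [← h1] at this
      simp only [inv_smul_smul] at this
      have h3 : h⁻¹ • z = z := by
        nth_rewrite 1 [← h2]
        rw [inv_smul_smul]
      rwa [h3] at this
  have := Finset.card_le_card hsub
  rw [Finset.card_union_of_disjoint hdis] at this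
  unfold dd
  omega

theorem babai_core (hprim : IsPreprimitive G Ω) {x y w : Ω} (hxy : x ≠ y)
    (hwx : x ≠ w) (hw : w ∉ Nb G x y x) :
    Fintype.card Ω ≤ (2 * dd G x y + 1) ^ 2 := by
  set N := Nb G x y x with hN
  set k := N.card with hk
  set q := dd G x y with hq
  set n := Fintype.card Ω with hn
  have h1 : n - 1 ≤ k * q := card_sub_one_le hprim hxy
  by_cases hkq : k ≤ 2 * q + 1
  · have h2 : n ≤ k * q + 1 := by omega
    have h3 : k * q ≤ (2 * q + 1) * q := Nat.mul_le_mul_right _ hkq
    nlinarith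
  push Not at hkq
  -- adjacency
  have hadj : ∀ u v, Edge G x y u v → dd G u v = q := fun u v h => dd_of_Edge h
  have hint : ∀ u, (N ∩ Nb G x y u).card + (N \ Nb G x y u).card = k := by
    intro u
    exact Finset.card_inter_add_card_sdiff _ _
  -- closure of P
  have hPu : ∀ u, (N ∩ Nb G x y u).Nonempty := by
    intro t
    refine closed_univ (G := G) hprim hxy {u | (N ∩ Nb G x y u).Nonempty} (w := x) ?_ ?_ t
    · show (N ∩ Nb G x y x).Nonempty
      have h0 : N ∩ Nb G x y x = N := Finset.inter_self N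
      rw [h0]
      apply Finset.card_pos.1
      show 0 < k
      omega
    · rintro u v huv ⟨z, hz⟩
      obtain ⟨hz1, hz2⟩ := Finset.mem_inter.1 hz
      rw [hN, mem_Nb] at hz1
      rw [mem_Nb] at hz2
      have hd1 : dd G x u ≤ 2 * q := by
        have h3 := dd_triangle (G := G) x z u
        rw [dd_comm z u, hadj _ _ hz1, hadj _ _ hz2] at h3
        omega
      have hd2 : dd G x v ≤ 3 * q := by
        have h3 := dd_triangle (G := G) x u v
        rw [hadj _ _ huv] at h3
        omega
      have h4 := two_sdiff_le hprim x y v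
      have h5 := hint v
      by_contra hcon
      have h6 : (N ∩ Nb G x y v).card = 0 := by
        rw [Finset.card_eq_zero]
        exact Finset.not_nonempty_iff_eq_empty.1 hcon
      have h7 : (N \ Nb G x y v).card = k := by omega
      have h8 : 2 * (Nb G x y x \ Nb G x y v).card = 2 * k := by rw [← hN, h7]
      omega
  have hdall : ∀ u, dd G x u ≤ 2 * q := by
    intro u
    obtain ⟨z, hz⟩ := hPu u
    obtain ⟨hz1, hz2⟩ := Finset.mem_inter.1 hz
    rw [hN, mem_Nb] at hz1
    rw [mem_Nb] at hz2
    have h3 := dd_triangle (G := G) x z u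
    rw [dd_comm z u, hadj _ _ hz1, hadj _ _ hz2] at h3
    omega
  have hinter : ∀ u, k ≤ (N ∩ Nb G x y u).card + q := by
    intro u
    have h4 := two_sdiff_le hprim x y u
    have h5 := hint u
    have h6 := hdall u
    have h7 : 2 * (N \ Nb G x y u).card ≤ 2 * q := le_trans h4 h6
    omega
  have hsum : n * (k - q) ≤ k * k := by
    have h2 : ∑ u : Ω, (N ∩ Nb G x y u).card = k * k := sum_inter hprim x y
    rw [← h2]
    have h3 : ∑ _u : Ω, (k - q) ≤ ∑ u : Ω, (N ∩ Nb G x y u).card :=
      Finset.sum_le_sum (fun u _ => by have := hinter u; omega)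
    simpa using h3
  -- the other colour
  set N' := Nb G x w x with hN'
  set k' := N'.card with hk'
  have hcard : k + k' + 1 ≤ n := by
    have hd : Disjoint N N' := by
      rw [Finset.disjoint_left]
      intro v hv hv'
      rw [hN, mem_Nb] at hv
      rw [hN', mem_Nb] at hv'
      obtain ⟨h1, h11, h12⟩ := hv
      obtain ⟨h2, h21, h22⟩ := hv'
      apply hw
      rw [mem_Nb]
      refine ⟨h2⁻¹ * h1, ?_, ?_⟩
      · rw [mul_smul, h11, ← h21, inv_smul_smul, h21]
      · rw [mul_smul, h12, ← h22, inv_smul_smul]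
    have hxN : x ∉ N ∪ N' := by
      intro hx
      rcases Finset.mem_union.1 hx with hx | hx
      · rw [hN, mem_Nb] at hx
        obtain ⟨h, h1, h2⟩ := hx
        apply hxy
        have : h • x = h • y := by rw [h1, h2]
        exact smul_left_cancel h this
      · rw [hN', mem_Nb] at hx
        obtain ⟨h, h1, h2⟩ := hx
        apply hwx
        have : h • x = h • w := by rw [h1, h2]
        exact smul_left_cancel h this
    have := Finset.card_le_univ (insert x (N ∪ N'))
    rw [Finset.card_insert_of_notMem hxN, Finset.card_union_of_disjoint hd] at this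
    omega
  have h2 : n - 1 ≤ k' * dd G x w := card_sub_one_le hprim hwx
  have h3 : dd G x w ≤ 2 * q := hdall w
  obtain ⟨s, hs⟩ : ∃ s, k = q + s := ⟨k - q, by omega⟩
  have hs2 : k - q = s := by omega
  rw [hs2] at hsum
  have hs3 : q + 2 ≤ s := by omega
  have hk'le : k' ≤ 2 * q := by
    by_contra hcon
    push Not at hcon
    have h4 : (q + s + 2 * q + 2) * s ≤ n * s := by
      apply Nat.mul_le_mul_right
      omega
    have h5 : n * s ≤ (q + s) * (q + s) := by rw [← hs]; exact hsum
    nlinarith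
  have h4 : k' * dd G x w ≤ 2 * q * (2 * q) := Nat.mul_le_mul hk'le h3
  have h5 : n ≤ 2 * q * (2 * q) + 1 := by omega
  nlinarith


/-- a translate avoiding a small set. -/
lemma exists_avoid {H : Type*} [Group H] [Finite H] [MulAction H Ω] (A Y : Finset Ω)
    (hAY : A ⊆ Y) (htr : ∀ a ∈ Y, ∀ b ∈ Y, ∃ h : H, h • a = b)
    (hcard : A.card * A.card < Y.card) : ∃ h : H, ∀ a ∈ A, h • a ∉ A := by
  haveI := Fintype.ofFinite H
  have hbad : ∀ a ∈ A, ∀ b ∈ A,
      (Finset.univ.filter (fun h : H => h • a = b)).card * Y.card ≤ Fintype.card H := by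
    intro a ha b hb
    have hle : ∀ b' ∈ Y, (Finset.univ.filter (fun h : H => h • a = b)).card
        ≤ (Finset.univ.filter (fun h : H => h • a = b')).card := by
      intro b' hb'
      obtain ⟨k, hk⟩ := htr b (hAY hb) b' hb'
      refine Finset.card_le_card_of_injOn (fun h => k * h) ?_ ?_
      · intro h hh
        simp only [Finset.coe_filter, Finset.mem_univ, true_and, Set.mem_setOf_eq] at hh ⊢
        rw [mul_smul, hh, hk]
      · intro u _ v _ huv
        exact mul_left_cancel huv
    have hdisj : (Finset.univ.filter (fun h : H => h • a ∈ Y)).card ≤ Fintype.card H :=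
      Finset.card_le_univ _
    have hfib : ∑ b' ∈ Y, (Finset.univ.filter (fun h : H => h • a = b')).card
        = (Finset.univ.filter (fun h : H => h • a ∈ Y)).card := by
      rw [Finset.card_eq_sum_card_fiberwise (f := fun h : H => h • a) (t := Y)]
      · apply Finset.sum_congr rfl
        intro b' hb'
        congr 1
        ext h
        simp only [Finset.mem_filter, Finset.mem_univ, true_and]
        constructor
        · intro hh; exact ⟨hh ▸ hb', hh⟩
        · intro hh; exact hh.2
      · intro h hh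
        simpa using hh
    calc (Finset.univ.filter (fun h : H => h • a = b)).card * Y.card
        = ∑ _b' ∈ Y, (Finset.univ.filter (fun h : H => h • a = b)).card := by
          simp [mul_comm]
      _ ≤ ∑ b' ∈ Y, (Finset.univ.filter (fun h : H => h • a = b')).card :=
          Finset.sum_le_sum hle
      _ ≤ Fintype.card H := by rw [hfib]; exact hdisj
  by_contra hcon
  push Not at hcon
  have hsub : (Finset.univ : Finset H) ⊆
      A.biUnion (fun a => A.biUnion (fun b => Finset.univ.filter (fun h : H => h • a = b))) := by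
    intro h _
    obtain ⟨a, ha, hab⟩ := hcon h
    simp only [Finset.mem_biUnion, Finset.mem_filter, Finset.mem_univ, true_and]
    exact ⟨a, ha, _, hab, rfl⟩
  have h1 : Fintype.card H * Y.card ≤ (A.card * A.card) * Fintype.card H := by
    have h2 := Finset.card_le_card hsub
    rw [Finset.card_univ] at h2
    have h3 : (A.biUnion (fun a => A.biUnion
        (fun b => Finset.univ.filter (fun h : H => h • a = b)))).card * Y.card
        ≤ ∑ a ∈ A, ∑ b ∈ A,
          (Finset.univ.filter (fun h : H => h • a = b)).card * Y.card := by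
      simp only [← Finset.sum_mul]
      apply Nat.mul_le_mul_right
      refine le_trans Finset.card_biUnion_le (Finset.sum_le_sum fun a _ => ?_)
      exact Finset.card_biUnion_le
    have h4 : ∑ a ∈ A, ∑ b ∈ A, (Finset.univ.filter (fun h : H => h • a = b)).card * Y.card
        ≤ ∑ _a ∈ A, ∑ _b ∈ A, Fintype.card H :=
      Finset.sum_le_sum fun a ha => Finset.sum_le_sum fun b hb => hbad a ha b hb
    have h5 : ∑ _a ∈ A, ∑ _b ∈ A, Fintype.card H = (A.card * A.card) * Fintype.card H := by
      simp [mul_assoc]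
    calc Fintype.card H * Y.card ≤ _ := Nat.mul_le_mul_right _ h2
      _ ≤ _ := h3
      _ ≤ _ := h4
      _ = _ := h5
  have hpos : 0 < Fintype.card H := Fintype.card_pos
  have h6 : Y.card ≤ A.card * A.card := by
    rw [mul_comm] at h1
    exact Nat.le_of_mul_le_mul_right h1 hpos
  omega

/-- two permutations whose supports meet in one point have a 3-cycle as commutator. -/
lemma perm_apply_inv (σ : Equiv.Perm Ω) (w : Ω) : σ (σ⁻¹ w) = w := σ.apply_symm_apply w
lemma perm_inv_apply (σ : Equiv.Perm Ω) (w : Ω) : σ⁻¹ (σ w) = w := σ.symm_apply_apply w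

lemma threeCycle_of_inter (σ τ : Equiv.Perm Ω) (α : Ω) (hσ : σ α ≠ α) (hτ : τ α ≠ α)
    (hi : ∀ w, σ w ≠ w → τ w ≠ w → w = α) : (σ * τ * σ⁻¹ * τ⁻¹).IsThreeCycle := by
  have hfix1 : ∀ w, w ≠ α → σ w ≠ w → τ w = w := by
    intro w h1 h2
    by_contra h3
    exact h1 (hi w h2 h3)
  have hfix2 : ∀ w, w ≠ α → τ w ≠ w → σ w = w := by
    intro w h1 h2
    by_contra h3
    exact h1 (hi w h3 h2)
  have hσ2 : ∀ w, σ w ≠ w → σ (σ w) ≠ σ w := fun w h h2 => h (σ.injective h2)
  have hτ2 : ∀ w, τ w ≠ w → τ (τ w) ≠ τ w := fun w h h2 => h (τ.injective h2)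
  have hne : σ α ≠ τ α := by
    intro h
    have h1 := hfix1 (σ α) hσ (hσ2 α hσ)
    rw [h] at h1
    exact hτ2 α hτ h1
  have hsi : σ⁻¹ α ≠ α := by
    intro h
    apply hσ
    nth_rewrite 1 [← h]
    simp
  have hti : τ⁻¹ α ≠ α := by
    intro h
    apply hτ
    nth_rewrite 1 [← h]
    simp
  have hτsi : τ (σ⁻¹ α) = σ⁻¹ α := by
    apply hfix1 _ hsi
    simpa using hsi.symm
  have hσti : σ (τ⁻¹ α) = τ⁻¹ α := by
    apply hfix2 _ hti
    simpa using hti.symm
  have hσti' : σ⁻¹ (τ⁻¹ α) = τ⁻¹ α := by
    rw [Equiv.Perm.inv_eq_iff_eq]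
    exact hσti.symm
  have key : σ * τ * σ⁻¹ * τ⁻¹ = Equiv.swap α (τ α) * Equiv.swap α (σ α) := by
    ext w
    simp only [Equiv.Perm.mul_apply]
    by_cases h1 : w = α
    · subst h1
      rw [hσti', perm_apply_inv, Equiv.swap_apply_left,
        Equiv.swap_apply_of_ne_of_ne hσ hne]
    by_cases h2 : w = σ w ∧ False
    · exact absurd h2.2 id
    by_cases h3 : w = σ α
    · subst h3
      have h4 : τ⁻¹ (σ α) = σ α := by
        rw [Equiv.Perm.inv_eq_iff_eq]
        exact (hfix1 _ hσ (hσ2 α hσ)).symm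
      rw [h4, perm_inv_apply, hfix2 _ hτ (hτ2 α hτ), Equiv.swap_apply_right,
        Equiv.swap_apply_left]
    by_cases h5 : w = τ α
    · subst h5
      rw [perm_inv_apply, hτsi, perm_apply_inv,
        Equiv.swap_apply_of_ne_of_ne hτ (Ne.symm hne), Equiv.swap_apply_right]
    rw [Equiv.swap_apply_of_ne_of_ne h1 h3, Equiv.swap_apply_of_ne_of_ne h1 h5]
    by_cases h6 : τ w = w
    · have h7 : τ⁻¹ w = w := by
        rw [Equiv.Perm.inv_eq_iff_eq]
        exact h6.symm
      rw [h7]
      by_cases h8 : σ w = w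
      · have h9 : σ⁻¹ w = w := by
          rw [Equiv.Perm.inv_eq_iff_eq]
          exact h8.symm
        rw [h9, h6, h8]
      · have h9 : σ⁻¹ w ≠ α := by
          intro h
          apply h3
          rw [← h]
          simp
        have h10 : σ (σ⁻¹ w) ≠ σ⁻¹ w := by
          simp only [perm_apply_inv]
          intro h
          apply h8
          nth_rewrite 1 [h]
          simp
        rw [hfix1 _ h9 h10, perm_apply_inv]
    · have h7 : τ⁻¹ w ≠ α := by
        intro h
        apply h5
        rw [← h]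
        simp
      have h8 : τ (τ⁻¹ w) ≠ τ⁻¹ w := by
        simp only [perm_apply_inv]
        intro h
        apply h6
        nth_rewrite 1 [h]
        simp
      have h9 := hfix2 _ h7 h8
      have h10 : σ⁻¹ (τ⁻¹ w) = τ⁻¹ w := by
        rw [Equiv.Perm.inv_eq_iff_eq]
        exact h9.symm
      rw [h10, perm_apply_inv, hfix2 _ h1 h6]
  rw [key]
  exact Equiv.Perm.isThreeCycle_swap_mul_swap_same hτ.symm hσ.symm hne.symm

/-- the set of moved points of `g`. -/
noncomputable def moved (g : G) : Finset Ω := Finset.univ.filter (fun z => g • z ≠ z)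

lemma mem_moved {g : G} {z : Ω} : z ∈ moved g ↔ g • z ≠ z := by simp [moved]

lemma dd_le_moved (g : G) (x : Ω) : dd G x (g • x) ≤ (moved g : Finset Ω).card := by
  apply Finset.card_le_card
  intro z hz
  rw [mem_Dist] at hz
  rw [mem_moved]
  intro h
  exact hz ⟨g, rfl, h⟩

theorem two_trans_case (hprim : IsPreprimitive G Ω)
    (hT : ∀ x y w : Ω, x ≠ y → x ≠ w → ∃ h : G, h • x = x ∧ h • y = w)
    (hA : ¬ alternatingGroup Ω ≤ (MulAction.toPermHom G Ω).range) (g : G) (α : Ω)
    (hα : g • α ≠ α) : Fintype.card Ω ≤ (2 * (moved g : Finset Ω).card + 1) ^ 2 := by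
  by_contra hcon
  push Not at hcon
  apply hA
  set S : Finset Ω := moved g with hS
  have hαS : α ∈ S := mem_moved.2 hα
  set S' := S.erase α with hS'
  have hcS' : S'.card + 1 = S.card := Finset.card_erase_add_one hαS
  set Y : Finset Ω := Finset.univ.erase α with hY
  have hcY : Y.card + 1 = Fintype.card Ω := by
    rw [hY, Finset.card_erase_add_one (Finset.mem_univ α)]
    rfl
  have hsub : S' ⊆ Y := fun a ha =>
    Finset.mem_erase.2 ⟨Finset.ne_of_mem_erase ha, Finset.mem_univ a⟩
  have hc : S'.card * S'.card < Y.card := by nlinarith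
  obtain ⟨⟨h, hh⟩, hgood⟩ := exists_avoid (H := stabilizer G α) S' Y hsub (by
    intro a ha b hb
    obtain ⟨k, hk1, hk2⟩ := hT α a b (Finset.ne_of_mem_erase ha).symm
      (Finset.ne_of_mem_erase hb).symm
    exact ⟨⟨k, hk1⟩, hk2⟩) hc
  have hhα : h • α = α := hh
  simp only [Subgroup.mk_smul] at hgood
  set τ : G := h * g * h⁻¹ with hτ
  have h3 := threeCycle_of_inter (MulAction.toPermHom G Ω g) (MulAction.toPermHom G Ω τ) α
    (by simpa using hα) (by
      simp only [MulAction.toPermHom_apply, MulAction.toPerm_apply]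
      rw [hτ, mul_smul, mul_smul]
      have : h⁻¹ • α = α := by
        nth_rewrite 1 [← hhα]
        rw [inv_smul_smul]
      rw [this]
      intro h5
      apply hα
      nth_rewrite 2 [← hhα] at h5
      exact smul_left_cancel h h5) (by
      intro w h1 h2
      simp only [MulAction.toPermHom_apply, MulAction.toPerm_apply] at h1 h2
      have hw : w ∈ S := mem_moved.2 h1
      have hu : h⁻¹ • w ∈ S := by
        rw [mem_moved]
        intro h5
        apply h2
        rw [hτ, mul_smul, mul_smul, h5, smul_inv_smul]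
      by_cases h6 : h⁻¹ • w = α
      · have h9 : w = h • α := by rw [← h6, smul_inv_smul]
        rw [h9, hhα]
      · have h7 : h⁻¹ • w ∈ S' := Finset.mem_erase.2 ⟨h6, hu⟩
        have h8 := hgood _ h7
        rw [smul_inv_smul] at h8
        by_contra h9
        exact h8 (Finset.mem_erase.2 ⟨h9, hw⟩))
  have hmem : (MulAction.toPermHom G Ω g) * (MulAction.toPermHom G Ω τ)
      * (MulAction.toPermHom G Ω g)⁻¹ * (MulAction.toPermHom G Ω τ)⁻¹
      ∈ (MulAction.toPermHom G Ω).range :=
    ⟨g * τ * g⁻¹ * τ⁻¹, by simp [map_mul, map_inv]⟩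
  have hpr : IsPreprimitive (MulAction.toPermHom G Ω).range Ω := by
    let φ : G → (MulAction.toPermHom G Ω).range := (MulAction.toPermHom G Ω).rangeRestrict
    let f : Ω →ₑ[φ] Ω := ⟨id, fun _ _ => rfl⟩
    exact IsPreprimitive.of_surjective (f := f) Function.surjective_id
  exact Equiv.Perm.alternatingGroup_le_of_isPreprimitive_of_isThreeCycle_mem hpr h3 hmem

theorem main_bound (hprim : IsPreprimitive G Ω)
    (hA : ¬ alternatingGroup Ω ≤ (MulAction.toPermHom G Ω).range) (g : G) (α : Ω)
    (hα : g • α ≠ α) : Fintype.card Ω ≤ (2 * (moved g : Finset Ω).card + 1) ^ 2 := by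
  by_cases hT : ∀ x y w : Ω, x ≠ y → x ≠ w → ∃ h : G, h • x = x ∧ h • y = w
  · exact two_trans_case hprim hT hA g α hα
  haveI := hprim.toIsPretransitive
  -- a pair with minimal distinguishing number
  have hne : (Finset.univ.filter (fun p : Ω × Ω => p.1 ≠ p.2)).Nonempty :=
    ⟨(α, g • α), by simpa using hα.symm⟩
  obtain ⟨⟨x, y⟩, hp, hmin⟩ := Finset.exists_min_image _ (fun p : Ω × Ω => dd G p.1 p.2) hne
  simp only [Finset.mem_filter, Finset.mem_univ, true_and] at hp hmin
  -- another colour at x
  have hw : ∃ w, x ≠ w ∧ w ∉ Nb G x y x := by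
    by_contra hcon
    push Not at hcon
    apply hT
    intro x0 y0 w0 h1 h2
    obtain ⟨a, rfl⟩ := MulAction.exists_smul_eq G x x0
    have h3 : x ≠ a⁻¹ • y0 := by
      intro h
      apply h1
      rw [h, smul_inv_smul]
    have h4 : x ≠ a⁻¹ • w0 := by
      intro h
      apply h2
      rw [h, smul_inv_smul]
    obtain ⟨k1, hk11, hk12⟩ := mem_Nb.1 (hcon _ h3)
    obtain ⟨k2, hk21, hk22⟩ := mem_Nb.1 (hcon _ h4)
    refine ⟨a * k2 * k1⁻¹ * a⁻¹, ?_, ?_⟩
    · simp only [mul_smul, inv_smul_smul]
      have : k1⁻¹ • x = x := by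
        nth_rewrite 1 [← hk11]
        rw [inv_smul_smul]
      rw [this, hk21]
    · simp only [mul_smul]
      rw [← hk12, inv_smul_smul, hk22, smul_inv_smul]
  obtain ⟨w, hw1, hw2⟩ := hw
  have h1 := babai_core hprim hp hw1 hw2
  have h2 : dd G x y ≤ dd G α (g • α) := hmin (α, g • α) hα.symm
  have h3 := dd_le_moved g α
  calc Fintype.card Ω ≤ (2 * dd G x y + 1) ^ 2 := h1
    _ ≤ _ := by
      apply Nat.pow_le_pow_left
      omega

end main

end Cfsg.Agent.H19.Babai
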