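import Mathlib

/-! Camina pairs: abstract lemmas on actions (helper19). -/

set_option autoImplicit false

namespace Cfsg.Agent.H19.Camina

open Subgroup

lemma norm_trivial {W : Type*} [CommGroup W] {p : ℕ} (γ : MulAut W) (hγ : γ ^ p = 1)
    (hfix : ∀ w, γ w = w → w = 1) (w : W) : ∏ i ∈ Finset.range p, (γ ^ i) w = 1 := by
  apply hfix
  rw [map_prod]
  have h1 : ∀ i, γ ((γ ^ i) w) = (γ ^ (i + 1)) w := fun i => by
    rw [pow_succ']; rfl
  simp_rw [h1]
  have h2 := Finset.prod_range_succ (fun i => (γ ^ i) w) p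
  have h3 := Finset.prod_range_succ' (fun i => (γ ^ i) w) p
  rw [h3] at h2
  simp only [pow_zero, hγ] at h2
  exact mul_right_cancel h2

lemma abs_rank2 {W : Type*} [CommGroup W] {p : ℕ} (hp : p.Prime) (α β : MulAut W)
    (hc : Commute α β) (hα : α ^ p = 1) (hβ : β ^ p = 1)
    (hfp : ∀ i j : ℕ, ¬ (p ∣ i ∧ p ∣ j) → ∀ w, (α ^ i * β ^ j) w = w → w = 1) (w : W) :
    w ^ p = 1 := by
  have h1 : ∀ j, ∏ i ∈ Finset.range p, ((α * β ^ j) ^ i) w = 1 := by
    intro j
    apply norm_trivial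
    · rw [(hc.pow_right j).mul_pow, hα, one_mul, pow_right_comm, hβ, one_pow]
    · intro w' hw'
      refine hfp 1 j (fun h => hp.one_lt.ne' (Nat.dvd_one.1 h.1)) w' ?_
      rw [pow_one]
      exact hw'
  have h2 : ∀ i, i ∈ Finset.range p → i ≠ 0 → ∏ j ∈ Finset.range p, ((β ^ i) ^ j) w = 1 := by
    intro i hi hi0
    apply norm_trivial
    · rw [pow_right_comm, hβ, one_pow]
    · intro w' hw'
      refine hfp 0 i (fun h => ?_) w' ?_
      · have := Nat.le_of_dvd (Nat.pos_of_ne_zero hi0) h.2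
        exact absurd (Finset.mem_range.1 hi) (by omega)
      · rw [pow_zero, one_mul]
        exact hw'
  have h3 : ∏ j ∈ Finset.range p, ∏ i ∈ Finset.range p, ((α * β ^ j) ^ i) w = 1 :=
    Finset.prod_eq_one (fun j _ => h1 j)
  rw [Finset.prod_comm] at h3
  have h4 : ∀ i j, ((α * β ^ j) ^ i) w = (α ^ i) (((β ^ i) ^ j) w) := by
    intro i j
    rw [(hc.pow_right j).mul_pow, pow_right_comm]
    rfl
  simp_rw [h4, ← map_prod] at h3
  rw [Finset.prod_eq_single 0] at h3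
  · simpa using h3
  · intro i hi hi0
    rw [h2 i hi hi0, map_one]
  · intro h
    exact absurd (Finset.mem_range.2 hp.pos) h

variable {G : Type*} [Group G]

/-- internal form of the rank two lemma -/
theorem rank2 [Finite G] (W : Subgroup G) (hW : ∀ x ∈ W, ∀ y ∈ W, x * y = y * x) {p : ℕ} (hp : p.Prime)
    (hcop : Nat.Coprime p (Nat.card W)) (a b : G) (ha : ∀ w ∈ W, a * w * a⁻¹ ∈ W)
    (hb : ∀ w ∈ W, b * w * b⁻¹ ∈ W)
    (hab : ∀ w ∈ W, (a * b) * w * (a * b)⁻¹ = (b * a) * w * (b * a)⁻¹)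
    (hap : ∀ w ∈ W, a ^ p * w * (a ^ p)⁻¹ = w)
    (hbp : ∀ w ∈ W, b ^ p * w * (b ^ p)⁻¹ = w)
    (hfp : ∀ i j : ℕ, ¬ (p ∣ i ∧ p ∣ j) → ∀ w ∈ W, (a ^ i * b ^ j) * w * (a ^ i * b ^ j)⁻¹ = w → w = 1) :
    W = ⊥ := by
  letI : CommGroup W := { (inferInstance : Group W) with
    mul_comm := fun x y => Subtype.ext (hW x x.2 y y.2) }
  have hnorm : ∀ c : G, (∀ w ∈ W, c * w * c⁻¹ ∈ W) → c ∈ normalizer (W : Set G) := by
    intro c hc
    rw [mem_normalizer_iff]
    intro w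
    constructor
    · exact hc w
    · intro hw
      -- finite: injective conjugation maps `W` onto itself
      have hinj : Function.Injective (fun x : W => (⟨c * x * c⁻¹, hc x x.2⟩ : W)) := by
        intro x y hxy
        have h1 : c * (x : G) * c⁻¹ = c * y * c⁻¹ := congrArg Subtype.val hxy
        apply Subtype.ext
        simpa using h1
      obtain ⟨x, hx⟩ := (Finite.injective_iff_surjective.1 hinj) ⟨c * w * c⁻¹, hw⟩
      have h1 : c * (x : G) * c⁻¹ = c * w * c⁻¹ := congrArg Subtype.val hx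
      have h2 : (x : G) = w := by simpa using h1
      rw [← h2]
      exact x.2
  let φ := W.normalizerMonoidHom
  let a' : normalizer (W : Set G) := ⟨a, hnorm a ha⟩
  let b' : normalizer (W : Set G) := ⟨b, hnorm b hb⟩
  have hφ : ∀ (c : normalizer (W : Set G)) (w : W), ((φ c w : W) : G) = c * w * (c : G)⁻¹ := by
    intro c w
    rfl
  have hinjW : Function.Injective (fun x : MulAut W => x) := fun _ _ h => h
  have hpow : ∀ w : W, w ^ p = 1 := by
    intro w
    apply abs_rank2 hp (φ a') (φ b')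
    · apply Commute.symm
      show φ b' * φ a' = φ a' * φ b'
      rw [← map_mul, ← map_mul]
      ext x
      rw [hφ, hφ]
      exact (hab x x.2).symm
    · rw [← map_pow]
      ext x
      rw [hφ]
      exact hap x x.2
    · rw [← map_pow]
      ext x
      rw [hφ]
      exact hbp x x.2
    · intro i j hij w' hw'
      rw [← map_pow, ← map_pow, ← map_mul] at hw'
      have h1 := congrArg Subtype.val hw'
      rw [hφ] at h1
      have h2 := hfp i j hij w' w'.2 h1
      exact Subtype.ext h2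
  rw [eq_bot_iff]
  intro w hw
  have h1 := congrArg Subtype.val (hpow ⟨w, hw⟩)
  have h2 : w ^ p = 1 := h1
  have h3 : orderOf w ∣ p := orderOf_dvd_of_pow_eq_one h2
  have h4 : orderOf w ∣ Nat.card W := by
    have := orderOf_dvd_natCard (⟨w, hw⟩ : W)
    rwa [Subgroup.orderOf_mk] at this
  have h5 := Nat.eq_one_of_dvd_coprimes hcop h3 h4
  exact mem_bot.2 (orderOf_eq_one_iff.1 h5)

/-- `Rank2 X p`: `X` contains a Klein-type subgroup `C_p × C_p`. -/
def Rank2 (X : Type*) [Group X] (p : ℕ) : Prop :=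
  ∃ a b : X, a ^ p = 1 ∧ b ^ p = 1 ∧ Commute a b ∧ ∀ i j : ℕ, a ^ i * b ^ j = 1 → p ∣ i ∧ p ∣ j

/-- abstract `F6`. -/
theorem rank2_of_centralizers {X : Type*} [Group X] [Finite X] {p : ℕ} (hp : p.Prime)
    (hpX : p ∣ Nat.card X)
    (h : ∀ x : X, x ≠ 1 → (∃ k : ℕ, x ^ p ^ k = 1) →
      p * orderOf x ∣ Nat.card (centralizer ({x} : Set X))) : Rank2 X p := by
  classical
  haveI : Fact p.Prime := ⟨hp⟩
  -- a `p`-element of maximal order
  let S : Set ℕ := {n | ∃ x : X, x ≠ 1 ∧ (∃ k : ℕ, x ^ p ^ k = 1) ∧ orderOf x = n}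
  have hS0 : S.Nonempty := by
    obtain ⟨x, hx⟩ := exists_prime_orderOf_dvd_card' p hpX
    refine ⟨p, x, ?_, ⟨1, by rw [pow_one, ← hx, pow_orderOf_eq_one]⟩, hx⟩
    rintro rfl
    rw [orderOf_one] at hx
    exact hp.one_lt.ne hx
  have hSb : BddAbove S := ⟨Nat.card X, by
    rintro n ⟨x, -, -, rfl⟩
    exact Nat.le_of_dvd Nat.card_pos (orderOf_dvd_natCard x)⟩
  obtain ⟨x, hx1, hxp, hxo⟩ := Nat.sSup_mem hS0 hSb
  have hmax : ∀ y : X, y ≠ 1 → (∃ k : ℕ, y ^ p ^ k = 1) → orderOf y ≤ orderOf x := by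
    intro y hy hyp
    rw [hxo]
    exact le_csSup hSb ⟨y, hy, hyp, rfl⟩
  obtain ⟨kx, hkx⟩ := hxp
  have hox : ∃ a, orderOf x = p ^ a := by
    obtain ⟨a, -, ha⟩ := (Nat.dvd_prime_pow hp).1 (orderOf_dvd_of_pow_eq_one hkx)
    exact ⟨a, ha⟩
  obtain ⟨a, ha⟩ := hox
  have ha0 : a ≠ 0 := by
    rintro rfl
    rw [pow_zero, orderOf_eq_one_iff] at ha
    exact hx1 ha
  -- an element of the centralizer outside `⟨x⟩`
  let T : Set ℕ := {n | ∃ y : X, y ∈ centralizer ({x} : Set X) ∧ (∃ k : ℕ, y ^ p ^ k = 1) ∧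
    y ∉ zpowers x ∧ orderOf y = n}
  have hT0 : T.Nonempty := by
    have hd := h x hx1 ⟨kx, hkx⟩
    rw [ha, ← pow_succ'] at hd
    obtain ⟨Q, hQ⟩ := Sylow.exists_subgroup_card_pow_prime p hd
    have hQp : IsPGroup p Q := IsPGroup.of_card hQ
    have hlt : ¬ Q ≤ (zpowers (⟨x, mem_centralizer_singleton_iff.2 rfl⟩ :
        centralizer ({x} : Set X))) := by
      intro hle
      have h1 := Subgroup.card_le_of_le hle
      rw [hQ, Nat.card_zpowers, Subgroup.orderOf_mk, ha] at h1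
      have := Nat.pow_lt_pow_succ hp.one_lt (n := a)
      omega
    obtain ⟨y, hyQ, hy⟩ := SetLike.not_le_iff_exists.1 hlt
    obtain ⟨k, hk⟩ := hQp ⟨y, hyQ⟩
    refine ⟨orderOf (y : X), (y : X), y.2, ⟨k, ?_⟩, ?_, rfl⟩
    · have h1 := congrArg (fun z => ((z : Q) : centralizer ({x} : Set X)) : Q → centralizer ({x} : Set X)) hk
      have h2 := congrArg Subtype.val h1
      simpa using h2
    · intro hmem
      apply hy
      obtain ⟨n, hn⟩ := mem_zpowers_iff.1 hmem
      refine mem_zpowers_iff.2 ⟨n, Subtype.ext ?_⟩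
      simpa using hn
  classical
  obtain ⟨n, hn, hmin⟩ : ∃ n ∈ T, ∀ m ∈ T, n ≤ m := ⟨sInf T, Nat.sInf_mem hT0, fun m hm => Nat.sInf_le hm⟩
  obtain ⟨y, hyC, ⟨ky, hky⟩, hyx, hyn⟩ := hn
  have hy1 : y ≠ 1 := fun h1 => hyx (h1 ▸ one_mem _)
  have hcomm : Commute y x := mem_centralizer_singleton_iff.1 hyC
  -- `y ^ p` lies in `⟨x⟩`
  have hoy : ∃ b, orderOf y = p ^ b := by
    obtain ⟨b, -, hb⟩ := (Nat.dvd_prime_pow hp).1 (orderOf_dvd_of_pow_eq_one hky)
    exact ⟨b, hb⟩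
  obtain ⟨b, hb⟩ := hoy
  have hb0 : b ≠ 0 := by
    rintro rfl
    rw [pow_zero, orderOf_eq_one_iff] at hb
    exact hy1 hb
  have hyp : y ^ p ∈ zpowers x := by
    by_contra hcon
    have hmem : orderOf (y ^ p) ∈ T := ⟨y ^ p, pow_mem hyC p, ⟨ky, by
      rw [← pow_mul, mul_comm, pow_mul, hky, one_pow]⟩, hcon, rfl⟩
    have h1 := hmin _ hmem
    have h2 : orderOf (y ^ p) = p ^ (b - 1) := by
      have h3 : p ^ b = p * p ^ (b - 1) := by
        rw [← pow_succ']
        congr 1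
        omega
      rw [orderOf_pow_of_dvd hp.ne_zero (by rw [hb]; exact dvd_pow_self p hb0), hb, h3,
        Nat.mul_div_cancel_left _ hp.pos]
    rw [h2, ← hyn, hb] at h1
    have := Nat.pow_le_pow_iff_right hp.one_lt |>.1 h1
    omega
  have hy2 : orderOf (y ^ p) = p ^ (b - 1) := by
    have h3 : p ^ b = p * p ^ (b - 1) := by
      rw [← pow_succ']
      congr 1
      omega
    rw [orderOf_pow_of_dvd hp.ne_zero (by rw [hb]; exact dvd_pow_self p hb0), hb, h3,
      Nat.mul_div_cancel_left _ hp.pos]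
  obtain ⟨k, hk⟩ : ∃ k : ℕ, x ^ k = y ^ p := mem_powers_iff_mem_zpowers.2 hyp
  have hpk : p ∣ k := by
    by_contra hcon
    have hc : (orderOf x).Coprime k := by
      rw [ha]
      exact Nat.Coprime.pow_left a ((Nat.Prime.coprime_iff_not_dvd hp).2 hcon)
    have h1 : orderOf (x ^ k) = orderOf x := Nat.Coprime.orderOf_pow hc
    rw [hk, hy2, ha] at h1
    have h2 : b - 1 = a := Nat.pow_right_injective hp.two_le h1
    have h3 := hmax y hy1 ⟨ky, hky⟩
    rw [hb, ha] at h3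
    have h4 := Nat.pow_le_pow_iff_right hp.one_lt |>.1 h3
    omega
  obtain ⟨k', rfl⟩ := hpk
  let b' : X := y * (x ^ k')⁻¹
  let a' : X := x ^ p ^ (a - 1)
  have hcb : Commute y ((x ^ k')⁻¹) := (hcomm.pow_right k').inv_right
  have hb'p : b' ^ p = 1 := by
    show (y * (x ^ k')⁻¹) ^ p = 1
    rw [hcb.mul_pow, ← hk, inv_pow, ← pow_mul, mul_comm k' p, mul_inv_cancel]
  have hb'x : b' ∉ zpowers x := by
    intro hmem
    apply hyx
    have h1 : y = b' * x ^ k' := by
      show y = y * (x ^ k')⁻¹ * x ^ k'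
      group
    rw [h1]
    exact mul_mem hmem (pow_mem (mem_zpowers x) k')
  have hb'1 : b' ≠ 1 := fun h1 => hb'x (h1 ▸ one_mem _)
  have hob' : orderOf b' = p := orderOf_eq_prime hb'p hb'1
  have ha'p : a' ^ p = 1 := by
    show (x ^ p ^ (a - 1)) ^ p = 1
    rw [← pow_mul, ← pow_succ, show a - 1 + 1 = a by omega, ← ha, pow_orderOf_eq_one]
  have ha'1 : a' ≠ 1 := by
    apply pow_ne_one_of_lt_orderOf
    · exact (pow_pos hp.pos _).ne'
    · rw [ha]
      exact Nat.pow_lt_pow_right hp.one_lt (by omega)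
  have hoa' : orderOf a' = p := orderOf_eq_prime ha'p ha'1
  refine ⟨a', b', ha'p, hb'p, ?_, ?_⟩
  · show Commute (x ^ p ^ (a - 1)) (y * (x ^ k')⁻¹)
    apply Commute.pow_left
    exact Commute.mul_right hcomm.symm ((Commute.refl x).pow_right k').inv_right
  · intro i j hij
    have hj : p ∣ j := by
      by_contra hcon
      have hc : j.Coprime (orderOf b') := by
        rw [hob']
        exact ((Nat.Prime.coprime_iff_not_dvd hp).2 hcon).symm
      obtain ⟨u, hu⟩ := exists_pow_eq_self_of_coprime hc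
      apply hb'x
      rw [← hu]
      apply pow_mem
      have h1 : b' ^ j = (a' ^ i)⁻¹ := (mul_eq_one_iff_eq_inv'.1 hij)
      rw [h1]
      exact inv_mem (pow_mem (pow_mem (mem_zpowers x) _) _)
    refine ⟨?_, hj⟩
    have h1 : b' ^ j = 1 := by
      obtain ⟨c, rfl⟩ := hj
      rw [pow_mul, hb'p, one_pow]
    rw [h1, mul_one] at hij
    have := orderOf_dvd_of_pow_eq_one hij
    rwa [hoa'] at this

end Cfsg.Agent.H19.Camina
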