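import Mathlib
import Cfsg.Agent.Lib.H19.Camina1
import Cfsg.Agent.Lib.H17.FrobKey

/-! Camina pairs: the core of the trichotomy (helper19). -/

set_option autoImplicit false

namespace Cfsg.Agent.H19.Camina

open Subgroup

/-- The centre of `R`, as a subgroup of the ambient group. -/
def ZZ {Γ : Type*} [Group Γ] (R : Subgroup Γ) : Subgroup Γ := R ⊓ centralizer (R : Set Γ)

section

variable {Γ : Type*} [Group Γ]

lemma mem_ZZ {R : Subgroup Γ} {v : Γ} : v ∈ ZZ R ↔ v ∈ R ∧ ∀ w ∈ R, w * v = v * w := by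
  show v ∈ R ⊓ centralizer (R : Set Γ) ↔ _
  rw [mem_inf, mem_centralizer_iff]
  rfl

lemma ZZ_le (R : Subgroup Γ) : ZZ R ≤ R := fun _ h => (mem_ZZ.1 h).1

lemma ZZ_comm (R : Subgroup Γ) : ∀ x ∈ ZZ R, ∀ y ∈ ZZ R, x * y = y * x := fun x hx y hy =>
  ((mem_ZZ.1 hy).2 x (mem_ZZ.1 hx).1)

lemma ZZ_conj {R : Subgroup Γ} {g : Γ} (hg : ∀ w ∈ R, g * w * g⁻¹ ∈ R) (hg' : ∀ w ∈ R, g⁻¹ * w * g ∈ R)
    {v : Γ} (hv : v ∈ ZZ R) : g * v * g⁻¹ ∈ ZZ R := by
  rw [mem_ZZ] at hv ⊢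
  refine ⟨hg v hv.1, fun w hw => ?_⟩
  have h1 := hv.2 _ (hg' w hw)
  calc w * (g * v * g⁻¹) = g * ((g⁻¹ * w * g) * v) * g⁻¹ := by group
    _ = g * (v * (g⁻¹ * w * g)) * g⁻¹ := by rw [h1]
    _ = g * v * g⁻¹ * w := by group

instance ZZ_normal (R : Subgroup Γ) [hR : R.Normal] : (ZZ R).Normal := by
  refine ⟨fun v hv g => ZZ_conj (fun w hw => hR.conj_mem w hw g) (fun w hw => ?_) hv⟩
  have := hR.conj_mem w hw g⁻¹
  simpa using this

lemma ZZ_ne_bot [Finite Γ] {r : ℕ} [Fact r.Prime] {R : Subgroup Γ} (hR : IsPGroup r R) (h1 : R ≠ ⊥) :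
    ZZ R ≠ ⊥ := by
  haveI : Nontrivial R := (nontrivial_iff_ne_bot R).2 h1
  haveI := hR.center_nontrivial
  obtain ⟨z, hz⟩ := exists_ne (1 : center R)
  intro hbot
  apply hz
  have h2 : ((z : R) : Γ) ∈ ZZ R := by
    rw [mem_ZZ]
    refine ⟨(z : R).2, fun w hw => ?_⟩
    have h3 := (mem_center_iff.1 z.2) ⟨w, hw⟩
    exact congrArg Subtype.val h3
  rw [hbot, mem_bot] at h2
  apply Subtype.ext
  apply Subtype.ext
  exact h2

lemma orderOf_coprime_of_pelem [Finite Γ] {r s : ℕ} (hr : r.Prime) (hs : s.Prime) (hrs : r ≠ s) {y : Γ}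
    (hy : ∃ k : ℕ, y ^ r ^ k = 1) : Nat.Coprime (orderOf y) s := by
  obtain ⟨k, hk⟩ := hy
  obtain ⟨a, -, ha⟩ := (Nat.dvd_prime_pow hr).1 (orderOf_dvd_of_pow_eq_one hk)
  rw [ha]
  exact Nat.Coprime.pow_left a ((Nat.coprime_primes hr hs).2 hrs)

lemma pelem_of_isPGroup {r : ℕ} {R : Subgroup Γ} (hR : IsPGroup r R) {y : Γ} (hy : y ∈ R) :
    ∃ k : ℕ, y ^ r ^ k = 1 := by
  obtain ⟨k, hk⟩ := hR ⟨y, hy⟩
  exact ⟨k, congrArg Subtype.val hk⟩

lemma card_coprime_of_isPGroup [Finite Γ] {r s : ℕ} (hr : r.Prime) (hs : s.Prime) (hrs : r ≠ s) {R : Subgroup Γ}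
    (hR : IsPGroup r R) : Nat.Coprime s (Nat.card R) := by
  haveI : Fact r.Prime := ⟨hr⟩
  obtain ⟨n, hn⟩ := IsPGroup.iff_card.1 hR
  rw [hn]
  exact Nat.Coprime.pow_right n ((Nat.coprime_primes hs hr).2 hrs.symm)

end

section lift

variable {X : Type*} [Group X]

lemma lift_rank2 {K : Type*} [Group K] [Finite K] {f : K →* X} (hf : Function.Surjective f) {p : ℕ}
    [Fact p.Prime] (U : Sylow p K) (h : Rank2 X p) :
    ∃ u ∈ (U : Subgroup K), ∃ v ∈ (U : Subgroup K), (f u) ^ p = 1 ∧ (f v) ^ p = 1 ∧ Commute (f u) (f v) ∧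
      ∀ i j : ℕ, (f u) ^ i * (f v) ^ j = 1 → p ∣ i ∧ p ∣ j := by
  obtain ⟨a, b, ha, hb, hc, hij⟩ := h
  haveI : Finite X := Finite.of_surjective f hf
  let E : Subgroup X :=
    { carrier := {x | ∃ i j : ℕ, x = a ^ i * b ^ j}
      mul_mem' := by
        rintro _ _ ⟨i, j, rfl⟩ ⟨k, l, rfl⟩
        refine ⟨i + k, j + l, ?_⟩
        rw [pow_add, pow_add]
        have h1 : Commute (b ^ j) (a ^ k) := (hc.pow_pow k j).symm
        calc a ^ i * b ^ j * (a ^ k * b ^ l) = a ^ i * (b ^ j * a ^ k) * b ^ l := by group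
          _ = a ^ i * (a ^ k * b ^ j) * b ^ l := by rw [h1.eq]
          _ = _ := by group
      one_mem' := ⟨0, 0, by simp⟩
      inv_mem' := by
        rintro _ ⟨i, j, rfl⟩
        refine ⟨(p - 1) * i, (p - 1) * j, ?_⟩
        have hp := (Fact.out : p.Prime).one_lt
        have h1 : a ^ ((p - 1) * i) = (a ^ i)⁻¹ := by
          rw [eq_inv_iff_mul_eq_one, ← pow_add, show (p - 1) * i + i = p * i by
            obtain ⟨q, rfl⟩ : ∃ q, p = q + 1 := ⟨p - 1, by omega⟩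
            simp; ring, pow_mul, ha, one_pow]
        have h2 : b ^ ((p - 1) * j) = (b ^ j)⁻¹ := by
          rw [eq_inv_iff_mul_eq_one, ← pow_add, show (p - 1) * j + j = p * j by
            obtain ⟨q, rfl⟩ : ∃ q, p = q + 1 := ⟨p - 1, by omega⟩
            simp; ring, pow_mul, hb, one_pow]
        rw [h1, h2, mul_inv_rev]
        exact ((hc.pow_pow i j).inv_inv).symm.eq.symm ▸ rfl }
  have hEp : IsPGroup p E := by
    rintro ⟨x, i, j, hx⟩
    refine ⟨1, Subtype.ext ?_⟩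
    show x ^ p ^ 1 = 1
    rw [hx, pow_one, (hc.pow_pow i j).mul_pow, pow_right_comm, ha, pow_right_comm b, hb, one_pow, one_pow,
      mul_one]
  have haE : a ∈ E := ⟨1, 0, by simp⟩
  have hbE : b ∈ E := ⟨0, 1, by simp⟩
  obtain ⟨Q, hQ⟩ := hEp.exists_le_sylow
  let T : Sylow p X := U.mapSurjective hf
  obtain ⟨c, hcQ⟩ := MulAction.exists_smul_eq X Q T
  have hconj : ∀ x ∈ E, c * x * c⁻¹ ∈ (T : Subgroup X) := by
    intro x hx
    rw [← hcQ, Sylow.coe_subgroup_smul]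
    have := Subgroup.smul_mem_pointwise_smul x (MulAut.conj c) (Q : Subgroup X) (hQ hx)
    exact this
  obtain ⟨u, hu, hfu⟩ := (hconj a haE : c * a * c⁻¹ ∈ ((U : Subgroup K).map f))
  obtain ⟨v, hv, hfv⟩ := (hconj b hbE : c * b * c⁻¹ ∈ ((U : Subgroup K).map f))
  refine ⟨u, hu, v, hv, ?_, ?_, ?_, ?_⟩
  · rw [hfu, conj_pow, ha]
    simp
  · rw [hfv, conj_pow, hb]
    simp
  · rw [hfu, hfv]
    show c * a * c⁻¹ * (c * b * c⁻¹) = c * b * c⁻¹ * (c * a * c⁻¹)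
    have h1 := hc.eq
    calc c * a * c⁻¹ * (c * b * c⁻¹) = c * (a * b) * c⁻¹ := by group
      _ = c * (b * a) * c⁻¹ := by rw [h1]
      _ = _ := by group
  · intro i j hh
    rw [hfu, hfv, conj_pow, conj_pow] at hh
    apply hij
    have h1 : c * (a ^ i * b ^ j) * c⁻¹ = 1 := by
      rw [← hh]
      group
    have h2 := congrArg (fun z => c⁻¹ * z * c) h1
    simpa [mul_assoc] using h2

end lift

end Cfsg.Agent.H19.Camina
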