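import Mathlib
import Cfsg.Agent.Lib.H19.Camina2
import Cfsg.Agent.Lib.H17.FrobKey

/-! Camina pairs: the core of the trichotomy, continued (helper19). -/

set_option autoImplicit false

namespace Cfsg.Agent.H19.Camina

open Subgroup

variable {Γ X : Type*} [Group Γ] [Finite Γ] [Group X]

/-- The local hypothesis: `C_M(x)` has no `s'`-elements if `x` maps to a nontrivial `s`-element. -/
def LocalHyp (φ : Γ →* X) : Prop :=
  ∀ s : ℕ, s.Prime → ∀ x : Γ, φ x ≠ 1 → (∃ k : ℕ, (φ x) ^ s ^ k = 1) →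
    ∀ y ∈ φ.ker, Commute x y → Nat.Coprime (orderOf y) s → y = 1

lemma exists_Y (φ : Γ →* X) (hφ : Function.Surjective φ) (p : ℕ) [Fact p.Prime] :
    ∃ Y : Subgroup Γ, IsPGroup p Y ∧ Y ≤ φ.ker ∧
      (∀ x : X, ∃ k ∈ normalizer (Y : Set Γ), φ k = x) ∧
      (∀ c ∈ φ.ker, c ∈ normalizer (Y : Set Γ) → (∃ k : ℕ, c ^ p ^ k = 1) → c ∈ Y) := by
  let M := φ.ker
  let Y0 : Sylow p M := Classical.choice inferInstance
  refine ⟨(Y0 : Subgroup M).map M.subtype, Y0.isPGroup'.map _, map_subtype_le _, ?_, ?_⟩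
  · intro x
    obtain ⟨g, rfl⟩ := hφ x
    have h1 : g ∈ normalizer (((Y0 : Subgroup M).map M.subtype : Subgroup Γ) : Set Γ) ⊔ M := by
      rw [Sylow.normalizer_sup_eq_top Y0]
      trivial
    obtain ⟨k, hk, m, hm, rfl⟩ := mem_sup_of_normal_right.1 h1
    refine ⟨k, hk, ?_⟩
    rw [map_mul, MonoidHom.mem_ker.1 hm, mul_one]
  · intro c hc hcn ⟨k, hk⟩
    let c' : M := ⟨c, hc⟩
    have hQ : IsPGroup p (zpowers c') := by
      apply IsPGroup.of_card (n := (orderOf c').factorization p)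
      rw [Nat.card_zpowers]
      have h1 : orderOf c' ∣ p ^ k := by
        apply orderOf_dvd_of_pow_eq_one
        exact Subtype.ext hk
      obtain ⟨a, -, ha⟩ := (Nat.dvd_prime_pow Fact.out).1 h1
      rw [ha, (Fact.out : p.Prime).factorization_pow]
      simp
    have h2 := IsPGroup.inf_normalizer_sylow hQ Y0
    have h3 : c' ∈ normalizer (Y0 : Set M) := by
      refine mem_normalizer_iff.2 ?_
      intro h
      have h4 := (mem_normalizer_iff.1 hcn) (h : Γ)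
      have h5 : (h : Γ) ∈ (Y0 : Subgroup M).map M.subtype ↔ h ∈ (Y0 : Subgroup M) :=
        mem_map_iff_mem (subtype_injective _)
      have h6 : c * (h : Γ) * c⁻¹ ∈ (Y0 : Subgroup M).map M.subtype ↔
          c' * h * c'⁻¹ ∈ (Y0 : Subgroup M) :=
        mem_map_iff_mem (f := M.subtype) (subtype_injective _) (x := c' * h * c'⁻¹)
      show h ∈ (Y0 : Subgroup M) ↔ c' * h * c'⁻¹ ∈ (Y0 : Subgroup M)
      rw [← h5, h4, h6]
    have h7 : c' ∈ zpowers c' ⊓ normalizer (Y0 : Set M) := mem_inf.2 ⟨mem_zpowers c', h3⟩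
    rw [h2] at h7
    exact mem_map_of_mem M.subtype (mem_inf.1 h7).2

/-- The action of a lifted `C_t × C_t`. -/
theorem rank2_action {φ : Γ →* X} (hL : LocalHyp φ) (K : Subgroup Γ)
    (hK : ∀ x : X, ∃ k ∈ K, φ k = x) {t : ℕ} [Fact t.Prime] (U : Sylow t K) (rk : Rank2 X t)
    (W : Subgroup Γ) (hW : ∀ x ∈ W, ∀ y ∈ W, x * y = y * x) (hWM : W ≤ φ.ker)
    (hWo : ∀ w ∈ W, Nat.Coprime (orderOf w) t) (hWc : Nat.Coprime t (Nat.card W))
    (hWK : ∀ c ∈ K, ∀ w ∈ W, c * w * c⁻¹ ∈ W)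
    (htriv : ∀ c ∈ (U : Subgroup K), φ c = 1 → ∀ w ∈ W, Commute (c : Γ) w) : W = ⊥ := by
  let ψ : K →* X := φ.comp K.subtype
  have hψ : Function.Surjective ψ := by
    intro x
    obtain ⟨k, hk, hx⟩ := hK x
    exact ⟨⟨k, hk⟩, hx⟩
  obtain ⟨u, hu, v, hv, h1, h2, h3, h4⟩ := lift_rank2 hψ U rk
  have hφu : ψ u = φ (u : Γ) := rfl
  have hφv : ψ v = φ (v : Γ) := rfl
  rw [hφu, hφv] at h3
  rw [hφu] at h1
  rw [hφv] at h2
  simp only [hφu, hφv] at h4
  have hcomm : ∀ c ∈ (U : Subgroup K), φ c = 1 → ∀ w ∈ W, (c : Γ) * w * (c : Γ)⁻¹ = w := by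
    intro c hc hc1 w hw
    rw [(htriv c hc hc1 w hw).eq]
    simp
  refine rank2 W hW (Fact.out : t.Prime) hWc (u : Γ) (v : Γ) (hWK _ u.2) (hWK _ v.2) ?_ ?_ ?_ ?_
  · intro w hw
    have hc : u * v * u⁻¹ * v⁻¹ ∈ (U : Subgroup K) :=
      mul_mem (mul_mem (mul_mem hu hv) (inv_mem hu)) (inv_mem hv)
    have hc1 : φ ((u * v * u⁻¹ * v⁻¹ : K) : Γ) = 1 := by
      have h5 := h3.eq
      simp only [coe_mul, coe_inv, map_mul, map_inv]
      rw [h5]
      group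
    have h6 := hcomm _ hc hc1 _ (hWK _ (mul_mem v.2 u.2) w hw)
    simp only [coe_mul, coe_inv] at h6
    rw [← h6]
    group
  · intro w hw
    have hc : u ^ t ∈ (U : Subgroup K) := pow_mem hu t
    have hc1 : φ ((u ^ t : K) : Γ) = 1 := by
      rw [coe_pow, map_pow]
      exact h1
    have h6 := hcomm _ hc hc1 w hw
    simpa using h6
  · intro w hw
    have hc : v ^ t ∈ (U : Subgroup K) := pow_mem hv t
    have hc1 : φ ((v ^ t : K) : Γ) = 1 := by
      rw [coe_pow, map_pow]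
      exact h2
    have h6 := hcomm _ hc hc1 w hw
    simpa using h6
  · intro i j hij w hw hwc
    refine hL t Fact.out ((u : Γ) ^ i * (v : Γ) ^ j) ?_ ⟨1, ?_⟩ w (hWM hw) ?_ (hWo w hw)
    · rw [map_mul, map_pow, map_pow]
      exact fun h => hij (h4 i j h)
    · rw [map_mul, map_pow, map_pow, pow_one, (h3.pow_pow i j).mul_pow, pow_right_comm, h1,
        pow_right_comm _ j, h2, one_pow, one_pow, one_mul]
    · rw [commute_iff_eq, ← mul_inv_eq_iff_eq_mul]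
      exact hwc

variable {φ : Γ →* X}

/-- `Y` has no common fixed points on `Z(R)`. -/
theorem fix_trivial (hL : LocalHyp φ) {p r : ℕ} [Fact p.Prime] [Fact r.Prime] (hpr : p ≠ r)
    (R : Subgroup Γ) [R.Normal] (hRr : IsPGroup r R) (hRM : R ≤ φ.ker) (rk : Rank2 X p)
    {Y : Subgroup Γ} (hYK : ∀ x : X, ∃ k ∈ normalizer (Y : Set Γ), φ k = x)
    (hYc : ∀ c ∈ φ.ker, c ∈ normalizer (Y : Set Γ) → (∃ k : ℕ, c ^ p ^ k = 1) → c ∈ Y)
    (v : Γ) (hv : v ∈ ZZ R) (hvY : ∀ y ∈ Y, Commute y v) : v = 1 := by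
  let K := normalizer (Y : Set Γ)
  let U : Sylow p K := Classical.choice inferInstance
  let W : Subgroup Γ := ZZ R ⊓ centralizer (Y : Set Γ)
  have hWR : W ≤ R := fun w hw => ZZ_le R hw.1
  have hWr : IsPGroup r W := hRr.to_le hWR
  have hbot : W = ⊥ := by
    refine rank2_action hL K hYK U rk W (fun x hx y hy => ZZ_comm R x hx.1 y hy.1)
      (hWR.trans hRM) (fun w hw => ?_) (card_coprime_of_isPGroup Fact.out Fact.out hpr.symm hWr) ?_ ?_
    · exact orderOf_coprime_of_pelem Fact.out Fact.out hpr.symm (pelem_of_isPGroup hWr hw)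
    · intro c hc w hw
      refine mem_inf.2 ⟨(ZZ_normal R).conj_mem w hw.1 c, mem_centralizer_iff.2 ?_⟩
      intro y hy
      have h1 : c⁻¹ * y * c ∈ Y := by
        have h2 := (mem_normalizer_iff.1 (inv_mem hc)) y
        have h3 := h2.1 hy
        simpa using h3
      have h4 := (mem_centralizer_iff.1 hw.2) _ h1
      calc y * (c * w * c⁻¹) = c * ((c⁻¹ * y * c) * w) * c⁻¹ := by group
        _ = c * (w * (c⁻¹ * y * c)) * c⁻¹ := by rw [h4]
        _ = c * w * c⁻¹ * y := by group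
    · intro c hc hc1 w hw
      have hcY : (c : Γ) ∈ Y := by
        refine hYc _ (MonoidHom.mem_ker.2 hc1) c.2 ?_
        obtain ⟨k, hk⟩ := pelem_of_isPGroup U.isPGroup' hc
        exact ⟨k, by simpa using congrArg Subtype.val hk⟩
      exact (mem_centralizer_iff.1 hw.2) _ hcY
  have hvW : v ∈ W := mem_inf.2 ⟨hv, mem_centralizer_iff.2 fun y hy => (hvY y hy).eq⟩
  rw [hbot] at hvW
  exact mem_bot.1 hvW

/-- Case `q ∤ |M|`. -/
theorem caseA (hL : LocalHyp φ) {p r q : ℕ} [Fact p.Prime] [Fact r.Prime] (hq : q.Prime)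
    (hpr : p ≠ r) (hqp : q ≠ p) (hqr : q ≠ r)
    (R : Subgroup Γ) [R.Normal] (hRr : IsPGroup r R) (hRM : R ≤ φ.ker)
    {Y : Subgroup Γ} (hYp : IsPGroup p Y) (hYM : Y ≤ φ.ker)
    (hYK : ∀ x : X, ∃ k ∈ normalizer (Y : Set Γ), φ k = x)
    (hqX : ∃ x : X, orderOf x = q) (hqM : ∀ y ∈ φ.ker, (∃ k : ℕ, y ^ q ^ k = 1) → y = 1)
    (c : Γ) (hc : c ∈ Y) (v : Γ) (hv : v ∈ ZZ R) : Commute c v := by
  classical
  obtain ⟨x, hxq⟩ := hqX
  obtain ⟨k, hkK, hkx⟩ := hYK x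
  have hk0 : orderOf k ≠ 0 := (orderOf_pos k).ne'
  obtain ⟨e, m, hm, he⟩ := Nat.exists_eq_pow_mul_and_not_dvd hk0 q hq.ne_one
  let h : Γ := k ^ m
  have hhK : h ∈ normalizer (Y : Set Γ) := pow_mem hkK m
  have hφh : φ h = x ^ m := by
    show φ (k ^ m) = _
    rw [map_pow, hkx]
  have hφh1 : φ h ≠ 1 := by
    rw [hφh]
    intro h1
    exact hm (hxq ▸ orderOf_dvd_of_pow_eq_one h1)
  have hφhq : (φ h) ^ q = 1 := by
    rw [hφh, pow_right_comm, ← hxq, pow_orderOf_eq_one, one_pow]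
  have hoh : orderOf (φ h) = q :=
    haveI : Fact q.Prime := ⟨hq⟩
    orderOf_eq_prime hφhq hφh1
  have hhq : h ^ q = 1 := by
    refine hqM _ ?_ ⟨e, ?_⟩
    · rw [MonoidHom.mem_ker, map_pow]
      exact hφhq
    · show ((k ^ m) ^ q) ^ q ^ e = 1
      rw [← pow_mul, ← pow_mul, show m * (q * q ^ e) = (q ^ e * m) * q by ring, pow_mul, ← he,
        pow_orderOf_eq_one, one_pow]
  haveI : Fact q.Prime := ⟨hq⟩
  have hn : ∀ f ∈ Y, h * f * h⁻¹ ∈ Y := fun f hf => (mem_normalizer_iff.1 hhK f).1 hf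
  have hfpfi : ∀ i, 0 < i → i < q → ∀ f ∈ Y, h ^ i * f * (h ^ i)⁻¹ = f → f = 1 := by
    intro i hi0 hiq f hf hfc
    refine hL q hq (h ^ i) ?_ ⟨1, ?_⟩ f (hYM hf) ?_ ?_
    · rw [map_pow]
      exact pow_ne_one_of_lt_orderOf hi0.ne' (by rw [hoh]; exact hiq)
    · rw [map_pow, pow_one, pow_right_comm, hφhq, one_pow]
    · rw [commute_iff_eq, ← mul_inv_eq_iff_eq_mul]
      exact hfc
    · exact orderOf_coprime_of_pelem Fact.out hq hqp.symm (pelem_of_isPGroup hYp hf)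
  have hfpf1 : ∀ f ∈ Y, h * f * h⁻¹ = f → f = 1 := by
    intro f hf hfc
    refine hfpfi 1 one_pos hq.one_lt f hf ?_
    simpa using hfc
  letI : CommGroup (ZZ R) := { (inferInstance : Group (ZZ R)) with
    mul_comm := fun x y => Subtype.ext (ZZ_comm R x x.2 y y.2) }
  let α : Γ →* MulAut (ZZ R) := MulAut.conjNormal
  have hαv : ∀ (g : Γ) (a : ZZ R), ((α g a : ZZ R) : Γ) = g * a * g⁻¹ := fun g a => rfl
  have hN : ∀ f ∈ Y, ∀ a : ZZ R, ∏ i ∈ Finset.range q, α ((f * h) ^ i) a = 1 := by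
    intro f hf a
    obtain ⟨g, hg, hfg⟩ := Cfsg.Agent.H17.exists_conj_rep Y h hn hfpf1 f hf
    have hpowq : (f * h) ^ q = 1 := by
      rw [hfg, conj_pow, hhq]
      simp
    simp_rw [map_pow]
    apply norm_trivial
    · rw [← map_pow, hpowq, map_one]
    · intro w hw
      apply Subtype.ext
      have h1 : ((α (f * h) w : ZZ R) : Γ) = w := congrArg Subtype.val hw
      rw [hαv] at h1
      have hwR : (w : Γ) ∈ R := ZZ_le R w.2
      refine hL q hq (f * h) ?_ ⟨1, ?_⟩ w (hRM hwR) ?_ ?_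
      · rw [map_mul, MonoidHom.mem_ker.1 (hYM hf), one_mul]
        exact hφh1
      · rw [map_mul, MonoidHom.mem_ker.1 (hYM hf), one_mul, pow_one]
        exact hφhq
      · rw [commute_iff_eq, ← mul_inv_eq_iff_eq_mul]
        exact h1
      · exact orderOf_coprime_of_pelem Fact.out hq hqr.symm (pelem_of_isPGroup hRr hwR)
  have hcop : (Nat.card Y).Coprime (Nat.card (ZZ R)) := by
    obtain ⟨n, hn'⟩ := IsPGroup.iff_card.1 hYp
    rw [hn']
    exact Nat.Coprime.pow_left n (card_coprime_of_isPGroup Fact.out Fact.out hpr.symm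
      (hRr.to_le (ZZ_le R)))
  have hfin := Cfsg.Agent.H17.key_identity α Y h q hq.one_lt hn hfpfi hN hcop c hc ⟨v, hv⟩
  have h1 : ((α c ⟨v, hv⟩ : ZZ R) : Γ) = v := congrArg Subtype.val hfin
  rw [hαv] at h1
  rw [commute_iff_eq, ← mul_inv_eq_iff_eq_mul]
  exact h1

/-- Case `q = r`. -/
theorem caseB (hL : LocalHyp φ) {p r : ℕ} [Fact p.Prime] [Fact r.Prime]
    (hpr : p ≠ r)
    (R : Subgroup Γ) [hRn : R.Normal] (hRr : IsPGroup r R)
    (hRmax : ∀ c ∈ φ.ker, (∃ k : ℕ, c ^ r ^ k = 1) → c ∈ R) (rk : Rank2 X r)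
    {Y : Subgroup Γ} (hYp : IsPGroup p Y) (hYM : Y ≤ φ.ker)
    (hYK : ∀ x : X, ∃ k ∈ normalizer (Y : Set Γ), φ k = x) : Y = ⊥ := by
  by_contra hY1
  let K := normalizer (Y : Set Γ)
  let U : Sylow r K := Classical.choice inferInstance
  have hYr : ∀ w ∈ Y, ∀ w' ∈ R, w = w' → w = 1 := by
    intro w hw w' hw' hww
    have h1 := orderOf_coprime_of_pelem (r := p) (s := r) Fact.out Fact.out hpr (pelem_of_isPGroup hYp hw)
    obtain ⟨k, hk⟩ := pelem_of_isPGroup hRr hw'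
    rw [← hww] at hk
    have h2 : orderOf w ∣ r ^ k := orderOf_dvd_of_pow_eq_one hk
    have h3 : orderOf w = 1 := Nat.Coprime.eq_one_of_dvd (h1.pow_right k) h2
    exact orderOf_eq_one_iff.1 h3
  have hbot : ZZ Y = ⊥ := by
    refine rank2_action hL K hYK U rk (ZZ Y) (ZZ_comm Y) ((ZZ_le Y).trans hYM) (fun w hw => ?_)
      (card_coprime_of_isPGroup Fact.out Fact.out hpr (hYp.to_le (ZZ_le Y))) ?_ ?_
    · exact orderOf_coprime_of_pelem Fact.out Fact.out hpr (pelem_of_isPGroup hYp (ZZ_le Y hw))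
    · intro c hc w hw
      refine ZZ_conj (fun y hy => (mem_normalizer_iff.1 hc y).1 hy) (fun y hy => ?_) hw
      have h2 := (mem_normalizer_iff.1 (inv_mem hc)) y
      have h3 := h2.1 hy
      simpa using h3
    · intro c hc hc1 w hw
      have hwY := ZZ_le Y hw
      have hcR : (c : Γ) ∈ R := by
        refine hRmax _ (MonoidHom.mem_ker.2 hc1) ?_
        obtain ⟨k, hk⟩ := pelem_of_isPGroup U.isPGroup' hc
        exact ⟨k, by simpa using congrArg Subtype.val hk⟩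
      have h4 : (c : Γ) * w * (c : Γ)⁻¹ * w⁻¹ ∈ Y :=
        mul_mem ((mem_normalizer_iff.1 c.2 w).1 hwY) (inv_mem hwY)
      have h5 : (c : Γ) * (w * (c : Γ)⁻¹ * w⁻¹) ∈ R :=
        mul_mem hcR (hRn.conj_mem _ (inv_mem hcR) w)
      have h6 := hYr _ h4 _ h5 (by group)
      rw [commute_iff_eq]
      exact mul_inv_eq_one.1 (by rw [mul_inv_rev]; simpa [mul_assoc] using h6)
  exact ZZ_ne_bot hYp hY1 hbot

/-- The core of the trichotomy. -/
theorem core (hφ : Function.Surjective φ) (hL : LocalHyp φ) {p r q : ℕ} [Fact p.Prime] [Fact r.Prime]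
    (hq : q.Prime) (hpr : p ≠ r) (hqp : q ≠ p)
    (R : Subgroup Γ) [R.Normal] (hRr : IsPGroup r R) (hRM : R ≤ φ.ker) (hR1 : R ≠ ⊥)
    (hRmax : ∀ c ∈ φ.ker, (∃ k : ℕ, c ^ r ^ k = 1) → c ∈ R) (rk : Rank2 X p)
    (hcase : (q ≠ r ∧ (∃ x : X, orderOf x = q) ∧ ∀ y ∈ φ.ker, (∃ k : ℕ, y ^ q ^ k = 1) → y = 1) ∨
      Rank2 X r) : False := by
  obtain ⟨Y, hYp, hYM, hYK, hYc⟩ := exists_Y φ hφ p
  have hfix := fix_trivial hL hpr R hRr hRM rk hYK hYc
  rcases hcase with ⟨hqr, hqX, hqM⟩ | hrk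
  · apply ZZ_ne_bot hRr hR1
    rw [eq_bot_iff]
    intro v hv
    rw [mem_bot]
    apply hfix v hv
    intro y hy
    exact caseA hL hq hpr hqp hqr R hRr hRM hYp hYM hYK hqX hqM y hy v hv
  · have hYbot := caseB hL hpr R hRr hRmax hrk hYp hYM hYK
    apply ZZ_ne_bot hRr hR1
    rw [eq_bot_iff]
    intro v hv
    rw [mem_bot]
    apply hfix v hv
    intro y hy
    rw [hYbot, mem_bot] at hy
    rw [hy]
    exact Commute.one_left v

end Cfsg.Agent.H19.Camina
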