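import Mathlib
import Cfsg.Agent.Lib.H19.Camina3
import Cfsg.Agent.Lib.H09.KSeq2

/-! Camina pairs: the trichotomy (helper19). -/

set_option autoImplicit false

namespace Cfsg.Agent.H19.Camina

open Subgroup

variable {G : Type*} [Group G]

/-- Camina pair. -/
def IsCamina (N : Subgroup G) : Prop := ∀ g : G, g ∉ N → ∀ n ∈ N, ∃ x : G, x * g * x⁻¹ = g * n

variable [Finite G] {N : Subgroup G} [hNn : N.Normal]

lemma orderOf_mul_mem (hcam : IsCamina N) {g n : G} (hg : g ∉ N) (hn : n ∈ N) :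
    orderOf (g * n) = orderOf g := by
  obtain ⟨x, hx⟩ := hcam g hg n hn
  rw [← hx]
  exact (MulAut.conj x).orderOf_eq g

lemma c1 (hcam : IsCamina N) {g y : G} (hg : g ∉ N) (hy : y ∈ N) (hc : Commute g y)
    (hcop : Nat.Coprime (orderOf g) (orderOf y)) : y = 1 := by
  have h1 := hc.orderOf_mul_eq_mul_orderOf_of_coprime hcop
  rw [orderOf_mul_mem hcam hg hy] at h1
  have h2 : orderOf y = 1 := by
    have h3 := orderOf_pos g
    exact Nat.eq_of_mul_eq_mul_left h3 (by rw [mul_one]; exact h1.symm)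
  exact orderOf_eq_one_iff.1 h2

lemma c2 (hcam : IsCamina N) {s : ℕ} (hs : s.Prime) {x y : G} (hx : x ∉ N)
    (hxs : ∃ k : ℕ, x ^ s ^ k ∈ N) (hy : y ∈ N) (hc : Commute x y)
    (hcop : Nat.Coprime (orderOf y) s) : y = 1 := by
  have h0 : orderOf x ≠ 0 := (orderOf_pos x).ne'
  obtain ⟨e, m, hm, he⟩ := Nat.exists_eq_pow_mul_and_not_dvd h0 s hs.ne_one
  have hm0 : m ≠ 0 := fun h => hm (h ▸ dvd_zero s)
  have ho : orderOf (x ^ m) = s ^ e := by
    rw [orderOf_pow_of_dvd hm0 (he ▸ dvd_mul_left m _), he, Nat.mul_div_cancel _ (Nat.pos_of_ne_zero hm0)]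
  have hxm : x ^ m ∉ N := by
    intro hmem
    obtain ⟨k, hk⟩ := hxs
    let z : G ⧸ N := (x : G ⧸ N)
    have h1 : z ^ m = 1 := by
      rw [← QuotientGroup.mk_pow]
      exact (QuotientGroup.eq_one_iff _).2 hmem
    have h2 : z ^ s ^ k = 1 := by
      rw [← QuotientGroup.mk_pow]
      exact (QuotientGroup.eq_one_iff _).2 hk
    have h3 : Nat.Coprime m (s ^ k) :=
      Nat.Coprime.pow_right k ((Nat.Prime.coprime_iff_not_dvd hs).2 hm).symm
    have h4 := Nat.eq_one_of_dvd_coprimes h3 (orderOf_dvd_of_pow_eq_one h1) (orderOf_dvd_of_pow_eq_one h2)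
    have h5 : z = 1 := orderOf_eq_one_iff.1 h4
    exact hx ((QuotientGroup.eq_one_iff _).1 h5)
  refine c1 hcam hxm hy (hc.pow_left m) ?_
  rw [ho]
  exact Nat.Coprime.pow_left e hcop.symm

lemma c3 {p : ℕ} [Fact p.Prime] (hpN : p ∣ Nat.card N) {g : G} (hg : ∃ k : ℕ, g ^ p ^ k = 1) :
    ∃ z ∈ N, z ≠ 1 ∧ Commute g z ∧ ∃ k : ℕ, z ^ p ^ k = 1 := by
  have hhg : IsPGroup p (zpowers g) := by
    obtain ⟨k, hk⟩ := hg
    apply IsPGroup.of_card (n := (orderOf g).factorization p)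
    rw [Nat.card_zpowers]
    obtain ⟨a, -, ha⟩ := (Nat.dvd_prime_pow Fact.out).1 (orderOf_dvd_of_pow_eq_one hk)
    rw [ha, (Fact.out : p.Prime).factorization_pow]
    simp
  obtain ⟨P, hP⟩ := hhg.exists_le_sylow
  obtain ⟨y, hy⟩ := exists_prime_orderOf_dvd_card' p hpN
  have hyy : IsPGroup p (zpowers (y : G)) := by
    apply IsPGroup.of_card (n := 1)
    rw [Nat.card_zpowers, Subgroup.orderOf_coe, hy, pow_one]
  obtain ⟨P', hP'⟩ := hyy.exists_le_sylow
  obtain ⟨c, hc⟩ := MulAction.exists_smul_eq G P' P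
  have hcy : c * (y : G) * c⁻¹ ∈ (P : Subgroup G) := by
    rw [← hc, Sylow.coe_subgroup_smul]
    exact Subgroup.smul_mem_pointwise_smul (y : G) (MulAut.conj c) (P' : Subgroup G) (hP' (mem_zpowers _))
  have hcyN : c * (y : G) * c⁻¹ ∈ N := hNn.conj_mem _ y.2 c
  have hy1 : c * (y : G) * c⁻¹ ≠ 1 := by
    intro h1
    have h2 : (y : G) = 1 := by
      have := congrArg (fun t => c⁻¹ * t * c) h1
      simpa [mul_assoc] using this
    have h3 : y = 1 := Subtype.ext h2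
    rw [h3, orderOf_one] at hy
    exact (Fact.out : p.Prime).one_lt.ne hy
  let M : Subgroup (P : Subgroup G) := N.subgroupOf (P : Subgroup G)
  have hM : M ≠ ⊥ := by
    intro hbot
    have h1 : (⟨_, hcy⟩ : (P : Subgroup G)) ∈ M := hcyN
    rw [hbot, mem_bot] at h1
    exact hy1 (congrArg Subtype.val h1)
  have h2 := Cfsg.Agent.H09.normal_inf_center_ne_bot P.isPGroup' M hM
  obtain ⟨⟨z, hz⟩, hz1⟩ := (ne_bot_iff_exists_ne_one.1 h2)
  have hz1' : z ≠ 1 := fun h => hz1 (Subtype.ext h)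
  refine ⟨z, hz.1, ?_, ?_, ?_⟩
  · exact fun h => hz1' (Subtype.ext h)
  · have h3 := (mem_center_iff.1 hz.2) ⟨g, hP (mem_zpowers g)⟩
    exact congrArg Subtype.val h3
  · obtain ⟨k, hk⟩ := P.isPGroup' z
    exact ⟨k, congrArg Subtype.val hk⟩

/-- `|C_X(ḡ)| = |C_G(g)|` for `g ∉ N`. -/
lemma c4 (hcam : IsCamina N) {g : G} (hg : g ∉ N) :
    Nat.card (centralizer ({(g : G ⧸ N)} : Set (G ⧸ N))) = Nat.card (centralizer ({g} : Set G)) := by
  classical
  let π := QuotientGroup.mk' N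
  let D : Subgroup G := (centralizer ({(g : G ⧸ N)} : Set (G ⧸ N))).comap π
  have hDmem : ∀ x : G, x ∈ D ↔ x * g * x⁻¹ * g⁻¹ ∈ N := by
    intro x
    show π x ∈ centralizer ({(g : G ⧸ N)} : Set (G ⧸ N)) ↔ _
    rw [mem_centralizer_singleton_iff, ← QuotientGroup.eq_one_iff]
    show (x : G ⧸ N) * g = g * x ↔ ((x * g * x⁻¹ * g⁻¹ : G) : G ⧸ N) = 1
    rw [QuotientGroup.mk_mul, QuotientGroup.mk_mul, QuotientGroup.mk_mul, QuotientGroup.mk_inv, QuotientGroup.mk_inv]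
    constructor
    · intro h
      rw [h]
      group
    · intro h
      have h1 : (x : G ⧸ N) * g = (g : G ⧸ N) * (x : G ⧸ N) := by
        have h2 := congrArg (fun t => t * (g : G ⧸ N) * (x : G ⧸ N)) h
        simpa [mul_assoc] using h2
      exact h1
  let C : Subgroup G := centralizer ({g} : Set G)
  have hCmem : ∀ x : G, x ∈ C ↔ x * g = g * x := by
    intro x
    show x ∈ centralizer ({g} : Set G) ↔ _
    rw [mem_centralizer_singleton_iff]
  let f : D → N := fun x => ⟨(x : G) * g * (x : G)⁻¹ * g⁻¹, (hDmem x).1 x.2⟩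
  have hfsurj : Function.Surjective f := by
    intro n
    obtain ⟨x, hx⟩ := hcam g hg (g⁻¹ * n * g) (by
      have := hNn.conj_mem n n.2 g⁻¹
      simpa using this)
    have h1 : x * g * x⁻¹ * g⁻¹ = n := by
      rw [hx]
      group
    refine ⟨⟨x, (hDmem x).2 (h1 ▸ n.2)⟩, Subtype.ext h1⟩
  choose s hs using hfsurj
  have hfeq : ∀ a b : D, f a = f b → (a : G)⁻¹ * b ∈ C := by
    intro a b hab
    have h1 : (a : G) * g * (a : G)⁻¹ * g⁻¹ = (b : G) * g * (b : G)⁻¹ * g⁻¹ := congrArg Subtype.val hab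
    have h2 : (a : G) * g * (a : G)⁻¹ = (b : G) * g * (b : G)⁻¹ := mul_right_cancel h1
    rw [hCmem]
    have h3 : g * ((a : G)⁻¹ * b) = (a : G)⁻¹ * ((a : G) * g * (a : G)⁻¹) * b := by group
    rw [h3, h2]
    group
  have hCD : ∀ c ∈ C, c ∈ D := by
    intro c hc
    rw [hDmem, (hCmem c).1 hc]
    simp
  have hfmul : ∀ (a : D) (c : C), f (a * ⟨c, hCD c c.2⟩) = f a := by
    intro a c
    apply Subtype.ext
    show (a : G) * c * g * ((a : G) * c)⁻¹ * g⁻¹ = (a : G) * g * (a : G)⁻¹ * g⁻¹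
    have h1 : (c : G) * g = g * c := (hCmem c).1 c.2
    calc (a : G) * c * g * ((a : G) * c)⁻¹ * g⁻¹ = (a : G) * ((c : G) * g) * (c : G)⁻¹ * (a : G)⁻¹ * g⁻¹ := by group
      _ = (a : G) * (g * c) * (c : G)⁻¹ * (a : G)⁻¹ * g⁻¹ := by rw [h1]
      _ = _ := by group
  let e : D ≃ N × C :=
    { toFun := fun x => (f x, ⟨((s (f x) : D) : G)⁻¹ * x, hfeq _ _ (by rw [hs])⟩)
      invFun := fun p => s p.1 * ⟨p.2, hCD _ p.2.2⟩
      left_inv := by
        intro x
        apply Subtype.ext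
        show ((s (f x) : D) : G) * (((s (f x) : D) : G)⁻¹ * x) = x
        group
      right_inv := by
        rintro ⟨n, c⟩
        have h1 : f (s n * ⟨c, hCD c c.2⟩) = n := by
          rw [hfmul, hs]
        apply Prod.ext
        · exact h1
        · apply Subtype.ext
          show ((s (f (s n * ⟨c, hCD c c.2⟩)) : D) : G)⁻¹ * ((s n : D) * c) = c
          rw [h1]
          group }
  have hcard : Nat.card D = Nat.card N * Nat.card C := by
    rw [Nat.card_congr e, Nat.card_prod]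
  have hidx : D.index = (centralizer ({(g : G ⧸ N)} : Set (G ⧸ N))).index :=
    index_comap_of_surjective _ (QuotientGroup.mk'_surjective N)
  have h1 := D.card_mul_index
  have h2 := (centralizer ({(g : G ⧸ N)} : Set (G ⧸ N))).card_mul_index
  have h3 := N.card_mul_index
  rw [index_eq_card] at h3
  rw [hidx] at h1
  have hi0 : (centralizer ({(g : G ⧸ N)} : Set (G ⧸ N))).index ≠ 0 := index_ne_zero_of_finite
  have hN0 : Nat.card N ≠ 0 := Nat.card_pos.ne'
  apply Nat.eq_of_mul_eq_mul_left (Nat.pos_of_ne_zero hN0)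
  apply Nat.eq_of_mul_eq_mul_right (Nat.pos_of_ne_zero hi0)
  rw [← hcard, h1, ← h3, ← h2]
  ring

lemma c5 (hcam : IsCamina N) {p : ℕ} [Fact p.Prime] (hpN : p ∣ Nat.card N) (x : G ⧸ N) (hx : x ≠ 1)
    (hxp : ∃ k : ℕ, x ^ p ^ k = 1) : p * orderOf x ∣ Nat.card (centralizer ({x} : Set (G ⧸ N))) := by
  classical
  have hp : p.Prime := Fact.out
  obtain ⟨g0, rfl⟩ := QuotientGroup.mk_surjective x
  have h0 : orderOf g0 ≠ 0 := (orderOf_pos g0).ne'
  obtain ⟨e, m, hm, he⟩ := Nat.exists_eq_pow_mul_and_not_dvd h0 p hp.ne_one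
  obtain ⟨k, hk⟩ := hxp
  have hcopx : m.Coprime (orderOf (g0 : G ⧸ N)) := by
    obtain ⟨a, -, ha⟩ := (Nat.dvd_prime_pow hp).1 (orderOf_dvd_of_pow_eq_one hk)
    rw [ha]
    exact Nat.Coprime.pow_right a ((Nat.Prime.coprime_iff_not_dvd hp).2 hm).symm
  obtain ⟨u, hu⟩ := exists_pow_eq_self_of_coprime hcopx
  let g : G := (g0 ^ m) ^ u
  have hgx : (g : G ⧸ N) = (g0 : G ⧸ N) := by
    show (((g0 ^ m) ^ u : G) : G ⧸ N) = _
    rw [QuotientGroup.mk_pow, QuotientGroup.mk_pow]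
    exact hu
  have hgN : g ∉ N := by
    intro h
    apply hx
    rw [← hgx]
    exact (QuotientGroup.eq_one_iff _).2 h
  have hgp : g ^ p ^ e = 1 := by
    show ((g0 ^ m) ^ u) ^ p ^ e = 1
    rw [← pow_mul, ← pow_mul, show m * (u * p ^ e) = (p ^ e * m) * u by ring, pow_mul, ← he,
      pow_orderOf_eq_one, one_pow]
  obtain ⟨z, hzN, hz1, hzc, kz, hkz⟩ := c3 hpN ⟨e, hgp⟩
  rw [← hgx, c4 hcam hgN]
  let C : Subgroup G := centralizer ({g} : Set G)
  let ρ : C →* G ⧸ N := (QuotientGroup.mk' N).comp C.subtype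
  have hcard : Nat.card C = Nat.card ρ.ker * Nat.card ρ.range := by
    have h1 := ρ.ker.card_mul_index
    rw [index_eq_card, Nat.card_congr (QuotientGroup.quotientKerEquivRange ρ).toEquiv] at h1
    exact h1.symm
  have hgC : g ∈ C := mem_centralizer_singleton_iff.2 rfl
  have hzC : z ∈ C := mem_centralizer_singleton_iff.2 hzc.symm.eq
  have h1 : orderOf (g : G ⧸ N) ∣ Nat.card ρ.range := by
    have hmem : (g : G ⧸ N) ∈ ρ.range := ⟨⟨g, hgC⟩, rfl⟩
    have := orderOf_dvd_natCard (⟨_, hmem⟩ : ρ.range)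
    rwa [Subgroup.orderOf_mk] at this
  have h2 : p ∣ Nat.card ρ.ker := by
    have hmem : (⟨z, hzC⟩ : C) ∈ ρ.ker := by
      rw [MonoidHom.mem_ker]
      exact (QuotientGroup.eq_one_iff _).2 hzN
    have h3 := orderOf_dvd_natCard (⟨_, hmem⟩ : ρ.ker)
    rw [Subgroup.orderOf_mk, Subgroup.orderOf_mk] at h3
    refine dvd_trans ?_ h3
    obtain ⟨a, -, ha⟩ := (Nat.dvd_prime_pow hp).1 (orderOf_dvd_of_pow_eq_one hkz)
    rw [ha]
    refine dvd_pow_self p ?_
    rintro rfl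
    rw [pow_zero, orderOf_eq_one_iff] at ha
    exact hz1 ha
  rw [hcard]
  exact mul_dvd_mul h2 h1

lemma rank2_of_camina (hcam : IsCamina N) {p : ℕ} (hp : p.Prime) (hpN : p ∣ Nat.card N)
    (hpX : p ∣ Nat.card (G ⧸ N)) : Rank2 (G ⧸ N) p := by
  haveI : Fact p.Prime := ⟨hp⟩
  exact rank2_of_centralizers hp hpX (fun x hx hxp => c5 hcam hpN x hx hxp)

lemma localHyp_of (hcam : IsCamina N) (J : Subgroup G) :
    LocalHyp ((QuotientGroup.mk' N).comp J.subtype) := by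
  intro s hs x hx1 hxs y hy hc hcop
  have hx : (x : G) ∉ N := by
    intro h
    exact hx1 ((QuotientGroup.eq_one_iff _).2 h)
  obtain ⟨k, hk⟩ := hxs
  have hk' : (x : G) ^ s ^ k ∈ N := by
    rw [← QuotientGroup.eq_one_iff, QuotientGroup.mk_pow]
    exact hk
  have hyN : (y : G) ∈ N := (QuotientGroup.eq_one_iff _).1 (MonoidHom.mem_ker.1 hy)
  apply Subtype.ext
  refine c2 hcam hs hx ⟨k, hk'⟩ hyN ?_ ?_
  · exact congrArg Subtype.val hc
  · rw [Subgroup.orderOf_coe]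
    exact hcop

lemma mem_of_normalizes {Γ : Type*} [Group Γ] [Finite Γ] (M : Subgroup Γ) {p : ℕ} [Fact p.Prime]
    (Y0 : Sylow p M) {c : Γ} (hc : c ∈ M)
    (hcn : c ∈ normalizer (((Y0 : Subgroup M).map M.subtype : Subgroup Γ) : Set Γ))
    (hk : ∃ k : ℕ, c ^ p ^ k = 1) : c ∈ (Y0 : Subgroup M).map M.subtype := by
  obtain ⟨k, hk⟩ := hk
  let c' : M := ⟨c, hc⟩
  have hQ : IsPGroup p (zpowers c') := by
    apply IsPGroup.of_card (n := (orderOf c').factorization p)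
    rw [Nat.card_zpowers]
    have h1 : orderOf c' ∣ p ^ k := by
      apply orderOf_dvd_of_pow_eq_one
      exact Subtype.ext hk
    obtain ⟨a, -, ha⟩ := (Nat.dvd_prime_pow Fact.out).1 h1
    rw [ha, (Fact.out : p.Prime).factorization_pow]
    simp
  have h2 := IsPGroup.inf_normalizer_sylow hQ Y0
  have h3 : c' ∈ normalizer (Y0 : Set M) := by
    refine mem_normalizer_iff.2 ?_
    intro h
    have h4 := (mem_normalizer_iff.1 hcn) (h : Γ)
    have h5 : (h : Γ) ∈ (Y0 : Subgroup M).map M.subtype ↔ h ∈ (Y0 : Subgroup M) :=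
      mem_map_iff_mem (subtype_injective _)
    have h6 : c * (h : Γ) * c⁻¹ ∈ (Y0 : Subgroup M).map M.subtype ↔
        c' * h * c'⁻¹ ∈ (Y0 : Subgroup M) :=
      mem_map_iff_mem (f := M.subtype) (subtype_injective _) (x := c' * h * c'⁻¹)
    show h ∈ (Y0 : Subgroup M) ↔ c' * h * c'⁻¹ ∈ (Y0 : Subgroup M)
    rw [← h5, h4, h6]
  have h7 : c' ∈ zpowers c' ⊓ normalizer (Y0 : Set M) := mem_inf.2 ⟨mem_zpowers c', h3⟩
  rw [h2] at h7
  exact mem_map_of_mem M.subtype (mem_inf.1 h7).2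

/-- Reduction of the trichotomy to `core`: two primes `p ≠ r` dividing `|N|`, with `p | |G/N|`, `q ≠ p`
dividing `|G/N|`, give a contradiction. -/
theorem no_mixed (hcam : IsCamina N) {p r q : ℕ} (hp : p.Prime) (hr : r.Prime) (hq : q.Prime) (hpr : p ≠ r)
    (hqp : q ≠ p) (hpN : p ∣ Nat.card N) (hpX : p ∣ Nat.card (G ⧸ N)) (hrN : r ∣ Nat.card N)
    (hqX : q ∣ Nat.card (G ⧸ N)) : False := by
  haveI : Fact p.Prime := ⟨hp⟩
  -- choice of the second prime
  obtain ⟨r', hr', hr'p, hr'N, hcase⟩ : ∃ r' : ℕ, r'.Prime ∧ p ≠ r' ∧ r' ∣ Nat.card N ∧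
      ((q ≠ r' ∧ (∃ x : G ⧸ N, orderOf x = q) ∧ ∀ y ∈ N, (∃ k : ℕ, y ^ q ^ k = 1) → y = 1) ∨
        Rank2 (G ⧸ N) r') := by
    by_cases hqN : q ∣ Nat.card N
    · exact ⟨q, hq, hqp.symm, hqN, Or.inr (rank2_of_camina hcam hq hqN hqX)⟩
    · refine ⟨r, hr, hpr, hrN, Or.inl ⟨?_, ?_, ?_⟩⟩
      · rintro rfl
        exact hqN hrN
      · haveI : Fact q.Prime := ⟨hq⟩
        exact exists_prime_orderOf_dvd_card' q hqX
      · intro y hy ⟨k, hk⟩
        have h1 : orderOf (⟨y, hy⟩ : N) ∣ Nat.card N := orderOf_dvd_natCard _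
        rw [Subgroup.orderOf_mk] at h1
        obtain ⟨a, -, ha⟩ := (Nat.dvd_prime_pow hq).1 (orderOf_dvd_of_pow_eq_one hk)
        rw [ha] at h1
        have h2 : a = 0 := by
          by_contra h3
          exact hqN ((dvd_pow_self q h3).trans h1)
        rw [h2, pow_zero, orderOf_eq_one_iff] at ha
        exact ha
  haveI : Fact r'.Prime := ⟨hr'⟩
  let R0 : Sylow r' N := Classical.choice inferInstance
  let R : Subgroup G := (R0 : Subgroup N).map N.subtype
  let J : Subgroup G := normalizer (R : Set G)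
  let φ : J →* G ⧸ N := (QuotientGroup.mk' N).comp J.subtype
  have hφ : Function.Surjective φ := by
    intro x
    obtain ⟨g, rfl⟩ := QuotientGroup.mk_surjective x
    have h1 : g ∈ J ⊔ N := by
      have := Sylow.normalizer_sup_eq_top R0
      show g ∈ normalizer (R : Set G) ⊔ N
      rw [this]
      trivial
    obtain ⟨j, hj, n, hn, rfl⟩ := mem_sup_of_normal_right.1 h1
    refine ⟨⟨j, hj⟩, ?_⟩
    show (j : G ⧸ N) = ((j * n : G) : G ⧸ N)
    rw [QuotientGroup.mk_mul, (QuotientGroup.eq_one_iff n).2 hn, mul_one]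
  have hker : ∀ y : J, y ∈ φ.ker ↔ (y : G) ∈ N := by
    intro y
    rw [MonoidHom.mem_ker]
    exact QuotientGroup.eq_one_iff _
  have hRJ : R ≤ J := le_normalizer
  let RΓ : Subgroup J := R.subgroupOf J
  haveI hRn : RΓ.Normal := Subgroup.normal_in_normalizer
  have hRp : IsPGroup r' R := R0.isPGroup'.map N.subtype
  have hRΓp : IsPGroup r' RΓ := by
    rintro ⟨y, hy⟩
    obtain ⟨k, hk⟩ := hRp ⟨y, hy⟩
    have h2 : (y : G) ^ r' ^ k = 1 := by simpa using congrArg Subtype.val hk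
    exact ⟨k, Subtype.ext (Subtype.ext (by simpa using h2))⟩
  have hRN : R ≤ N := map_subtype_le _
  have hRM : RΓ ≤ φ.ker := fun y hy => (hker y).2 (hRN hy)
  have hR1 : RΓ ≠ ⊥ := by
    obtain ⟨y, hy⟩ := exists_prime_orderOf_dvd_card' r' hr'N
    have hne : (R0 : Subgroup N) ≠ ⊥ := R0.ne_bot_of_dvd_card hr'N
    obtain ⟨⟨z, hz⟩, hz1⟩ := ne_bot_iff_exists_ne_one.1 hne
    have hzR : (z : G) ∈ R := mem_map_of_mem _ hz
    intro hbot
    have h1 : (⟨z, hRJ hzR⟩ : J) ∈ RΓ := hzR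
    rw [hbot, mem_bot] at h1
    apply hz1
    apply Subtype.ext
    apply Subtype.ext
    have h2 : (z : G) = 1 := congrArg (fun t : J => (t : G)) h1
    exact h2
  have hRmax : ∀ c ∈ φ.ker, (∃ k : ℕ, c ^ r' ^ k = 1) → c ∈ RΓ := by
    intro c hc ⟨k, hk⟩
    exact mem_of_normalizes N R0 ((hker c).1 hc) c.2 ⟨k, congrArg Subtype.val hk⟩
  refine core hφ (localHyp_of hcam J) hq hr'p hqp RΓ hRΓp hRM hR1 hRmax
    (rank2_of_camina hcam hp hpN hpX) ?_
  rcases hcase with ⟨h1, h2, h3⟩ | h4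
  · refine Or.inl ⟨h1, h2, fun y hy ⟨k, hk⟩ => ?_⟩
    apply Subtype.ext
    exact h3 _ ((hker y).1 hy) ⟨k, congrArg Subtype.val hk⟩
  · exact Or.inr h4

/-- The trichotomy. -/
theorem trichotomy (hN1 : N ≠ ⊥) (hN2 : N ≠ ⊤) (hcam : IsCamina N) :
    (∀ x ∈ N, x ≠ 1 → centralizer ({x} : Set G) ≤ N) ∨ IsPrimePow (Nat.card N) ∨ IsPrimePow N.index := by
  classical
  by_contra hcon
  push_neg at hcon
  obtain ⟨⟨x, hxN, hx1, hxc⟩, hnpN, hnpX⟩ := hcon
  obtain ⟨g, hgC, hgN⟩ := SetLike.not_le_iff_exists.1 hxc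
  have hcomm : Commute g x := (mem_centralizer_singleton_iff.1 hgC)
  -- the prime `p`
  have hπ1 : orderOf (g : G ⧸ N) ≠ 1 := by
    intro h
    exact hgN ((QuotientGroup.eq_one_iff _).1 (orderOf_eq_one_iff.1 h))
  obtain ⟨p, hp, hpo⟩ := Nat.exists_prime_and_dvd hπ1
  have h0 : orderOf g ≠ 0 := (orderOf_pos g).ne'
  obtain ⟨e, m, hm, he⟩ := Nat.exists_eq_pow_mul_and_not_dvd h0 p hp.ne_one
  let g1 : G := g ^ m
  have hg1N : g1 ∉ N := by
    intro h
    have h1 : (g : G ⧸ N) ^ m = 1 := by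
      rw [← QuotientGroup.mk_pow]
      exact (QuotientGroup.eq_one_iff _).2 h
    exact hm (hpo.trans (orderOf_dvd_of_pow_eq_one h1))
  have hg1p : g1 ^ p ^ e = 1 := by
    show (g ^ m) ^ p ^ e = 1
    rw [← pow_mul, mul_comm, ← he, pow_orderOf_eq_one]
  have hpN : p ∣ Nat.card N := by
    by_contra hcon
    have h1 : Nat.Coprime (orderOf x) p := by
      have h2 : orderOf x ∣ Nat.card N := by
        have := orderOf_dvd_natCard (⟨x, hxN⟩ : N)
        rwa [Subgroup.orderOf_mk] at this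
      exact Nat.Coprime.coprime_dvd_left h2 ((Nat.Prime.coprime_iff_not_dvd hp).2 hcon).symm
    exact hx1 (c2 hcam hp hg1N ⟨e, by rw [hg1p]; exact one_mem _⟩ hxN (hcomm.pow_left m) h1)
  have hpX : p ∣ Nat.card (G ⧸ N) := hpo.trans (orderOf_dvd_natCard _)
  -- the other primes
  have hNc : 1 < Nat.card N := by
    haveI : Nontrivial N := (nontrivial_iff_ne_bot N).2 hN1
    exact Finite.one_lt_card
  have hXc : 1 < Nat.card (G ⧸ N) := by
    rw [← index_eq_card]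
    have h1 : N.index ≠ 1 := fun h => hN2 (index_eq_one.1 h)
    have h2 : N.index ≠ 0 := index_ne_zero_of_finite
    omega
  have other : ∀ n : ℕ, 1 < n → p ∣ n → ¬ IsPrimePow n → ∃ t : ℕ, t.Prime ∧ t ≠ p ∧ t ∣ n := by
    intro n hn hpn hnp
    by_contra hcon
    push_neg at hcon
    apply hnp
    have h1 : n = p ^ n.primeFactorsList.length := by
      apply Nat.eq_prime_pow_of_unique_prime_dvd (by omega)
      intro d hd hdn
      by_contra hdp
      exact hcon d hd hdp hdn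
    refine ⟨p, n.primeFactorsList.length, hp.prime, ?_, h1.symm⟩
    rcases Nat.eq_zero_or_pos n.primeFactorsList.length with h2 | h2
    · rw [h2, pow_zero] at h1
      omega
    · exact h2
  obtain ⟨r, hr, hrp, hrN⟩ := other _ hNc hpN hnpN
  rw [index_eq_card] at hnpX
  obtain ⟨q, hq, hqp, hqX⟩ := other _ hXc hpX hnpX
  exact no_mixed hcam hp hr hq hrp.symm hqp hpN hpX hrN hqX

end Cfsg.Agent.H19.Camina
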