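import Mathlib
import Cfsg.Prelude.Def_Transfer
import Cfsg.Agent.Lib.H19.Sp2

/-! Covering a group by centralizers of Sylow subgroups (helper19). -/

set_option autoImplicit false
set_option linter.style.haveILetI false

namespace Cfsg.Agent.H19.ClassCover

open Subgroup
open scoped Pointwise

universe u

variable {G : Type u} [Group G]

/-- `p ∤ |G : C(x)|` gives a Sylow subgroup centralizing `x`. -/
theorem exists_sylow_centralizing [Finite G] {p : ℕ} [Fact p.Prime] (x : G)
    (hx : ¬ p ∣ (centralizer ({x} : Set G)).index) :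
    ∃ S : Sylow p G, x ∈ centralizer ((S : Subgroup G) : Set G) := by
  let C := centralizer ({x} : Set G)
  obtain ⟨R⟩ : Nonempty (Sylow p C) := Sylow.nonempty
  let R' := (R : Subgroup C).map C.subtype
  have hR'C : R' ≤ C := by
    rintro _ ⟨y, _, rfl⟩
    exact y.2
  have hR'p : IsPGroup p R' := R.2.map _
  have hsub : R'.subgroupOf C = (R : Subgroup C) :=
    Subgroup.comap_map_eq_self_of_injective C.subtype_injective _
  have hnd : ¬ p ∣ R'.index := by
    rw [← Subgroup.relIndex_mul_index hR'C]
    intro hd
    rcases (Fact.out : p.Prime).dvd_mul.1 hd with h1 | h1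
    · rw [Subgroup.relIndex, hsub] at h1
      exact R.not_dvd_index h1
    · exact hx h1
  refine ⟨hR'p.toSylow hnd, ?_⟩
  rw [Subgroup.mem_centralizer_iff]
  intro y hy
  have hy' : y ∈ C := hR'C hy
  exact Subgroup.mem_centralizer_singleton_iff.1 hy'

theorem card_centralizer_sylow [Finite G] {p : ℕ} [Fact p.Prime] (P S : Sylow p G) :
    Nat.card (centralizer ((S : Subgroup G) : Set G)) = Nat.card (centralizer ((P : Subgroup G) : Set G)) := by
  obtain ⟨g, rfl⟩ := MulAction.exists_smul_eq G P S
  rw [Sylow.coe_subgroup_smul]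
  have h1 : centralizer ((MulAut.conj g • (P : Subgroup G) : Subgroup G) : Set G) =
      MulAut.conj g • centralizer ((P : Subgroup G) : Set G) := by
    ext x
    rw [H01.mem_conj_smul_iff, Subgroup.mem_centralizer_iff, Subgroup.mem_centralizer_iff]
    constructor
    · intro h y hy
      have h2 := h (g * y * g⁻¹) (H01.mem_conj_smul_iff.2 (by
        have h3 : g⁻¹ * (g * y * g⁻¹) * g = y := by group
        rw [h3]; exact hy))
      calc y * (g⁻¹ * x * g) = g⁻¹ * ((g * y * g⁻¹) * x) * g := by group
        _ = g⁻¹ * (x * (g * y * g⁻¹)) * g := by rw [h2]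
        _ = g⁻¹ * x * g * y := by group
    · intro h y hy
      have hy2 := H01.mem_conj_smul_iff.1 hy
      have h2 := h _ hy2
      calc y * x = g * ((g⁻¹ * y * g) * (g⁻¹ * x * g)) * g⁻¹ := by group
        _ = g * ((g⁻¹ * x * g) * (g⁻¹ * y * g)) * g⁻¹ := by rw [h2]
        _ = x * y := by group
  rw [h1]
  exact H01.card_conj_smul _ _

/-- The count: `n_p * |C(P)| * 2 ≤ |G|` when `N(P)` does not centralize `P`. -/
theorem two_mul_le [Finite G] {p : ℕ} [Fact p.Prime] (P : Sylow p G)
    (hP : ¬ normalizer ((P : Subgroup G) : Set G) ≤ centralizer ((P : Subgroup G) : Set G)) :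
    Nat.card (Sylow p G) * (2 * Nat.card (centralizer ((P : Subgroup G) : Set G))) ≤ Nat.card G := by
  have hle : centralizer ((P : Subgroup G) : Set G) ≤ normalizer ((P : Subgroup G) : Set G) :=
    Subgroup.centralizer_le_normalizer _
  have h1 := Subgroup.card_dvd_of_le hle
  have hne : Nat.card (centralizer ((P : Subgroup G) : Set G)) ≠
      Nat.card (normalizer ((P : Subgroup G) : Set G)) := by
    intro h2
    apply hP
    exact le_of_eq (Subgroup.eq_of_le_of_card_ge hle (le_of_eq h2.symm)).symm
  obtain ⟨k, hk⟩ := h1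
  have hk2 : 2 ≤ k := by
    have hk0 : k ≠ 0 := by
      rintro rfl
      rw [mul_zero] at hk
      exact Nat.card_pos.ne' hk
    have hk1 : k ≠ 1 := by
      rintro rfl
      rw [mul_one] at hk
      exact hne hk.symm
    omega
  have h3 := Subgroup.card_mul_index (normalizer ((P : Subgroup G) : Set G))
  have h6 : (normalizer ((P : Subgroup G) : Set G)).index = Nat.card (Sylow p G) :=
    (Sylow.card_eq_index_normalizer P).symm
  rw [h6] at h3
  calc Nat.card (Sylow p G) * (2 * Nat.card (centralizer ((P : Subgroup G) : Set G)))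
      ≤ Nat.card (Sylow p G) * (k * Nat.card (centralizer ((P : Subgroup G) : Set G))) := by
        apply Nat.mul_le_mul_left
        exact Nat.mul_le_mul_right _ hk2
    _ = Nat.card G := by
        rw [← h3, mul_comm, mul_comm k, ← hk]

/-- Every element centralizes a Sylow `p`- or a Sylow `q`-subgroup: Burnside applies to one of them. -/
theorem normalizer_le_of_cover [Finite G] {p q : ℕ} [Fact p.Prime] [Fact q.Prime]
    (hcov : ∀ x : G, (∃ S : Sylow p G, x ∈ centralizer ((S : Subgroup G) : Set G)) ∨
      (∃ S : Sylow q G, x ∈ centralizer ((S : Subgroup G) : Set G)))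
    (P : Sylow p G) (Q : Sylow q G) :
    normalizer ((P : Subgroup G) : Set G) ≤ centralizer ((P : Subgroup G) : Set G) ∨
    normalizer ((Q : Subgroup G) : Set G) ≤ centralizer ((Q : Subgroup G) : Set G) := by
  classical
  by_contra hcon
  push_neg at hcon
  obtain ⟨hP, hQ⟩ := hcon
  have h1 := two_mul_le P hP
  have h2 := two_mul_le Q hQ
  haveI : Fintype G := Fintype.ofFinite G
  haveI : Fintype (Sylow p G) := Fintype.ofFinite _
  haveI : Fintype (Sylow q G) := Fintype.ofFinite _
  let U : ∀ {r : ℕ}, Sylow r G → Finset G := fun S =>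
    (Finset.univ.filter (fun x => x ∈ centralizer ((S : Subgroup G) : Set G))).erase 1
  have hUcard : ∀ {r : ℕ} [Fact r.Prime] (R S : Sylow r G),
      (U S).card + 1 = Nat.card (centralizer ((R : Subgroup G) : Set G)) := by
    intro r _ R S
    rw [← card_centralizer_sylow R S]
    simp only [U]
    rw [Finset.card_erase_add_one (by simp [one_mem]), Nat.card_eq_fintype_card,
      Fintype.card_subtype]
  have hcover : Finset.univ.erase (1 : G) ⊆
      (Finset.univ.biUnion (fun S : Sylow p G => U S)) ∪
      (Finset.univ.biUnion (fun S : Sylow q G => U S)) := by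
    intro x hx
    have hx1 : x ≠ 1 := (Finset.mem_erase.1 hx).1
    rw [Finset.mem_union]
    rcases hcov x with ⟨S, hS⟩ | ⟨S, hS⟩
    · left
      rw [Finset.mem_biUnion]
      exact ⟨S, Finset.mem_univ _, Finset.mem_erase.2 ⟨hx1, by simpa using hS⟩⟩
    · right
      rw [Finset.mem_biUnion]
      exact ⟨S, Finset.mem_univ _, Finset.mem_erase.2 ⟨hx1, by simpa using hS⟩⟩
  have hc := (Finset.card_le_card hcover).trans (Finset.card_union_le _ _)
  have hc1 := Finset.card_biUnion_le (s := (Finset.univ : Finset (Sylow p G))) (t := fun S => U S)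
  have hc2 := Finset.card_biUnion_le (s := (Finset.univ : Finset (Sylow q G))) (t := fun S => U S)
  have hsum1 : ∑ S : Sylow p G, (U S).card + Nat.card (Sylow p G) =
      Nat.card (Sylow p G) * Nat.card (centralizer ((P : Subgroup G) : Set G)) := by
    rw [Nat.card_eq_fintype_card, ← Finset.card_univ]
    have : ∑ S : Sylow p G, (U S).card + (Finset.univ : Finset (Sylow p G)).card =
        ∑ S : Sylow p G, ((U S).card + 1) := by
      rw [Finset.sum_add_distrib]; simp
    rw [this]
    simp only [hUcard P]
    simp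
  have hsum2 : ∑ S : Sylow q G, (U S).card + Nat.card (Sylow q G) =
      Nat.card (Sylow q G) * Nat.card (centralizer ((Q : Subgroup G) : Set G)) := by
    rw [Nat.card_eq_fintype_card, ← Finset.card_univ]
    have : ∑ S : Sylow q G, (U S).card + (Finset.univ : Finset (Sylow q G)).card =
        ∑ S : Sylow q G, ((U S).card + 1) := by
      rw [Finset.sum_add_distrib]; simp
    rw [this]
    simp only [hUcard Q]
    simp
  have hcardG : (Finset.univ.erase (1 : G)).card + 1 = Nat.card G := by
    rw [Finset.card_erase_add_one (Finset.mem_univ _), Finset.card_univ, Nat.card_eq_fintype_card]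
  have hnp : 0 < Nat.card (Sylow p G) := Nat.card_pos
  have hnq : 0 < Nat.card (Sylow q G) := Nat.card_pos
  have hG : 0 < Nat.card G := Nat.card_pos
  rw [mul_left_comm] at h1 h2
  omega

end Cfsg.Agent.H19.ClassCover
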