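import Mathlib
import Cfsg.Agent.Lib.H19.ClassCover
import Cfsg.Agent.Lib.H15.OddInvol
import Cfsg.Agent.Lib.H19.Kazarin2

/-! Same class sizes as a nilpotent group implies nilpotent (helper19). -/

set_option autoImplicit false
set_option linter.style.haveILetI false

namespace Cfsg.Agent.H19.CN

open Subgroup

universe u v

/-- Elements whose conjugacy class has `p`-power size. -/
def Tp (p : ℕ) (G : Type u) [Group G] : Set G :=
  {x | ∃ k : ℕ, (centralizer ({x} : Set G)).index = p ^ k}

section quot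

variable {G : Type u} [Group G] [Finite G] {p : ℕ}

lemma index_centralizer_conj (g x : G) :
    (centralizer ({g * x * g⁻¹} : Set G)).index = (centralizer ({x} : Set G)).index := by
  rw [← Cfsg.Agent.H19.ncard_class_eq_index, ← Cfsg.Agent.H19.ncard_class_eq_index]
  congr 2
  exact ConjClasses.mk_eq_mk_iff_isConj.2 (isConj_iff.2 ⟨g⁻¹, by group⟩)

lemma mem_Tp_quot (hp : p.Prime) (N : Subgroup G) [N.Normal] (hN : N ≤ center G)
    (hcard : Nat.card N = p) (x : G) :
    ((x : G ⧸ N) ∈ Tp p (G ⧸ N)) ↔ x ∈ Tp p G := by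
  let D : Subgroup G := (centralizer ({(x : G ⧸ N)} : Set (G ⧸ N))).comap (QuotientGroup.mk' N)
  have hDi : D.index = (centralizer ({(x : G ⧸ N)} : Set (G ⧸ N))).index :=
    index_comap_of_surjective _ (QuotientGroup.mk'_surjective N)
  have hCD : centralizer ({x} : Set G) ≤ D := by
    intro g hg
    have h1 : g * x = x * g := mem_centralizer_singleton_iff.1 hg
    change (QuotientGroup.mk' N g) ∈ centralizer ({(x : G ⧸ N)} : Set (G ⧸ N))
    rw [mem_centralizer_singleton_iff]
    change ((g * x : G) : G ⧸ N) = ((x * g : G) : G ⧸ N)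
    rw [h1]
  have hmemD : ∀ g ∈ D, x⁻¹ * g⁻¹ * x * g ∈ N := by
    intro g hg
    have h1 : (QuotientGroup.mk' N g) * (x : G ⧸ N) = (x : G ⧸ N) * (QuotientGroup.mk' N g) :=
      mem_centralizer_singleton_iff.1 hg
    have h2 : ((g * x : G) : G ⧸ N) = ((x * g : G) : G ⧸ N) := h1
    have h3 := QuotientGroup.eq.1 h2
    have h4 : (g * x)⁻¹ * (x * g) = x⁻¹ * g⁻¹ * x * g := by group
    rwa [h4] at h3
  have hrel : (centralizer ({x} : Set G)).relIndex D ∣ p := by
    let φ : D →* N := MonoidHom.mk' (fun g => (⟨x⁻¹ * (g : G)⁻¹ * x * g, hmemD g g.2⟩ : N)) (by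
      intro g h
      apply Subtype.ext
      have hc : ∀ u : G, (x⁻¹ * (g : G)⁻¹ * x * g) * u = u * (x⁻¹ * (g : G)⁻¹ * x * g) := by
        intro u
        exact (mem_center_iff.1 (hN (hmemD g g.2)) u).symm
      have hc2 : ∀ u : G, (x⁻¹ * (h : G)⁻¹ * x * h) * u = u * (x⁻¹ * (h : G)⁻¹ * x * h) := by
        intro u
        exact (mem_center_iff.1 (hN (hmemD h h.2)) u).symm
      simp only [Subgroup.coe_mul, MulMemClass.coe_mul]
      have e1 : (g : G)⁻¹ * x * g = x * (x⁻¹ * (g : G)⁻¹ * x * g) := by group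
      calc x⁻¹ * ((g : G) * h)⁻¹ * x * ((g : G) * h)
          = x⁻¹ * (h : G)⁻¹ * ((g : G)⁻¹ * x * g) * h := by group
        _ = x⁻¹ * (h : G)⁻¹ * (x * (x⁻¹ * (g : G)⁻¹ * x * g)) * h := by rw [← e1]
        _ = x⁻¹ * (h : G)⁻¹ * x * ((x⁻¹ * (g : G)⁻¹ * x * g) * h) := by group
        _ = x⁻¹ * (h : G)⁻¹ * x * (h * (x⁻¹ * (g : G)⁻¹ * x * g)) := by rw [hc]
        _ = (x⁻¹ * (h : G)⁻¹ * x * h) * (x⁻¹ * (g : G)⁻¹ * x * g) := by group
        _ = (x⁻¹ * (g : G)⁻¹ * x * g) * (x⁻¹ * (h : G)⁻¹ * x * h) := by rw [hc])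
    have hker : φ.ker = (centralizer ({x} : Set G)).subgroupOf D := by
      ext g
      rw [MonoidHom.mem_ker, mem_subgroupOf, mem_centralizer_singleton_iff]
      constructor
      · intro h
        have h1 : x⁻¹ * (g : G)⁻¹ * x * g = 1 := congrArg Subtype.val h
        have h2 : (g : G)⁻¹ * x * g = x := by
          calc (g : G)⁻¹ * x * g = x * (x⁻¹ * (g : G)⁻¹ * x * g) := by group
            _ = x := by rw [h1, mul_one]
        calc (g : G) * x = g * ((g : G)⁻¹ * x * g) := by rw [h2]
          _ = x * g := by group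
      · intro h
        apply Subtype.ext
        change x⁻¹ * (g : G)⁻¹ * x * g = 1
        calc x⁻¹ * (g : G)⁻¹ * x * g = x⁻¹ * (g : G)⁻¹ * (x * g) := by group
          _ = x⁻¹ * (g : G)⁻¹ * (g * x) := by rw [h]
          _ = 1 := by group
    rw [Subgroup.relIndex, ← hker, index_ker, ← hcard]
    exact (Subgroup.card_subgroup_dvd_card φ.range)
  constructor
  · rintro ⟨k, hk⟩
    have h1 := relIndex_mul_index hCD
    rw [hDi, hk] at h1
    rcases (Nat.dvd_prime hp).1 hrel with h2 | h2
    · exact ⟨k, by rw [← h1, h2, one_mul]⟩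
    · exact ⟨k + 1, by rw [← h1, h2, pow_succ, mul_comm]⟩
  · rintro ⟨k, hk⟩
    have h1 : D.index ∣ p ^ k := hk ▸ index_dvd_of_le hCD
    obtain ⟨j, _, hj⟩ := (Nat.dvd_prime_pow hp).1 h1
    exact ⟨j, by rw [← hDi, hj]⟩

lemma card_Tp_quot (hp : p.Prime) (N : Subgroup G) [N.Normal] (hN : N ≤ center G)
    (hcard : Nat.card N = p) : Nat.card (Tp p G) = p * Nat.card (Tp p (G ⧸ N)) := by
  have h1 : Tp p G = QuotientGroup.mk ⁻¹' (Tp p (G ⧸ N)) := by
    ext x
    exact (mem_Tp_quot hp N hN hcard x).symm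
  rw [h1, Nat.card_congr (QuotientGroup.preimageMkEquivSubgroupProdSet N (Tp p (G ⧸ N))),
    Nat.card_prod, hcard]

lemma dvd_card_center (hp : p.Prime) (h1 : p ∣ Nat.card G) (h2 : p ∣ Nat.card (Tp p G)) :
    p ∣ Nat.card (center G) := by
  classical
  haveI : Fact p.Prime := ⟨hp⟩
  obtain ⟨P⟩ : Nonempty (Sylow p G) := Sylow.nonempty
  letI : MulAction (P : Subgroup G) (Tp p G) :=
    { smul := fun g x => ⟨(g : G) * x * (g : G)⁻¹, by
        obtain ⟨k, hk⟩ := x.2
        exact ⟨k, by rw [index_centralizer_conj, hk]⟩⟩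
      one_smul := fun x => Subtype.ext (by
        change ((1 : P.1) : G) * x * ((1 : P.1) : G)⁻¹ = x
        simp)
      mul_smul := fun g h x => Subtype.ext (by
        change ((g * h : P.1) : G) * x * ((g * h : P.1) : G)⁻¹ =
          (g : G) * ((h : G) * x * (h : G)⁻¹) * (g : G)⁻¹
        simp only [Subgroup.coe_mul]
        group) }
  have hsm : ∀ (g : (P : Subgroup G)) (x : Tp p G), ((g • x : Tp p G) : G) = (g : G) * x * (g : G)⁻¹ :=
    fun _ _ => rfl
  have hmod := P.2.card_modEq_card_fixedPoints (Tp p G)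
  have hfix : Nat.card (MulAction.fixedPoints (P : Subgroup G) (Tp p G)) = Nat.card (center G) := by
    apply Nat.card_congr
    refine ⟨fun x => ⟨x.1.1, ?_⟩, fun z => ⟨⟨z.1, ?_⟩, ?_⟩, ?_, ?_⟩
    · -- a fixed point is central
      obtain ⟨k, hk⟩ := x.1.2
      have hle : (P : Subgroup G) ≤ centralizer ({(x.1 : G)} : Set G) := by
        intro g hg
        have h3 := x.2 ⟨g, hg⟩
        have h4 : (g : G) * x.1 * g⁻¹ = x.1 := by
          have := congrArg Subtype.val h3
          rwa [hsm] at this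
        rw [mem_centralizer_singleton_iff]
        calc g * (x.1 : G) = g * x.1 * g⁻¹ * g := by group
          _ = x.1 * g := by rw [h4]
      have h5 : ¬ p ∣ (centralizer ({(x.1 : G)} : Set G)).index := fun hd =>
        P.not_dvd_index (hd.trans (index_dvd_of_le hle))
      have hk0 : k = 0 := by
        by_contra hne
        apply h5
        rw [hk]
        exact dvd_pow_self p hne
      rw [hk0, pow_zero, Subgroup.index_eq_one] at hk
      rw [mem_center_iff]
      intro g
      have h6 : g ∈ centralizer ({(x.1 : G)} : Set G) := by rw [hk]; trivial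
      exact mem_centralizer_singleton_iff.1 h6
    · refine ⟨0, ?_⟩
      rw [pow_zero, Subgroup.index_eq_one, eq_top_iff]
      intro g _
      exact mem_centralizer_singleton_iff.2 (mem_center_iff.1 z.2 g)
    · intro g
      apply Subtype.ext
      rw [hsm]
      change (g : G) * z.1 * (g : G)⁻¹ = z.1
      rw [mem_center_iff.1 z.2 g]
      group
    · intro x; rfl
    · intro z; rfl
  rw [hfix] at hmod
  exact (Nat.modEq_zero_iff_dvd.1 (hmod.symm.trans (Nat.modEq_zero_iff_dvd.2 h2)))

end quot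

theorem key {p : ℕ} (hp : p.Prime) : ∀ (n : ℕ) (G : Type u) [Group G] [Finite G], Nat.card G = n →
    ∀ a m : ℕ, Nat.card G = p ^ a * m → ¬ p ∣ m → p ^ a ∣ Nat.card (Tp p G) →
    ∀ x : G, (∃ k : ℕ, orderOf x = p ^ k) → x ∈ Tp p G := by
  intro n
  induction n using Nat.strong_induction_on with
  | _ n ih =>
    intro G _ _ hn a m hG hm hT x hx
    rcases a with _ | a
    · -- no `p` in `|G|`
      obtain ⟨k, hk⟩ := hx
      have h1 : orderOf x ∣ Nat.card G := orderOf_dvd_natCard x
      rw [hk, hG, pow_zero, one_mul] at h1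
      have hk0 : k = 0 := by
        by_contra hne
        exact hm ((dvd_pow_self p hne).trans h1)
      rw [hk0, pow_zero] at hk
      rw [orderOf_eq_one_iff.1 hk]
      refine ⟨0, ?_⟩
      rw [pow_zero, Subgroup.index_eq_one, eq_top_iff]
      intro g _
      rw [mem_centralizer_singleton_iff]
      simp
    · have h1 : p ∣ Nat.card G := by
        rw [hG, pow_succ]
        exact Dvd.dvd.mul_right (dvd_mul_left _ _) _
      have h2 : p ∣ Nat.card (Tp p G) := (by rw [pow_succ]; exact dvd_mul_left _ _ : p ∣ p ^ (a + 1)).trans hT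
      have h3 := dvd_card_center hp h1 h2
      haveI : Fact p.Prime := ⟨hp⟩
      obtain ⟨z, hz⟩ := exists_prime_orderOf_dvd_card' (G := center G) p h3
      let N : Subgroup G := zpowers (z : G)
      have hzo : orderOf (z : G) = p := by rw [Subgroup.orderOf_coe]; exact hz
      have hNc : N ≤ center G := (zpowers_le (H := center G)).2 z.2
      haveI hNn : N.Normal := by
        refine ⟨fun y hy g => ?_⟩
        have h5 := mem_center_iff.1 (hNc hy) g
        rw [h5]
        simpa using hy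
      have hNcard : Nat.card N = p := by
        change Nat.card (zpowers (z : G)) = p
        rw [Nat.card_zpowers, hzo]
      have hcardq : Nat.card G = p * Nat.card (G ⧸ N) := by
        have := Subgroup.card_eq_card_quotient_mul_card_subgroup N
        rw [hNcard] at this
        rw [this, mul_comm]
      have hq1 : Nat.card (G ⧸ N) = p ^ a * m := by
        have h6 : p * Nat.card (G ⧸ N) = p * (p ^ a * m) := by
          rw [← hcardq, hG, pow_succ]; ring
        exact Nat.eq_of_mul_eq_mul_left hp.pos h6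
      have hlt : Nat.card (G ⧸ N) < n := by
        rw [← hn, hcardq]
        have h7 : 0 < Nat.card (G ⧸ N) := Nat.card_pos
        have h8 := hp.two_le
        nlinarith
      have hT2 : p ^ a ∣ Nat.card (Tp p (G ⧸ N)) := by
        have h9 := card_Tp_quot hp N hNc hNcard
        rw [h9, pow_succ, mul_comm (p ^ a) p] at hT
        exact Nat.dvd_of_mul_dvd_mul_left hp.pos hT
      have hx2 : ∃ k : ℕ, orderOf (x : G ⧸ N) = p ^ k := by
        obtain ⟨k, hk⟩ := hx
        have h10 : orderOf (x : G ⧸ N) ∣ p ^ k := by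
          rw [← hk]
          exact orderOf_map_dvd (QuotientGroup.mk' N) x
        obtain ⟨j, _, hj⟩ := (Nat.dvd_prime_pow hp).1 h10
        exact ⟨j, hj⟩
      have h11 := ih _ hlt (G ⧸ N) rfl a m hq1 hm hT2 (x : G ⧸ N) hx2
      exact (mem_Tp_quot hp N hNc hNcard x).1 h11

section nilp

variable {H : Type v} [Group H] [Finite H]

lemma sylow_normal (hH : Group.IsNilpotent H) {q : ℕ} (hq : q.Prime) (Q : Sylow q H) :
    (Q : Subgroup H).Normal :=
  (Group.isNilpotent_of_finite_tfae (G := H)).out 0 3 rfl rfl |>.mp hH q ⟨hq⟩ Q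

lemma mem_Tp_iff (hH : Group.IsNilpotent H) {p : ℕ} (hp : p.Prime) (x : H) :
    x ∈ Tp p H ↔ ∀ q : ℕ, q.Prime → q ≠ p → ∀ Q : Sylow q H, x ∈ centralizer ((Q : Subgroup H) : Set H) := by
  constructor
  · rintro ⟨k, hk⟩ q hq hqp Q
    haveI : Fact q.Prime := ⟨hq⟩
    have h1 : ¬ q ∣ (centralizer ({x} : Set H)).index := by
      rw [hk]
      intro hd
      exact hqp ((Nat.prime_dvd_prime_iff_eq hq hp).1 (hq.dvd_of_dvd_pow hd))
    obtain ⟨S, hS⟩ := Cfsg.Agent.H19.ClassCover.exists_sylow_centralizing x h1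
    have hn := sylow_normal hH hq Q
    have : S = Q := by
      obtain ⟨g, rfl⟩ := MulAction.exists_smul_eq H Q S
      haveI : Q.Normal := hn
      exact Sylow.smul_eq_of_normal
    rwa [this] at hS
  · intro h
    have hi : (centralizer ({x} : Set H)).index ≠ 0 := index_ne_zero_of_finite
    refine ⟨_, Nat.eq_prime_pow_of_unique_prime_dvd hi ?_⟩
    intro q hq hqd
    by_contra hqp
    haveI : Fact q.Prime := ⟨hq⟩
    obtain ⟨Q⟩ : Nonempty (Sylow q H) := Sylow.nonempty
    have hle : (Q : Subgroup H) ≤ centralizer ({x} : Set H) := by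
      intro g hg
      rw [mem_centralizer_singleton_iff]
      exact ((mem_centralizer_iff.1 (h q hq hqp Q)) g hg)
    exact Q.not_dvd_index (hqd.trans (index_dvd_of_le hle))

lemma nil_dvd (hH : Group.IsNilpotent H) {p : ℕ} (hp : p.Prime) {a m : ℕ}
    (hc : Nat.card H = p ^ a * m) (hm : ¬ p ∣ m) : p ^ a ∣ Nat.card (Tp p H) := by
  haveI : Fact p.Prime := ⟨hp⟩
  let T : Subgroup H :=
    { carrier := {x | ∀ q : ℕ, q.Prime → q ≠ p → ∀ Q : Sylow q H, x ∈ centralizer ((Q : Subgroup H) : Set H)}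
      mul_mem' := fun hx hy q hq hqp Q => mul_mem (hx q hq hqp Q) (hy q hq hqp Q)
      one_mem' := fun q hq hqp Q => one_mem _
      inv_mem' := fun hx q hq hqp Q => inv_mem (hx q hq hqp Q) }
  have hT : Tp p H = (T : Set H) := by
    ext x
    exact mem_Tp_iff hH hp x
  obtain ⟨P⟩ : Nonempty (Sylow p H) := Sylow.nonempty
  have hPT : (P : Subgroup H) ≤ T := by
    intro y hy q hq hqp Q
    rw [mem_centralizer_iff]
    intro g hg
    haveI : Fact q.Prime := ⟨hq⟩
    have hdis : Disjoint (Q : Subgroup H) (P : Subgroup H) :=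
      IsPGroup.disjoint_of_ne q p hqp _ _ Q.2 P.2
    exact (Subgroup.commute_of_normal_of_disjoint _ _ (sylow_normal hH hq Q) (sylow_normal hH hp P)
      hdis g y hg hy)
  have hPc : Nat.card P = p ^ a := by
    rw [P.card_eq_multiplicity, hc]
    have hm0 : m ≠ 0 := by
      rintro rfl
      exact hm (dvd_zero p)
    rw [Nat.factorization_mul (pow_ne_zero a hp.ne_zero) hm0]
    simp [hp.factorization_self, Nat.factorization_eq_zero_of_not_dvd hm]
  rw [hT, ← hPc]
  have h2 := Subgroup.card_dvd_of_le hPT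
  exact h2

end nilp

section final

variable {G : Type u} [Group G] [Finite G]

lemma commute_of_Tp {p q : ℕ} (hp : p.Prime) (hq : q.Prime) (hpq : p ≠ q)
    (hall : ∀ r : ℕ, r.Prime → ∀ x : G, (∃ k : ℕ, orderOf x = r ^ k) → x ∈ Tp r G)
    (P : Sylow p G) (Q : Sylow q G) {x y : G} (hx : x ∈ (P : Subgroup G)) (hy : y ∈ (Q : Subgroup G)) :
    x * y = y * x := by
  haveI : Fact p.Prime := ⟨hp⟩
  haveI : Fact q.Prime := ⟨hq⟩
  obtain ⟨i, hi⟩ := hall p hp x (by
    obtain ⟨k, hk⟩ := (IsPGroup.iff_orderOf.1 P.2) ⟨x, hx⟩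
    exact ⟨k, by rw [← hk, Subgroup.orderOf_mk]⟩)
  obtain ⟨j, hj⟩ := hall q hq y (by
    obtain ⟨k, hk⟩ := (IsPGroup.iff_orderOf.1 Q.2) ⟨y, hy⟩
    exact ⟨k, by rw [← hk, Subgroup.orderOf_mk]⟩)
  have hnd : ¬ q ∣ (centralizer ({x} : Set G)).index := by
    rw [hi]
    intro hd
    exact hpq ((Nat.prime_dvd_prime_iff_eq hq hp).1 (hq.dvd_of_dvd_pow hd)).symm
  obtain ⟨S, hS⟩ := Cfsg.Agent.H19.ClassCover.exists_sylow_centralizing x hnd
  obtain ⟨g, hg⟩ := MulAction.exists_smul_eq G Q S
  have hc : (centralizer ({x} : Set G)).index.Coprime (centralizer ({y} : Set G)).index := by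
    rw [hi, hj]
    exact Nat.Coprime.pow _ _ ((Nat.coprime_primes hp hq).2 hpq)
  obtain ⟨u, hu, v, hv, rfl⟩ := Cfsg.Agent.H15.exists_mul_of_coprime_index _ _ hc g
  have hy' : (u * v) * y * (u * v)⁻¹ ∈ (S : Subgroup G) := by
    rw [← hg, Sylow.coe_subgroup_smul]
    exact Cfsg.Agent.H19.mem_conj_smul.2 (by simpa [mul_assoc] using hy)
  have hvy : v * y * v⁻¹ = y := by
    have h1 := mem_centralizer_singleton_iff.1 hv
    rw [h1]; group
  have hy2 : u * y * u⁻¹ ∈ (S : Subgroup G) := by
    have e : (u * v) * y * (u * v)⁻¹ = u * (v * y * v⁻¹) * u⁻¹ := by group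
    rwa [e, hvy] at hy'
  have hcomm : (u * y * u⁻¹) * x = x * (u * y * u⁻¹) := (mem_centralizer_iff.1 hS) _ hy2
  have hux : u * x = x * u := mem_centralizer_singleton_iff.1 hu
  have hux' : u⁻¹ * x = x * u⁻¹ := by
    calc u⁻¹ * x = u⁻¹ * (x * u) * u⁻¹ := by group
      _ = u⁻¹ * (u * x) * u⁻¹ := by rw [hux]
      _ = x * u⁻¹ := by group
  have h5 : u * (y * x) * u⁻¹ = u * (x * y) * u⁻¹ := by
    calc u * (y * x) * u⁻¹ = (u * y * u⁻¹) * (u * x * u⁻¹) := by group
      _ = (u * y * u⁻¹) * x := by rw [hux]; group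
      _ = x * (u * y * u⁻¹) := hcomm
      _ = (u * x * u⁻¹) * (u * y * u⁻¹) := by rw [hux]; group
      _ = u * (x * y) * u⁻¹ := by group
  have h6 : y * x = x * y := by
    have := mul_right_cancel h5
    exact mul_left_cancel this
  exact h6.symm

theorem nilpotent_of_all_Tp
    (hall : ∀ r : ℕ, r.Prime → ∀ x : G, (∃ k : ℕ, orderOf x = r ^ k) → x ∈ Tp r G) :
    Group.IsNilpotent G := by
  refine (Group.isNilpotent_of_finite_tfae (G := G)).out 0 3 rfl rfl |>.mpr ?_
  intro p hp P
  have hi : (normalizer ((P : Subgroup G) : Set G)).index = 1 := by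
    by_contra hne
    obtain ⟨q, hq, hqd⟩ := Nat.exists_prime_and_dvd hne
    by_cases hqp : q = p
    · subst hqp
      exact P.not_dvd_index (hqd.trans (index_dvd_of_le (le_normalizer)))
    · haveI : Fact q.Prime := ⟨hq⟩
      obtain ⟨Q⟩ : Nonempty (Sylow q G) := Sylow.nonempty
      have hle : (Q : Subgroup G) ≤ normalizer ((P : Subgroup G) : Set G) := by
        intro y hy
        rw [mem_normalizer_iff]
        intro x
        constructor
        · intro hx
          have h1 := commute_of_Tp hp.out hq (Ne.symm hqp) hall P Q hx hy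
          have h2 : y * x * y⁻¹ = x := by rw [← h1]; group
          rw [h2]; exact hx
        · intro hx
          have h1 := commute_of_Tp hp.out hq (Ne.symm hqp) hall P Q hx hy
          have h2 : y * (y * x * y⁻¹) * y⁻¹ = y * x * y⁻¹ := by
            rw [← h1]; group
          have h3 : y * x * y⁻¹ = x := by
            have h4 := mul_left_cancel (a := y) (b := (y * x * y⁻¹) * y⁻¹) (c := x * y⁻¹) (by
              rw [← mul_assoc, ← mul_assoc] at h2 ⊢
              simpa [mul_assoc] using h2)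
            exact mul_right_cancel h4
          rwa [h3] at hx
      exact Q.not_dvd_index (hqd.trans (index_dvd_of_le hle))
  rw [Subgroup.index_eq_one, normalizer_eq_top_iff] at hi
  exact hi

end final

section transport

variable {G : Type u} [Group G] [Finite G] {H : Type v} [Group H] [Finite H]

theorem class_equiv
    (h : ∀ k : ℕ, Nat.card {C : ConjClasses G // Nat.card C.carrier = k} =
      Nat.card {C : ConjClasses H // Nat.card C.carrier = k}) :
    ∃ ε : ConjClasses G ≃ ConjClasses H, ∀ C, Nat.card (ε C).carrier = Nat.card C.carrier := by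
  classical
  have he : ∀ k : ℕ, Nonempty ({C : ConjClasses G // Nat.card C.carrier = k} ≃
      {C : ConjClasses H // Nat.card C.carrier = k}) := fun k => Finite.card_eq.1 (h k)
  let f := fun k => (he k).some
  let e1 := (Equiv.sigmaFiberEquiv (fun C : ConjClasses G => Nat.card C.carrier)).symm
  let e2 := Equiv.sigmaFiberEquiv (fun C : ConjClasses H => Nat.card C.carrier)
  refine ⟨e1.trans ((Equiv.sigmaCongrRight f).trans e2), ?_⟩
  intro C
  change Nat.card ((f (Nat.card C.carrier) ⟨C, rfl⟩ : {C' : ConjClasses H // Nat.card C'.carrier = Nat.card C.carrier}).1.carrier) = _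
  exact (f (Nat.card C.carrier) ⟨C, rfl⟩).2

lemma card_eq_of_pred (ε : ConjClasses G ≃ ConjClasses H)
    (hε : ∀ C, Nat.card (ε C).carrier = Nat.card C.carrier) (Q : ℕ → Prop) :
    Nat.card {x : G // Q (Nat.card (ConjClasses.mk x).carrier)} =
      Nat.card {x : H // Q (Nat.card (ConjClasses.mk x).carrier)} := by
  classical
  have e1 : ∀ (X : Type (max u v)) [Group X], True := fun _ _ => trivial
  clear e1
  have hG : {x : G // Q (Nat.card (ConjClasses.mk x).carrier)} ≃
      Σ C : {C : ConjClasses G // Q (Nat.card C.carrier)}, (C.1.carrier) :=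
    { toFun := fun x => ⟨⟨ConjClasses.mk x.1, x.2⟩, ⟨x.1, ConjClasses.mem_carrier_mk⟩⟩
      invFun := fun y => ⟨y.2.1, by
        have h1 : ConjClasses.mk y.2.1 = y.1.1 := ConjClasses.mem_carrier_iff_mk_eq.1 y.2.2
        rw [h1]; exact y.1.2⟩
      left_inv := fun x => rfl
      right_inv := by
        rintro ⟨⟨C, hC⟩, ⟨y, hy⟩⟩
        have h1 : ConjClasses.mk y = C := ConjClasses.mem_carrier_iff_mk_eq.1 hy
        subst h1
        rfl }
  have hH : {x : H // Q (Nat.card (ConjClasses.mk x).carrier)} ≃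
      Σ C : {C : ConjClasses H // Q (Nat.card C.carrier)}, (C.1.carrier) :=
    { toFun := fun x => ⟨⟨ConjClasses.mk x.1, x.2⟩, ⟨x.1, ConjClasses.mem_carrier_mk⟩⟩
      invFun := fun y => ⟨y.2.1, by
        have h1 : ConjClasses.mk y.2.1 = y.1.1 := ConjClasses.mem_carrier_iff_mk_eq.1 y.2.2
        rw [h1]; exact y.1.2⟩
      left_inv := fun x => rfl
      right_inv := by
        rintro ⟨⟨C, hC⟩, ⟨y, hy⟩⟩
        have h1 : ConjClasses.mk y = C := ConjClasses.mem_carrier_iff_mk_eq.1 hy
        subst h1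
        rfl }
  rw [Nat.card_congr hG, Nat.card_congr hH]
  let ε' : {C : ConjClasses G // Q (Nat.card C.carrier)} ≃ {C : ConjClasses H // Q (Nat.card C.carrier)} :=
    ε.subtypeEquiv (fun C => by rw [hε])
  have hc : ∀ C : {C : ConjClasses G // Q (Nat.card C.carrier)},
      Nonempty ((C.1.carrier) ≃ ((ε' C).1.carrier)) := fun C => by
    apply Finite.card_eq.1
    exact (hε C.1).symm
  let f := fun C => (hc C).some
  exact Nat.card_congr (Equiv.sigmaCongr ε' f)

theorem main (hH : Group.IsNilpotent H)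
    (h : ∀ k : ℕ, Nat.card {C : ConjClasses G // Nat.card C.carrier = k} =
      Nat.card {C : ConjClasses H // Nat.card C.carrier = k}) : Group.IsNilpotent G := by
  obtain ⟨ε, hε⟩ := class_equiv h
  apply nilpotent_of_all_Tp
  intro p hp x hx
  have hcard : Nat.card G = Nat.card H := by
    have h1 := card_eq_of_pred ε hε (fun _ => True)
    simpa [Nat.card_congr (Equiv.subtypeUnivEquiv (p := fun _ : G => True) (fun _ => trivial)),
      Nat.card_congr (Equiv.subtypeUnivEquiv (p := fun _ : H => True) (fun _ => trivial))] using h1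
  obtain ⟨a, m, hm, hG⟩ := Nat.exists_eq_pow_mul_and_not_dvd (Nat.card_pos (α := G)).ne' p hp.ne_one
  have hTT : Nat.card (Tp p G) = Nat.card (Tp p H) := by
    have h1 := card_eq_of_pred ε hε (fun n => ∃ k : ℕ, n = p ^ k)
    have eG : ∀ (X : Type u) [Group X] [Finite X], True := fun _ _ _ => trivial
    clear eG
    have hG2 : Nat.card (Tp p G) = Nat.card {x : G // ∃ k : ℕ, Nat.card (ConjClasses.mk x).carrier = p ^ k} := by
      apply Nat.card_congr
      apply Equiv.subtypeEquivRight
      intro x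
      change (∃ k : ℕ, (centralizer ({x} : Set G)).index = p ^ k) ↔ _
      rw [← Cfsg.Agent.H19.ncard_class_eq_index, Nat.card_coe_set_eq]
    have hH2 : Nat.card (Tp p H) = Nat.card {x : H // ∃ k : ℕ, Nat.card (ConjClasses.mk x).carrier = p ^ k} := by
      apply Nat.card_congr
      apply Equiv.subtypeEquivRight
      intro x
      change (∃ k : ℕ, (centralizer ({x} : Set H)).index = p ^ k) ↔ _
      rw [← Cfsg.Agent.H19.ncard_class_eq_index, Nat.card_coe_set_eq]
    rw [hG2, hH2]
    exact h1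
  have hd : p ^ a ∣ Nat.card (Tp p G) := by
    rw [hTT]
    exact nil_dvd hH hp (hcard ▸ hG) hm
  exact key hp _ G rfl a m hG hm hd x hx

end transport

end Cfsg.Agent.H19.CN
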