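import Mathlib
import Cfsg.Prelude.Def_Transfer
import Cfsg.Agent.Lib.H18.Syl
import Cfsg.Agent.Lib.H19.Basic

/-!
Primes dividing class sizes: if `G` has no normal `p`-complement then at least half of the elements
have class size divisible by `p`.
-/

set_option autoImplicit false
set_option linter.style.haveILetI false

namespace Cfsg.Agent.H19

open Cfsg

universe u

variable {G : Type u} [Group G] [Finite G]

/-- At most half of the elements have class size prime to `p` if there is no normal `p`-complement. -/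
theorem two_mul_card_regular_le (p : ℕ) [Fact p.Prime] (P : Sylow p G)
    (hN : ¬ HasNormalPComplement p G) :
    2 * {g : G | ¬ p ∣ (Subgroup.centralizer ({g} : Set G)).index}.ncard ≤ Nat.card G := by
  classical
  set N := Subgroup.normalizer ((P : Subgroup G) : Set G) with hNdef
  set C := Subgroup.centralizer ((P : Subgroup G) : Set G) with hCdef
  have hmemC : ∀ x, x ∈ C ↔ ∀ y ∈ (P : Subgroup G), y * x = x * y := by
    intro x
    rw [hCdef, Subgroup.mem_centralizer_iff]
    exact Iff.rfl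
  have hCN : C ≤ N := by
    intro x hx
    rw [hNdef, Subgroup.mem_normalizer_iff]
    intro y
    have hx' := (hmemC x).mp hx
    constructor
    · intro hy
      have := hx' y hy
      rw [show x * y * x⁻¹ = y by rw [← this]; group]
      exact hy
    · intro hy
      have := hx' _ hy
      have h2 : y = x * y * x⁻¹ := by
        have h3 : x * y * x⁻¹ * x = x * (x * y * x⁻¹) := this
        have h4 : x * y * x⁻¹ * x = x * y := by group
        rw [h4] at h3
        exact mul_left_cancel h3
      rw [h2]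
      exact hy
  have hne : ¬ N ≤ C := by
    intro hle
    apply hN
    haveI : (P : Subgroup G).FiniteIndex := inferInstance
    exact ⟨P, (MonoidHom.transferSylow P hle).ker, inferInstance,
      MonoidHom.ker_transferSylow_isComplement' P hle⟩
  have hcard2 : 2 * Nat.card C ≤ Nat.card N := by
    have hdvd : Nat.card C ∣ Nat.card N := Subgroup.card_dvd_of_le hCN
    have hlt : Nat.card C ≠ Nat.card N := by
      intro h
      apply hne
      exact (Subgroup.eq_of_le_of_card_ge hCN (le_of_eq h.symm)).symm.le.trans le_rfl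
    obtain ⟨k, hk⟩ := hdvd
    have hpos : 0 < Nat.card C := Nat.card_pos
    have hk2 : 2 ≤ k := by
      by_contra hk'
      interval_cases k
      · rw [mul_zero] at hk
        have : 0 < Nat.card N := Nat.card_pos
        omega
      · rw [mul_one] at hk
        exact hlt hk.symm
    calc 2 * Nat.card C ≤ k * Nat.card C := Nat.mul_le_mul_right _ hk2
      _ = Nat.card N := by rw [hk, mul_comm]
  -- the covering
  let f : (G ⧸ N) × C → G := fun q => (q.1.out : G) * (q.2 : G) * (q.1.out : G)⁻¹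
  have hsub : {g : G | ¬ p ∣ (Subgroup.centralizer ({g} : Set G)).index} ⊆ Set.range f := by
    intro t ht
    obtain ⟨g, hg⟩ := Cfsg.Agent.H18.exists_sylow_le_conj P (Subgroup.centralizer ({t} : Set G)) ht
    have h1 : g * t * g⁻¹ ∈ C := by
      rw [hmemC]
      intro y hy
      obtain ⟨z, hz, rfl⟩ := hg hy
      have hz := Subgroup.mem_centralizer_singleton_iff.mp hz
      show g * z * g⁻¹ * (g * t * g⁻¹) = g * t * g⁻¹ * (g * z * g⁻¹)
      have h2 : g * z * g⁻¹ * (g * t * g⁻¹) = g * (z * t) * g⁻¹ := by group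
      have h3 : g * t * g⁻¹ * (g * z * g⁻¹) = g * (t * z) * g⁻¹ := by group
      rw [h2, h3, hz]
    set a := g⁻¹ with ha
    set q : G ⧸ N := (a : G ⧸ N) with hq
    have hn : (q.out)⁻¹ * a ∈ N := by
      have h2 : ((q.out : G) : G ⧸ N) = (a : G ⧸ N) := by
        rw [QuotientGroup.out_eq']
      exact QuotientGroup.eq.mp h2
    set n := (q.out)⁻¹ * a with hndef
    have hact : n * (g * t * g⁻¹) * n⁻¹ ∈ C := by
      rw [hmemC]
      intro y hy
      have hy' : n⁻¹ * y * n ∈ (P : Subgroup G) := by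
        have hnN : n⁻¹ ∈ N := N.inv_mem hn
        have := (Subgroup.mem_normalizer_iff.mp hnN y).mp hy
        simpa using this
      have h3 := (hmemC _).mp h1 _ hy'
      have h4 : n * (n⁻¹ * y * n * (g * t * g⁻¹)) * n⁻¹ = n * (g * t * g⁻¹ * (n⁻¹ * y * n)) * n⁻¹ := by
        rw [h3]
      simpa [mul_assoc] using h4
    refine ⟨(q, ⟨_, hact⟩), ?_⟩
    show (q.out : G) * (n * (g * t * g⁻¹) * n⁻¹) * (q.out : G)⁻¹ = t
    have h5 : (q.out : G) * n = a := by rw [hndef]; group
    have h6 : (q.out : G) * (n * (g * t * g⁻¹) * n⁻¹) * (q.out : G)⁻¹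
        = ((q.out : G) * n) * (g * t * g⁻¹) * ((q.out : G) * n)⁻¹ := by group
    rw [h6, h5, ha]
    group
  have hle : {g : G | ¬ p ∣ (Subgroup.centralizer ({g} : Set G)).index}.ncard ≤
      Nat.card (G ⧸ N) * Nat.card C := by
    calc _ ≤ (Set.range f).ncard := Set.ncard_le_ncard hsub (Set.toFinite _)
      _ ≤ Nat.card ((G ⧸ N) × C) := by
          rw [← Set.image_univ]
          refine (Set.ncard_image_le (Set.toFinite _)).trans ?_
          rw [Set.ncard_univ]
      _ = _ := Nat.card_prod _ _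
  calc 2 * _ ≤ 2 * (Nat.card (G ⧸ N) * Nat.card C) := Nat.mul_le_mul_left _ hle
    _ = Nat.card (G ⧸ N) * (2 * Nat.card C) := by ring
    _ ≤ Nat.card (G ⧸ N) * Nat.card N := Nat.mul_le_mul_left _ hcard2
    _ = Nat.card G := by
        rw [mul_comm]
        exact (Subgroup.card_eq_card_quotient_mul_card_subgroup N).symm ▸ by ring

/-- The main count. -/
theorem card_class_primes_le (σ : ℕ)
    (hσ : ∀ x : G, ((Subgroup.centralizer ({x} : Set G)).index).primeFactors.card ≤ σ)
    (hnil : ∀ p q : ℕ, p.Prime → q.Prime → p ∣ Nat.card G → q ∣ Nat.card G →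
      HasNormalPComplement p G → HasNormalPComplement q G → p = q) :
    Nat.card {p : ℕ | p.Prime ∧ ∃ x : G, p ∣ (Subgroup.centralizer ({x} : Set G)).index} ≤ 2 * σ := by
  classical
  haveI : Fintype G := Fintype.ofFinite G
  set idx : G → ℕ := fun g => (Subgroup.centralizer ({g} : Set G)).index with hidx
  have hidx0 : ∀ g, idx g ≠ 0 := fun g => Subgroup.index_ne_zero_of_finite
  have hidxdvd : ∀ g, idx g ∣ Nat.card G := fun g => Subgroup.index_dvd_card _
  have hG0 : 0 < Nat.card G := Nat.card_pos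
  set Pi : Finset ℕ := (Nat.card G).primeFactors.filter (fun p => ∃ x : G, p ∣ idx x) with hPi
  have hset : {p : ℕ | p.Prime ∧ ∃ x : G, p ∣ (Subgroup.centralizer ({x} : Set G)).index} = (Pi : Set ℕ) := by
    ext p
    simp only [Set.mem_setOf_eq, Finset.mem_coe, hPi, Finset.mem_filter, Nat.mem_primeFactors]
    constructor
    · rintro ⟨hp, x, hx⟩
      exact ⟨⟨hp, hx.trans (hidxdvd x), hG0.ne'⟩, x, hx⟩
    · rintro ⟨⟨hp, -, -⟩, x, hx⟩
      exact ⟨hp, x, hx⟩
  rw [hset, Nat.card_coe_set_eq, Set.ncard_coe_finset]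
  set Pi0 := Pi.filter (fun p => ¬ HasNormalPComplement p G) with hPi0
  set Pi1 := Pi.filter (fun p => HasNormalPComplement p G) with hPi1
  have hsplit : Pi0.card + Pi1.card = Pi.card := by
    rw [add_comm]
    exact Finset.card_filter_add_card_filter_not _
  have hprime : ∀ p ∈ Pi, p.Prime ∧ p ∣ Nat.card G := by
    intro p hp
    have := (Finset.mem_filter.mp hp).1
    exact ⟨Nat.prime_of_mem_primeFactors this, Nat.dvd_of_mem_primeFactors this⟩
  have hPi1le : Pi1.card ≤ 1 := by
    rw [Finset.card_le_one]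
    intro a ha b hb
    obtain ⟨ha1, ha2⟩ := Finset.mem_filter.mp ha
    obtain ⟨hb1, hb2⟩ := Finset.mem_filter.mp hb
    exact hnil a b (hprime a ha1).1 (hprime b hb1).1 (hprime a ha1).2 (hprime b hb1).2 ha2 hb2
  let Ω : ℕ → Finset G := fun p => Finset.univ.filter (fun g => p ∣ idx g)
  have hdouble : ∑ p ∈ Pi, (Ω p).card ≤ Nat.card G * σ := by
    have h1 : ∑ p ∈ Pi, (Ω p).card = ∑ g : G, (Pi.filter (fun p => p ∣ idx g)).card := by
      simp only [Ω, Finset.card_filter]
      rw [Finset.sum_comm]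
    rw [h1, Nat.card_eq_fintype_card]
    calc ∑ g : G, (Pi.filter (fun p => p ∣ idx g)).card ≤ ∑ _g : G, σ := by
          refine Finset.sum_le_sum (fun g _ => ?_)
          refine le_trans (Finset.card_le_card ?_) (hσ g)
          intro p hp
          obtain ⟨hp1, hp2⟩ := Finset.mem_filter.mp hp
          rw [Nat.mem_primeFactors]
          exact ⟨(hprime p hp1).1, hp2, hidx0 g⟩
      _ = _ := by simp
  have hΩhalf : ∀ p ∈ Pi0, Nat.card G ≤ 2 * (Ω p).card := by
    intro p hp
    obtain ⟨hp1, hp2⟩ := Finset.mem_filter.mp hp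
    haveI : Fact p.Prime := ⟨(hprime p hp1).1⟩
    obtain ⟨P⟩ := (inferInstance : Nonempty (Sylow p G))
    have h1 := two_mul_card_regular_le p P hp2
    have h2 : {g : G | ¬ p ∣ (Subgroup.centralizer ({g} : Set G)).index}.ncard
        = (Finset.univ.filter (fun g => ¬ p ∣ idx g)).card := by
      rw [← Set.ncard_coe_finset]
      congr 1
      ext g
      simp [idx]
    have h3 := Finset.card_filter_add_card_filter_not (s := (Finset.univ : Finset G)) (fun g => p ∣ idx g)
    rw [Finset.card_univ, ← Nat.card_eq_fintype_card] at h3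
    rw [h2] at h1
    show Nat.card G ≤ 2 * (Finset.univ.filter (fun g => p ∣ idx g)).card
    omega
  have hsum : ∑ p ∈ Pi, (Ω p).card = ∑ p ∈ Pi0, (Ω p).card + ∑ p ∈ Pi1, (Ω p).card := by
    rw [add_comm]
    exact (Finset.sum_filter_add_sum_filter_not _ _ _).symm
  have h₁ : Pi1.card ≤ ∑ p ∈ Pi1, (Ω p).card := by
    rw [Finset.card_eq_sum_ones]
    refine Finset.sum_le_sum (fun p hp => ?_)
    obtain ⟨hp1, -⟩ := Finset.mem_filter.mp hp
    obtain ⟨-, x, hx⟩ := Finset.mem_filter.mp hp1
    exact Finset.card_pos.mpr ⟨x, Finset.mem_filter.mpr ⟨Finset.mem_univ _, hx⟩⟩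
  have h₀ : Pi0.card * Nat.card G ≤ 2 * ∑ p ∈ Pi0, (Ω p).card := by
    rw [Finset.mul_sum, ← smul_eq_mul, ← Finset.sum_const]
    exact Finset.sum_le_sum hΩhalf
  rcases Nat.eq_zero_or_pos Pi1.card with h0 | hpos
  · have h2 : Pi0.card * Nat.card G ≤ 2 * σ * Nat.card G := by
      have h3 : ∑ p ∈ Pi0, (Ω p).card ≤ Nat.card G * σ := by omega
      calc _ ≤ 2 * ∑ p ∈ Pi0, (Ω p).card := h₀
        _ ≤ 2 * (Nat.card G * σ) := Nat.mul_le_mul_left _ h3
        _ = _ := by ring
    have h3 := Nat.le_of_mul_le_mul_right h2 hG0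
    omega
  · have h2 : Pi0.card * Nat.card G < 2 * σ * Nat.card G := by
      have h3 : ∑ p ∈ Pi0, (Ω p).card + 1 ≤ Nat.card G * σ := by omega
      have h4 : 2 * ∑ p ∈ Pi0, (Ω p).card < 2 * (Nat.card G * σ) := by omega
      calc _ ≤ 2 * ∑ p ∈ Pi0, (Ω p).card := h₀
        _ < 2 * (Nat.card G * σ) := h4
        _ = _ := by ring
    have h3 := Nat.lt_of_mul_lt_mul_right h2
    omega

end Cfsg.Agent.H19
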