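import Cfsg.Agent.Lib.H01.Fitting
import Cfsg.Agent.Lib.H01.Hall
import Cfsg.Agent.Lib.H19.Basic
import Cfsg.Agent.Lib.H19.Lifts
import Cfsg.Agent.Lib.H14.CoprimeGen
import Cfsg.Agent.Lib.H14.UniqueSub
import Cfsg.Agent.Lib.H06.Nilp
import Cfsg.Agent.Lib.H08.NilCoprime

/-! Normal subgroups with all elements of a coset of the same order (helper19). -/

set_option autoImplicit false
set_option linter.style.haveILetI false

namespace Cfsg.Agent.H19

section conj

variable {G : Type*} [Group G] [Finite G]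

/-- A Frattini-type conjugation: an element of prime order `s` in `K⟨y⟩`, `K` a normal `s'`-group,
is conjugate by `K` into `⟨y⟩`. -/
theorem exists_conj_mem_zpowers (K : Subgroup G) [K.Normal] {s : ℕ} [hs : Fact s.Prime]
    (hK : ¬ s ∣ Nat.card K) {y z : G} (hy : orderOf y = s) (hz : orderOf z = s)
    (hzL : z ∈ Subgroup.zpowers y ⊔ K) : ∃ k ∈ K, k * z * k⁻¹ ∈ Subgroup.zpowers y := by
  classical
  set L : Subgroup G := Subgroup.zpowers y ⊔ K with hL
  have hY : (Subgroup.zpowers y) ≤ L := le_sup_left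
  have hdisj : Subgroup.zpowers y ⊓ K = ⊥ := by
    rw [eq_bot_iff]
    intro a ha
    obtain ⟨ha1, ha2⟩ := ha
    have h1 : orderOf a ∣ s := by
      have := orderOf_dvd_of_mem_zpowers ha1
      rwa [hy] at this
    have h2 : orderOf a ∣ Nat.card K := by
      have := orderOf_dvd_natCard (⟨a, ha2⟩ : K)
      rwa [Subgroup.orderOf_mk] at this
    have h3 : orderOf a = 1 := by
      rcases (Nat.dvd_prime hs.out).mp h1 with h | h
      · exact h
      · rw [h] at h2
        exact absurd h2 hK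
    exact Subgroup.mem_bot.mpr (orderOf_eq_one_iff.mp h3)
  have hcard : Nat.card L * 1 = s * Nat.card K := by
    have h1 := H01.card_sup_mul_card_inf (Subgroup.zpowers y) K
    rw [hdisj, Subgroup.card_bot, Nat.card_zpowers, hy] at h1
    exact h1
  -- the two subgroups as Sylow subgroups of `L`
  let Y₁ : Subgroup L := (Subgroup.zpowers y).subgroupOf L
  let Y₂ : Subgroup L := (Subgroup.zpowers z).subgroupOf L
  have hzL' : z ∈ L := hzL
  have hc1 : Nat.card Y₁ = s := by
    have : Nat.card Y₁ = Nat.card (Subgroup.zpowers y) := by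
      exact Nat.card_congr (Subgroup.subgroupOfEquivOfLe hY).toEquiv
    rw [this, Nat.card_zpowers, hy]
  have hc2 : Nat.card Y₂ = s := by
    have : Nat.card Y₂ = Nat.card (Subgroup.zpowers z) := by
      refine Nat.card_congr (Subgroup.subgroupOfEquivOfLe ?_).toEquiv
      exact (Subgroup.zpowers_le).mpr hzL'
    rw [this, Nat.card_zpowers, hz]
  have hp1 : IsPGroup s Y₁ := IsPGroup.of_card (n := 1) (by rw [hc1, pow_one])
  have hp2 : IsPGroup s Y₂ := IsPGroup.of_card (n := 1) (by rw [hc2, pow_one])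
  have hLc : Nat.card L = s * Nat.card K := by simpa using hcard
  have hi1 : ¬ s ∣ Y₁.index := by
    have h1 := Y₁.card_mul_index
    rw [hc1, hLc] at h1
    have h2 : Y₁.index = Nat.card K := Nat.eq_of_mul_eq_mul_left hs.out.pos h1
    rw [h2]
    exact hK
  have hi2 : ¬ s ∣ Y₂.index := by
    have h1 := Y₂.card_mul_index
    rw [hc2, hLc] at h1
    have h2 : Y₂.index = Nat.card K := Nat.eq_of_mul_eq_mul_left hs.out.pos h1
    rw [h2]
    exact hK
  let S₁ : Sylow s L := hp1.toSylow hi1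
  let S₂ : Sylow s L := hp2.toSylow hi2
  obtain ⟨g, hg⟩ := MulAction.exists_smul_eq L S₂ S₁
  have hg2 : (g : G) * z * (g : G)⁻¹ ∈ Subgroup.zpowers y := by
    have h1 : (⟨z, hzL'⟩ : L) ∈ (S₂ : Subgroup L) := by
      show (⟨z, hzL'⟩ : L) ∈ Y₂
      rw [Subgroup.mem_subgroupOf]
      exact Subgroup.mem_zpowers z
    have h2 : g * (⟨z, hzL'⟩ : L) * g⁻¹ ∈ (S₁ : Subgroup L) := by
      rw [← hg]
      rw [Sylow.coe_subgroup_smul]
      exact Subgroup.mem_map_of_mem _ h1
    have h3 : g * (⟨z, hzL'⟩ : L) * g⁻¹ ∈ Y₁ := h2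
    rw [Subgroup.mem_subgroupOf] at h3
    exact h3
  have hgL : (g : G) ∈ Subgroup.zpowers y ⊔ K := g.2
  obtain ⟨a, ha, b, hb, hab⟩ := Subgroup.mem_sup_of_normal_right.mp hgL
  refine ⟨b, hb, ?_⟩
  have e : b * z * b⁻¹ = a⁻¹ * ((g : G) * z * (g : G)⁻¹) * a := by
    rw [← hab]
    group
  rw [e]
  exact Subgroup.mul_mem _ (Subgroup.mul_mem _ (Subgroup.inv_mem _ ha) hg2) ha

end conj

section main

variable {G : Type*} [Group G] [Finite G] {N : Subgroup G}

/-- The hypothesis. -/
def CosetOrd (N : Subgroup G) : Prop := ∀ x : G, x ∉ N → ∀ n ∈ N, orderOf (x * n) = orderOf x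

theorem CosetOrd.eq_one (h : CosetOrd N) {x y : G} (hx : x ∉ N) (hy : y ∈ N) (hc : Commute x y)
    (hco : (orderOf x).Coprime (orderOf y)) : y = 1 := by
  have h1 := hc.orderOf_mul_eq_mul_orderOf_of_coprime hco
  rw [h x hx y hy] at h1
  have h2 : orderOf y = 1 := by
    have hpos := orderOf_pos x
    have h3 : orderOf x * 1 = orderOf x * orderOf y := by rw [mul_one]; exact h1
    exact (Nat.eq_of_mul_eq_mul_left hpos h3).symm
  exact orderOf_eq_one_iff.mp h2

variable [N.Normal]

/-- An element of the `r`-core outside `N` forces `N` to be an `r`-group. -/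
theorem CosetOrd.isPGroup_of_core (h : CosetOrd N) {r : ℕ} [hr : Fact r.Prime] {x : G}
    (hx : x ∈ Cfsg.pCore r G) (hxN : x ∉ N) : IsPGroup r N := by
  classical
  haveI hTn : (Cfsg.pCore r G).Normal := H01.pCore_normal r
  have hTp := H01.pCore_isPGroup (G := G) r
  let T := Cfsg.pCore r G
  let K : Subgroup G := T ⊓ N
  haveI hKn : K.Normal := inferInstance
  have hKp : IsPGroup r K := hTp.to_le inf_le_left
  have hord : ∀ t ∈ T, ∃ k, orderOf t = r ^ k := fun t ht => orderOf_of_mem_isPGroup hTp ht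
  apply IsPGroup.of_card (n := (Nat.card N).primeFactorsList.length)
  apply Nat.eq_prime_pow_of_unique_prime_dvd Nat.card_pos.ne'
  intro s hs hsd
  by_contra hsr
  haveI : Fact s.Prime := ⟨hs⟩
  obtain ⟨y', hy'⟩ := exists_prime_orderOf_dvd_card' s hsd
  have hy1 : orderOf (y' : G) = s := by rw [Subgroup.orderOf_coe]; exact hy'
  have hyN : (y' : G) ∈ N := y'.2
  set y : G := (y' : G) with hy
  -- `x` maps `y` into `K⟨y⟩`
  have hcomm_mem : ∀ t ∈ T, t * y * t⁻¹ * y⁻¹ ∈ K := by
    intro t ht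
    constructor
    · have e : t * y * t⁻¹ * y⁻¹ = t * (y * t⁻¹ * y⁻¹) := by group
      show t * y * t⁻¹ * y⁻¹ ∈ T
      rw [e]
      exact T.mul_mem ht (hTn.conj_mem _ (T.inv_mem ht) y)
    · show t * y * t⁻¹ * y⁻¹ ∈ N
      exact N.mul_mem (‹N.Normal›.conj_mem _ hyN t) (N.inv_mem hyN)
  have hKs : ¬ s ∣ Nat.card K := by
    intro hd
    obtain ⟨j, hj⟩ := IsPGroup.iff_card.mp hKp
    rw [hj] at hd
    exact hsr ((Nat.prime_dvd_prime_iff_eq hs hr.out).mp (hs.dvd_of_dvd_pow hd))
  have hz1 : orderOf (x * y * x⁻¹) = s := by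
    have : x * y * x⁻¹ = (MulAut.conj x) y := rfl
    rw [this, MulEquiv.orderOf_eq, hy1]
  have hzL : x * y * x⁻¹ ∈ Subgroup.zpowers y ⊔ K := by
    have e : x * y * x⁻¹ = y * (y⁻¹ * (x * y * x⁻¹ * y⁻¹) * y) := by group
    rw [e]
    refine Subgroup.mul_mem _ (Subgroup.mem_sup_left (Subgroup.mem_zpowers y)) (Subgroup.mem_sup_right ?_)
    have := hKn.conj_mem _ (hcomm_mem x hx) y⁻¹
    simpa using this
  obtain ⟨k, hk, hk2⟩ := exists_conj_mem_zpowers K hKs hy1 hz1 hzL
  set x' : G := k * x with hx'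
  have hx'T : x' ∈ T := T.mul_mem hk.1 hx
  have hx'N : x' ∉ N := by
    intro h3
    apply hxN
    have : x = k⁻¹ * x' := by rw [hx']; group
    rw [this]
    exact N.mul_mem (N.inv_mem hk.2) h3
  have h1 : x' * y * x'⁻¹ ∈ Subgroup.zpowers y := by
    have : x' * y * x'⁻¹ = k * (x * y * x⁻¹) * k⁻¹ := by rw [hx']; group
    rw [this]
    exact hk2
  have h2 : x' * y * x'⁻¹ * y⁻¹ ∈ Subgroup.zpowers y :=
    Subgroup.mul_mem _ h1 (Subgroup.inv_mem _ (Subgroup.mem_zpowers y))
  have h3 := hcomm_mem x' hx'T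
  have h4 : x' * y * x'⁻¹ * y⁻¹ = 1 := by
    have h5 : orderOf (x' * y * x'⁻¹ * y⁻¹) ∣ s := by
      have := orderOf_dvd_of_mem_zpowers h2
      rwa [hy1] at this
    have h6 : orderOf (x' * y * x'⁻¹ * y⁻¹) ∣ Nat.card K := by
      have := orderOf_dvd_natCard (⟨_, h3⟩ : K)
      rwa [Subgroup.orderOf_mk] at this
    have h7 : orderOf (x' * y * x'⁻¹ * y⁻¹) = 1 := by
      rcases (Nat.dvd_prime hs).mp h5 with h | h
      · exact h
      · rw [h] at h6
        exact absurd h6 hKs
    exact orderOf_eq_one_iff.mp h7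
  have hc : Commute x' y := by
    rw [mul_inv_eq_one, mul_inv_eq_iff_eq_mul] at h4
    exact h4
  obtain ⟨l, hl⟩ := hord x' hx'T
  have hco : (orderOf x').Coprime (orderOf y) := by
    rw [hl, hy1]
    exact Nat.Coprime.pow_left _ ((Nat.coprime_primes hr.out hs).mpr (Ne.symm hsr))
  have := h.eq_one hx'N hyN hc hco
  have h0 : orderOf y = 1 := by rw [this]; simp
  rw [hy1] at h0
  exact hs.ne_one h0

/-- A dichotomy for the Fitting subgroup. -/
theorem CosetOrd.exists_core (h : CosetOrd N) (hF : ¬ Cfsg.fittingSubgroup G ≤ N) :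
    ∃ (r : ℕ) (_ : Fact r.Prime), IsPGroup r N ∧ ¬ Cfsg.pCore r G ≤ N := by
  rw [H01.fitting_eq_iSup_pCore, iSup_le_iff] at hF
  push Not at hF
  obtain ⟨⟨r, hr⟩, hr2⟩ := hF
  haveI : Fact r.Prime := ⟨hr⟩
  refine ⟨r, inferInstance, ?_, hr2⟩
  obtain ⟨x, hx, hxN⟩ := SetLike.not_le_iff_exists.mp hr2
  exact h.isPGroup_of_core hx hxN

theorem CosetOrd.le_or_le (h : CosetOrd N) :
    N ≤ Cfsg.fittingSubgroup G ∨ Cfsg.fittingSubgroup G ≤ N := by
  by_cases hF : Cfsg.fittingSubgroup G ≤ N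
  · exact Or.inr hF
  · left
    obtain ⟨r, _, hp, -⟩ := h.exists_core hF
    exact (H01.le_pCore inferInstance hp).trans (H01.pCore_le_fitting r)

theorem CosetOrd.isPrimePow (h : CosetOrd N) (hN1 : N ≠ ⊥) (hlt : N < Cfsg.fittingSubgroup G) :
    IsPrimePow (Nat.card (Cfsg.fittingSubgroup G)) := by
  have hF : ¬ Cfsg.fittingSubgroup G ≤ N := not_le_of_gt hlt
  obtain ⟨r, hr, hp, -⟩ := h.exists_core hF
  have hNT : N ≤ Cfsg.pCore r G := H01.le_pCore inferInstance hp
  have hFT : Cfsg.fittingSubgroup G ≤ Cfsg.pCore r G := by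
    rw [H01.fitting_eq_iSup_pCore, iSup_le_iff]
    rintro ⟨s, hs⟩
    by_cases hsr : s = r
    · subst hsr
      exact le_rfl
    · haveI : Fact s.Prime := ⟨hs⟩
      intro u hu
      by_contra huT
      have huN : u ∉ N := fun h3 => huT (hNT h3)
      obtain ⟨y, hy⟩ := Subgroup.ne_bot_iff_exists_ne_one.mp hN1
      have hc : Commute u (y : G) := H01.pCore_commute hsr u y hu (hNT y.2)
      obtain ⟨a, ha⟩ := orderOf_of_mem_isPGroup (H01.pCore_isPGroup (G := G) s) hu
      obtain ⟨b, hb⟩ := orderOf_of_mem_isPGroup (H01.pCore_isPGroup (G := G) r) (hNT y.2)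
      have hco : (orderOf u).Coprime (orderOf (y : G)) := by
        rw [ha, hb]
        exact Nat.Coprime.pow _ _ ((Nat.coprime_primes hs hr.out).mpr hsr)
      have := h.eq_one huN y.2 hc hco
      exact hy (Subtype.ext this)
  have hFp : IsPGroup r (Cfsg.fittingSubgroup G) := (H01.pCore_isPGroup (G := G) r).to_le hFT
  obtain ⟨k, hk⟩ := IsPGroup.iff_card.mp hFp
  rw [hk]
  have hk0 : k ≠ 0 := by
    rintro rfl
    rw [pow_zero] at hk
    have := (Subgroup.card_eq_one).mp hk
    rw [this] at hlt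
    exact not_lt_bot hlt
  exact (Nat.Prime.isPrimePow hr.out).pow hk0

theorem CosetOrd.eq_fitting (h : CosetOrd N) (hN1 : N ≠ ⊥) (hnil : Group.IsNilpotent N)
    (hnpp : ¬ IsPrimePow (Nat.card N)) : N = Cfsg.fittingSubgroup G := by
  apply le_antisymm (H01.le_fitting inferInstance hnil)
  by_contra hF
  obtain ⟨r, hr, hp, -⟩ := h.exists_core hF
  obtain ⟨k, hk⟩ := IsPGroup.iff_card.mp hp
  apply hnpp
  rw [hk]
  have hk0 : k ≠ 0 := by
    rintro rfl
    rw [pow_zero] at hk
    exact hN1 ((Subgroup.card_eq_one).mp hk)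
  exact (Nat.Prime.isPrimePow hr.out).pow hk0

/-- Central `s`-elements of `N`. -/
def centralPart (N : Subgroup G) (s : ℕ) : Subgroup G where
  carrier := {v | v ∈ N ∧ (∀ n ∈ N, n * v = v * n) ∧ ∃ k : ℕ, v ^ (s ^ k) = 1}
  mul_mem' := by
    rintro a b ⟨ha, hac, k, hk⟩ ⟨hb, hbc, l, hl⟩
    refine ⟨N.mul_mem ha hb, ?_, k + l, ?_⟩
    · intro n hn
      rw [← mul_assoc, hac n hn, mul_assoc, hbc n hn, mul_assoc]
    · have hcomm : Commute a b := (hac b hb).symm
      rw [hcomm.mul_pow, pow_add, pow_mul, hk, one_pow, one_mul, mul_comm, pow_mul, hl, one_pow]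
  one_mem' := ⟨N.one_mem, by simp, 0, by simp⟩
  inv_mem' := by
    rintro a ⟨ha, hac, k, hk⟩
    refine ⟨N.inv_mem ha, ?_, k, by rw [inv_pow, hk, inv_one]⟩
    intro n hn
    have := hac n hn
    rw [eq_inv_mul_iff_mul_eq, ← mul_assoc, ← this, mul_inv_cancel_right]

instance centralPart_normal (s : ℕ) : (centralPart N s).Normal := by
  constructor
  rintro v ⟨hv, hc, k, hk⟩ g
  refine ⟨‹N.Normal›.conj_mem v hv g, ?_, k, ?_⟩
  · intro n hn
    have h1 : g⁻¹ * n * g ∈ N := by
      have := ‹N.Normal›.conj_mem n hn g⁻¹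
      simpa using this
    have h2 := hc _ h1
    calc n * (g * v * g⁻¹) = g * ((g⁻¹ * n * g) * v) * g⁻¹ := by group
      _ = g * (v * (g⁻¹ * n * g)) * g⁻¹ := by rw [h2]
      _ = _ := by group
  · rw [conj_pow, hk, mul_one, mul_inv_cancel]

/-- The conjugation action on `centralPart`. -/
def cjPart (M : Subgroup G) [M.Normal] (s : ℕ) : G →* Monoid.End (centralPart M s) where
  toFun := fun g =>
    { toFun := fun v => ⟨g * (v : G) * g⁻¹, (centralPart_normal (N := M) s).conj_mem (v : G) v.2 g⟩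
      map_one' := by
        apply Subtype.ext
        simp
      map_mul' := by
        intro a b
        apply Subtype.ext
        simp only [Subgroup.coe_mul]
        group }
  map_one' := by
    ext v
    show (1 : G) * (v : G) * (1 : G)⁻¹ = v
    simp
  map_mul' := by
    intro a b
    ext v
    show a * b * (v : G) * (a * b)⁻¹ = a * (b * v * b⁻¹) * a⁻¹
    group

theorem cjPart_apply (s : ℕ) (g : G) (v : centralPart N s) :
    ((cjPart N s g v : centralPart N s) : G) = g * v * g⁻¹ := rfl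

theorem cjPart_of_mem (s : ℕ) {n : G} (hn : n ∈ N) : cjPart N s n = 1 := by
  ext v
  show n * (v : G) * n⁻¹ = v
  rw [v.2.2.1 n hn, mul_inv_cancel_right]

/-- No abelian subgroup of rank two in `G/N`: the norm argument. -/
theorem CosetOrd.no_rank_two (h : CosetOrd N) {q s : ℕ} [hq : Fact q.Prime] [hs : Fact s.Prime]
    (hqs : q ≠ s) (hV : centralPart N s ≠ ⊥) {x y : G ⧸ N} (hx : orderOf x = q) (hy : orderOf y = q)
    (hxy : Commute x y) (hnot : y ∉ Subgroup.zpowers x) : False := by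
  classical
  -- fixed points are trivial
  have hfix : ∀ g : G, (g : G ⧸ N) ≠ 1 → (orderOf (g : G ⧸ N)) = q → ∀ v : centralPart N s,
      cjPart N s g v = v → v = 1 := by
    intro g hg hgq v hv
    obtain ⟨a, b, hab, hcab, ha, hb, ha', hb'⟩ := exists_pi_decomp ({q} : Set ℕ) g
    have hbN : b ∈ N := by
      have h1 : orderOf (b : G ⧸ N) ∣ orderOf (g : G ⧸ N) := by
        obtain ⟨i, hi⟩ := hb'
        have : (b : G ⧸ N) ∈ Subgroup.zpowers (g : G ⧸ N) := ⟨i, by
          show (g : G ⧸ N) ^ i = b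
          rw [← hi]
          simp⟩
        exact orderOf_dvd_of_mem_zpowers this
      have h2 : orderOf (b : G ⧸ N) ∣ orderOf b := orderOf_map_dvd (QuotientGroup.mk' N) b
      have h3 : orderOf (b : G ⧸ N) = 1 := by
        by_contra h4
        obtain ⟨r, hr, hr1⟩ := Nat.exists_prime_and_dvd h4
        have h5 : r ∣ q := by rw [← hgq]; exact hr1.trans h1
        have h6 : r = q := (Nat.prime_dvd_prime_iff_eq hr hq.out).mp h5
        exact hb r hr (hr1.trans h2) h6
      rw [orderOf_eq_one_iff] at h3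
      exact (QuotientGroup.eq_one_iff b).mp h3
    have haN : a ∉ N := by
      intro h3
      apply hg
      rw [QuotientGroup.eq_one_iff, hab]
      exact N.mul_mem h3 hbN
    have hcv : Commute g (v : G) := by
      have h1 := congrArg Subtype.val hv
      have h2 : g * (v : G) * g⁻¹ = v := h1
      rw [mul_inv_eq_iff_eq_mul] at h2
      exact h2
    have hav : Commute a (v : G) := by
      obtain ⟨i, hi⟩ := ha'
      show a * v = v * a
      rw [← hi]
      exact hcv.zpow_left i
    have hco : (orderOf a).Coprime (orderOf (v : G)) := by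
      obtain ⟨k, hk⟩ := v.2.2.2
      have h1 : orderOf (v : G) ∣ s ^ k := orderOf_dvd_of_pow_eq_one hk
      apply Nat.Coprime.coprime_dvd_right h1
      apply Nat.Coprime.pow_right
      rw [Nat.coprime_comm, Nat.Prime.coprime_iff_not_dvd hs.out]
      intro hd
      have h2 : s = q := ha s hs.out hd
      exact hqs h2.symm
    have := h.eq_one haN v.2.1 hav hco
    exact Subtype.ext this
  obtain ⟨a, rfl⟩ := QuotientGroup.mk_surjective x
  obtain ⟨b, rfl⟩ := QuotientGroup.mk_surjective y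
  letI iV : CommGroup (centralPart N s) :=
    { (inferInstance : Group (centralPart N s)) with
      mul_comm := by
        rintro ⟨u, hu⟩ ⟨v, hv⟩
        exact Subtype.ext (hv.2.1 u hu.1) }
  let α : Monoid.End (centralPart N s) := cjPart N s a
  let β : Monoid.End (centralPart N s) := cjPart N s b
  have hmem : ∀ g : G, (g : G ⧸ N) = 1 → cjPart N s g = 1 := by
    intro g hg
    exact cjPart_of_mem s ((QuotientGroup.eq_one_iff g).mp hg)
  have hcomm : Commute α β := by
    show cjPart N s a * cjPart N s b = cjPart N s b * cjPart N s a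
    have h1 : a * b = (a * b * a⁻¹ * b⁻¹) * (b * a) := by group
    have h2 : ((a * b * a⁻¹ * b⁻¹ : G) : G ⧸ N) = 1 := by
      have : ((a : G ⧸ N)) * b = b * a := hxy
      simp only [QuotientGroup.mk_mul, QuotientGroup.mk_inv]
      rw [this]
      group
    rw [← map_mul, ← map_mul]
    conv_lhs => rw [h1, map_mul, hmem _ h2, one_mul]
  have hone : ∀ g : G, (g : G ⧸ N) ^ q = 1 → cjPart N s g ^ q = 1 := by
    intro g hg
    rw [← map_pow]
    apply hmem
    rw [QuotientGroup.mk_pow]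
    exact hg
  have hxq : (a : G ⧸ N) ^ q = 1 := by rw [← hx]; exact pow_orderOf_eq_one _
  have hyq : (b : G ⧸ N) ^ q = 1 := by rw [← hy]; exact pow_orderOf_eq_one _
  have hβ : β ^ q = 1 := hone b hyq
  have hq0 : 0 < q := hq.out.pos
  have hb1 : (b : G ⧸ N) ≠ 1 := by
    intro h1
    rw [h1, orderOf_one] at hy
    exact hq.out.ne_one hy.symm
  have hordj : ∀ j : ℕ, ((a * b ^ j : G) : G ⧸ N) ≠ 1 ∧ orderOf ((a * b ^ j : G) : G ⧸ N) = q := by
    intro j
    have hne : ((a * b ^ j : G) : G ⧸ N) ≠ 1 := by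
      intro h1
      apply hnot
      have h2 : (a : G ⧸ N) * (b : G ⧸ N) ^ j = 1 := by
        rw [← QuotientGroup.mk_pow, ← QuotientGroup.mk_mul]
        exact h1
      have h3 : (a : G ⧸ N) ∈ Subgroup.zpowers (b : G ⧸ N) := by
        rw [eq_inv_of_mul_eq_one_left h2]
        exact Subgroup.inv_mem _ (Subgroup.pow_mem _ (Subgroup.mem_zpowers _) j)
      have h4 : Subgroup.zpowers (a : G ⧸ N) = Subgroup.zpowers (b : G ⧸ N) := by
        apply Subgroup.eq_of_le_of_card_ge ((Subgroup.zpowers_le).mpr h3)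
        rw [Nat.card_zpowers, Nat.card_zpowers, hx, hy]
      rw [h4]
      exact Subgroup.mem_zpowers _
    refine ⟨hne, ?_⟩
    have h1 : ((a * b ^ j : G) : G ⧸ N) ^ q = 1 := by
      rw [QuotientGroup.mk_mul, QuotientGroup.mk_pow]
      have hc : Commute (a : G ⧸ N) ((b : G ⧸ N) ^ j) := hxy.pow_right j
      rw [hc.mul_pow, hxq, ← pow_mul, mul_comm j q, pow_mul, hyq, one_pow, one_mul]
    have h2 := orderOf_dvd_of_pow_eq_one h1
    rcases (Nat.dvd_prime hq.out).mp h2 with h3 | h3
    · exact absurd (orderOf_eq_one_iff.mp h3) hne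
    · exact h3
  have hall : ∀ z : centralPart N s, z ^ q = 1 := by
    intro z
    apply H14.pow_eq_one_of_norms hq.out α β hcomm hβ z
    · have h1 := H14.norm_fixed hq0 β hβ z
      exact hfix b hb1 hy _ h1
    · intro j _
      have h0 : α * β ^ j = cjPart N s (a * b ^ j) := by
        rw [map_mul, map_pow]
      rw [h0]
      have hφ : cjPart N s (a * b ^ j) ^ q = 1 := by
        apply hone
        rw [← (hordj j).2]
        exact pow_orderOf_eq_one _
      have h1 := H14.norm_fixed hq0 (cjPart N s (a * b ^ j)) hφ z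
      exact hfix (a * b ^ j) (hordj j).1 (hordj j).2 _ h1
  apply hV
  rw [eq_bot_iff]
  intro v hv
  have h1 := hall ⟨v, hv⟩
  have h2 : v ^ q = 1 := congrArg Subtype.val h1
  obtain ⟨k, hk⟩ := hv.2.2
  have h3 : orderOf v ∣ q := orderOf_dvd_of_pow_eq_one h2
  have h4 : orderOf v ∣ s ^ k := orderOf_dvd_of_pow_eq_one hk
  have h5 : q.Coprime (s ^ k) := Nat.Coprime.pow_right _ ((Nat.coprime_primes hq.out hs.out).mpr hqs)
  have h6 : orderOf v = 1 := Nat.eq_one_of_dvd_coprimes h5 h3 h4
  exact Subgroup.mem_bot.mpr (orderOf_eq_one_iff.mp h6)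

theorem uniqueP_of_no_rank_two {q : ℕ} [hq : Fact q.Prime] {X : Type*} [Group X] [Finite X]
    (hX : IsPGroup q X)
    (h : ∀ x y : X, orderOf x = q → orderOf y = q → Commute x y → y ∈ Subgroup.zpowers x) :
    H14.UniqueP q X := by
  intro x y hx hy
  haveI : Nontrivial X := by
    refine ⟨⟨x, 1, ?_⟩⟩
    intro h1
    rw [h1, orderOf_one] at hx
    exact hq.out.ne_one hx.symm
  haveI := hX.center_nontrivial
  have hd : q ∣ Nat.card (Subgroup.center X) := by
    haveI : Finite (Subgroup.center X) := inferInstance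
    have hp : IsPGroup q (Subgroup.center X) := hX.to_subgroup _
    obtain ⟨k, hk⟩ := IsPGroup.iff_card.mp hp
    rw [hk]
    apply dvd_pow_self
    rintro rfl
    rw [pow_zero] at hk
    have := Finite.one_lt_card (α := Subgroup.center X)
    omega
  obtain ⟨z, hz⟩ := exists_prime_orderOf_dvd_card' q hd
  have hz' : orderOf (z : X) = q := by rw [Subgroup.orderOf_coe]; exact hz
  have hzc : ∀ w : X, Commute (z : X) w := fun w =>
    (Subgroup.mem_center_iff.mp z.2 w).symm
  have hx' := h z x hz' hx (hzc x)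
  have hy' := h z y hz' hy (hzc y)
  have h4 : Subgroup.zpowers x = Subgroup.zpowers (z : X) := by
    apply Subgroup.eq_of_le_of_card_ge ((Subgroup.zpowers_le).mpr hx')
    rw [Nat.card_zpowers, Nat.card_zpowers, hx, hz']
  rw [h4]
  exact hy'

theorem CosetOrd.sylow_quot (h : CosetOrd N) (hN1 : N ≠ ⊥) (hnil : Group.IsNilpotent N)
    (hnpp : ¬ IsPrimePow (Nat.card N)) (q : ℕ) [hq : Fact q.Prime] (Q : Sylow q (G ⧸ N)) :
    IsCyclic (Q : Subgroup (G ⧸ N)) ∨
      ∃ n : ℕ, Nonempty ((Q : Subgroup (G ⧸ N)) ≃* QuaternionGroup (2 ^ n)) := by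
  classical
  -- a second prime
  have hex : ∃ s : ℕ, s.Prime ∧ s ∣ Nat.card N ∧ s ≠ q := by
    by_contra hno
    push Not at hno
    apply hnpp
    have hcard := Nat.eq_prime_pow_of_unique_prime_dvd (Nat.card_pos (α := N)).ne'
      (fun {d} hd hdd => hno d hd hdd)
    rw [hcard]
    apply (Nat.Prime.isPrimePow hq.out).pow
    intro h0
    rw [h0, pow_zero] at hcard
    exact hN1 ((Subgroup.card_eq_one).mp hcard)
  obtain ⟨s, hs, hsd, hsq⟩ := hex
  haveI : Fact s.Prime := ⟨hs⟩
  -- the central part is nontrivial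
  have hV : centralPart N s ≠ ⊥ := by
    obtain ⟨S⟩ : Nonempty (Sylow s N) := inferInstance
    haveI hSn : (S : Subgroup N).Normal :=
      Sylow.normal_of_normalizerCondition (fun H h => Group.normalizerCondition_of_isNilpotent H h) S
    have hSb : (S : Subgroup N) ≠ ⊥ := by
      intro hb
      have h1 := S.card_eq_multiplicity
      rw [hb, Subgroup.card_bot] at h1
      have h3 : 1 ≤ (Nat.card N).factorization s :=
        (hs.dvd_iff_one_le_factorization Nat.card_pos.ne').mp hsd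
      have h4 : 1 < s ^ (Nat.card N).factorization s := Nat.one_lt_pow (by omega) hs.one_lt
      omega
    obtain ⟨y, hyS, hy1, hyZ⟩ := H06.exists_central_of_normal hSn hSb
    intro hb
    have hy2 : (y : G) ∈ centralPart N s := by
      refine ⟨y.2, ?_, ?_⟩
      · intro n hn
        have := Subgroup.mem_center_iff.mp hyZ ⟨n, hn⟩
        exact congrArg Subtype.val this
      · obtain ⟨k, hk⟩ := S.isPGroup' ⟨y, hyS⟩
        refine ⟨k, ?_⟩
        have := congrArg (fun w : (S : Subgroup N) => ((w : N) : G)) hk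
        simpa using this
    rw [hb, Subgroup.mem_bot] at hy2
    exact hy1 (Subtype.ext hy2)
  have hu : H14.UniqueP q (Q : Subgroup (G ⧸ N)) := by
    apply uniqueP_of_no_rank_two Q.isPGroup'
    intro x y hx hy hc
    by_contra hnot
    refine h.no_rank_two (Ne.symm hsq) hV (x := (x : G ⧸ N)) (y := (y : G ⧸ N))
      (by rw [Subgroup.orderOf_coe]; exact hx) (by rw [Subgroup.orderOf_coe]; exact hy)
      (by
        have := congrArg Subtype.val hc.eq
        exact this) ?_
    rintro ⟨i, hi⟩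
    apply hnot
    refine ⟨i, Subtype.ext ?_⟩
    simpa using hi
  rcases H14.isCyclic_or_quaternion Q.isPGroup' hu with hc | ⟨-, k, -, hk⟩
  · exact Or.inl hc
  · exact Or.inr ⟨k, hk⟩

end main

end Cfsg.Agent.H19
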