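import Mathlib
import Cfsg.Agent.Lib.H19.Basic

set_option autoImplicit false
open scoped Pointwise

namespace Cfsg.Agent.H19

universe u v

/-- A `p`-group is not the union of at most `p` proper subgroups. -/
theorem cover_pgroup {G : Type u} [Group G] [Finite G] (p : ℕ) [hp : Fact p.Prime] (hG : IsPGroup p G)
    {ι : Type v} [Fintype ι] (K : ι → Subgroup G) (hK : ∀ i, K i ≠ ⊤)
    (hcov : ∀ g : G, ∃ i, g ∈ K i) : p + 1 ≤ Fintype.card ι := by
  classical
  haveI := Fintype.ofFinite G
  by_contra hlt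
  have ht : Fintype.card ι ≤ p := by omega
  obtain ⟨n, hn⟩ := hG.exists_card_eq
  have hp2 : 2 ≤ p := hp.out.two_le
  have hidx : ∀ i, p ∣ (K i).index := by
    intro i
    have h1 : (K i).index ∣ p ^ n := by
      rw [← hn]; exact Subgroup.index_dvd_card _
    obtain ⟨j, -, hj⟩ := (Nat.dvd_prime_pow hp.out).mp h1
    rw [hj]
    refine dvd_pow_self p ?_
    rintro rfl
    apply hK i
    rw [← Subgroup.index_eq_one]
    simpa using hj
  obtain ⟨i₀, -⟩ := hcov 1
  have hpN : p ∣ Nat.card G := by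
    rw [← (K i₀).card_mul_index]
    exact Dvd.dvd.mul_left (hidx i₀) _
  obtain ⟨m, hm⟩ := hpN
  have hm0 : 0 < m := by
    rcases Nat.eq_zero_or_pos m with h | h
    · subst h
      have : 0 < Nat.card G := Nat.card_pos
      omega
    · exact h
  have hKcard : ∀ i, Nat.card (K i) ≤ m := by
    intro i
    obtain ⟨c, hc⟩ := hidx i
    have h1 := (K i).card_mul_index
    rw [hc, hm] at h1
    have hc0 : 0 < c := by
      rcases Nat.eq_zero_or_pos c with h | h
      · subst h
        simp at h1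
        omega
      · exact h
    have h2 : Nat.card (K i) * c = m := by
      have : p * (Nat.card (K i) * c) = p * m := by rw [← h1]; ring
      exact Nat.eq_of_mul_eq_mul_left (by omega) this
    rw [← h2]
    exact Nat.le_mul_of_pos_right _ hc0
  let T : ι → Finset G := fun i => (Finset.univ.filter (· ∈ K i)).erase 1
  have hT : ∀ i, (T i).card ≤ m - 1 := by
    intro i
    have h1 : (Finset.univ.filter (· ∈ K i)).card = Nat.card (K i) := by
      rw [Nat.card_eq_fintype_card, Fintype.card_subtype]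
    have h2 : (T i).card = (Finset.univ.filter (· ∈ K i)).card - 1 := by
      apply Finset.card_erase_of_mem
      simp [(K i).one_mem]
    have := hKcard i
    omega
  have hsub : Finset.univ.erase (1 : G) ⊆ Finset.univ.biUnion T := by
    intro g hg
    obtain ⟨i, hi⟩ := hcov g
    rw [Finset.mem_biUnion]
    refine ⟨i, Finset.mem_univ _, ?_⟩
    rw [Finset.mem_erase] at hg ⊢
    exact ⟨hg.1, by simp [hi]⟩
  have hcard := Finset.card_le_card hsub
  have h1 : (Finset.univ.erase (1 : G)).card = Nat.card G - 1 := by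
    rw [Finset.card_erase_of_mem (Finset.mem_univ _), Finset.card_univ, Nat.card_eq_fintype_card]
  have h2 : (Finset.univ.biUnion T).card ≤ Fintype.card ι * (m - 1) := by
    refine Finset.card_biUnion_le.trans ?_
    calc ∑ i, (T i).card ≤ ∑ _i : ι, (m - 1) := Finset.sum_le_sum fun i _ => hT i
      _ = Fintype.card ι * (m - 1) := by simp
  have h3 : Fintype.card ι * (m - 1) ≤ p * (m - 1) := Nat.mul_le_mul_right _ ht
  rw [h1] at hcard
  have h4 : p * (m - 1) + p = Nat.card G := by
    rw [hm]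
    obtain ⟨m', rfl⟩ : ∃ m', m = m' + 1 := ⟨m - 1, by omega⟩
    simp only [Nat.add_sub_cancel]
    ring
  omega

theorem cover_pelts_aux (p : ℕ) [hp : Fact p.Prime] {ι : Type v} [Fintype ι] :
    ∀ n : ℕ, ∀ (G : Type u) [Group G] [Finite G], Nat.card G = n →
      Subgroup.closure {g : G | ∃ k : ℕ, orderOf g = p ^ k} = ⊤ →
      ∀ K : ι → Subgroup G, (∀ i, K i ≠ ⊤) → (∀ g : G, (∃ k : ℕ, orderOf g = p ^ k) → ∃ i, g ∈ K i) →
      p + 1 ≤ Fintype.card ι := by
  intro n
  induction n using Nat.strong_induction_on with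
  | _ n ih =>
  intro G _ _ hn hgen K hK hcov
  classical
  by_contra hlt
  let 𝓜 : Set (Subgroup G) :=
    {L | L ≠ ⊤ ∧ ∃ S : Set G, (∀ g ∈ S, ∃ k : ℕ, orderOf g = p ^ k) ∧ L = Subgroup.closure S}
  have step1 : ∀ L ∈ 𝓜, ∃ i, L ≤ K i := by
    rintro L ⟨hL, S, hS, hLS⟩
    by_contra hno
    push Not at hno
    apply hlt
    have hlt' : Nat.card L < n := by
      rw [← hn]
      have h1 := L.card_mul_index
      have h2 : L.index ≠ 1 := fun h => hL (Subgroup.index_eq_one.mp h)
      have h3 : L.index ≠ 0 := Subgroup.index_ne_zero_of_finite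
      have h4 : 0 < Nat.card L := Nat.card_pos
      rw [← h1]
      have : 2 ≤ L.index := by omega
      nlinarith
    refine ih _ hlt' L rfl ?_ (fun i => (K i).subgroupOf L) ?_ ?_
    · subst hLS
      rw [eq_top_iff, ← Subgroup.closure_closure_coe_preimage]
      apply Subgroup.closure_mono
      rintro ⟨x, hx⟩ hxS
      obtain ⟨k, hk⟩ := hS x hxS
      exact ⟨k, by rw [Subgroup.orderOf_mk]; exact hk⟩
    · intro i h
      exact hno i (Subgroup.subgroupOf_eq_top.mp h)
    · rintro ⟨x, hx⟩ ⟨k, hk⟩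
      obtain ⟨i, hi⟩ := hcov x ⟨k, by rwa [Subgroup.orderOf_mk] at hk⟩
      exact ⟨i, Subgroup.mem_subgroupOf.mpr hi⟩
  obtain ⟨P⟩ : Nonempty (Sylow p G) := inferInstance
  by_cases hP : (P : Subgroup G) = ⊤
  · have hG : IsPGroup p G := by
      have h := P.isPGroup'
      rw [hP] at h
      obtain ⟨m, hm⟩ := h.exists_card_eq
      exact IsPGroup.iff_card.mpr ⟨m, by rw [← hm, Subgroup.card_top]⟩
    exact hlt (cover_pgroup p hG K hK fun g => hcov g ((IsPGroup.iff_orderOf.mp hG) g))
  have hPM : (P : Subgroup G) ∈ 𝓜 :=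
    ⟨hP, P, fun g hg => orderOf_of_mem_isPGroup P.isPGroup' hg, (Subgroup.closure_eq _).symm⟩
  obtain ⟨M, hPle, hMmax⟩ := (Set.toFinite 𝓜).exists_le_maximal hPM
  have hMmem : M ∈ 𝓜 := hMmax.prop
  have hconj : ∀ g : G, ∀ L ∈ 𝓜, MulAut.conj g • L ∈ 𝓜 := by
    rintro g L ⟨hL, S, hS, rfl⟩
    refine ⟨?_, (MulAut.conj g) • S, ?_, ?_⟩
    · intro h
      apply hL
      rw [eq_top_iff]
      intro x _
      have h1 : (MulAut.conj g) • x ∈ (MulAut.conj g) • Subgroup.closure S := by
        rw [h]; exact Subgroup.mem_top _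
      exact (Subgroup.smul_mem_pointwise_smul_iff).mp h1
    · rintro x ⟨y, hy, rfl⟩
      obtain ⟨k, hk⟩ := hS y hy
      refine ⟨k, ?_⟩
      change orderOf (MulAut.conj g y) = _
      rw [MulEquiv.orderOf_eq]
      exact hk
    · exact Subgroup.smul_closure _ _
  have hmaxconj : ∀ g : G, ∀ L ∈ 𝓜, MulAut.conj g • M ≤ L → L ≤ MulAut.conj g • M := by
    intro g L hL hle
    have h1 : M ≤ (MulAut.conj g)⁻¹ • L := Subgroup.pointwise_smul_subset_iff.mp hle
    have h2 : (MulAut.conj g)⁻¹ • L ∈ 𝓜 := by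
      rw [← map_inv]
      exact hconj g⁻¹ L hL
    have h3 := hMmax.le_of_ge h2 h1
    exact Subgroup.subset_pointwise_smul_iff.mpr h3
  have hcontain : ∀ L : Subgroup G, ∃ i, L ∈ 𝓜 → L ≤ K i := by
    intro L
    by_cases hL : L ∈ 𝓜
    · obtain ⟨i, hi⟩ := step1 L hL
      exact ⟨i, fun _ => hi⟩
    · obtain ⟨i, -⟩ := hcov 1 ⟨0, by simp⟩
      exact ⟨i, fun h => absurd h hL⟩
  choose f hf using hcontain
  -- `f` is injective on conjugates of `M`
  have hinj : Set.InjOn f (Set.range fun g : G => MulAut.conj g • M) := by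
    rintro _ ⟨g₁, rfl⟩ _ ⟨g₂, rfl⟩ h
    simp only at h
    have h1 := hf _ (hconj g₁ M hMmem)
    have h2 := hf _ (hconj g₂ M hMmem)
    rw [h] at h1
    let i := f (MulAut.conj g₂ • M)
    let L : Subgroup G := Subgroup.closure {x | x ∈ K i ∧ ∃ k : ℕ, orderOf x = p ^ k}
    have hLK : L ≤ K i := (Subgroup.closure_le _).mpr fun x hx => hx.1
    have hLM : L ∈ 𝓜 := by
      refine ⟨fun h => hK i (top_le_iff.mp (h ▸ hLK)), _, fun g hg => hg.2, rfl⟩
    have hsub : ∀ g : G, MulAut.conj g • M ≤ K i → MulAut.conj g • M ≤ L := by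
      intro g hg
      obtain ⟨-, S, hS, hMS⟩ := hconj g M hMmem
      rw [hMS] at hg ⊢
      apply Subgroup.closure_mono
      intro x hx
      exact ⟨hg (Subgroup.subset_closure hx), hS x hx⟩
    have h3 := hmaxconj g₁ L hLM (hsub g₁ h1)
    have h4 := hmaxconj g₂ L hLM (hsub g₂ h2)
    exact le_antisymm ((hsub g₁ h1).trans h4) ((hsub g₂ h2).trans h3)
  -- the action of `P`
  let φ : ↥(P : Subgroup G) →* MulAut G := (MulAut.conj (G := G)).comp (P : Subgroup G).subtype
  letI act : MulAction ↥(P : Subgroup G) (Subgroup G) := MulAction.compHom (Subgroup G) φ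
  have hact : ∀ (y : ↥(P : Subgroup G)) (L : Subgroup G), y • L = MulAut.conj (y : G) • L := fun _ _ => rfl
  -- some conjugate is moved by `P`
  have hmoved : ∃ (g : G) (y : ↥(P : Subgroup G)), y • (MulAut.conj g • M) ≠ MulAut.conj g • M := by
    by_contra hno
    push Not at hno
    have hN : Subgroup.normalizer (M : Set G) = ⊤ := by
      rw [eq_top_iff, ← hgen, Subgroup.closure_le]
      rintro x ⟨k, hk⟩
      obtain ⟨Q, hQ⟩ := exists_sylow_of_orderOf hk
      obtain ⟨c, rfl⟩ := MulAction.exists_smul_eq G P Q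
      rw [Sylow.coe_subgroup_smul, mem_conj_smul] at hQ
      have h1 := hno c⁻¹ ⟨c⁻¹ * x * c, hQ⟩
      rw [hact] at h1
      have h2 : (MulAut.conj x : MulAut G) • M = M := by
        have h3 : (MulAut.conj (c⁻¹ * x * c) : MulAut G) * MulAut.conj c⁻¹ = MulAut.conj c⁻¹ * MulAut.conj x := by
          rw [← map_mul, ← map_mul]
          congr 1
          group
        simp only at h1
        rw [← mul_smul, h3, mul_smul] at h1
        exact (smul_left_cancel_iff _).mp h1
      change x ∈ Subgroup.normalizer (M : Set G)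
      rw [Subgroup.mem_normalizer_iff]
      intro h
      constructor
      · intro hh
        have : x * h * x⁻¹ ∈ MulAut.conj x • M := by
          rw [mem_conj_smul]
          simpa [mul_assoc] using hh
        rwa [h2] at this
      · intro hh
        have : x * h * x⁻¹ ∈ MulAut.conj x • M := by rwa [h2]
        rw [mem_conj_smul] at this
        simpa [mul_assoc] using this
    have hMn : M.Normal := Subgroup.normalizer_eq_top_iff.mp hN
    apply hMmem.1
    rw [eq_top_iff, ← hgen, Subgroup.closure_le]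
    rintro x ⟨k, hk⟩
    obtain ⟨Q, hQ⟩ := exists_sylow_of_orderOf hk
    obtain ⟨c, rfl⟩ := MulAction.exists_smul_eq G P Q
    rw [Sylow.coe_subgroup_smul, mem_conj_smul] at hQ
    have h1 := hMn.conj_mem _ (hPle hQ) c
    simpa [mul_assoc] using h1
  obtain ⟨g, y, hy⟩ := hmoved
  set M' := MulAut.conj g • M with hM'
  have hfixM : ∀ y : ↥(P : Subgroup G), y • M = M := by
    intro y
    rw [hact]
    exact Subgroup.conj_smul_eq_self_of_mem (hPle y.2)
  have hnot : M ∉ MulAction.orbit ↥(P : Subgroup G) M' := by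
    rintro ⟨y', hy'⟩
    have h1 : M' = M := by
      have h2 : y'⁻¹ • (y' • M') = y'⁻¹ • M := congrArg _ hy'
      rwa [inv_smul_smul, hfixM] at h2
    apply hy
    rw [h1, hfixM]
  obtain ⟨m, hm⟩ := (P.isPGroup').card_orbit M'
  have hm0 : m ≠ 0 := by
    rintro rfl
    rw [pow_zero, Nat.card_eq_one_iff_unique] at hm
    have h1 := hm.1.elim ⟨M', MulAction.mem_orbit_self M'⟩ ⟨y • M', MulAction.mem_orbit M' y⟩
    exact hy (congrArg Subtype.val h1).symm
  have hple : p ≤ p ^ m := Nat.le_self_pow hm0 p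
  have hsubrange : insert M (MulAction.orbit ↥(P : Subgroup G) M') ⊆ Set.range fun g : G => MulAut.conj g • M := by
    rintro L (rfl | ⟨y', rfl⟩)
    · exact ⟨1, by simp⟩
    · refine ⟨(y' : G) * g, ?_⟩
      simp only
      rw [map_mul, mul_smul]
      rfl
  have hcardins : (insert M (MulAction.orbit ↥(P : Subgroup G) M')).ncard = p ^ m + 1 := by
    rw [Set.ncard_insert_of_notMem hnot (Set.toFinite _), ← hm]
    rfl
  have h1 := Set.ncard_le_ncard_of_injOn f (t := Set.univ) (s := insert M (MulAction.orbit ↥(P : Subgroup G) M'))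
    (fun _ _ => Set.mem_univ _) (hinj.mono hsubrange) (Set.toFinite _)
  rw [hcardins, Set.ncard_univ, Nat.card_eq_fintype_card] at h1
  omega

theorem cover_pelts {G : Type u} [Group G] [Finite G] (p : ℕ) [Fact p.Prime]
    (hgen : Subgroup.closure {g : G | ∃ k : ℕ, orderOf g = p ^ k} = ⊤)
    {ι : Type v} [Fintype ι] (K : ι → Subgroup G) (hK : ∀ i, K i ≠ ⊤)
    (hcov : ∀ g : G, (∃ k : ℕ, orderOf g = p ^ k) → ∃ i, g ∈ K i) :
    p + 1 ≤ Fintype.card ι :=
  cover_pelts_aux p _ G rfl hgen K hK hcov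

end Cfsg.Agent.H19
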