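import Mathlib
import Cfsg.Prelude.Def_SporadicB
import Cfsg.Agent.Lib.H12.Gaschutz

/-! Non-split double covers of the alternating groups of degree at most seven have a unique involution. -/

set_option autoImplicit false
set_option linter.unusedSectionVars false

namespace Cfsg.Agent.H19.Cover7

open Equiv Equiv.Perm

section Generic

variable {H A : Type*} [Group H] [Group A] [Finite H]

/-- property star: the lifts of involutions are involutions -/
theorem star (π : H →* A) (hπ : Function.Surjective π) (hker : π.ker = Subgroup.center H)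
    (hZ : Nat.card (Subgroup.center H) = 2)
    (hconj : ∀ s t : A, s * s = 1 → s ≠ 1 → t * t = 1 → t ≠ 1 → ∃ c, c * s * c⁻¹ = t)
    (x0 : H) (hx0 : x0 * x0 = 1) (hx1 : x0 ∉ Subgroup.center H) (v : H) (hv : π v * π v = 1) :
    v * v = 1 := by
  have hZsq : ∀ z ∈ Subgroup.center H, z * z = 1 := by
    intro z hz
    have := pow_card_eq_one' (G := Subgroup.center H) (x := ⟨z, hz⟩)
    rw [hZ, pow_two] at this
    exact congrArg Subtype.val this
  by_cases h1 : π v = 1
  · apply hZsq
    rw [← hker]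
    exact h1
  · have ht0 : π x0 ≠ 1 := by
      intro h
      apply hx1
      rw [← hker]
      exact h
    have ht1 : π x0 * π x0 = 1 := by rw [← map_mul, hx0, map_one]
    obtain ⟨c, hc⟩ := hconj _ _ ht1 ht0 hv h1
    obtain ⟨d, rfl⟩ := hπ c
    set w := d * x0 * d⁻¹ with hw
    have hww : w * w = 1 := by
      have : w * w = d * (x0 * x0) * d⁻¹ := by rw [hw]; group
      rw [this, hx0]; group
    have hz : w⁻¹ * v ∈ Subgroup.center H := by
      rw [← hker, MonoidHom.mem_ker, map_mul, map_inv]
      have : π w = π v := by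
        rw [hw, map_mul, map_mul, map_inv]
        exact hc
      rw [this, inv_mul_cancel]
    have hzc := Subgroup.mem_center_iff.mp hz
    have hzz := hZsq _ hz
    have hv' : v = w * (w⁻¹ * v) := by group
    rw [hv']
    generalize w⁻¹ * v = z at hzc hzz
    calc w * z * (w * z) = w * (z * w) * z := by simp only [mul_assoc]
      _ = w * (w * z) * z := by rw [hzc w]
      _ = (w * w) * (z * z) := by simp only [mul_assoc]
      _ = 1 := by rw [hww, hzz, one_mul]

/-- the dihedral lift -/
theorem core (π : H →* A) (hπ : Function.Surjective π) (hker : π.ker = Subgroup.center H)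
    (hZ : Nat.card (Subgroup.center H) = 2)
    (hns : ∀ L : Subgroup H, ¬ (Subgroup.center H).IsComplement' L)
    (hconj : ∀ s t : A, s * s = 1 → s ≠ 1 → t * t = 1 → t ≠ 1 → ∃ c, c * s * c⁻¹ = t)
    (a b : A) (ha : a * a = 1) (hb : b * b = 1) (m : ℕ) [NeZero m] (hm2 : Even m)
    (hab : ((a * b) ^ (m / 2)) * ((a * b) ^ (m / 2)) = 1)
    (hψ : ∀ i : ZMod m, (a * b) ^ i.val = 1 → i = 0)
    (hψ2 : ∀ i : ZMod m, a * (a * b) ^ i.val ≠ 1)
    (k : ℕ) (hk : Odd k) (hA : Nat.card A = 2 * m * k)
    (x0 : H) (hx0 : x0 * x0 = 1) : x0 ∈ Subgroup.center H := by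
  by_contra hx1
  have hS := star π hπ hker hZ hconj x0 hx0 hx1
  obtain ⟨a', rfl⟩ := hπ a
  obtain ⟨b', rfl⟩ := hπ b
  have ha' : a' * a' = 1 := hS a' ha
  have hb' : b' * b' = 1 := hS b' hb
  set ρ := a' * b' with hρ
  have hρπ : π ρ = π a' * π b' := by rw [hρ, map_mul]
  have hρm : ρ ^ m = 1 := by
    have h1 := hS (ρ ^ (m / 2)) (by rw [map_pow, hρπ]; exact hab)
    rw [← pow_add] at h1
    have h2 : m / 2 + m / 2 = m := by
      obtain ⟨t, rfl⟩ := hm2
      omega
    rwa [h2] at h1
  have hainv : a'⁻¹ = a' := inv_eq_of_mul_eq_one_left ha'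
  have hbinv : b'⁻¹ = b' := inv_eq_of_mul_eq_one_left hb'
  let g : ZMod m → H := fun i => ρ ^ i.val
  have hg_add : ∀ i j, g (i + j) = g i * g j := by
    intro i j
    show ρ ^ (i + j).val = ρ ^ i.val * ρ ^ j.val
    rw [ZMod.val_add, ← pow_add, ← pow_eq_pow_mod _ hρm]
  have hg0 : g 0 = 1 := by
    show ρ ^ (0 : ZMod m).val = 1
    rw [ZMod.val_zero, pow_zero]
  have hg_neg : ∀ i, g (-i) = (g i)⁻¹ := by
    intro i
    apply eq_inv_of_mul_eq_one_left
    rw [← hg_add, neg_add_cancel, hg0]
  have hconjρ : a' * ρ * a' = ρ⁻¹ := by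
    rw [hρ, mul_inv_rev, hainv, hbinv]
    calc a' * (a' * b') * a' = (a' * a') * b' * a' := by group
      _ = b' * a' := by rw [ha', one_mul]
  have hconjg : ∀ i, a' * g i * a' = (g i)⁻¹ := by
    intro i
    show a' * ρ ^ i.val * a' = (ρ ^ i.val)⁻¹
    have h1 := conj_pow (a := a') (b := ρ) (i := i.val)
    rw [hainv, hconjρ] at h1
    rw [← h1, inv_pow]
  have hag : ∀ i, g i * a' = a' * (g i)⁻¹ := by
    intro i
    rw [← hconjg i]
    calc g i * a' = (a' * a') * g i * a' := by rw [ha', one_mul]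
      _ = a' * (a' * g i * a') := by group
      _ = a' * (a' * g i * a') := rfl
  let f : DihedralGroup m → H := fun d => match d with
    | DihedralGroup.r i => g i
    | DihedralGroup.sr i => a' * g i
  have hf : ∀ x y, f (x * y) = f x * f y := by
    rintro (i | i) (j | j)
    · show g (i + j) = g i * g j
      exact hg_add i j
    · show a' * g (j - i) = g i * (a' * g j)
      rw [← mul_assoc, hag, mul_assoc, ← hg_neg, ← hg_add, neg_add_eq_sub]
    · show a' * g (i + j) = a' * g i * g j
      rw [hg_add, mul_assoc]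
    · show g (j - i) = a' * g i * (a' * g j)
      have : a' * g i * (a' * g j) = (a' * g i * a') * g j := by group
      rw [this, hconjg, ← hg_neg, ← hg_add, neg_add_eq_sub]
  let F : DihedralGroup m →* H := MonoidHom.mk' f hf
  have hFπ : ∀ d, π (F d) = 1 → d = 1 := by
    rintro (i | i) h
    · have h1 : π (g i) = 1 := h
      have h2 : (π a' * π b') ^ i.val = 1 := by
        rw [← hρπ, ← map_pow]
        exact h1
      rw [hψ i h2]
      rfl
    · exfalso
      have h1 : π (a' * g i) = 1 := h
      apply hψ2 i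
      rw [← h1, map_mul, ← hρπ]
      show _ = π a' * π (ρ ^ i.val)
      rw [map_pow]
  have hFinj : Function.Injective (π.comp F) := by
    rw [injective_iff_map_eq_one]
    exact hFπ
  set L : Subgroup H := F.range with hL
  have hcomm : IsMulCommutative (Subgroup.center H) := inferInstance
  have hLZ : L ⊓ Subgroup.center H = ⊥ := by
    rw [eq_bot_iff]
    rintro x ⟨⟨d, rfl⟩, hd⟩
    have h1 : π (F d) = 1 := by
      rw [← MonoidHom.mem_ker, hker]
      exact hd
    rw [hFπ d h1, map_one]
    exact Subgroup.one_mem _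
  have hU : Subgroup.center H ⊔ L = (L.map π).comap π := by
    rw [Subgroup.comap_map_eq, hker, sup_comm]
  have hidx : ((Subgroup.center H) ⊔ L).index = k := by
    rw [hU, Subgroup.index_comap_of_surjective _ hπ]
    have hcard : Nat.card (L.map π) = 2 * m := by
      have h1 : L.map π = (π.comp F).range := by
        rw [hL, MonoidHom.range_comp]
      rw [h1, Nat.card_congr (MonoidHom.ofInjective hFinj).toEquiv.symm, DihedralGroup.nat_card]
    have h2 := Subgroup.card_mul_index (L.map π)
    rw [hcard, hA] at h2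
    have hm0 : 0 < 2 * m := by
      have : m ≠ 0 := NeZero.ne m
      omega
    have h3 : (2 * m) * (L.map π).index = (2 * m) * k := by
      rw [h2]
    exact Nat.eq_of_mul_eq_mul_left hm0 h3
  have hcop : (Nat.card (Subgroup.center H)).Coprime ((Subgroup.center H) ⊔ L).index := by
    rw [hZ, hidx]
    exact Nat.coprime_two_left.mpr hk
  obtain ⟨H0, hH0⟩ := Cfsg.Agent.H12.gaschutz_exists (Subgroup.center H) _ hcop L hLZ rfl
  exact hns H0 hH0

/-- conclusion from all involutions being central -/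
theorem unique_inv (hZ : Nat.card (Subgroup.center H) = 2)
    (h : ∀ x0 : H, x0 * x0 = 1 → x0 ∈ Subgroup.center H) (x y : H) (hx : orderOf x = 2)
    (hy : orderOf y = 2) : x = y := by
  have hxx : x * x = 1 := by rw [← pow_two, ← hx, pow_orderOf_eq_one]
  have hyy : y * y = 1 := by rw [← pow_two, ← hy, pow_orderOf_eq_one]
  have hxn : x ≠ 1 := by
    intro h1
    rw [h1, orderOf_one] at hx
    omega
  have hyn : y ≠ 1 := by
    intro h1
    rw [h1, orderOf_one] at hy
    omega
  obtain ⟨w, -, hw⟩ := (Nat.card_eq_two_iff' (1 : Subgroup.center H)).mp hZ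
  have h1 := hw ⟨x, h x hxx⟩ (fun e => hxn (congrArg Subtype.val e))
  have h2 := hw ⟨y, h y hyy⟩ (fun e => hyn (congrArg Subtype.val e))
  exact congrArg Subtype.val (h1.trans h2.symm)

end Generic

section Perm

theorem inv_cycleType {n : ℕ} (hn : n ≤ 7) (u : Perm (Fin n)) (h2 : u * u = 1) (hne : u ≠ 1)
    (hs : sign u = 1) : u.cycleType = Multiset.replicate 2 2 := by
  have hord : orderOf u = 2 := by
    have : Fact (Nat.Prime 2) := ⟨Nat.prime_two⟩
    exact orderOf_eq_prime (by rw [pow_two]; exact h2) hne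
  have hall : ∀ k ∈ u.cycleType, k = 2 := by
    intro k hk
    have h1 := two_le_of_mem_cycleType hk
    have h3 := dvd_of_mem_cycleType hk
    rw [hord] at h3
    have := Nat.le_of_dvd (by norm_num) h3
    omega
  have hrep := Multiset.eq_replicate_card.mpr hall
  set m := Multiset.card u.cycleType with hm
  have hsum : u.cycleType.sum = 2 * m := by
    rw [hrep, Multiset.sum_replicate]
    simp [hm, smul_eq_mul, mul_comm]
  have hle : u.cycleType.sum ≤ n := by
    rw [sum_cycleType]
    have := Finset.card_le_univ u.support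
    simpa using this
  have hsign : (-1 : ℤˣ) ^ m = 1 := by
    have h3 := sign_of_cycleType u
    rw [hs, hsum, ← hm, pow_add, pow_mul] at h3
    simpa using h3.symm
  have hm0 : m ≠ 0 := by
    intro h0
    rw [hm, Multiset.card_eq_zero, cycleType_eq_zero] at h0
    exact hne h0
  have hevenm : Even m := by
    by_contra hodd
    rw [Nat.not_even_iff_odd] at hodd
    rw [hodd.neg_one_pow] at hsign
    exact absurd hsign (by decide)
  have hm2 : m = 2 := by
    obtain ⟨t, ht⟩ := hevenm
    omega
  rw [hrep, hm2]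

theorem conj_alt {n : ℕ} (t1 s0 : Perm (Fin n)) (hs0 : sign s0 = -1) (hc : s0 * t1 = t1 * s0)
    (u : Perm (Fin n)) (hu : u.cycleType = t1.cycleType) :
    ∃ c : Perm (Fin n), sign c = 1 ∧ c * t1 * c⁻¹ = u := by
  have h1 : IsConj t1 u := isConj_iff_cycleType_eq.mpr hu.symm
  obtain ⟨c, hc1⟩ := isConj_iff.mp h1
  rcases Int.units_eq_one_or (sign c) with h | h
  · exact ⟨c, h, hc1⟩
  · refine ⟨c * s0, by rw [Perm.sign_mul, h, hs0]; rfl, ?_⟩
    rw [← hc1]
    have : c * s0 * t1 * (c * s0)⁻¹ = c * (s0 * t1) * s0⁻¹ * c⁻¹ := by group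
    rw [this, hc]
    group

theorem hconj_of {n : ℕ} (hn : n ≤ 7) (t1 s0 : Perm (Fin n)) (hs0 : sign s0 = -1)
    (hc : s0 * t1 = t1 * s0) (ht1 : t1.cycleType = Multiset.replicate 2 2)
    (s t : alternatingGroup (Fin n)) (hs : s * s = 1) (hs1 : s ≠ 1) (ht : t * t = 1) (ht1' : t ≠ 1) :
    ∃ c : alternatingGroup (Fin n), c * s * c⁻¹ = t := by
  have hh : ∀ u : alternatingGroup (Fin n), u * u = 1 → u ≠ 1 →
      ∃ c : alternatingGroup (Fin n), (c : Perm (Fin n)) * t1 * (c : Perm (Fin n))⁻¹ = u := by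
    intro u h1 h2
    have h3 : (u : Perm (Fin n)) * u = 1 := congrArg Subtype.val h1
    have h4 : (u : Perm (Fin n)) ≠ 1 := fun e => h2 (Subtype.ext e)
    have h5 := inv_cycleType hn u h3 h4 (mem_alternatingGroup.mp u.2)
    obtain ⟨c, hc1, hc2⟩ := conj_alt t1 s0 hs0 hc u (by rw [h5, ht1])
    exact ⟨⟨c, mem_alternatingGroup.mpr hc1⟩, hc2⟩
  obtain ⟨c1, hc1⟩ := hh s hs hs1
  obtain ⟨c2, hc2⟩ := hh t ht ht1'
  refine ⟨c2 * c1⁻¹, ?_⟩
  apply Subtype.ext
  show ((c2 : Perm (Fin n)) * (c1 : Perm (Fin n))⁻¹) * (s : Perm (Fin n))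
    * ((c2 : Perm (Fin n)) * (c1 : Perm (Fin n))⁻¹)⁻¹ = t
  rw [← hc1, ← hc2]
  group

end Perm

section Assembly

variable {H : Type*} [Group H] [Finite H]

theorem of_params {n : ℕ} (hn : n ≤ 7) (π : H →* alternatingGroup (Fin n))
    (hπ : Function.Surjective π) (hker : π.ker = Subgroup.center H)
    (hZ : Nat.card (Subgroup.center H) = 2)
    (hns : ∀ L : Subgroup H, ¬ (Subgroup.center H).IsComplement' L)
    (t1 s0 : Perm (Fin n)) (hs0 : sign s0 = -1) (hc : s0 * t1 = t1 * s0)
    (ht2 : t1 * t1 = 1) (ht3 : t1 ≠ 1) (hts : sign t1 = 1)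
    (a b : Perm (Fin n)) (ha0 : sign a = 1) (hb0 : sign b = 1) (ha : a * a = 1) (hb : b * b = 1)
    (m : ℕ) [NeZero m] (hm2 : Even m)
    (hab : ((a * b) ^ (m / 2)) * ((a * b) ^ (m / 2)) = 1)
    (hψ : ∀ i : ZMod m, (a * b) ^ i.val = 1 → i = 0)
    (hψ2 : ∀ i : ZMod m, a * (a * b) ^ i.val ≠ 1)
    (k : ℕ) (hk : Odd k) (hA : Nat.card (alternatingGroup (Fin n)) = 2 * m * k)
    (x0 : H) (hx0 : x0 * x0 = 1) : x0 ∈ Subgroup.center H := by
  have ha1 : a ∈ alternatingGroup (Fin n) := mem_alternatingGroup.mpr ha0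
  have hb1 : b ∈ alternatingGroup (Fin n) := mem_alternatingGroup.mpr hb0
  have hcoe : ∀ j : ℕ, ((((⟨a, ha1⟩ : alternatingGroup (Fin n)) * ⟨b, hb1⟩) ^ j :
      alternatingGroup (Fin n)) : Perm (Fin n)) = (a * b) ^ j := fun j => by
    rw [Subgroup.coe_pow, Subgroup.coe_mul]
  refine core π hπ hker hZ hns
    (hconj_of hn t1 s0 hs0 hc (inv_cycleType hn t1 ht2 ht3 hts)) ⟨a, ha1⟩ ⟨b, hb1⟩
    (Subtype.ext ha) (Subtype.ext hb) m hm2 ?_ ?_ ?_ k hk hA x0 hx0
  · apply Subtype.ext
    rw [Subgroup.coe_mul, hcoe, Subgroup.coe_one]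
    exact hab
  · intro i hi
    apply hψ i
    have := congrArg Subtype.val hi
    rwa [hcoe, Subgroup.coe_one] at this
  · intro i hi
    apply hψ2 i
    have := congrArg Subtype.val hi
    rwa [Subgroup.coe_mul, hcoe, Subgroup.coe_one] at this

theorem odd_case {n : ℕ} (π : H →* alternatingGroup (Fin n)) (hker : π.ker = Subgroup.center H)
    (hodd : ∀ t : alternatingGroup (Fin n), t * t = 1 → t = 1)
    (x0 : H) (hx0 : x0 * x0 = 1) : x0 ∈ Subgroup.center H := by
  rw [← hker, MonoidHom.mem_ker]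
  apply hodd
  rw [← map_mul, hx0, map_one]

set_option maxRecDepth 100000 in
theorem central {n : ℕ} (hn : n ≤ 7) (π : H →* alternatingGroup (Fin n))
    (hπ : Function.Surjective π) (hker : π.ker = Subgroup.center H)
    (hZ : Nat.card (Subgroup.center H) = 2)
    (hns : ∀ L : Subgroup H, ¬ (Subgroup.center H).IsComplement' L)
    (x0 : H) (hx0 : x0 * x0 = 1) : x0 ∈ Subgroup.center H := by
  have hcases : n = 0 ∨ n = 1 ∨ n = 2 ∨ n = 3 ∨ n = 4 ∨ n = 5 ∨ n = 6 ∨ n = 7 := by omega
  rcases hcases with rfl | rfl | rfl | rfl | rfl | rfl | rfl | rfl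
  · exact odd_case π hker (by decide) x0 hx0
  · exact odd_case π hker (by decide) x0 hx0
  · exact odd_case π hker (by decide) x0 hx0
  · exact odd_case π hker (by decide) x0 hx0
  · refine of_params (by omega) π hπ hker hZ hns
      (swap 0 1 * swap 2 3) (swap 0 1) (sign_swap (by decide)) (by decide) (by decide) (by decide)
      ((Perm.sign_mul _ _).trans (by rw [sign_swap (by decide), sign_swap (by decide)]; rfl))
      (swap 0 1 * swap 2 3) (swap 0 2 * swap 1 3)
      ((Perm.sign_mul _ _).trans (by rw [sign_swap (by decide), sign_swap (by decide)]; rfl))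
      ((Perm.sign_mul _ _).trans (by rw [sign_swap (by decide), sign_swap (by decide)]; rfl))
      (by decide) (by decide) 2 (by decide) (by decide) (by decide) (by decide) 3 (by decide)
      ?_ x0 hx0
    rw [nat_card_alternatingGroup]
    simp [Nat.factorial]
  · refine of_params (by omega) π hπ hker hZ hns
      (swap 0 1 * swap 2 3) (swap 0 1) (sign_swap (by decide)) (by decide) (by decide) (by decide)
      ((Perm.sign_mul _ _).trans (by rw [sign_swap (by decide), sign_swap (by decide)]; rfl))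
      (swap 0 1 * swap 2 3) (swap 0 2 * swap 1 3)
      ((Perm.sign_mul _ _).trans (by rw [sign_swap (by decide), sign_swap (by decide)]; rfl))
      ((Perm.sign_mul _ _).trans (by rw [sign_swap (by decide), sign_swap (by decide)]; rfl))
      (by decide) (by decide) 2 (by decide) (by decide) (by decide) (by decide) 15 (by decide)
      ?_ x0 hx0
    rw [nat_card_alternatingGroup]
    simp [Nat.factorial]
  · refine of_params (by omega) π hπ hker hZ hns
      (swap 0 1 * swap 2 3) (swap 0 1) (sign_swap (by decide)) (by decide) (by decide) (by decide)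
      ((Perm.sign_mul _ _).trans (by rw [sign_swap (by decide), sign_swap (by decide)]; rfl))
      (swap 0 2 * swap 4 5) (swap 0 1 * swap 2 3)
      ((Perm.sign_mul _ _).trans (by rw [sign_swap (by decide), sign_swap (by decide)]; rfl))
      ((Perm.sign_mul _ _).trans (by rw [sign_swap (by decide), sign_swap (by decide)]; rfl))
      (by decide) (by decide) 4 (by decide) (by decide) (by decide) (by decide) 45 (by decide)
      ?_ x0 hx0
    rw [nat_card_alternatingGroup]
    simp [Nat.factorial]
  · refine of_params (by omega) π hπ hker hZ hns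
      (swap 0 1 * swap 2 3) (swap 0 1) (sign_swap (by decide)) (by decide) (by decide) (by decide)
      ((Perm.sign_mul _ _).trans (by rw [sign_swap (by decide), sign_swap (by decide)]; rfl))
      (swap 0 2 * swap 4 5) (swap 0 1 * swap 2 3)
      ((Perm.sign_mul _ _).trans (by rw [sign_swap (by decide), sign_swap (by decide)]; rfl))
      ((Perm.sign_mul _ _).trans (by rw [sign_swap (by decide), sign_swap (by decide)]; rfl))
      (by decide) (by decide) 4 (by decide) (by decide) (by decide) (by decide) 315 (by decide)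
      ?_ x0 hx0
    rw [nat_card_alternatingGroup]
    simp [Nat.factorial]

theorem main_a (n : ℕ) (H : Type) (_ : Group H) (_ : Finite H) (hn : n ≤ 7)
    (hc : Cfsg.IsNonsplitDoubleCover H (alternatingGroup (Fin n))) (x y : H)
    (hx : orderOf x = 2) (hy : orderOf y = 2) : x = y := by
  obtain ⟨hZ, ⟨e⟩, hns⟩ := hc
  let π : H →* alternatingGroup (Fin n) :=
    e.toMonoidHom.comp (QuotientGroup.mk' (Subgroup.center H))
  have hπ : Function.Surjective π := e.surjective.comp (QuotientGroup.mk'_surjective _)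
  have hker : π.ker = Subgroup.center H := by
    ext g
    rw [MonoidHom.mem_ker]
    show e (QuotientGroup.mk g) = 1 ↔ _
    rw [map_eq_one_iff e e.injective, QuotientGroup.eq_one_iff]
  exact unique_inv hZ (central hn π hπ hker hZ hns) x y hx hy

end Assembly

end Cfsg.Agent.H19.Cover7
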