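import Cfsg.Agent.Lib.H19.Cover8Base
import Cfsg.Prelude.Def_SporadicB

/-! A non-split double cover of the alternating group of degree eight, inside `16 × 16` matrices. -/

set_option autoImplicit false
set_option linter.unusedSectionVars false

namespace Cfsg.Agent.H19.Cover8

open Matrix

instance instFactSeven : Fact (Nat.Prime 7) := ⟨by norm_num⟩

theorem f7_two : (5 * 5 * 2 : F7) = 1 := by decide
theorem f7_sq : ∀ c : F7, c * c = 1 → c = 1 ∨ c = -1 := by decide

theorem tt_tr (a b : Fin 8) : (tt a b)ᵀ = tt a b := by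
  simp only [tt, Matrix.transpose_smul, Matrix.transpose_sub, ee_tr]

theorem tt_sq {a b : Fin 8} (hab : a ≠ b) : tt a b * tt a b = 1 := by
  have h1 := ee_sq a
  have h2 := ee_sq b
  have h3 := ee_anti a b hab
  simp only [tt]
  rw [smul_mul_smul_comm, sub_mul, mul_sub, mul_sub, h1, h2, h3]
  have e : (1 : R) - -(ee b * ee a) - (ee b * ee a - 1) = (2 : F7) • (1 : R) := by
    rw [two_smul]; abel
  rw [e, smul_smul]
  have : (5 * 5 * 2 : F7) = 1 := f7_two
  rw [this, one_smul]

theorem tt_conj {a b : Fin 8} (hab : a ≠ b) (k : Fin 8) :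
    tt a b * ee k = -(ee (Equiv.swap a b k) * tt a b) := by
  simp only [tt, smul_mul_assoc, mul_smul_comm, sub_mul, mul_sub]
  by_cases hka : k = a
  · subst hka
    rw [Equiv.swap_apply_left, ee_sq, ee_sq, ← smul_neg, neg_sub]
  · by_cases hkb : k = b
    · subst hkb
      rw [Equiv.swap_apply_right, ee_sq, ee_sq, ← smul_neg, neg_sub]
    · rw [Equiv.swap_apply_of_ne_of_ne hka hkb, ee_anti a k (Ne.symm hka), ee_anti b k (Ne.symm hkb),
        ← smul_neg, neg_sub_neg, neg_sub]

/-- every permutation lifts, up to the sign -/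
theorem exists_lift (τ : Equiv.Perm (Fin 8)) :
    ∃ g : R, gᵀ * g = 1 ∧ ∀ k, g * ee k
      = ((Equiv.Perm.sign τ : ℤˣ) : ℤ) • (ee (τ k) * g) := by
  induction τ using Equiv.Perm.swap_induction_on with
  | one => exact ⟨1, by simp, fun k => by simp⟩
  | swap_mul f a b hab ih =>
    obtain ⟨g, h1, h2⟩ := ih
    refine ⟨tt a b * g, ?_, fun k => ?_⟩
    · rw [Matrix.transpose_mul, tt_tr, Matrix.mul_assoc, ← Matrix.mul_assoc (tt a b), tt_sq hab,
        Matrix.one_mul, h1]
    · rw [Matrix.mul_assoc, h2, mul_smul_comm, ← Matrix.mul_assoc, tt_conj hab, Equiv.Perm.sign_mul,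
        Equiv.Perm.sign_swap hab, Equiv.Perm.mul_apply]
      simp only [Units.val_neg, neg_mul, one_mul, neg_smul, smul_neg]
      simp only [Matrix.mul_assoc]

theorem central_scalar (g : R) (h : ∀ k, g * ee k = ee k * g) : ∃ c : F7, g = c • (1 : R) := by
  have hc : ∀ k, Commute g (ee k) := h
  have hz : ∀ j, Commute g (zz j) := by
    intro j
    fin_cases j
    · show Commute g (zz 0); rw [zz0]; exact hc 0
    · show Commute g (zz 1); rw [zz1]
      exact ((((hc 0).mul_right (hc 1)).mul_right (hc 3)).mul_right (hc 5)).mul_right (hc 7)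
    · show Commute g (zz 2); rw [zz2]
      exact ((((hc 0).mul_right (hc 1)).mul_right (hc 2)).mul_right (hc 5)).mul_right (hc 6)
    · show Commute g (zz 3); rw [zz3]
      exact ((((hc 0).mul_right (hc 1)).mul_right (hc 2)).mul_right (hc 3)).mul_right (hc 4)
  have hx : ∀ j, Commute g (xx j) := by
    intro j
    fin_cases j
    · show Commute g (xx 0); rw [xx0]; exact hc 1
    · show Commute g (xx 1); rw [xx1]
      exact (((((hc 2).mul_right (hc 3)).mul_right (hc 5)).mul_right (hc 7))).neg_right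
    · show Commute g (xx 2); rw [xx2]
      exact (((((hc 0).mul_right (hc 1)).mul_right (hc 2)).mul_right (hc 6)).mul_right (hc 7)).neg_right
    · show Commute g (xx 3); rw [xx3]
      exact (((((hc 4).mul_right (hc 5)).mul_right (hc 6)).mul_right (hc 7))).neg_right
  have hoff : ∀ u v, u ≠ v → g u v = 0 := by
    intro u v huv
    obtain ⟨j, hj⟩ := dz_sep u v huv
    have h1 : (g * zz j) u v = (zz j * g) u v := by rw [(hz j).eq]
    simp only [zz, Matrix.mul_diagonal, Matrix.diagonal_mul] at h1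
    have h2 : g u v * (dz j v - dz j u) = 0 := by
      linear_combination h1
    rcases mul_eq_zero.mp h2 with h3 | h3
    · exact h3
    · exact absurd (sub_eq_zero.mp h3).symm hj
  have hxl : ∀ j u v, (g * xx j) u v = g u (fl j v) := by
    intro j u v
    rw [Matrix.mul_apply, Finset.sum_eq_single (fl j v)]
    · simp [xx]
    · intro w _ hw
      simp [xx, hw]
    · simp
  have hxr : ∀ j u v, (xx j * g) u v = g (fl j u) v := by
    intro j u v
    rw [Matrix.mul_apply, Finset.sum_eq_single (fl j u)]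
    · have : xx j u (fl j u) = 1 := by
        simp [xx, fl_fl]
      rw [this, one_mul]
    · intro w _ hw
      have : xx j u w = 0 := by
        simp only [xx]
        rw [if_neg]
        intro h
        apply hw
        rw [h, fl_fl]
      rw [this, zero_mul]
    · simp
  have hdiag : ∀ j u, g (fl j u) (fl j u) = g u u := by
    intro j u
    have h1 : (g * xx j) u (fl j u) = (xx j * g) u (fl j u) := by rw [(hx j).eq]
    rw [hxl, hxr, fl_fl] at h1
    exact h1.symm
  have hiter : ∀ j (n : ℕ) (w : Fin 16), g ((fl j)^[n] w) ((fl j)^[n] w) = g w w := by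
    intro j n w
    induction n with
    | zero => rfl
    | succ n ih =>
      rw [Function.iterate_succ_apply', hdiag, ih]
  have hall : ∀ u, g u u = g 0 0 := by
    intro u
    conv_lhs => rw [reach u]
    rw [hiter, hiter, hiter, hiter]
  refine ⟨g 0 0, ?_⟩
  ext u v
  by_cases huv : u = v
  · subst huv
    simp [hall u]
  · simp [hoff u v huv, huv]

/-- the double cover -/
def HH : Subgroup (Rˣ × alternatingGroup (Fin 8)) where
  carrier := {p | ((p.1 : R))ᵀ * (p.1 : R) = 1 ∧
    ∀ k, (p.1 : R) * ee k = ee ((p.2 : Equiv.Perm (Fin 8)) k) * (p.1 : R)}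
  one_mem' := by
    constructor
    · simp
    · intro k
      simp
  mul_mem' := by
    rintro ⟨g, σ⟩ ⟨g', σ'⟩ ⟨h1, h2⟩ ⟨h1', h2'⟩
    constructor
    · show ((g * g' : Rˣ) : R)ᵀ * ((g * g' : Rˣ) : R) = 1
      rw [Units.val_mul, Matrix.transpose_mul, Matrix.mul_assoc, ← Matrix.mul_assoc _ (g : R),
        h1, Matrix.one_mul, h1']
    · intro k
      show ((g * g' : Rˣ) : R) * ee k = ee ((σ * σ' : alternatingGroup (Fin 8)).1 k)
        * ((g * g' : Rˣ) : R)
      rw [Units.val_mul, Matrix.mul_assoc, h2', ← Matrix.mul_assoc, h2, Matrix.mul_assoc]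
      rfl
  inv_mem' := by
    rintro ⟨g, σ⟩ ⟨h1, h2⟩
    have hinv : ((g⁻¹ : Rˣ) : R) = (g : R)ᵀ := by
      have : (g : R)ᵀ * (g : R) = 1 := h1
      have h3 : ((g⁻¹ : Rˣ) : R) * (g : R) = 1 := by simp
      exact (Units.mul_left_inj g).mp (h3.trans this.symm)
    constructor
    · show (((g⁻¹ : Rˣ) : R))ᵀ * ((g⁻¹ : Rˣ) : R) = 1
      rw [hinv, Matrix.transpose_transpose, ← hinv]
      simp
    · intro k
      show ((g⁻¹ : Rˣ) : R) * ee k = ee ((σ⁻¹ : alternatingGroup (Fin 8)).1 k) * ((g⁻¹ : Rˣ) : R)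
      have h3 := h2 ((σ⁻¹ : alternatingGroup (Fin 8)).1 k)
      have h4 : (σ : Equiv.Perm (Fin 8)) ((σ⁻¹ : alternatingGroup (Fin 8)).1 k) = k := by
        show ((σ * σ⁻¹ : alternatingGroup (Fin 8)) : Equiv.Perm (Fin 8)) k = k
        rw [mul_inv_cancel]
        rfl
      rw [h4] at h3
      have h5 : ((g⁻¹ : Rˣ) : R) * (g : R) = 1 := by simp
      have h6 : (g : R) * ((g⁻¹ : Rˣ) : R) = 1 := by simp
      calc ((g⁻¹ : Rˣ) : R) * ee k = ((g⁻¹ : Rˣ) : R) * (ee k * ((g : R) * ((g⁻¹ : Rˣ) : R))) := by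
            rw [h6, Matrix.mul_one]
        _ = ((g⁻¹ : Rˣ) : R) * ((g : R) * ee ((σ⁻¹ : alternatingGroup (Fin 8)).1 k)) * ((g⁻¹ : Rˣ) : R) := by
            have h3' : (g : R) * ee ((σ⁻¹ : alternatingGroup (Fin 8)).1 k)
                = ee k * (g : R) := h3
            rw [h3']
            simp only [Matrix.mul_assoc]
        _ = _ := by
            rw [← Matrix.mul_assoc, h5, Matrix.one_mul]

instance instFiniteR : Finite R := inferInstance

/-- the projection to the alternating group -/
def piH : HH →* alternatingGroup (Fin 8) :=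
  (MonoidHom.snd Rˣ (alternatingGroup (Fin 8))).comp HH.subtype

theorem piH_apply (h : HH) : piH h = (h : Rˣ × alternatingGroup (Fin 8)).2 := rfl

/-- turns a matrix with orthogonality into a unit -/
def mkU (g : R) (h : gᵀ * g = 1) : Rˣ :=
  ⟨g, gᵀ, by
    exact mul_eq_one_comm.mp h, h⟩

theorem piH_surj : Function.Surjective piH := by
  intro σ
  obtain ⟨g, h1, h2⟩ := exists_lift (σ : Equiv.Perm (Fin 8))
  have hs : Equiv.Perm.sign (σ : Equiv.Perm (Fin 8)) = 1 := Equiv.Perm.mem_alternatingGroup.mp σ.2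
  have hmem : ((mkU g h1, σ) : Rˣ × alternatingGroup (Fin 8)) ∈ HH := by
    refine ⟨h1, fun k => ?_⟩
    have := h2 k
    rw [hs] at this
    show g * ee k = ee ((σ : Equiv.Perm (Fin 8)) k) * g
    simpa using this
  exact ⟨⟨_, hmem⟩, rfl⟩

/-- the central element -/
def wU : Rˣ := -1

theorem wU_ne : wU ≠ 1 := by
  intro h
  have h2 : (-1 : R) = 1 := congrArg Units.val h
  have h3 : (-1 : R) 0 0 = (1 : R) 0 0 := by rw [h2]
  have h4 : (-1 : F7) = 1 := by simpa using h3
  exact absurd h4 (by decide)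

theorem wmem : ((wU, 1) : Rˣ × alternatingGroup (Fin 8)) ∈ HH := by
  refine ⟨?_, fun k => ?_⟩
  · show ((wU : Rˣ) : R)ᵀ * ((wU : Rˣ) : R) = 1
    simp [wU]
  · show ((wU : Rˣ) : R) * ee k = ee k * ((wU : Rˣ) : R)
    simp [wU]

/-- the central element of the cover -/
def ww : HH := ⟨_, wmem⟩

theorem ww_ne : ww ≠ 1 := by
  intro h
  have := congrArg (fun p : HH => (p : Rˣ × alternatingGroup (Fin 8)).1) h
  exact wU_ne this

theorem ww_sq : ww * ww = 1 := by
  apply Subtype.ext
  apply Prod.ext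
  · show wU * wU = 1
    simp [wU]
  · show (1 : alternatingGroup (Fin 8)) * 1 = 1
    simp

theorem ker_eq (h : HH) (hk : piH h = 1) : h = 1 ∨ h = ww := by
  obtain ⟨⟨g, σ⟩, h1, h2⟩ := h
  have hσ : σ = 1 := hk
  subst hσ
  obtain ⟨c, hc⟩ := central_scalar (g : R) (fun k => by simpa using h2 k)
  have hcc : c * c = 1 := by
    have h3 : ((g : R))ᵀ * (g : R) = 1 := h1
    rw [hc] at h3
    have h4 := congrFun (congrFun h3 0) 0
    simpa [Matrix.mul_apply, Fin.sum_univ_succ, Matrix.one_apply] using h4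
  rcases f7_sq c hcc with rfl | rfl
  · left
    apply Subtype.ext
    apply Prod.ext
    · apply Units.ext
      rw [hc]
      simp
    · rfl
  · right
    apply Subtype.ext
    apply Prod.ext
    · apply Units.ext
      rw [hc]
      show _ = ((wU : Rˣ) : R)
      simp [wU]
    · rfl

theorem ww_central (h : HH) : h * ww = ww * h := by
  apply Subtype.ext
  apply Prod.ext
  · apply Units.ext
    show ((h : Rˣ × alternatingGroup (Fin 8)).1 : R) * ((wU : Rˣ) : R)
      = ((wU : Rˣ) : R) * ((h : Rˣ × alternatingGroup (Fin 8)).1 : R)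
    simp [wU]
  · show (h : Rˣ × alternatingGroup (Fin 8)).2 * 1 = 1 * (h : Rˣ × alternatingGroup (Fin 8)).2
    simp

theorem center_eq_ker : Subgroup.center HH = piH.ker := by
  apply le_antisymm
  · intro h hh
    rw [MonoidHom.mem_ker]
    have hc : piH h ∈ Subgroup.center (alternatingGroup (Fin 8)) := by
      rw [Subgroup.mem_center_iff]
      intro s
      obtain ⟨t, rfl⟩ := piH_surj s
      rw [← map_mul, ← map_mul, (Subgroup.mem_center_iff.mp hh) t]
    rw [alternatingGroup.center_eq_bot (by simp)] at hc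
    exact hc
  · intro h hh
    rcases ker_eq h hh with rfl | rfl
    · exact Subgroup.one_mem _
    · rw [Subgroup.mem_center_iff]
      intro s
      exact ww_central s

theorem pair_orth {a b c d : Fin 8} (hab : a ≠ b) (hcd : c ≠ d) :
    (tt a b * tt c d)ᵀ * (tt a b * tt c d) = 1 := by
  rw [Matrix.transpose_mul, tt_tr, tt_tr, Matrix.mul_assoc, ← Matrix.mul_assoc (tt a b), tt_sq hab,
    Matrix.one_mul, tt_sq hcd]

theorem pair_alt {a b c d : Fin 8} (hab : a ≠ b) (hcd : c ≠ d) :
    Equiv.swap a b * Equiv.swap c d ∈ alternatingGroup (Fin 8) := by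
  rw [Equiv.Perm.mem_alternatingGroup, Equiv.Perm.sign_mul, Equiv.Perm.sign_swap hab,
    Equiv.Perm.sign_swap hcd]
  simp

/-- the lift of a product of two transpositions -/
def pairEl (a b c d : Fin 8) (hab : a ≠ b) (hcd : c ≠ d) : HH :=
  ⟨(mkU (tt a b * tt c d) (pair_orth hab hcd), ⟨_, pair_alt hab hcd⟩), by
    refine ⟨pair_orth hab hcd, fun k => ?_⟩
    show tt a b * tt c d * ee k = ee ((Equiv.swap a b * Equiv.swap c d) k) * (tt a b * tt c d)
    rw [Matrix.mul_assoc, tt_conj hcd, Matrix.mul_neg, ← Matrix.mul_assoc, tt_conj hab,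
      Equiv.Perm.mul_apply]
    simp only [Matrix.neg_mul, neg_neg, Matrix.mul_assoc]⟩

/-- the lift of the double transposition -/
def YY : HH := pairEl 0 1 2 3 (by decide) (by decide)
/-- the lift of the product of four transpositions -/
def XX : HH := YY * pairEl 4 5 6 7 (by decide) (by decide)

theorem YY_sq : YY * YY = ww := by
  apply Subtype.ext
  apply Prod.ext
  · apply Units.ext
    show y0 * y0 = ((wU : Rˣ) : R)
    rw [y0_sq]
    simp [wU]
  · show (⟨_, pair_alt (a := 0) (b := 1) (c := 2) (d := 3) (by decide) (by decide)⟩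
      * ⟨_, pair_alt (a := 0) (b := 1) (c := 2) (d := 3) (by decide) (by decide)⟩
      : alternatingGroup (Fin 8)) = 1
    decide

theorem XX_sq : XX * XX = 1 := by
  apply Subtype.ext
  apply Prod.ext
  · apply Units.ext
    show (y0 * (tt 4 5 * tt 6 7)) * (y0 * (tt 4 5 * tt 6 7)) = 1
    have e : y0 * (tt 4 5 * tt 6 7) = x0 := by
      simp only [y0, x0, Matrix.mul_assoc]
    rw [e, x0_sq]
  · apply Subtype.ext
    show ((Equiv.swap (0 : Fin 8) 1 * Equiv.swap 2 3) * (Equiv.swap 4 5 * Equiv.swap 6 7))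
      * ((Equiv.swap 0 1 * Equiv.swap 2 3) * (Equiv.swap 4 5 * Equiv.swap 6 7)) = 1
    decide

theorem XX_pi_ne : piH XX ≠ 1 := by
  intro h
  have h2 := congrArg (fun s : alternatingGroup (Fin 8) => (s : Equiv.Perm (Fin 8)) 0) h
  have h3 : (((Equiv.swap (0 : Fin 8) 1 * Equiv.swap 2 3) * (Equiv.swap 4 5 * Equiv.swap 6 7)
      : Equiv.Perm (Fin 8))) 0 = 0 := h2
  exact absurd h3 (by decide)

theorem center_sq (c : HH) (hc : c ∈ Subgroup.center HH) : c * c = 1 := by
  rw [center_eq_ker] at hc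
  rcases ker_eq c hc with rfl | rfl
  · simp
  · exact ww_sq

theorem center_eq_zp : Subgroup.center HH = Subgroup.zpowers ww := by
  apply le_antisymm
  · intro c hc
    rw [center_eq_ker] at hc
    rcases ker_eq c hc with rfl | rfl
    · exact Subgroup.one_mem _
    · exact Subgroup.mem_zpowers _
  · rw [Subgroup.zpowers_le, Subgroup.mem_center_iff]
    intro s
    exact ww_central s

theorem order_ww : orderOf ww = 2 := by
  have : Fact (Nat.Prime 2) := ⟨Nat.prime_two⟩
  apply orderOf_eq_prime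
  · rw [pow_two]; exact ww_sq
  · exact ww_ne

instance instFiniteHH : Finite HH := inferInstance

theorem main : ∃ (H : Type) (_ : Group H) (_ : Finite H),
    Cfsg.IsNonsplitDoubleCover H (alternatingGroup (Fin 8)) ∧
      ∃ x y : H, x ≠ y ∧ orderOf x = 2 ∧ orderOf y = 2 := by
  refine ⟨HH, inferInstance, inferInstance, ⟨?_, ?_, ?_⟩, ww, XX, ?_, order_ww, ?_⟩
  · rw [center_eq_zp, Nat.card_zpowers, order_ww]
  · exact ⟨(QuotientGroup.quotientMulEquivOfEq center_eq_ker).trans
      (QuotientGroup.quotientKerEquivOfSurjective piH piH_surj)⟩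
  · intro L hL
    obtain ⟨⟨c, l⟩, hcl⟩ := hL.2 YY
    have hcl' : (c : HH) * (l : HH) = YY := hcl
    have hcc := center_sq c c.2
    have hcm := Subgroup.mem_center_iff.mp c.2 l
    have hl2 : (l : HH) * l = ww := by
      rw [← YY_sq, ← hcl']
      calc (l : HH) * l = ((c : HH) * c) * ((l : HH) * l) := by rw [hcc, one_mul]
        _ = (c : HH) * (c * l) * l := by group
        _ = (c : HH) * (l * c) * l := by rw [hcm]
        _ = (c : HH) * l * (c * l) := by group
    have hwL : ww ∈ L := by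
      rw [← hl2]
      exact L.mul_mem l.2 l.2
    have hwZ : ww ∈ Subgroup.center HH := by
      rw [center_eq_zp]
      exact Subgroup.mem_zpowers _
    exact ww_ne (Subgroup.disjoint_def.mp hL.disjoint hwZ hwL)
  · intro h
    apply XX_pi_ne
    rw [← h]
    rfl
  · have : Fact (Nat.Prime 2) := ⟨Nat.prime_two⟩
    apply orderOf_eq_prime
    · rw [pow_two]; exact XX_sq
    · intro h
      apply XX_pi_ne
      rw [h, map_one]

end Cfsg.Agent.H19.Cover8
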