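import Mathlib

/-! Clifford generators, as `16 × 16` matrices over the field with seven elements. -/

set_option autoImplicit false

namespace Cfsg.Agent.H19.Cover8

abbrev F7 := ZMod 7
abbrev R := Matrix (Fin 16) (Fin 16) F7

def maskA : Fin 8 → ℕ := ![0, 1, 3, 5, 7, 9, 11, 13]
def maskB : Fin 8 → ℕ := ![1, 0, 3, 7, 13, 15, 9, 11]
def pc4 (x : ℕ) : ℕ := x % 2 + x / 2 % 2 + x / 4 % 2 + x / 8 % 2

/-- the Clifford generators -/
def ee (i : Fin 8) : R := fun u v =>
  if u.val = Nat.xor v.val (maskA i) then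
    (if pc4 (Nat.land v.val (maskB i)) % 2 = 0 then 1 else -1) else 0

theorem ee_sq : ∀ i, ee i * ee i = 1 := by decide +kernel
theorem ee_anti : ∀ i j, i ≠ j → ee i * ee j = -(ee j * ee i) := by decide +kernel
theorem ee_tr : ∀ i, (ee i).transpose = ee i := by decide +kernel

/-- the sign of a coordinate -/
def dz (j : Fin 4) (u : Fin 16) : F7 := if (u.val / 2 ^ j.val) % 2 = 0 then 1 else -1
/-- flipping a coordinate -/
def fl (j : Fin 4) (u : Fin 16) : Fin 16 := ⟨(Nat.xor u.val (2 ^ j.val)) % 16, Nat.mod_lt _ (by norm_num)⟩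
/-- a diagonal Pauli matrix -/
def zz (j : Fin 4) : R := Matrix.diagonal (dz j)
/-- a flip Pauli matrix -/
def xx (j : Fin 4) : R := fun u v => if u = fl j v then 1 else 0

theorem zz0 : zz 0 = ee 0 := by decide +kernel
theorem xx0 : xx 0 = ee 1 := by decide +kernel
theorem zz1 : zz 1 = ee 0 * ee 1 * ee 3 * ee 5 * ee 7 := by decide +kernel
theorem xx1 : xx 1 = -(ee 2 * ee 3 * ee 5 * ee 7) := by decide +kernel
theorem zz2 : zz 2 = ee 0 * ee 1 * ee 2 * ee 5 * ee 6 := by decide +kernel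
theorem xx2 : xx 2 = -(ee 0 * ee 1 * ee 2 * ee 6 * ee 7) := by decide +kernel
theorem zz3 : zz 3 = ee 0 * ee 1 * ee 2 * ee 3 * ee 4 := by decide +kernel
theorem xx3 : xx 3 = -(ee 4 * ee 5 * ee 6 * ee 7) := by decide +kernel

theorem dz_sep : ∀ u v : Fin 16, u ≠ v → ∃ j, dz j u ≠ dz j v := by decide +kernel
theorem fl_fl : ∀ j u, fl j (fl j u) = u := by decide +kernel
theorem reach : ∀ u : Fin 16, u = (fl 0)^[u.val % 2] ((fl 1)^[u.val / 2 % 2] ((fl 2)^[u.val / 4 % 2]
    ((fl 3)^[u.val / 8 % 2] 0))) := by decide +kernel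

/-- the lift of a transposition -/
def tt (a b : Fin 8) : R := (5 : F7) • (ee a - ee b)

/-- lift of a double transposition -/
def y0 : R := tt 0 1 * tt 2 3
/-- lift of a product of four transpositions -/
def x0 : R := tt 0 1 * tt 2 3 * tt 4 5 * tt 6 7

theorem y0_sq : y0 * y0 = -1 := by decide +kernel
theorem x0_sq : x0 * x0 = 1 := by decide +kernel

end Cfsg.Agent.H19.Cover8
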