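import Mathlib
import Cfsg.Agent.Lib.H01.Basic

set_option autoImplicit false

namespace Cfsg.Agent.H19.F172

open Subgroup

section pgroup

variable {P : Type*} [Group P] [Finite P] {p : ℕ} [hpf : Fact p.Prime]

lemma exists_gen (hgen : (frattini P).index = p ^ 2) (D : Subgroup P) (hD : ¬ D ≤ frattini P) :
    ∃ u : P, D ⊔ Subgroup.zpowers u = ⊤ := by
  classical
  have hp := hpf.out
  set J := D ⊔ frattini P with hJ
  have hle : frattini P ≤ J := le_sup_right
  have h1 := Subgroup.relIndex_mul_index hle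
  rw [hgen] at h1
  have hr : (frattini P).relIndex J ≠ 1 := by
    rw [Ne, Subgroup.relIndex_eq_one]
    intro h
    exact hD (le_sup_left.trans h)
  have hdvd : J.index ∣ p ^ 2 := Dvd.intro_left _ h1
  obtain ⟨k, hk, hk2⟩ := (Nat.dvd_prime_pow hp).1 hdvd
  have hk' : k ≠ 2 := by
    rintro rfl
    rw [hk2] at h1
    have : (frattini P).relIndex J * p ^ 2 = 1 * p ^ 2 := by rw [h1, one_mul]
    exact hr (Nat.eq_of_mul_eq_mul_right (pow_pos hp.pos 2) this)
  have hcases : k = 0 ∨ k = 1 := by omega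
  rcases hcases with rfl | rfl
  · rw [pow_zero, Subgroup.index_eq_one] at hk2
    refine ⟨1, ?_⟩
    have := frattini_nongenerating hk2
    rw [this]
    simp
  · rw [pow_one] at hk2
    have hJne : J ≠ ⊤ := by
      intro h
      rw [h, Subgroup.index_top] at hk2
      exact hp.one_lt.ne hk2
    obtain ⟨u, hu⟩ : ∃ u, u ∉ J := by
      by_contra hcon
      push_neg at hcon
      exact hJne (eq_top_iff.2 (fun x _ => hcon x))
    refine ⟨u, ?_⟩
    set J2 := J ⊔ Subgroup.zpowers u with hJ2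
    have hle2 : J ≤ J2 := le_sup_left
    have h2 := Subgroup.relIndex_mul_index hle2
    rw [hk2] at h2
    have hr2 : J.relIndex J2 ≠ 1 := by
      rw [Ne, Subgroup.relIndex_eq_one]
      intro h
      exact hu (h (le_sup_right (a := J) (Subgroup.mem_zpowers u)))
    have h3 : J2.index = 1 := by
      have hd := (Nat.dvd_prime hp).1 (Dvd.intro _ h2 : J.relIndex J2 ∣ p)
      rcases hd with hd | hd
      · exact absurd hd hr2
      · rw [hd] at h2
        have : p * J2.index = p * 1 := by rw [h2, mul_one]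
        exact Nat.eq_of_mul_eq_mul_left hp.pos this
    rw [Subgroup.index_eq_one] at h3
    apply frattini_nongenerating (G := P)
    rw [← h3, hJ2, hJ, sup_assoc, sup_assoc, sup_comm (frattini P)]

lemma comm_mem (D : Subgroup P) (hDn : D.Normal) (u : P) (h : D ⊔ Subgroup.zpowers u = ⊤) (x y : P) :
    x * y * x⁻¹ * y⁻¹ ∈ D := by
  haveI := hDn
  have hall : ∀ z : P, (QuotientGroup.mk' D z) ∈ Subgroup.zpowers (QuotientGroup.mk' D u) := by
    intro z
    have h1 : z ∈ D ⊔ Subgroup.zpowers u := by rw [h]; exact Subgroup.mem_top z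
    have h2 := Subgroup.mem_map_of_mem (QuotientGroup.mk' D) h1
    rw [Subgroup.map_sup, QuotientGroup.map_mk'_self, bot_sup_eq, MonoidHom.map_zpowers] at h2
    exact h2
  obtain ⟨a, ha⟩ := Subgroup.mem_zpowers_iff.1 (hall x)
  obtain ⟨b, hb⟩ := Subgroup.mem_zpowers_iff.1 (hall y)
  have h3 : QuotientGroup.mk' D x * QuotientGroup.mk' D y = QuotientGroup.mk' D y * QuotientGroup.mk' D x := by
    rw [← ha, ← hb]
    exact (Commute.zpow_zpow_self _ a b).eq
  rw [← QuotientGroup.eq_one_iff (x * y * x⁻¹ * y⁻¹)]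
  change QuotientGroup.mk' D (x * y * x⁻¹ * y⁻¹) = 1
  simp only [map_mul, map_inv]
  rw [h3]
  group

lemma comm_of_two (hgen : (frattini P).index = p ^ 2) (D₁ D₂ : Subgroup P) (h₁ : D₁.Normal)
    (h₂ : D₂.Normal) (hD₁ : ¬ D₁ ≤ frattini P) (hD₂ : ¬ D₂ ≤ frattini P) (hinf : D₁ ⊓ D₂ = ⊥)
    (x y : P) : x * y = y * x := by
  obtain ⟨u₁, hu₁⟩ := exists_gen hgen D₁ hD₁
  obtain ⟨u₂, hu₂⟩ := exists_gen hgen D₂ hD₂
  have h3 := comm_mem D₁ h₁ u₁ hu₁ x y
  have h4 := comm_mem D₂ h₂ u₂ hu₂ x y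
  have h5 : x * y * x⁻¹ * y⁻¹ ∈ D₁ ⊓ D₂ := ⟨h3, h4⟩
  rw [hinf, Subgroup.mem_bot] at h5
  have h6 : x * y * x⁻¹ = y := mul_inv_eq_one.1 h5
  exact mul_inv_eq_iff_eq_mul.1 h6

end pgroup

lemma mem_zpowers_of_pow {X : Type*} [Group X] [Finite X] {u v w : X} {p : ℕ} [hpf : Fact p.Prime]
    (hv : v ∈ Subgroup.zpowers u) (hw : w ∈ Subgroup.zpowers u)
    (hvp : v ^ p = 1) (hwp : w ^ p = 1) (hv1 : v ≠ 1) : w ∈ Subgroup.zpowers v := by
  classical
  haveI := Fintype.ofFinite (Subgroup.zpowers u)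
  have hp := hpf.out
  set v' : Subgroup.zpowers u := ⟨v, hv⟩ with hv'
  set w' : Subgroup.zpowers u := ⟨w, hw⟩ with hw'
  have hv'p : v' ^ p = 1 := Subtype.ext hvp
  have hw'p : w' ^ p = 1 := Subtype.ext hwp
  have hv'1 : v' ≠ 1 := fun h => hv1 (congrArg Subtype.val h)
  have hord : orderOf v' = p := orderOf_eq_prime hv'p hv'1
  have hle := IsCyclic.card_pow_eq_one_le (α := Subgroup.zpowers u) hp.pos
  haveI := Fintype.ofFinite (Subgroup.zpowers v')
  set S1 : Finset (Subgroup.zpowers u) := Finset.univ.filter (fun a => a ∈ Subgroup.zpowers v') with hS1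
  have hS1card : S1.card = p := by
    rw [hS1, ← hord, ← Nat.card_zpowers, Nat.card_eq_fintype_card, Fintype.card_subtype]
  have hsub : S1 ⊆ Finset.univ.filter (fun a : Subgroup.zpowers u => a ^ p = 1) := by
    intro a ha
    simp only [hS1, Finset.mem_filter, Finset.mem_univ, true_and] at ha ⊢
    obtain ⟨k, rfl⟩ := Subgroup.mem_zpowers_iff.1 ha
    rw [← zpow_natCast, ← zpow_mul, mul_comm, zpow_mul, zpow_natCast, hv'p, one_zpow]
  have heq := Finset.eq_of_subset_of_card_le hsub (by rw [hS1card]; exact hle)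
  have hmem : w' ∈ Finset.univ.filter (fun a : Subgroup.zpowers u => a ^ p = 1) := by
    simp [hw'p]
  rw [← heq] at hmem
  simp only [hS1, Finset.mem_filter, Finset.mem_univ, true_and] at hmem
  obtain ⟨k, hk⟩ := Subgroup.mem_zpowers_iff.1 hmem
  rw [Subgroup.mem_zpowers_iff]
  refine ⟨k, ?_⟩
  have := congrArg Subtype.val hk
  simpa using this

section gaschutz

variable {G A : Type*} [Group G] [CommGroup A] (φ : G →* MulAut A) (H : Subgroup G) [Finite (G ⧸ H)]

/-- Gaschütz averaging. -/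
theorem gaschutz (π : A →* A) (hπ : ∀ p ∈ H, ∀ a : A, π (φ p a) = φ p (π a)) :
    ∃ Θ : A →* A, (∀ g a, Θ (φ g a) = φ g (Θ a)) ∧
      (∀ B : Subgroup A, (∀ g, ∀ b ∈ B, φ g b ∈ B) → (∀ a, π a ∈ B) → ∀ a, Θ a ∈ B) ∧
      (∀ B : Subgroup A, (∀ g, ∀ b ∈ B, φ g b ∈ B) → (∀ b ∈ B, π b = b) → ∀ b ∈ B, Θ b = b ^ H.index) := by
  classical
  haveI := Fintype.ofFinite (G ⧸ H)
  -- the terms
  let T : G → A →* A := fun g =>
    ((φ g).toMonoidHom).comp (π.comp ((φ g⁻¹).toMonoidHom))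
  have hT : ∀ g a, T g a = φ g (π (φ g⁻¹ a)) := fun g a => rfl
  -- independence of representative
  have hrep : ∀ (g g' : G), (g : G ⧸ H) = g' → ∀ a, T g a = T g' a := by
    intro g g' hgg a
    have h1 : g⁻¹ * g' ∈ H := QuotientGroup.eq.1 hgg
    have h2 : g' = g * (g⁻¹ * g') := by group
    rw [hT, hT]
    have h3 : φ g'⁻¹ a = φ (g⁻¹ * g')⁻¹ (φ g⁻¹ a) := by
      rw [← MulAut.mul_apply, ← map_mul]
      congr 2
      group
    rw [h3, hπ _ (H.inv_mem h1)]
    rw [← MulAut.mul_apply, ← map_mul]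
    congr 2
    · group
  let Θ : A →* A := ∏ c : G ⧸ H, T c.out
  have hΘ : ∀ a, Θ a = ∏ c : G ⧸ H, T c.out a := by
    intro a
    exact MonoidHom.finsetProd_apply _ _ _
  refine ⟨Θ, ?_, ?_, ?_⟩
  · intro h a
    rw [hΘ, hΘ, map_prod]
    -- reindex
    have hkey : ∀ c : G ⧸ H, φ h (T c.out a) = T (h • c).out (φ h a) := by
      intro c
      have h1 : φ h (T c.out a) = T (h * c.out) (φ h a) := by
        rw [hT, hT]
        have h2 : φ (h * c.out)⁻¹ (φ h a) = φ c.out⁻¹ a := by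
          rw [← MulAut.mul_apply, ← map_mul]
          congr 2
          group
        rw [h2, map_mul, MulAut.mul_apply]
      rw [h1]
      apply hrep
      have h3 : ((h * c.out : G) : G ⧸ H) = h • (c.out : G ⧸ H) := rfl
      rw [h3, QuotientGroup.out_eq', QuotientGroup.out_eq']
    simp only [hkey]
    exact (Equiv.prod_comp (MulAction.toPerm h : Equiv.Perm (G ⧸ H))
      (fun c => T c.out (φ h a))).symm
  · intro B hB hπB a
    rw [hΘ]
    apply Subgroup.prod_mem
    intro c _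
    rw [hT]
    exact hB _ _ (hπB _)
  · intro B hB hπB b hb
    rw [hΘ]
    have h1 : ∀ c : G ⧸ H, T c.out b = b := by
      intro c
      rw [hT, hπB _ (hB _ _ hb), ← MulAut.mul_apply, ← map_mul]
      simp
    simp only [h1, Finset.prod_const, Finset.card_univ]
    rw [Subgroup.index_eq_card, Nat.card_eq_fintype_card]

end gaschutz

end Cfsg.Agent.H19.F172
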