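import Cfsg.Agent.Lib.H19.F172a
import Cfsg.Agent.Lib.H01.Tate2
import Cfsg.Agent.Lib.H01.NormalComp
import Cfsg.Agent.Lib.H01.Fitting
import Cfsg.Agent.Lib.H05.Comp3
import Cfsg.Agent.Lib.H05.Comp2
import Cfsg.Agent.Lib.H05.PComp
import Cfsg.Agent.Lib.H12.SylowJoin
import Cfsg.Agent.Lib.H13.Residual

set_option autoImplicit false

namespace Cfsg.Agent.H19.F172

open Subgroup Cfsg
open scoped commutatorElement

variable {G : Type*} [Group G] [Finite G] {p : ℕ} [hpf : Fact p.Prime]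

/-- The hypotheses of the statement. -/
structure Hyps (P : Sylow p G) : Prop where
  hna : ¬ IsMulCommutative (P : Subgroup G)
  hgen : (frattini ↥(P : Subgroup G)).index = p ^ 2
  hcore : pPrimeCore p G = ⊥
  hfrat : ((frattini ↥(P : Subgroup G)).map (P : Subgroup G).subtype).normalCore = ⊥

lemma orderOf_conj' (g x : G) : orderOf (g * x * g⁻¹) = orderOf x := by
  have := MulEquiv.orderOf_eq (MulAut.conj g) x
  rwa [MulAut.conj_apply] at this

variable {P : Sylow p G}

theorem not_le_frattini (h : Hyps P) (K : Subgroup G) (hK : K.Normal) (hK1 : K ≠ ⊥) :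
    ¬ K.subgroupOf (P : Subgroup G) ≤ frattini ↥(P : Subgroup G) := by
  classical
  intro hle
  haveI := hK
  have hp := hpf.out
  have h1 : K ⊓ (P : Subgroup G) ≤ (frattini ↥(P : Subgroup G)).map (P : Subgroup G).subtype := by
    rintro x ⟨hx1, hx2⟩
    exact ⟨⟨x, hx2⟩, hle (by simpa [mem_subgroupOf] using hx1), rfl⟩
  obtain ⟨S, R, hRn, hR⟩ := Cfsg.Agent.H01.tate_main P _ K hK rfl h1
  haveI := hRn
  set R' : Subgroup G := R.map K.subtype with hR'
  have hmem : ∀ x : G, x ∈ R' ↔ x ∈ K ∧ Nat.Coprime (orderOf x) p := by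
    intro x
    constructor
    · rintro ⟨y, hy, rfl⟩
      refine ⟨y.2, ?_⟩
      have := (Cfsg.Agent.H01.mem_normal_complement_iff S R hR y).1 hy
      rwa [← Subgroup.orderOf_coe] at this
    · rintro ⟨hx, hc⟩
      refine ⟨⟨x, hx⟩, ?_, rfl⟩
      rw [SetLike.mem_coe, Cfsg.Agent.H01.mem_normal_complement_iff S R hR, ← Subgroup.orderOf_coe]
      exact hc
  have hR'n : R'.Normal := ⟨fun n hn g => (hmem _).2
    ⟨hK.conj_mem _ ((hmem n).1 hn).1 g, by rw [orderOf_conj']; exact ((hmem n).1 hn).2⟩⟩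
  have hR'c : (Nat.card R').Coprime p := by
    rw [Nat.coprime_comm, Nat.Prime.coprime_iff_not_dvd hp]
    intro hd
    obtain ⟨r, hr⟩ := exists_prime_orderOf_dvd_card' p hd
    have h2 := ((hmem r).1 r.2).2
    rw [Subgroup.orderOf_coe, hr] at h2
    exact hp.one_lt.ne' (Nat.coprime_self p |>.1 h2)
  have h3 : R' ≤ pPrimeCore p G := le_sSup ⟨hR'n, hR'c⟩
  rw [h.hcore, le_bot_iff] at h3
  have hRbot : R = ⊥ := (Subgroup.map_eq_bot_iff_of_injective _ K.subtype_injective).1 h3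
  have hcard := hR.card_mul_card
  rw [hRbot, Subgroup.card_bot, one_mul] at hcard
  obtain ⟨n, hn⟩ := IsPGroup.iff_card.1 S.isPGroup'
  have hKp : IsPGroup p K := IsPGroup.of_card (n := n) (by rw [← hcard, hn])
  have hKP : K ≤ (P : Subgroup G) := hKp.le_sylow_of_normal P
  have h4 : K ≤ (frattini ↥(P : Subgroup G)).map (P : Subgroup G).subtype := by
    intro x hx
    exact h1 ⟨hx, hKP hx⟩
  have h5 := Subgroup.normal_le_normalCore.2 h4
  rw [h.hfrat] at h5
  exact hK1 (le_bot_iff.1 h5)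

theorem inf_ne_bot (h : Hyps P) {K₁ K₂ : Subgroup G} (h₁ : K₁.Normal) (h₂ : K₂.Normal)
    (hK₁ : K₁ ≠ ⊥) (hK₂ : K₂ ≠ ⊥) : K₁ ⊓ K₂ ≠ ⊥ := by
  intro hinf
  apply h.hna
  haveI := h₁
  haveI := h₂
  constructor
  constructor
  intro x y
  apply comm_of_two h.hgen (K₁.subgroupOf _) (K₂.subgroupOf _) inferInstance inferInstance
    (not_le_frattini h K₁ h₁ hK₁) (not_le_frattini h K₂ h₂ hK₂)
  rw [eq_bot_iff]
  rintro z ⟨hz1, hz2⟩
  have h3 : (z : G) ∈ K₁ ⊓ K₂ := ⟨hz1, hz2⟩
  rw [hinf, Subgroup.mem_bot] at h3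
  exact Subgroup.mem_bot.2 (Subtype.ext h3)

theorem exists_min (h : Hyps P) :
    ∃ N : Subgroup G, N.Normal ∧ N ≠ ⊥ ∧ ∀ K : Subgroup G, K.Normal → K ≠ ⊥ → N ≤ K := by
  have htop : (⊤ : Subgroup G) ≠ ⊥ := by
    intro htb
    apply h.hna
    constructor
    constructor
    intro x y
    apply Subtype.ext
    have hx : (x : G) ∈ (⊤ : Subgroup G) := Subgroup.mem_top _
    have hy : (y : G) ∈ (⊤ : Subgroup G) := Subgroup.mem_top _
    rw [htb, Subgroup.mem_bot] at hx hy
    simp [hx, hy]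
  let S : Set (Subgroup G) := {N | N.Normal ∧ N ≠ ⊥}
  have hS : S.Nonempty := ⟨⊤, inferInstance, htop⟩
  obtain ⟨N, hN⟩ := S.toFinite.exists_minimal hS
  refine ⟨N, hN.1.1, hN.1.2, fun K hK hK1 => ?_⟩
  have h3 := inf_ne_bot h hK hN.1.1 hK1 hN.1.2
  haveI := hK
  haveI := hN.1.1
  have h4 : K ⊓ N ∈ S := ⟨inferInstance, h3⟩
  exact (hN.2 h4 inf_le_right).trans inf_le_left

lemma nil_of_comm (H : Subgroup G) (hc : ∀ x ∈ H, ∀ y ∈ H, x * y = y * x) : Group.IsNilpotent H := by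
  letI : CommGroup H :=
    { (inferInstance : Group H) with
      mul_comm := fun a b => Subtype.ext (hc a a.2 b b.2) }
  infer_instance

lemma solv_of_comm (H : Subgroup G) (hc : ∀ x ∈ H, ∀ y ∈ H, x * y = y * x) : Group.IsSolvable H := by
  apply Group.isSolvable_of_comm
  intro a b
  exact Subtype.ext (hc a a.2 b b.2)

lemma layer_perfect' : commutator (layer G) = ⊤ := by
  rw [_root_.commutator_def]
  have := H05.layer_perfect (G := G)
  rw [eq_top_iff]
  rintro ⟨x, hx⟩ -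
  rw [← this] at hx
  have h' : ((⁅(⊤ : Subgroup (layer G)), ⊤⁆ : Subgroup (layer G)).map (layer G).subtype) = ⁅layer G, layer G⁆ := by
    rw [Subgroup.map_commutator, ← MonoidHom.range_eq_map, Subgroup.range_subtype]
  rw [← h'] at hx
  obtain ⟨y, hy, hyx⟩ := hx
  have : y = ⟨x, by rw [← this]; rw [← h']; exact ⟨y, hy, hyx⟩⟩ := Subtype.ext hyx
  rw [← this]
  exact hy

/-- A central `p`-element in a perfect group with an abelian Sylow `p`-subgroup is trivial. -/
lemma central_perfect {X : Type*} [Group X] [Finite X] (hperf : commutator X = ⊤) (S : Sylow p X)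
    (hS : ∀ a ∈ (S : Subgroup X), ∀ b ∈ (S : Subgroup X), a * b = b * a) {z : X}
    (hz : ∀ y : X, z * y = y * z) (hzp : z ^ p = 1) : z = 1 := by
  classical
  have hp := hpf.out
  letI instC : CommGroup (S : Subgroup X) :=
    { (inferInstance : Group (S : Subgroup X)) with
      mul_comm := fun a b => Subtype.ext (hS a a.2 b b.2) }
  let ϕ : (S : Subgroup X) →* (S : Subgroup X) := MonoidHom.id _
  have hcentral : ∀ (k : ℕ) (g₀ : X), g₀⁻¹ * z ^ k * g₀ ∈ (S : Subgroup X) → g₀⁻¹ * z ^ k * g₀ = z ^ k := by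
    intro k g₀ _
    have : Commute (z ^ k) g₀ := ((show Commute z g₀ from hz g₀).pow_left k)
    rw [mul_assoc, this.eq, inv_mul_cancel_left]
  have h1 := MonoidHom.transfer_eq_pow ϕ z hcentral
  have h2 : ϕ.transfer z = 1 := by
    have hk : commutator X ≤ (ϕ.transfer).ker := by
      rw [_root_.commutator_def, Subgroup.commutator_le]
      intro a _ b _
      rw [MonoidHom.mem_ker, map_commutatorElement, commutatorElement_eq_one_iff_commute]
      exact mul_comm _ _
    rw [hperf] at hk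
    exact hk (Subgroup.mem_top z)
  rw [h2] at h1
  have h3 : z ^ (S : Subgroup X).index = 1 := by
    have := congrArg Subtype.val h1
    simpa [ϕ] using this.symm
  have hnd := S.not_dvd_index
  have hco : Nat.Coprime p (S : Subgroup X).index := (Nat.Prime.coprime_iff_not_dvd hp).2 hnd
  have h4 := Nat.dvd_gcd (orderOf_dvd_of_pow_eq_one hzp) (orderOf_dvd_of_pow_eq_one h3)
  rw [hco] at h4
  exact orderOf_eq_one_iff.1 (Nat.dvd_one.1 h4)

end Cfsg.Agent.H19.F172
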