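import Cfsg.Agent.Lib.H19.F172b

set_option autoImplicit false

namespace Cfsg.Agent.H19.F172

open Subgroup Cfsg
open scoped commutatorElement

variable {G : Type*} [Group G] [Finite G] {p : ℕ} [hpf : Fact p.Prime] {P : Sylow p G}

lemma fitting_normal' : (fittingSubgroup G).Normal :=
  haveI := H07.fitting_characteristic G
  inferInstance

theorem exists_decomp (h : Hyps P) (N : Subgroup G) (hNn : N.Normal) (hN1 : N ≠ ⊥) :
    ∃ u : (P : Subgroup G), ((N.subgroupOf (P : Subgroup G)) ⊔ Subgroup.zpowers u = ⊤) ∧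
      ∀ x ∈ (P : Subgroup G), ∃ n ∈ N, ∃ k : ℤ, x = n * (u : G) ^ k := by
  haveI := hNn
  obtain ⟨u, hu⟩ := exists_gen h.hgen (N.subgroupOf (P : Subgroup G)) (not_le_frattini h N hNn hN1)
  refine ⟨u, hu, ?_⟩
  intro x hx
  have h1 : (⟨x, hx⟩ : (P : Subgroup G)) ∈ ((N.subgroupOf (P : Subgroup G)) ⊔ Subgroup.zpowers u : Subgroup _) := by
    rw [hu]; exact Subgroup.mem_top _
  rw [← SetLike.mem_coe, Subgroup.normal_mul] at h1
  obtain ⟨d, hd, w, hw, hdw⟩ := Set.mem_mul.1 h1
  obtain ⟨k, rfl⟩ := Subgroup.mem_zpowers_iff.1 hw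
  refine ⟨d, hd, k, ?_⟩
  have := congrArg Subtype.val hdw
  simpa using this.symm

/-- The case of a nontrivial Fitting subgroup. -/
theorem fit_case (h : Hyps P) (N : Subgroup G) (hNn : N.Normal) (hN1 : N ≠ ⊥)
    (hNmin : ∀ K : Subgroup G, K.Normal → K ≠ ⊥ → N ≤ K) (hF : fittingSubgroup G ≠ ⊥) :
    fittingSubgroup G = N ∧ (∀ x ∈ N, ∀ y ∈ N, x * y = y * x) ∧ layer G = ⊥ := by
  classical
  have hp := hpf.out
  set F := fittingSubgroup G with hFdef
  haveI hFn : F.Normal := fitting_normal'
  haveI := hNn
  have hFp : IsPGroup p F := H12.isPGroup_fitting h.hcore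
  have hFP : F ≤ (P : Subgroup G) := hFp.le_sylow_of_normal P
  have hNF : N ≤ F := hNmin F hFn hF
  -- N is central in F
  have hNcent : ∀ x ∈ N, ∀ y ∈ F, x * y = y * x := by
    haveI : Nontrivial F := (Subgroup.nontrivial_iff_ne_bot F).2 hF
    have hcn := hFp.center_nontrivial
    obtain ⟨z, hz⟩ := exists_ne (1 : Subgroup.center F)
    set C : Subgroup G := F ⊓ centralizer (F : Set G) with hC
    have hCn : C.Normal := inferInstance
    have hC1 : C ≠ ⊥ := by
      intro hb
      have hzC : (((z : Subgroup.center F) : F) : G) ∈ C := by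
        refine ⟨((z : Subgroup.center F) : F).2, ?_⟩
        show (((z : Subgroup.center F) : F) : G) ∈ centralizer (F : Set G)
        rw [Subgroup.mem_centralizer_iff]
        intro y hy
        have := Subgroup.mem_center_iff.1 z.2 ⟨y, hy⟩
        exact congrArg Subtype.val this
      rw [hb, Subgroup.mem_bot] at hzC
      apply hz
      apply Subtype.ext
      apply Subtype.ext
      simpa using hzC
    have hNC := hNmin C hCn hC1
    intro x hx y hy
    have := Subgroup.mem_centralizer_iff.1 (hNC hx).2 y hy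
    exact this.symm
  obtain ⟨u, hu, hdec⟩ := exists_decomp h N hNn hN1
  -- F abelian
  have hFab : ∀ x ∈ F, ∀ y ∈ F, x * y = y * x := by
    intro x hx y hy
    obtain ⟨n, hn, a, rfl⟩ := hdec x (hFP hx)
    obtain ⟨n', hn', b, rfl⟩ := hdec y (hFP hy)
    have hua : (u : G) ^ a ∈ F := by
      have := F.mul_mem (F.inv_mem (hNF hn)) hx
      simpa using this
    have hub : (u : G) ^ b ∈ F := by
      have := F.mul_mem (F.inv_mem (hNF hn')) hy
      simpa using this
    have h1 : (u : G) ^ a * n' = n' * (u : G) ^ a := (hNcent n' hn' _ hua).symm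
    have h2 : (u : G) ^ b * n = n * (u : G) ^ b := (hNcent n hn _ hub).symm
    have h3 : n * n' = n' * n := hNcent n hn n' (hNF hn')
    have h4 : (u : G) ^ a * (u : G) ^ b = (u : G) ^ b * (u : G) ^ a :=
      (Commute.zpow_zpow_self (u : G) a b).eq
    calc n * (u : G) ^ a * (n' * (u : G) ^ b) = n * ((u : G) ^ a * n') * (u : G) ^ b := by group
      _ = n * (n' * (u : G) ^ a) * (u : G) ^ b := by rw [h1]
      _ = (n * n') * ((u : G) ^ a * (u : G) ^ b) := by group
      _ = (n' * n) * ((u : G) ^ b * (u : G) ^ a) := by rw [h3, h4]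
      _ = n' * (n * (u : G) ^ b) * (u : G) ^ a := by group
      _ = n' * ((u : G) ^ b * n) * (u : G) ^ a := by rw [h2]
      _ = n' * (u : G) ^ b * (n * (u : G) ^ a) := by group
  -- exponent p
  have hFexp : ∀ x ∈ F, x ^ p = 1 := by
    intro x hx
    have h1 : x ^ p ∈ ((frattini ↥(P : Subgroup G)).map (P : Subgroup G).subtype).normalCore := by
      intro g
      show g * x ^ p * g⁻¹ ∈ _
      rw [← conj_pow]
      have h2 : g * x * g⁻¹ ∈ F := hFn.conj_mem x hx g
      have h3 := Cfsg.Agent.H01.pow_mem_frattini_of_isPGroup P.isPGroup' (⟨_, hFP h2⟩ : (P : Subgroup G))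
      exact ⟨_, h3, rfl⟩
    rw [h.hfrat, Subgroup.mem_bot] at h1
    exact h1
  have hFN : F = N := by
    apply le_antisymm _ hNF
    intro x0 hx0
    by_contra hx0N
    obtain ⟨n0, hn0, k0, hk0⟩ := hdec x0 (hFP hx0)
    set v : G := (u : G) ^ k0 with hv
    have hvF : v ∈ F := by
      have := F.mul_mem (F.inv_mem (hNF hn0)) hx0
      rw [hk0] at this
      simpa [hv] using this
    have hvN : v ∉ N := by
      intro hvN
      apply hx0N
      rw [hk0]
      exact N.mul_mem hn0 hvN
    have hv1 : v ≠ 1 := by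
      intro h1
      rw [h1] at hvN
      exact hvN (Subgroup.one_mem _)
    have hvp : v ^ p = 1 := hFexp v hvF
    have hvord : orderOf v = p := orderOf_eq_prime hvp hv1
    have hvz : v ∈ Subgroup.zpowers (u : G) := Subgroup.zpow_mem_zpowers _ _
    -- v central in P
    have hvc : ∀ y ∈ (P : Subgroup G), y * v = v * y := by
      intro y hy
      obtain ⟨n, hn, a, rfl⟩ := hdec y hy
      have h1 : n * v = v * n := hNcent n hn v hvF
      have h2 : (u : G) ^ a * v = v * (u : G) ^ a := (Commute.zpow_zpow_self (u : G) a k0).eq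
      calc n * (u : G) ^ a * v = n * ((u : G) ^ a * v) := by group
        _ = n * (v * (u : G) ^ a) := by rw [h2]
        _ = (n * v) * (u : G) ^ a := by group
        _ = (v * n) * (u : G) ^ a := by rw [h1]
        _ = v * (n * (u : G) ^ a) := by group
    -- decomposition of F
    have hFdec : ∀ x ∈ F, ∃ n ∈ N, ∃ i : ℕ, x = n * v ^ i := by
      intro x hx
      obtain ⟨n, hn, a, rfl⟩ := hdec x (hFP hx)
      have hw : (u : G) ^ a ∈ F := by
        have := F.mul_mem (F.inv_mem (hNF hn)) hx
        simpa using this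
      have h1 := mem_zpowers_of_pow (p := p) hvz (Subgroup.zpow_mem_zpowers (u : G) a) hvp (hFexp _ hw) hv1
      obtain ⟨i, hi⟩ := (mem_powers_iff_mem_zpowers).2 h1
      exact ⟨n, hn, i, by rw [← hi]⟩
    have hNv : ∀ i : ℕ, v ^ i ∈ N → v ^ i = 1 := by
      intro i hi
      by_contra hne
      apply hvN
      have hnd : ¬ p ∣ i := by
        intro hd
        apply hne
        obtain ⟨c, rfl⟩ := hd
        rw [pow_mul, hvp, one_pow]
      obtain ⟨k, hk1, hk2⟩ := Nat.chineseRemainder ((Nat.Prime.coprime_iff_not_dvd hp).2 hnd) 1 0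
      obtain ⟨i', hi'⟩ := (Nat.modEq_zero_iff_dvd).1 hk2
      have h1 : v ^ k = v ^ 1 := pow_eq_pow_iff_modEq.2 (hvord ▸ hk1)
      rw [pow_one] at h1
      rw [← h1, hi', pow_mul]
      exact N.pow_mem hi _
    -- the abelian group
    letI instC : CommGroup F :=
      { (inferInstance : Group F) with
        mul_comm := fun a b => Subtype.ext (hFab a a.2 b b.2) }
    let φ : G →* MulAut F := MulAut.conjNormal
    have hφ : ∀ (g : G) (a : F), ((φ g a : F) : G) = g * a * g⁻¹ := fun g a => MulAut.conjNormal_apply g a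
    -- the projection
    have hex : ∀ a : F, ∃ n : F, (n : G) ∈ N ∧ ∃ i : ℕ, (a : G) = n * v ^ i := by
      intro a
      obtain ⟨n, hn, i, hi⟩ := hFdec a a.2
      exact ⟨⟨n, hNF hn⟩, hn, i, hi⟩
    choose πf hπ1 hπ2 using hex
    have huniq : ∀ (a n : F) (i : ℕ), (n : G) ∈ N → (a : G) = n * v ^ i → πf a = n := by
      intro a n i hn hi
      obtain ⟨j, hj⟩ := hπ2 a
      rw [hi] at hj
      -- n v^i = π v^j
      have h2 : ((πf a : F) : G)⁻¹ * n = v ^ j * (v ^ i)⁻¹ := by
        have h3 : (n : G) = (πf a : F) * v ^ j * (v ^ i)⁻¹ := by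
          rw [← hj]; group
        rw [h3]; group
      have h4 : v ^ j * (v ^ i)⁻¹ = v ^ (j + (p - 1) * i) := by
        have h5 : v ^ (j + (p - 1) * i) * v ^ i = v ^ j := by
          rw [← pow_add, add_assoc]
          have h6 : (p - 1) * i + i = p * i := by
            have := hp.two_le
            have h7 : p - 1 + 1 = p := by omega
            calc (p - 1) * i + i = (p - 1 + 1) * i := by ring
              _ = p * i := by rw [h7]
          rw [h6, pow_add, pow_mul, hvp, one_pow, mul_one]
        rw [← h5]; group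
      have h8 : v ^ (j + (p - 1) * i) ∈ N := by
        rw [← h4, ← h2]
        exact N.mul_mem (N.inv_mem (hπ1 a)) hn
      have h9 := hNv _ h8
      rw [← h4] at h9
      rw [h9] at h2
      have h10 : (n : G) = ((πf a : F) : G) := by
        have := inv_mul_eq_one.1 h2
        exact this.symm
      exact Subtype.ext h10.symm
    let π : F →* F :=
      { toFun := πf
        map_one' := by
          apply huniq 1 1 0
          · exact Subgroup.one_mem _
          · simp
        map_mul' := by
          intro a b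
          obtain ⟨i, hi⟩ := hπ2 a
          obtain ⟨j, hj⟩ := hπ2 b
          apply huniq (a * b) (πf a * πf b) (i + j)
          · exact N.mul_mem (hπ1 a) (hπ1 b)
          · push_cast
            rw [hi, hj, pow_add]
            have hc : v ^ i * ((πf b : F) : G) = ((πf b : F) : G) * v ^ i :=
              hFab _ (F.pow_mem hvF i) _ (πf b).2
            calc ((πf a : F) : G) * v ^ i * (((πf b : F) : G) * v ^ j)
                = ((πf a : F) : G) * (v ^ i * ((πf b : F) : G)) * v ^ j := by group
              _ = ((πf a : F) : G) * (((πf b : F) : G) * v ^ i) * v ^ j := by rw [hc]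
              _ = _ := by group }
    have hπapp : ∀ a, π a = πf a := fun a => rfl
    have hπP : ∀ g ∈ (P : Subgroup G), ∀ a : F, π (φ g a) = φ g (π a) := by
      intro g hg a
      obtain ⟨i, hi⟩ := hπ2 a
      rw [hπapp, hπapp]
      apply huniq _ _ i
      · rw [hφ]
        exact hNn.conj_mem _ (hπ1 a) g
      · rw [hφ, hφ, hi]
        have h1 : g * v ^ i * g⁻¹ = v ^ i := by
          rw [← conj_pow, hvc g hg, mul_inv_cancel_right]
        calc g * (((πf a : F) : G) * v ^ i) * g⁻¹ = (g * ((πf a : F) : G) * g⁻¹) * (g * v ^ i * g⁻¹) := by group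
          _ = _ := by rw [h1]
    haveI : Finite (G ⧸ (P : Subgroup G)) := inferInstance
    obtain ⟨Θ, hΘ1, hΘ2, hΘ3⟩ := gaschutz φ (P : Subgroup G) π hπP
    let B : Subgroup F := N.subgroupOf F
    have hBinv : ∀ g, ∀ b ∈ B, φ g b ∈ B := by
      intro g b hb
      rw [Subgroup.mem_subgroupOf, hφ]
      exact hNn.conj_mem _ hb g
    have hΘB : ∀ a, Θ a ∈ B := hΘ2 B hBinv (fun a => hπ1 a)
    have hΘb : ∀ b ∈ B, Θ b = b ^ (P : Subgroup G).index := by
      apply hΘ3 B hBinv
      intro b hb
      exact huniq b b 0 hb (by simp)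
    -- the kernel
    let K : Subgroup G := (Θ.ker).map F.subtype
    have hKmem : ∀ x : G, x ∈ K ↔ ∃ a : F, Θ a = 1 ∧ (a : G) = x := by
      intro x
      constructor
      · rintro ⟨a, ha, rfl⟩
        exact ⟨a, ha, rfl⟩
      · rintro ⟨a, ha, rfl⟩
        exact ⟨a, ha, rfl⟩
    have hKn : K.Normal := by
      refine ⟨fun x hx g => ?_⟩
      obtain ⟨a, ha, rfl⟩ := (hKmem x).1 hx
      refine (hKmem _).2 ⟨φ g a, ?_, hφ g a⟩
      rw [hΘ1, ha, map_one]
    have hKN : K ⊓ N = ⊥ := by
      rw [eq_bot_iff]
      rintro x ⟨hx1, hx2⟩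
      obtain ⟨a, ha, rfl⟩ := (hKmem x).1 hx1
      have h1 := hΘb a hx2
      rw [ha] at h1
      have h2 : (a : G) ^ (P : Subgroup G).index = 1 := by
        have := congrArg Subtype.val h1.symm
        simpa using this
      have h3 := hFexp a a.2
      have hco : Nat.Coprime p (P : Subgroup G).index :=
        (Nat.Prime.coprime_iff_not_dvd hp).2 P.not_dvd_index
      have h4 := Nat.dvd_gcd (orderOf_dvd_of_pow_eq_one h3) (orderOf_dvd_of_pow_eq_one h2)
      rw [hco] at h4
      exact Subgroup.mem_bot.2 (orderOf_eq_one_iff.1 (Nat.dvd_one.1 h4))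
    have hK1 : K ≠ ⊥ := by
      intro hb
      have hker : Θ.ker = ⊥ := (Subgroup.map_eq_bot_iff_of_injective _ F.subtype_injective).1 hb
      have hinj : Function.Injective Θ := (MonoidHom.ker_eq_bot_iff _).1 hker
      let f : F → N := fun a => ⟨(Θ a : G), hΘB a⟩
      have hf : Function.Injective f := by
        intro a b hab
        apply hinj
        apply Subtype.ext
        exact congrArg (fun w : N => (w : G)) hab
      have h1 := Nat.card_le_card_of_injective f hf
      have h2 : N = F := Subgroup.eq_of_le_of_card_ge hNF h1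
      exact hx0N (h2 ▸ hx0)
    exact inf_ne_bot h hKn hNn hK1 hN1 hKN
  refine ⟨hFN, ?_, ?_⟩
  · intro x hx y hy
    exact hFab x (hNF hx) y (hNF hy)
  · -- layer trivial
    by_contra hE
    haveI hEn : (layer G).Normal := H05.layer_normal
    have hNE : N ≤ layer G := hNmin _ hEn hE
    have hNab : ∀ x ∈ N, ∀ y ∈ N, x * y = y * x := fun x hx y hy => hFab x (hNF hx) y (hNF hy)
    -- N centralises the layer
    have hcomm : ∀ x ∈ N, ∀ y ∈ layer G, x * y = y * x := by
      intro x hx y hy
      have hle : layer G ≤ centralizer (N : Set G) := by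
        apply sSup_le
        intro L hL
        have hsolv := solv_of_comm N hNab
        have hnorm : L ≤ normalizer (N : Set G) := by
          rw [Subgroup.normalizer_eq_top N]
          exact le_top
        have h1 := H05.comp_comm_solvable hL hsolv hnorm
        have h2 := H05.comm_bot_iff.1 h1
        intro a ha
        rw [Subgroup.mem_centralizer_iff]
        intro b hb
        exact (h2 a ha b hb).symm
      have := Subgroup.mem_centralizer_iff.1 (hle hy) x hx
      exact this
    obtain ⟨S0, hS0⟩ := H13.exists_sylow_inf_normal P (layer G)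
    have hS0mem : ∀ a ∈ (S0 : Subgroup (layer G)), (a : G) ∈ (P : Subgroup G) := by
      intro a ha
      have : (a : G) ∈ (S0 : Subgroup (layer G)).map (layer G).subtype := ⟨a, ha, rfl⟩
      rw [hS0] at this
      exact this.1
    have hS0ab : ∀ a ∈ (S0 : Subgroup (layer G)), ∀ b ∈ (S0 : Subgroup (layer G)), a * b = b * a := by
      intro a ha b hb
      apply Subtype.ext
      push_cast
      obtain ⟨n, hn, i, hi⟩ := hdec a (hS0mem a ha)
      obtain ⟨n', hn', j, hj⟩ := hdec b (hS0mem b hb)
      have h1 := hcomm n' hn' a a.2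
      have h2 := hcomm n hn b b.2
      have hxa : (u : G) ^ i = n⁻¹ * a := by rw [hi]; group
      have hxb : (u : G) ^ j = n'⁻¹ * b := by rw [hj]; group
      have h3 : n * n' = n' * n := hNab n hn n' hn'
      have h4 : (u : G) ^ i * n' = n' * (u : G) ^ i := by
        rw [hxa]
        have h5 : n⁻¹ * n' = n' * n⁻¹ := by
          have := (Commute.inv_left (show Commute n n' from h3))
          exact this.eq
        calc n⁻¹ * (a : G) * n' = n⁻¹ * ((a : G) * n') := by group
          _ = n⁻¹ * (n' * a) := by rw [h1]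
          _ = (n⁻¹ * n') * a := by group
          _ = (n' * n⁻¹) * a := by rw [h5]
          _ = _ := by group
      have h6 : (u : G) ^ j * n = n * (u : G) ^ j := by
        rw [hxb]
        have h5 : n'⁻¹ * n = n * n'⁻¹ := by
          have := (Commute.inv_left (show Commute n' n from h3.symm))
          exact this.eq
        calc n'⁻¹ * (b : G) * n = n'⁻¹ * ((b : G) * n) := by group
          _ = n'⁻¹ * (n * b) := by rw [h2]
          _ = (n'⁻¹ * n) * b := by group
          _ = (n * n'⁻¹) * b := by rw [h5]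
          _ = _ := by group
      have h7 : (u : G) ^ i * (u : G) ^ j = (u : G) ^ j * (u : G) ^ i :=
        (Commute.zpow_zpow_self (u : G) i j).eq
      rw [hi, hj]
      calc n * (u : G) ^ i * (n' * (u : G) ^ j) = n * ((u : G) ^ i * n') * (u : G) ^ j := by group
        _ = n * (n' * (u : G) ^ i) * (u : G) ^ j := by rw [h4]
        _ = (n * n') * ((u : G) ^ i * (u : G) ^ j) := by group
        _ = (n' * n) * ((u : G) ^ j * (u : G) ^ i) := by rw [h3, h7]
        _ = n' * (n * (u : G) ^ j) * (u : G) ^ i := by group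
        _ = n' * ((u : G) ^ j * n) * (u : G) ^ i := by rw [h6]
        _ = _ := by group
    obtain ⟨z, hz, hz1⟩ : ∃ z ∈ N, z ≠ 1 := by
      by_contra hcon
      push_neg at hcon
      exact hN1 ((Subgroup.eq_bot_iff_forall _).2 hcon)
    have hzl : z ∈ layer G := hNE hz
    have := central_perfect (p := p) layer_perfect' S0 hS0ab (z := ⟨z, hzl⟩)
      (fun y => Subtype.ext (hcomm z hz y y.2))
      (Subtype.ext (by simpa using hFexp z (hNF hz)))
    exact hz1 (congrArg Subtype.val this)

/-- The case of trivial Fitting subgroup. -/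
theorem lay_case (h : Hyps P) (N : Subgroup G) (hNn : N.Normal) (hN1 : N ≠ ⊥)
    (hNmin : ∀ K : Subgroup G, K.Normal → K ≠ ⊥ → N ≤ K) (hF : fittingSubgroup G = ⊥) :
    layer G = N ∧ ∀ z ∈ layer G, (∀ y ∈ layer G, z * y = y * z) → z = 1 := by
  classical
  haveI hEn : (layer G).Normal := H05.layer_normal
  haveI := hNn
  have hFs : generalizedFittingSubgroup G = layer G := by
    unfold generalizedFittingSubgroup
    rw [hF, sup_bot_eq]
  have hE1 : layer G ≠ ⊥ := by
    intro hb
    have h1 := H05.centralizer_fstar_le (G := G)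
    rw [hFs, hb] at h1
    have h2 : centralizer (((⊥ : Subgroup G)) : Set G) = ⊤ := by simp
    rw [h2] at h1
    exact hN1 (eq_bot_iff.2 (le_top.trans h1))
  have hNE : N ≤ layer G := hNmin _ hEn hE1
  have hZ : ∀ z ∈ layer G, (∀ y ∈ layer G, z * y = y * z) → z = 1 := by
    intro z hz hzc
    set Z : Subgroup G := layer G ⊓ centralizer (layer G : Set G) with hZdef
    have hZn : Z.Normal := inferInstance
    have hnil : Group.IsNilpotent Z := nil_of_comm Z (fun x hx y hy => by
      have := Subgroup.mem_centralizer_iff.1 hy.2 x hx.1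
      exact this)
    have h1 := H01.le_fitting hZn hnil
    rw [hF, le_bot_iff] at h1
    have h2 : z ∈ Z := ⟨hz, Subgroup.mem_centralizer_iff.2 (fun y hy => (hzc y hy).symm)⟩
    rw [h1, Subgroup.mem_bot] at h2
    exact h2
  have hcases : ∀ L : Subgroup G, IsComponent L → L ≤ N ∨ ⁅L, N⁆ = ⊥ := fun L hL =>
    H05.comp_le_or_comm hL.1 hL.2 hNn.isSubnormal
  -- a component inside N
  obtain ⟨L0, hL0, hL0N⟩ : ∃ L, IsComponent L ∧ L ≤ N := by
    by_contra hcon
    push_neg at hcon
    have hall : ∀ L : Subgroup G, IsComponent L → ⁅L, N⁆ = ⊥ := fun L hL =>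
      (hcases L hL).resolve_left (hcon L hL)
    apply hN1
    rw [Subgroup.eq_bot_iff_forall]
    intro x hx
    apply hZ x (hNE hx)
    intro y hy
    have hle : layer G ≤ centralizer ({x} : Set G) := by
      apply sSup_le
      intro L hL
      intro a ha
      rw [Subgroup.mem_centralizer_singleton_iff]
      exact H05.comm_bot_iff.1 (hall L hL) a ha x hx
    have := Subgroup.mem_centralizer_singleton_iff.1 (hle hy)
    exact this.symm
  -- the centraliser of N is trivial
  have hCN : centralizer (N : Set G) = ⊥ := by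
    by_contra hne
    have hcn : (centralizer (N : Set G)).Normal := inferInstance
    have h1 := hNmin _ hcn hne
    obtain ⟨a, b, hab⟩ := H05.qs_not_comm hL0.2
    apply hab
    apply Subtype.ext
    push_cast
    have := Subgroup.mem_centralizer_iff.1 (h1 (hL0N a.2)) b (hL0N b.2)
    exact this.symm
  have hEN : layer G ≤ N := by
    apply sSup_le
    intro L hL
    rcases hcases L hL with h1 | h1
    · exact h1
    · exfalso
      have h2 : L ≤ centralizer (N : Set G) := by
        intro a ha
        rw [Subgroup.mem_centralizer_iff]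
        intro b hb
        exact (H05.comm_bot_iff.1 h1 a ha b hb).symm
      rw [hCN, le_bot_iff] at h2
      obtain ⟨a, b, hab⟩ := H05.qs_not_comm hL.2
      apply hab
      have ha : (a : G) ∈ (⊥ : Subgroup G) := h2 ▸ a.2
      have hb : (b : G) ∈ (⊥ : Subgroup G) := h2 ▸ b.2
      rw [Subgroup.mem_bot] at ha hb
      apply Subtype.ext
      push_cast
      rw [ha, hb]
  exact ⟨le_antisymm hEN hNE, hZ⟩

end Cfsg.Agent.H19.F172
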