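import Cfsg.Agent.Lib.H19.F172c
import Cfsg.Agent.Lib.H07.FStar

set_option autoImplicit false

namespace Cfsg.Agent.H19.F172

open Subgroup Cfsg

variable {G : Type*} [Group G] [Finite G] {p : ℕ} [hpf : Fact p.Prime] {P : Sylow p G}

/-- No component lies in a `P`-invariant subgroup meeting `P` inside the Frattini subgroup. -/
theorem no_component (h : Hyps P) (K M : Subgroup G) (hK : IsComponent K) (hKM : K ≤ M)
    (hPM : (P : Subgroup G) ≤ normalizer (M : Set G))
    (hfr : M ⊓ (P : Subgroup G) ≤ (frattini ↥(P : Subgroup G)).map (P : Subgroup G).subtype) :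
    False := by
  classical
  have hp := hpf.out
  set H : Subgroup G := M ⊔ (P : Subgroup G) with hH
  have hMH : M ≤ H := le_sup_left
  have hPH : (P : Subgroup G) ≤ H := le_sup_right
  have hHnorm : H ≤ normalizer (M : Set G) := sup_le le_normalizer hPM
  let M' : Subgroup H := M.subgroupOf H
  have hM'n : M'.Normal := (normal_subgroupOf_iff_le_normalizer hMH).2 hHnorm
  let P' : Sylow p H := P.subtype hPH
  have hfr' : M' ⊓ (P' : Subgroup H) ≤ (frattini ↥(P' : Subgroup H)).map (P' : Subgroup H).subtype := by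
    rintro ⟨x, hxH⟩ ⟨hx1, hx2⟩
    have hxM : x ∈ M := hx1
    have hxP : x ∈ (P : Subgroup G) := hx2
    obtain ⟨y, hy, hyx⟩ := hfr ⟨hxM, hxP⟩
    let f : (P : Subgroup G) →* ((P' : Subgroup H)) := (subgroupOfEquivOfLe hPH).symm.toMonoidHom
    have hf : Function.Surjective f := (subgroupOfEquivOfLe hPH).symm.surjective
    have h3 := frattini_le_comap_frattini_of_surjective hf hy
    refine ⟨f y, h3, ?_⟩
    apply Subtype.ext
    exact hyx
  obtain ⟨S, R, hRn, hR⟩ := Cfsg.Agent.H01.tate_main P' _ M' hM'n rfl hfr'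
  haveI := hRn
  let ι : K →* M' :=
    { toFun := fun k => ⟨⟨k, hMH (hKM k.2)⟩, hKM k.2⟩
      map_one' := rfl
      map_mul' := fun _ _ => rfl }
  have hιo : ∀ k : K, orderOf (ι k) = orderOf k := by
    intro k
    apply orderOf_injective ι
    intro a b hab
    apply Subtype.ext
    exact congrArg (fun w : M' => ((w : H) : G)) hab
  let X : Subgroup K := R.comap ι
  haveI hXn : X.Normal := hRn.comap ι
  rcases H05.qs_normal hK.2 X with hX | hX
  · have hc : (Nat.card K).Coprime p := by
      rw [Nat.coprime_comm, Nat.Prime.coprime_iff_not_dvd hp]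
      intro hd
      obtain ⟨r, hr⟩ := exists_prime_orderOf_dvd_card' p hd
      have h2 : r ∈ X := by rw [hX]; exact mem_top _
      have h3 := (Cfsg.Agent.H01.mem_normal_complement_iff S R hR (ι r)).1 h2
      rw [hιo, hr] at h3
      exact hp.one_lt.ne' (Nat.coprime_self p |>.1 h3)
    have h4 := H05.sn_coprime_le_pp hK.1 hc
    rw [h.hcore, le_bot_iff] at h4
    have h5 := H05.qs_nontrivial hK.2
    rw [Subgroup.nontrivial_iff_ne_bot] at h5
    exact h5 h4
  · obtain ⟨n, hn⟩ := IsPGroup.iff_card.1 S.isPGroup'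
    have hidx : R.index = p ^ n := by rw [hR.symm.index_eq_card]; exact hn
    have hpg : IsPGroup p (K ⧸ center K) := by
      intro g
      obtain ⟨k, rfl⟩ := QuotientGroup.mk'_surjective _ g
      refine ⟨n, ?_⟩
      rw [← map_pow, QuotientGroup.mk'_apply, QuotientGroup.eq_one_iff]
      apply hX
      show ι (k ^ p ^ n) ∈ R
      rw [map_pow, ← hidx]
      exact Subgroup.pow_index_mem R _
    have hnil : Group.IsNilpotent K := Group.of_quotient_center_nilpotent hpg.isNilpotent
    exact H05.qs_not_nilpotent hK.2 hnil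

/-- The subgroup generated by the `Q`-conjugates of `K`. -/
noncomputable def orbSup (Q K : Subgroup G) : Subgroup G :=
  ⨆ x : Q, K.map (MulAut.conj (x : G)).toMonoidHom

lemma le_orbSup (Q K : Subgroup G) {x : G} (hx : x ∈ Q) :
    K.map (MulAut.conj x).toMonoidHom ≤ orbSup Q K :=
  le_iSup (fun x : Q => K.map (MulAut.conj (x : G)).toMonoidHom) ⟨x, hx⟩

lemma self_le_orbSup (Q K : Subgroup G) : K ≤ orbSup Q K := by
  intro k hk
  apply le_orbSup Q K Q.one_mem
  exact ⟨k, hk, by simp⟩

lemma orbSup_map (Q K : Subgroup G) {y : G} (hy : y ∈ Q) :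
    (orbSup Q K).map (MulAut.conj y).toMonoidHom ≤ orbSup Q K := by
  rw [orbSup, Subgroup.map_iSup]
  apply iSup_le
  intro x
  rw [Subgroup.map_map]
  have : ((MulAut.conj y).toMonoidHom.comp (MulAut.conj (x : G)).toMonoidHom) =
      (MulAut.conj (y * x)).toMonoidHom := by
    ext g
    simp [mul_assoc]
  rw [this]
  exact le_orbSup Q K (Q.mul_mem hy x.2)

lemma le_normalizer_orbSup (Q K : Subgroup G) : Q ≤ normalizer (orbSup Q K : Set G) := by
  intro y hy
  rw [mem_normalizer_iff]
  intro g
  constructor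
  · intro hg
    exact orbSup_map Q K hy ⟨g, hg, rfl⟩
  · intro hg
    have := orbSup_map Q K (Q.inv_mem hy) ⟨y * g * y⁻¹, hg, rfl⟩
    simpa [mul_assoc] using this

lemma orbSup_le_layer (Q K : Subgroup G) (hK : IsComponent K) : orbSup Q K ≤ layer G := by
  apply iSup_le
  intro x
  exact H05.comp_le_layer (H07.isComponent_map_equiv _ hK)

lemma comm_iSup {ι κ : Type*} (A : ι → Subgroup G) (B : κ → Subgroup G)
    (hc : ∀ i j, ∀ a ∈ A i, ∀ b ∈ B j, a * b = b * a) :
    ∀ a ∈ ⨆ i, A i, ∀ b ∈ ⨆ j, B j, a * b = b * a := by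
  have h1 : (⨆ i, A i) ≤ centralizer ((⨆ j, B j : Subgroup G) : Set G) := by
    apply iSup_le
    intro i
    rw [Subgroup.le_centralizer_iff]
    apply iSup_le
    intro j b hb
    rw [Subgroup.mem_centralizer_iff]
    intro a ha
    exact hc i j a ha b hb
  intro a ha b hb
  exact (Subgroup.mem_centralizer_iff.1 (h1 ha) b hb).symm

lemma orb_normal (K : Subgroup G) (Q : Subgroup G) : ((orbSup Q K).subgroupOf Q).Normal := by
  constructor
  intro n hn g
  rw [mem_subgroupOf] at hn ⊢
  exact orbSup_map Q K g.2 ⟨(n : G), hn, rfl⟩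

lemma orb_not_le (h : Hyps P) (K : Subgroup G) (hK : IsComponent K) :
    ¬ (orbSup (P : Subgroup G) K).subgroupOf (P : Subgroup G) ≤ frattini ↥(P : Subgroup G) := by
  intro hle
  apply no_component h K (orbSup (P : Subgroup G) K) hK (self_le_orbSup _ _)
    (le_normalizer_orbSup _ _)
  rintro x ⟨hx1, hx2⟩
  exact ⟨⟨x, hx2⟩, hle (by simpa [mem_subgroupOf] using hx1), rfl⟩

theorem transitive (h : Hyps P) (hcent : ∀ z ∈ layer G, (∀ y ∈ layer G, z * y = y * z) → z = 1)
    (K L : Subgroup G) (hK : IsComponent K) (hL : IsComponent L) :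
    ∃ x ∈ (P : Subgroup G), L = K.map (MulAut.conj x).toMonoidHom := by
  by_contra hno
  push_neg at hno
  set Q : Subgroup G := (P : Subgroup G) with hQ
  have hne : ∀ x ∈ Q, ∀ y ∈ Q,
      K.map (MulAut.conj x).toMonoidHom ≠ L.map (MulAut.conj y).toMonoidHom := by
    intro x hx y hy heq
    apply hno (y⁻¹ * x) (Q.mul_mem (Q.inv_mem hy) hx)
    have h1 : (K.map (MulAut.conj x).toMonoidHom).map (MulAut.conj y⁻¹).toMonoidHom =
        (L.map (MulAut.conj y).toMonoidHom).map (MulAut.conj y⁻¹).toMonoidHom := by rw [heq]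
    rw [Subgroup.map_map, Subgroup.map_map] at h1
    have h2 : ((MulAut.conj y⁻¹).toMonoidHom.comp (MulAut.conj x).toMonoidHom) =
        (MulAut.conj (y⁻¹ * x)).toMonoidHom := by
      ext g
      simp [mul_assoc]
    have h3 : ((MulAut.conj y⁻¹).toMonoidHom.comp (MulAut.conj y).toMonoidHom) = MonoidHom.id G := by
      ext g
      simp [mul_assoc]
    rw [h2, h3, Subgroup.map_id] at h1
    exact h1.symm
  have hcomm : ∀ a ∈ orbSup Q K, ∀ b ∈ orbSup Q L, a * b = b * a := by
    apply comm_iSup
    intro x y a ha b hb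
    have h1 := H05.comp_eq_or_comm (H07.isComponent_map_equiv (MulAut.conj (x : G)) hK)
      (H07.isComponent_map_equiv (MulAut.conj (y : G)) hL)
    have h2 := h1.resolve_left (hne x x.2 y y.2)
    exact H05.comm_bot_iff.1 h2 a ha b hb
  have hinf : orbSup Q K ⊓ orbSup Q L = ⊥ := by
    rw [eq_bot_iff]
    rintro z ⟨hz1, hz2⟩
    rw [Subgroup.mem_bot]
    apply hcent z (orbSup_le_layer Q K hK hz1)
    have hle : layer G ≤ centralizer ({z} : Set G) := by
      apply sSup_le
      intro T hT y hy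
      rw [Subgroup.mem_centralizer_iff]
      intro w hw
      rw [Set.mem_singleton_iff] at hw
      subst hw
      by_cases hTK : ∃ x ∈ Q, T = K.map (MulAut.conj x).toMonoidHom
      · obtain ⟨x, hx, rfl⟩ := hTK
        exact (hcomm y (le_orbSup Q K hx hy) _ hz2).symm
      · push_neg at hTK
        have h4 : orbSup Q K ≤ centralizer ({y} : Set G) := by
          apply iSup_le
          intro x b hb
          rw [Subgroup.mem_centralizer_singleton_iff]
          have h1 := H05.comp_eq_or_comm hT (H07.isComponent_map_equiv (MulAut.conj (x : G)) hK)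
          have h2 := h1.resolve_left (hTK x x.2)
          exact (H05.comm_bot_iff.1 h2 y hy b hb).symm
        have h5 := Subgroup.mem_centralizer_singleton_iff.1 (h4 hz1)
        exact h5
    intro y hy
    have := Subgroup.mem_centralizer_iff.1 (hle hy) z rfl
    exact this
  apply h.hna
  constructor
  constructor
  intro x y
  apply comm_of_two h.hgen ((orbSup Q K).subgroupOf Q) ((orbSup Q L).subgroupOf Q)
    (orb_normal K Q) (orb_normal L Q) (orb_not_le h K hK) (orb_not_le h L hL)
  rw [eq_bot_iff]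
  rintro z ⟨hz1, hz2⟩
  have h3 : (z : G) ∈ orbSup Q K ⊓ orbSup Q L := ⟨hz1, hz2⟩
  rw [hinf, Subgroup.mem_bot] at h3
  exact Subgroup.mem_bot.2 (Subtype.ext h3)

end Cfsg.Agent.H19.F172
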