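import Mathlib
import Cfsg.Agent.S0042
import Cfsg.Agent.Lib.H01.Frob
import Cfsg.Agent.Lib.H01.Frobenius
import Cfsg.Agent.Lib.H17.PrimeGraph
import Cfsg.Agent.Lib.H19.FrobType

/-! Frobenius pairs: complement with fixed point free action. -/

set_option autoImplicit false

namespace Cfsg.Agent.H19

universe u v

open Cfsg Subgroup
open scoped Pointwise

/-- `N ⋊ H` with `H` acting without fixed points. -/
structure FrobPair {G : Type*} [Group G] (N H : Subgroup G) : Prop where
  normal : N.Normal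
  compl : IsComplement' N H
  coprime : (Nat.card N).Coprime (Nat.card H)
  fpf : ∀ y ∈ H, y ≠ 1 → ∀ u ∈ N, u * y = y * u → u = 1

variable {G : Type*} [Group G] {N H : Subgroup G}

theorem FrobPair.inf_bot (hp : FrobPair N H) {x : G} (h1 : x ∈ N) (h2 : x ∈ H) : x = 1 := by
  have h3 : x ∈ N ⊓ H := ⟨h1, h2⟩
  rw [disjoint_iff.mp hp.compl.disjoint] at h3
  exact Subgroup.mem_bot.mp h3

theorem FrobPair.conj_not_mem (hp : FrobPair N H) {u y : G} (hu : u ∈ N) (hu1 : u ≠ 1) (hy : y ∈ H)
    (hy1 : y ≠ 1) : u * y * u⁻¹ ∉ H := by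
  intro hz
  haveI := hp.normal
  have h1 : u * y * u⁻¹ * y⁻¹ ∈ H := H.mul_mem hz (H.inv_mem hy)
  have h2 : u * y * u⁻¹ * y⁻¹ ∈ N := by
    have h3 : y * u⁻¹ * y⁻¹ ∈ N := hp.normal.conj_mem _ (N.inv_mem hu) y
    have h4 : u * y * u⁻¹ * y⁻¹ = u * (y * u⁻¹ * y⁻¹) := by group
    rw [h4]
    exact N.mul_mem hu h3
  have h5 := hp.inf_bot h2 h1
  have h6 : u * y = y * u := by
    have h7 : u * y * u⁻¹ = y := by
      rw [mul_inv_eq_one] at h5
      exact h5
    rw [mul_inv_eq_iff_eq_mul] at h7
    exact h7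
  exact hu1 (hp.fpf y hy hy1 u hu h6)

theorem FrobPair.exists_conj [Finite G] (hp : FrobPair N H) {x : G} (hx : x ∉ N) :
    ∃ u ∈ N, ∃ y ∈ H, y ≠ 1 ∧ x = u * y * u⁻¹ := by
  classical
  haveI := hp.normal
  obtain ⟨⟨c, y⟩, hcy⟩ := hp.compl.2 x
  have hcy' : (c : G) * y = x := hcy
  have hy1 : (y : G) ≠ 1 := by
    intro h
    rw [h, mul_one] at hcy'
    exact hx (hcy' ▸ c.2)
  let f : N → N := fun u => ⟨u * y * (u : G)⁻¹ * (y : G)⁻¹, by
    have h3 : (y : G) * (u : G)⁻¹ * (y : G)⁻¹ ∈ N := hp.normal.conj_mem _ (N.inv_mem u.2) y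
    have h4 : (u : G) * y * (u : G)⁻¹ * (y : G)⁻¹ = u * ((y : G) * (u : G)⁻¹ * (y : G)⁻¹) := by group
    rw [h4]
    exact N.mul_mem u.2 h3⟩
  have hf : Function.Injective f := by
    intro u v huv
    have h1 : (u : G) * y * (u : G)⁻¹ * (y : G)⁻¹ = v * y * (v : G)⁻¹ * (y : G)⁻¹ := congrArg Subtype.val huv
    have h2 : (u : G) * y * (u : G)⁻¹ = v * y * (v : G)⁻¹ := mul_right_cancel h1
    have h3 : ((v : G)⁻¹ * u) * y = y * ((v : G)⁻¹ * u) := by
      calc ((v : G)⁻¹ * u) * y = (v : G)⁻¹ * ((u : G) * y * (u : G)⁻¹) * u := by group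
        _ = (v : G)⁻¹ * (v * y * (v : G)⁻¹) * u := by rw [h2]
        _ = y * ((v : G)⁻¹ * u) := by group
    have h4 := hp.fpf y y.2 hy1 _ (N.mul_mem (N.inv_mem v.2) u.2) h3
    have h5 : (u : G) = v := by
      rw [inv_mul_eq_one] at h4
      exact h4.symm
    exact Subtype.ext h5
  obtain ⟨u, hu⟩ := (Finite.injective_iff_surjective.mp hf) c
  have hu' : (u : G) * y * (u : G)⁻¹ * (y : G)⁻¹ = c := congrArg Subtype.val hu
  refine ⟨u, u.2, y, y.2, hy1, ?_⟩
  rw [← hcy', ← hu']
  group

theorem FrobPair.isFrobeniusComplement (hp : FrobPair N H) (hN : N ≠ ⊥) (hH : H ≠ ⊥) :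
    IsFrobeniusComplement H := by
  refine ⟨hH, ?_, ?_⟩
  · rintro rfl
    apply hN
    rw [eq_bot_iff]
    intro x hx
    exact Subgroup.mem_bot.mpr (hp.inf_bot hx (Subgroup.mem_top x))
  · intro g hg
    rw [eq_bot_iff]
    rintro y ⟨hy, hy2⟩
    rw [Subgroup.mem_bot]
    by_contra hy1
    obtain ⟨⟨u, v⟩, huv⟩ := hp.compl.2 g
    have huv' : (u : G) * v = g := huv
    have hz := mem_conj_smul.mp hy2
    have hu1 : (u : G) ≠ 1 := by
      intro h
      rw [h, one_mul] at huv'
      exact hg (huv' ▸ v.2)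
    -- `y = u (v z v⁻¹) u⁻¹`
    set z := g⁻¹ * y * g with hzdef
    have hzH : (v : G) * z * (v : G)⁻¹ ∈ H := H.mul_mem (H.mul_mem v.2 hz) (H.inv_mem v.2)
    have hz1 : (v : G) * z * (v : G)⁻¹ ≠ 1 := by
      intro h
      apply hy1
      have h2 : z = 1 := by
        have h3 : z = (v : G)⁻¹ * ((v : G) * z * (v : G)⁻¹) * v := by group
        rw [h3, h]
        group
      have h3 : y = g * z * g⁻¹ := by rw [hzdef]; group
      rw [h3, h2]
      group
    apply hp.conj_not_mem u.2 hu1 hzH hz1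
    have h3 : (u : G) * ((v : G) * z * (v : G)⁻¹) * (u : G)⁻¹ = y := by
      rw [hzdef, ← huv']
      group
    rw [h3]
    exact hy

/-- Every solution of `x ^ d = 1` off `N`. -/
theorem FrobPair.sol_eq [Finite G] (hp : FrobPair N H) {d : ℕ} (hd : d ∣ Nat.card H) :
    sol G d = 1 + Nat.card N * (sol H d - 1) := by
  classical
  haveI := hp.normal
  have hsol : ∀ (K : Type _) [Group K] [Finite K], sol K d = Nat.card {x : K // x ^ d = 1 ∧ x ≠ 1} + 1 := by
    intro K _ _
    haveI := Fintype.ofFinite K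
    unfold sol
    rw [Nat.card_eq_fintype_card, Nat.card_eq_fintype_card, Fintype.card_subtype, Fintype.card_subtype]
    have h1 : (Finset.univ.filter fun x : K => x ^ d = 1) = insert 1 (Finset.univ.filter fun x : K => x ^ d = 1 ∧ x ≠ 1) := by
      ext x
      simp only [Finset.mem_filter, Finset.mem_univ, true_and, Finset.mem_insert]
      by_cases hx : x = 1
      · simp [hx]
      · simp [hx]
    rw [h1, Finset.card_insert_of_notMem (by simp)]
  rw [hsol G, hsol H]
  have hE : Nat.card {x : G // x ^ d = 1 ∧ x ≠ 1} = Nat.card N * Nat.card {y : H // y ^ d = 1 ∧ y ≠ 1} := by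
    rw [← Nat.card_prod]
    symm
    apply Nat.card_congr
    refine Equiv.ofBijective (fun q : N × {y : H // y ^ d = 1 ∧ y ≠ 1} =>
      ⟨(q.1 : G) * (q.2.1 : G) * (q.1 : G)⁻¹, ?_, ?_⟩) ⟨?_, ?_⟩
    · rw [conj_pow]
      have h1 : ((q.2.1 : H) : G) ^ d = 1 := by
        have := q.2.2.1
        exact_mod_cast congrArg Subtype.val this
      rw [h1]
      simp
    · intro h
      apply q.2.2.2
      have h1 : ((q.2.1 : H) : G) = 1 := by
        rw [conj_eq_one_iff] at h
        exact h
      exact Subtype.ext h1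
    · rintro ⟨u, y⟩ ⟨v, z⟩ h
      have h1 : (u : G) * (y.1 : G) * (u : G)⁻¹ = (v : G) * (z.1 : G) * (v : G)⁻¹ := congrArg Subtype.val h
      have hy1 : (y.1 : G) ≠ 1 := fun h => y.2.2 (Subtype.ext h)
      have hw : (v : G)⁻¹ * u = 1 := by
        by_contra hw
        apply hp.conj_not_mem (N.mul_mem (N.inv_mem v.2) u.2) hw y.1.2 hy1
        have h2 : ((v : G)⁻¹ * u) * (y.1 : G) * ((v : G)⁻¹ * u)⁻¹ = z.1 := by
          calc ((v : G)⁻¹ * u) * (y.1 : G) * ((v : G)⁻¹ * u)⁻¹ = (v : G)⁻¹ * ((u : G) * (y.1 : G) * (u : G)⁻¹) * v := by group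
            _ = (v : G)⁻¹ * ((v : G) * (z.1 : G) * (v : G)⁻¹) * v := by rw [h1]
            _ = z.1 := by group
        rw [h2]
        exact z.1.2
      have huv : u = v := by
        rw [inv_mul_eq_one] at hw
        exact Subtype.ext hw.symm
      subst huv
      have hyz : (y.1 : G) = z.1 := by
        have h2 : (u : G) * (y.1 : G) = (u : G) * (z.1 : G) := mul_right_cancel h1
        exact mul_left_cancel h2
      have : y = z := Subtype.ext (Subtype.ext hyz)
      rw [this]
    · rintro ⟨x, hx, hx1⟩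
      have hxN : x ∉ N := by
        intro hxN
        apply hx1
        have h1 : x ^ Nat.card N = 1 := by
          have h0 : (⟨x, hxN⟩ : N) ^ Nat.card N = 1 := pow_card_eq_one'
          exact congrArg Subtype.val h0
        have h2 : orderOf x = 1 :=
          Nat.eq_one_of_dvd_coprimes hp.coprime (orderOf_dvd_of_pow_eq_one h1)
            ((orderOf_dvd_of_pow_eq_one hx).trans hd)
        exact orderOf_eq_one_iff.mp h2
      obtain ⟨u, hu, y, hy, hy1, rfl⟩ := hp.exists_conj hxN
      have hyd : y ^ d = 1 := by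
        rw [conj_pow, conj_eq_one_iff] at hx
        exact hx
      refine ⟨(⟨u, hu⟩, ⟨⟨y, hy⟩, ?_, ?_⟩), rfl⟩
      · exact Subtype.ext hyd
      · intro h
        exact hy1 (congrArg Subtype.val h)
  rw [hE, Nat.add_sub_cancel]
  ring

/-- Two commuting automorphisms whose cyclic subgroups act without fixed points. -/
theorem norm_identity_two {V : Type*} [CommGroup V] (α β : MulAut V) {r : ℕ} (hcomm : α * β = β * α)
    (hα : α ^ r = 1) (hβ : β ^ r = 1) (h1 : ∀ (j : ℕ) (v : V), (α * β ^ j) v = v → v = 1)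
    (h2 : ∀ i : ℕ, 0 < i → i < r → ∀ v : V, (β ^ i) v = v → v = 1) (x : V) : x ^ r = 1 := by
  classical
  let T : MulAut V → V := fun c => ∏ i ∈ Finset.range r, (c ^ i) x
  have hfix : ∀ c : MulAut V, c ^ r = 1 → c (T c) = T c := by
    intro c hc
    have h3 : c (T c) = ∏ i ∈ Finset.range r, (c ^ (i + 1)) x := by
      show c (∏ i ∈ Finset.range r, (c ^ i) x) = _
      rw [map_prod]
      apply Finset.prod_congr rfl
      intro i _
      rw [pow_succ', MulAut.mul_apply]
    rw [h3]
    have h4 := Finset.prod_range_succ (fun i => (c ^ i) x) r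
    have h5 := Finset.prod_range_succ' (fun i => (c ^ i) x) r
    rw [h4] at h5
    have h6 : (c ^ r) x = (c ^ 0) x := by rw [hc, pow_zero]
    rw [h6] at h5
    exact (mul_right_cancel h5).symm
  have hcp : Commute α β := hcomm
  have hT1 : ∀ j : ℕ, T (α * β ^ j) = 1 := by
    intro j
    apply h1 j
    apply hfix
    rw [(hcp.pow_right j).mul_pow, hα, one_mul, ← pow_mul, mul_comm, pow_mul, hβ, one_pow]
  have hT2 : ∀ i : ℕ, 0 < i → i < r → T (β ^ i) = 1 := by
    intro i hi hir
    apply h2 i hi hir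
    apply hfix
    rw [← pow_mul, mul_comm, pow_mul, hβ, one_pow]
  -- expand the double product
  have h3 : ∏ j ∈ Finset.range r, T (α * β ^ j) = 1 := Finset.prod_eq_one fun j _ => hT1 j
  have h4 : ∏ j ∈ Finset.range r, T (α * β ^ j) =
      ∏ i ∈ Finset.range r, (α ^ i) (T (β ^ i)) := by
    show ∏ j ∈ Finset.range r, ∏ i ∈ Finset.range r, ((α * β ^ j) ^ i) x = _
    rw [Finset.prod_comm]
    apply Finset.prod_congr rfl
    intro i _
    show _ = (α ^ i) (∏ j ∈ Finset.range r, ((β ^ i) ^ j) x)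
    rw [map_prod]
    apply Finset.prod_congr rfl
    intro j _
    rw [(hcp.pow_right j).mul_pow, MulAut.mul_apply, ← pow_mul, ← pow_mul, mul_comm j i]
  rw [h4] at h3
  by_cases hr : r = 0
  · subst hr
    simp
  have h5 : ∏ i ∈ Finset.range r, (α ^ i) (T (β ^ i)) = x ^ r := by
    have hrpos : 0 < r := Nat.pos_of_ne_zero hr
    rw [← Finset.prod_erase_mul _ _ (Finset.mem_range.mpr hrpos)]
    rw [Finset.prod_eq_one]
    · have h6 : T (β ^ 0) = x ^ r := by
        show ∏ j ∈ Finset.range r, ((β ^ 0) ^ j) x = x ^ r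
        simp
      rw [h6]
      simp
    · intro i hi
      rw [Finset.mem_erase, Finset.mem_range] at hi
      rw [hT2 i (Nat.pos_of_ne_zero hi.1) hi.2, map_one]
  rw [← h5, h3]

theorem norm_identity_two' {V : Type*} [Group V] (hc : ∀ x y : V, x * y = y * x) (α β : MulAut V) {r : ℕ}
    (hcomm : α * β = β * α)
    (hα : α ^ r = 1) (hβ : β ^ r = 1) (h1 : ∀ (j : ℕ) (v : V), (α * β ^ j) v = v → v = 1)
    (h2 : ∀ i : ℕ, 0 < i → i < r → ∀ v : V, (β ^ i) v = v → v = 1) (x : V) : x ^ r = 1 := by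
  letI : CommGroup V := { ‹Group V› with mul_comm := hc }
  exact norm_identity_two α β hcomm hα hβ h1 h2 x

theorem C2_quaternion (k : ℕ) : C2 (QuaternionGroup (2 ^ k)) := by
  haveI : NeZero (2 ^ k) := ⟨by positivity⟩
  refine ⟨Subgroup.zpowers (QuaternionGroup.a 1), inferInstance, ?_⟩
  have h1 := Subgroup.card_mul_index (Subgroup.zpowers (QuaternionGroup.a 1 : QuaternionGroup (2 ^ k)))
  rw [Nat.card_zpowers, QuaternionGroup.orderOf_a_one, Nat.card_eq_fintype_card, QuaternionGroup.card] at h1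
  have h2 : 0 < 2 ^ k := by positivity
  have h3 : (Subgroup.zpowers (QuaternionGroup.a 1 : QuaternionGroup (2 ^ k))).index = 2 := by
    have h4 : 2 * 2 ^ k * (Subgroup.zpowers (QuaternionGroup.a 1 : QuaternionGroup (2 ^ k))).index = 2 * 2 ^ k * 2 := by
      rw [h1]; ring
    exact Nat.eq_of_mul_eq_mul_left (by positivity) h4
  omega

theorem FrobPair.syl [Finite G] (hp : FrobPair N H) (V : Subgroup G) (hVn : V.Normal) (hVN : V ≤ N)
    (hVc : ∀ x ∈ V, ∀ y ∈ V, x * y = y * x) (hV1 : V ≠ ⊥) : Syl H := by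
  classical
  intro r hr T hT
  haveI : Fact r.Prime := ⟨hr⟩
  have hU : Cfsg.Agent.H14.UniqueP r T := by
    intro x y hx hy
    by_contra hno
    have hx1 : x ≠ 1 := by
      rintro rfl
      rw [orderOf_one] at hx
      exact hr.one_lt.ne hx
    haveI : Nontrivial T := ⟨⟨x, 1, hx1⟩⟩
    have hZ := hT.center_nontrivial
    have hZp : IsPGroup r (Subgroup.center T) := hT.to_subgroup _
    obtain ⟨c, hcne⟩ := exists_ne (1 : Subgroup.center T)
    obtain ⟨k, hk⟩ := (IsPGroup.iff_orderOf.mp hZp) c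
    have hk0 : k ≠ 0 := by
      rintro rfl
      rw [pow_zero, orderOf_eq_one_iff] at hk
      exact hcne hk
    let z : Subgroup.center T := c ^ (r ^ (k - 1))
    have hzo : orderOf z = r := by
      have := orderOf_pow_orderOf_div (x := c) (n := r) (by rw [hk]; exact (pow_pos hr.pos k).ne')
        (by rw [hk]; exact dvd_pow_self r hk0)
      have h2 : orderOf c / r = r ^ (k - 1) := by
        rw [hk]
        conv_lhs => rw [show k = (k - 1) + 1 by omega, pow_succ]
        exact Nat.mul_div_cancel _ hr.pos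
      rw [h2] at this
      exact this
    have hzoT : orderOf (z : T) = r := by rw [Subgroup.orderOf_coe]; exact hzo
    -- choose `a` outside `⟨z⟩`
    obtain ⟨a, hao, haz⟩ : ∃ a : T, orderOf a = r ∧ a ∉ Subgroup.zpowers (z : T) := by
      by_cases h1 : x ∈ Subgroup.zpowers (z : T)
      · refine ⟨y, hy, fun h2 => hno ?_⟩
        have h3 : Subgroup.zpowers x ≤ Subgroup.zpowers (z : T) := Subgroup.zpowers_le.mpr h1
        have h4 : Subgroup.zpowers x = Subgroup.zpowers (z : T) :=
          Subgroup.eq_of_le_of_card_ge h3 (by rw [Nat.card_zpowers, Nat.card_zpowers, hx, hzoT])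
        rw [h4]
        exact h2
      · exact ⟨x, hx, h1⟩
    -- elements in `G`
    let a₀ : G := ((a : H) : G)
    let b₀ : G := (((z : T) : H) : G)
    have haH : a₀ ∈ H := (a : H).2
    have hbH : b₀ ∈ H := ((z : T) : H).2
    have hab : a₀ * b₀ = b₀ * a₀ := by
      have h1 : (z : T) * a = a * z := ((Subgroup.mem_center_iff.mp z.2) a).symm
      have h2 := congrArg (fun w : T => ((w : H) : G)) h1
      exact h2.symm
    have ha₀r : a₀ ^ r = 1 := by
      have h1 : a ^ r = 1 := by rw [← hao]; exact pow_orderOf_eq_one a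
      exact congrArg (fun w : T => ((w : H) : G)) h1
    have hb₀r : b₀ ^ r = 1 := by
      have h1 : (z : T) ^ r = 1 := by rw [← hzoT]; exact pow_orderOf_eq_one (z : T)
      exact congrArg (fun w : T => ((w : H) : G)) h1
    have hcoe : ∀ w : T, ((w : H) : G) = 1 → w = 1 := fun w hw => Subtype.ext (Subtype.ext hw)
    haveI := hVn
    let φ : G →* MulAut V := MulAut.conjNormal
    have hφ : ∀ (g : G) (v : V), ((φ g v : V) : G) = g * v * g⁻¹ := fun g v => rfl
    have hfix : ∀ c ∈ H, c ≠ 1 → ∀ v : V, φ c v = v → v = 1 := by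
      intro c hc hc1 v hv
      have h1 : c * (v : G) * c⁻¹ = v := by rw [← hφ, hv]
      have h2 : (v : G) * c = c * v := by
        rw [mul_inv_eq_iff_eq_mul] at h1
        exact h1.symm
      exact Subtype.ext (hp.fpf c hc hc1 v (hVN v.2) h2)
    have hall : ∀ v : V, v ^ r = 1 := by
      apply norm_identity_two' (fun x y => Subtype.ext (hVc x x.2 y y.2)) (φ a₀) (φ b₀)
      · rw [← map_mul, ← map_mul, hab]
      · rw [← map_pow, ha₀r, map_one]
      · rw [← map_pow, hb₀r, map_one]
      · intro j v hv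
        rw [← map_pow, ← map_mul] at hv
        refine hfix _ (H.mul_mem haH (H.pow_mem hbH j)) ?_ v hv
        intro h1
        apply haz
        have h2 : a * (z : T) ^ j = 1 := hcoe _ h1
        have h3 : a = ((z : T) ^ j)⁻¹ := eq_inv_of_mul_eq_one_left h2
        rw [h3]
        exact Subgroup.inv_mem _ (Subgroup.pow_mem _ (Subgroup.mem_zpowers _) j)
      · intro i hi hir v hv
        rw [← map_pow] at hv
        refine hfix _ (H.pow_mem hbH i) ?_ v hv
        intro h1
        have h2 : (z : T) ^ i = 1 := hcoe _ h1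
        have h3 := orderOf_dvd_of_pow_eq_one h2
        rw [hzoT] at h3
        have := Nat.le_of_dvd hi h3
        omega
    -- contradiction
    obtain ⟨v, hv, hv1⟩ := (Subgroup.bot_or_exists_ne_one V).resolve_left hV1
    have h1 : (⟨v, hv⟩ : V) ^ r = 1 := hall _
    have h2 : v ^ r = 1 := congrArg Subtype.val h1
    have h3 : orderOf v ∣ r := orderOf_dvd_of_pow_eq_one h2
    have h4 : v ^ Nat.card N = 1 := by
      have h0 : (⟨v, hVN hv⟩ : N) ^ Nat.card N = 1 := pow_card_eq_one'
      exact congrArg Subtype.val h0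
    have h5 : orderOf v ∣ Nat.card N := orderOf_dvd_of_pow_eq_one h4
    have h6 : r ∣ Nat.card H := by
      have h7 : orderOf ((a : H) : H) ∣ Nat.card H := orderOf_dvd_natCard _
      rwa [Subgroup.orderOf_coe, hao] at h7
    have h7 : orderOf v = 1 := Nat.eq_one_of_dvd_coprimes hp.coprime h5 (h3.trans h6)
    exact hv1 (orderOf_eq_one_iff.mp h7)
  rcases Cfsg.Agent.H14.isCyclic_or_quaternion hT hU with hc | ⟨-, k, -, ⟨e⟩⟩
  · exact ⟨⊤, inferInstance, by simp⟩
  · exact C2.congr e (C2_quaternion k)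

theorem frobPair_of_complement {F : Type*} [Group F] [Finite F] (H : Subgroup F)
    (hH : IsFrobeniusComplement H) :
    ∃ N : Subgroup F, FrobPair N H ∧ Group.IsNilpotent N ∧ N ≠ ⊥ := by
  obtain ⟨N, hN, hNn, hc⟩ := Cfsg.Agent.H01.frobenius_theorem H hH
  obtain ⟨N', hN', hNn', hnil⟩ := Cfsg.Agent.S0042.result H hH
  have hNN' : N' = N := SetLike.coe_injective (hN'.trans hN.symm)
  subst hNN'
  have hcard := hc.card_mul_card
  have hidx : H.index = Nat.card N' := by
    have h1 := H.card_mul_index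
    rw [← hcard, mul_comm] at h1
    exact Nat.eq_of_mul_eq_mul_right Nat.card_pos h1
  have hcop : (Nat.card N').Coprime (Nat.card H) := by
    have h1 := Cfsg.Agent.H01.card_dvd_index_sub_one hH
    rw [hidx] at h1
    have h2 : Nat.card N' = (Nat.card N' - 1) + 1 := by
      have : 0 < Nat.card N' := Nat.card_pos
      omega
    apply Nat.Coprime.symm
    apply Nat.coprime_of_dvd
    intro r hr hr1 hr2
    have h3 : r ∣ Nat.card N' - 1 := hr1.trans h1
    have h4 : r ∣ 1 := by
      have := (Nat.dvd_add_right h3).mp (h2 ▸ hr2)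
      exact this
    exact hr.one_lt.ne' (Nat.dvd_one.mp h4)
  have hp : FrobPair N' H := by
    refine ⟨hNn', hc, hcop, ?_⟩
    intro y hy hy1 u hu huy
    by_cases huH : u ∈ H
    · have h3 : u ∈ N' ⊓ H := ⟨hu, huH⟩
      rw [disjoint_iff.mp hc.disjoint] at h3
      exact Subgroup.mem_bot.mp h3
    · exfalso
      have h1 := hH.2.2 u huH
      have h2 : y ∈ H ⊓ (MulAut.conj u • H) := by
        refine ⟨hy, mem_conj_smul.mpr ?_⟩
        have h3 : u⁻¹ * y * u = y := by
          calc u⁻¹ * y * u = u⁻¹ * (y * u) := by group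
            _ = u⁻¹ * (u * y) := by rw [huy]
            _ = y := by group
        rw [h3]
        exact hy
      rw [h1] at h2
      exact hy1 (Subgroup.mem_bot.mp h2)
  refine ⟨N', hp, hnil, ?_⟩
  intro hbot
  apply hH.2.1
  apply Subgroup.eq_top_of_card_eq
  rw [← hcard, hbot, Subgroup.card_bot, one_mul]

theorem normal_of_sol {G : Type*} [Group G] [Finite G] (L : Subgroup G)
    (hL : sol G (Nat.card L) = Nat.card L) : L.Normal := by
  have hLsub : ∀ x ∈ L, x ^ Nat.card L = 1 := by
    intro x hx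
    have h1 : (⟨x, hx⟩ : L) ^ Nat.card L = 1 := pow_card_eq_one'
    exact congrArg Subtype.val h1
  have hiff : ∀ x : G, x ^ Nat.card L = 1 → x ∈ L := by
    intro x hx
    by_contra hxL
    let f : L → {u : G // u ^ Nat.card L = 1} := fun y => ⟨y.1, hLsub y.1 y.2⟩
    have hf : Function.Injective f := fun a b h => by
      have h' := congrArg Subtype.val h
      exact Subtype.ext h'
    have hsurj : Function.Surjective f := by
      refine (Function.Injective.bijective_of_nat_card_le hf ?_).2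
      unfold sol at hL
      rw [hL]
    obtain ⟨y, hy⟩ := hsurj ⟨x, hx⟩
    have := congrArg Subtype.val hy
    apply hxL
    rw [← show y.1 = x from this]
    exact y.2
  constructor
  intro x hx g
  apply hiff
  rw [conj_pow, hLsub x hx]
  simp

theorem exists_normal_prod {G : Type*} [Group G] [Finite G] (s : Finset ℕ)
    (hs : ∀ q ∈ s, q.Prime ∧ ∀ (_ : Fact q.Prime) (Q : Sylow q G), (Q : Subgroup G).Normal) :
    ∃ X : Subgroup G, X.Normal ∧ Group.IsSolvable X ∧
      Nat.card X = ∏ q ∈ s, q ^ (Nat.card G).factorization q := by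
  classical
  induction s using Finset.induction_on with
  | empty =>
    refine ⟨⊥, inferInstance, ?_, by simp⟩
    exact Group.isSolvable_of_comm (fun a b => Subsingleton.elim _ _)
  | insert q s hq ih =>
    obtain ⟨X, hXn, hXs, hXc⟩ := ih (fun r hr => hs r (Finset.mem_insert_of_mem hr))
    obtain ⟨hqp, hqn⟩ := hs q (Finset.mem_insert_self q s)
    haveI : Fact q.Prime := ⟨hqp⟩
    obtain ⟨Q⟩ : Nonempty (Sylow q G) := inferInstance
    haveI := hqn ⟨hqp⟩ Q
    haveI := hXn
    have hQc : Nat.card (Q : Subgroup G) = q ^ (Nat.card G).factorization q := Q.card_eq_multiplicity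
    have hcop : (Nat.card (Q : Subgroup G)).Coprime (Nat.card X) := by
      rw [hQc, hXc]
      apply Nat.Coprime.pow_left
      apply Nat.Coprime.prod_right
      intro r hr
      apply Nat.Coprime.pow_right
      have hrp := (hs r (Finset.mem_insert_of_mem hr)).1
      rw [Nat.coprime_primes hqp hrp]
      rintro rfl
      exact hq hr
    have hinf : ((Q : Subgroup G) ⊓ X : Subgroup G) = ⊥ := Subgroup.inf_eq_bot_of_coprime hcop
    refine ⟨X ⊔ (Q : Subgroup G), inferInstance, ?_, ?_⟩
    · haveI hQs : Group.IsSolvable (Q : Subgroup G) := by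
        haveI := Q.isPGroup'.isNilpotent
        infer_instance
      apply Cfsg.Agent.H17.sol_sup X (Q : Subgroup G) ?_ hXs hQs
      rw [Subgroup.normalizer_eq_top]
      exact le_top
    · have h1 := Cfsg.Agent.H18.card_sup_mul_card_inf (Q : Subgroup G) X
      rw [hinf, Subgroup.card_bot, mul_one, hQc, hXc] at h1
      rw [sup_comm, h1, Finset.prod_insert hq]

theorem solvable_iff_of_complement {G : Type*} [Group G] [Finite G] {N H : Subgroup G} (hn : N.Normal)
    (hc : IsComplement' N H) (hNs : Group.IsSolvable N) : Group.IsSolvable G ↔ Group.IsSolvable H := by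
  constructor
  · intro h
    exact solvable_of_solvable_injective (f := H.subtype) H.subtype_injective
  · intro h
    haveI := hn
    have hsurj : Function.Surjective ((QuotientGroup.mk' N).comp H.subtype) := by
      intro t
      obtain ⟨g, rfl⟩ := QuotientGroup.mk_surjective t
      obtain ⟨⟨u, v⟩, huv⟩ := hc.2 g
      have huv' : (u : G) * v = g := huv
      refine ⟨v, ?_⟩
      show ((v : G) : G ⧸ N) = (g : G ⧸ N)
      rw [QuotientGroup.eq, ← huv']
      have h1 : (v : G)⁻¹ * ((u : G) * v) = (v : G)⁻¹ * u * v := by group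
      rw [h1]
      have := hn.conj_mem u u.2 (v : G)⁻¹
      rwa [inv_inv] at this
    haveI hq : Group.IsSolvable (G ⧸ N) := solvable_of_surjective hsurj
    exact Group.isSolvable_of_ker_le_range N.subtype (QuotientGroup.mk' N) (by
      intro x hx
      have h1 : x ∈ N := by rwa [QuotientGroup.ker_mk'] at hx
      exact ⟨⟨x, h1⟩, rfl⟩)

theorem exists_V {G : Type*} [Group G] [Finite G] {q : ℕ} [Fact q.Prime] (Q : Subgroup G) (hQn : Q.Normal)
    (hQp : IsPGroup q Q) (hQ1 : Q ≠ ⊥) :
    ∃ V : Subgroup G, V.Normal ∧ V ≤ Q ∧ (∀ x ∈ V, ∀ y ∈ V, x * y = y * x) ∧ V ≠ ⊥ := by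
  classical
  haveI := hQn
  refine ⟨Q ⊓ Subgroup.centralizer (Q : Set G), inferInstance, inf_le_left, ?_, ?_⟩
  · rintro x ⟨hx, -⟩ y ⟨-, hy⟩
    exact (Subgroup.mem_centralizer_iff.mp hy) x hx
  · intro hbot
    haveI : Nontrivial Q := (Subgroup.nontrivial_iff_ne_bot Q).mpr hQ1
    have hZ := hQp.center_nontrivial
    obtain ⟨c, hc⟩ := exists_ne (1 : Subgroup.center Q)
    have h1 : ((c : Q) : G) ∈ Q ⊓ Subgroup.centralizer (Q : Set G) := by
      refine ⟨(c : Q).2, Subgroup.mem_centralizer_iff.mpr ?_⟩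
      intro y hy
      have h2 := (Subgroup.mem_center_iff.mp c.2) ⟨y, hy⟩
      exact congrArg Subtype.val h2
    rw [hbot] at h1
    apply hc
    exact Subtype.ext (Subtype.ext (Subgroup.mem_bot.mp h1))

theorem one_le_sol (K : Type*) [Group K] [Finite K] (d : ℕ) : 1 ≤ sol K d := by
  haveI : Nonempty {x : K // x ^ d = 1} := ⟨⟨1, one_pow d⟩⟩
  exact Nat.card_pos

theorem sylow_ne_bot {K : Type*} [Group K] [Finite K] {q : ℕ} [hf : Fact q.Prime] (Q : Sylow q K)
    (hd : q ∣ Nat.card K) : (Q : Subgroup K) ≠ ⊥ := by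
  intro hQ
  have hq : q.Prime := hf.out
  have h1 : Nat.card (Q : Subgroup K) = 1 := by rw [hQ]; simp
  rw [Q.card_eq_multiplicity] at h1
  have h2 : (Nat.card K).factorization q ≠ 0 := (hq.factorization_pos_of_dvd Nat.card_pos.ne' hd).ne'
  have h3 := Nat.one_lt_pow h2 hq.one_lt
  omega

/-- Main theorem: a group of the same order type as a Frobenius group. -/
theorem frob_orderType {F G : Type*} [Group F] [Finite F] [Group G] [Finite G]
    (hF : ∃ C : Subgroup F, IsFrobeniusComplement C)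
    (hT : ∀ m : ℕ, Nat.card {g : F // orderOf g = m} = Nat.card {h : G // orderOf h = m}) :
    (∃ C : Subgroup G, IsFrobeniusComplement C) ∧ (Group.IsSolvable G ↔ Group.IsSolvable F) := by
  classical
  obtain ⟨H, hH⟩ := hF
  obtain ⟨N, hp, hNnil, hN1⟩ := frobPair_of_complement H hH
  haveI hNn := hp.normal
  have hsoleq : ∀ d : ℕ, d ≠ 0 → sol F d = sol G d := by
    intro d hd
    rw [sol_eq_sum_orderOf F hd, sol_eq_sum_orderOf G hd]
    exact Finset.sum_congr rfl fun m _ => hT m
  have hcard : Nat.card F = Nat.card G := by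
    have h0 : Nat.card F * Nat.card G ≠ 0 := mul_ne_zero Nat.card_pos.ne' Nat.card_pos.ne'
    have h1 : sol F (Nat.card F * Nat.card G) = Nat.card F := by
      unfold sol
      exact Nat.card_congr (Equiv.subtypeUnivEquiv fun x => by rw [pow_mul, pow_card_eq_one', one_pow])
    have h2 : sol G (Nat.card F * Nat.card G) = Nat.card G := by
      unfold sol
      exact Nat.card_congr (Equiv.subtypeUnivEquiv fun x => by rw [mul_comm, pow_mul, pow_card_eq_one', one_pow])
    calc Nat.card F = sol F (Nat.card F * Nat.card G) := h1.symm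
      _ = sol G (Nat.card F * Nat.card G) := hsoleq _ h0
      _ = Nat.card G := h2
  set n := Nat.card N with hn
  set h := Nat.card H with hh
  have hnh : n * h = Nat.card F := hp.compl.card_mul_card
  have hn1 : n ≠ 1 := fun e => hN1 (Subgroup.card_eq_one.mp e)
  have hh1 : h ≠ 1 := fun e => hH.1 (Subgroup.card_eq_one.mp e)
  have hn0 : n ≠ 0 := Nat.card_pos.ne'
  have hh0 : h ≠ 0 := Nat.card_pos.ne'
  have hcop : n.Coprime h := hp.coprime
  -- normal Sylow subgroups of `F` for primes dividing `n`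
  have hQF : ∀ (q : ℕ) [Fact q.Prime] (_ : q ∣ n) (Q : Sylow q F), (Q : Subgroup F).Normal ∧ (Q : Subgroup F) ≤ N := by
    intro q _ hqn Q
    have hqp : q.Prime := Fact.out
    have hle : (Q : Subgroup F) ≤ N := by
      intro x hx
      by_contra hxN
      obtain ⟨u, hu, y, hy, hy1, rfl⟩ := hp.exists_conj hxN
      obtain ⟨k, hk⟩ := orderOf_of_mem_isPGroup Q.isPGroup' hx
      have ho : orderOf (u * y * u⁻¹) = orderOf y := by
        rw [← MulAut.conj_apply, MulEquiv.orderOf_eq]
      rw [ho] at hk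
      have h1 : orderOf y ∣ h := by
        have := orderOf_dvd_natCard (⟨y, hy⟩ : H)
        rwa [Subgroup.orderOf_mk] at this
      have h2 : k ≠ 0 := by
        rintro rfl
        rw [pow_zero, orderOf_eq_one_iff] at hk
        exact hy1 hk
      rw [hk] at h1
      have h3 : q ∣ h := (dvd_pow_self q h2).trans h1
      exact hqp.one_lt.ne' (Nat.eq_one_of_dvd_coprimes hcop hqn h3)
    refine ⟨?_, hle⟩
    have hcore : (Q : Subgroup F) ≤ Cfsg.pCore q F := by
      intro x hx
      obtain ⟨k, hk⟩ := orderOf_of_mem_isPGroup Q.isPGroup' hx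
      exact mem_pCore_of_mem_nilpotent hNn hNnil (hle hx) hk
    have heq : (Q : Subgroup F) = Cfsg.pCore q F := le_antisymm hcore (Cfsg.Agent.H01.pCore_le_sylow q Q)
    rw [heq]
    exact Cfsg.Agent.H01.pCore_normal q
  -- normal Sylow subgroups of `G`
  have hQG : ∀ (q : ℕ) [Fact q.Prime] (_ : q ∣ n) (Q : Sylow q G), (Q : Subgroup G).Normal := by
    intro q _ hqn Q
    obtain ⟨QF⟩ : Nonempty (Sylow q F) := inferInstance
    haveI := (hQF q hqn QF).1
    have h1 : Nat.card (QF : Subgroup F) = Nat.card (Q : Subgroup G) := by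
      rw [QF.card_eq_multiplicity, Q.card_eq_multiplicity, hcard]
    have h2 := sol_of_normal (QF : Subgroup F) rfl (QF : Subgroup F).card_mul_index QF.card_coprime_index
    rw [h1, hsoleq _ Nat.card_pos.ne'] at h2
    exact normal_of_sol _ h2
  obtain ⟨X, hXn, hXs, hXc⟩ := exists_normal_prod (G := G) n.primeFactors (by
    intro q hq
    have hqp := Nat.prime_of_mem_primeFactors hq
    exact ⟨hqp, fun hf Q => hQG q (Nat.dvd_of_mem_primeFactors hq) Q⟩)
  haveI := hXn
  have hGcard : Nat.card G = n * h := by rw [← hcard, hnh]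
  have hXcard : Nat.card X = n := by
    rw [hXc]
    have h1 : ∏ q ∈ n.primeFactors, q ^ (Nat.card G).factorization q = ∏ q ∈ n.primeFactors, q ^ n.factorization q := by
      apply Finset.prod_congr rfl
      intro q hq
      have hqd := Nat.dvd_of_mem_primeFactors hq
      have hqp := Nat.prime_of_mem_primeFactors hq
      have hqh : ¬ q ∣ h := fun e => hqp.one_lt.ne' (Nat.eq_one_of_dvd_coprimes hcop hqd e)
      rw [hGcard, Nat.factorization_mul hn0 hh0]
      simp [Nat.factorization_eq_zero_of_not_dvd hqh]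
    rw [h1]
    have h2 := Nat.factorization_prod_pow_eq_self hn0
    rw [Finsupp.prod, Nat.support_factorization] at h2
    exact h2
  have hXidx : X.index = h := by
    have h1 := X.card_mul_index
    rw [hXcard, hGcard] at h1
    exact Nat.eq_of_mul_eq_mul_left (Nat.pos_of_ne_zero hn0) h1
  have hXcop : (Nat.card X).Coprime X.index := by rw [hXcard, hXidx]; exact hcop
  obtain ⟨L, hXL⟩ := Subgroup.exists_right_complement'_of_coprime hXcop
  have hLcard : Nat.card L = h := by
    have h1 := hXL.card_mul_card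
    rw [hXcard, hGcard] at h1
    exact Nat.eq_of_mul_eq_mul_left (Nat.pos_of_ne_zero hn0) h1
  -- no mixed orders
  have hmix : ∀ g : G, orderOf g ∣ n ∨ orderOf g ∣ h := by
    intro g
    have h1 : Nat.card {x : G // orderOf x = orderOf g} ≠ 0 := by
      haveI : Nonempty {x : G // orderOf x = orderOf g} := ⟨⟨g, rfl⟩⟩
      exact Nat.card_pos.ne'
    rw [← hT] at h1
    obtain ⟨⟨x, hx⟩⟩ : Nonempty {x : F // orderOf x = orderOf g} := (Nat.card_ne_zero.mp h1).1
    rw [← hx]
    by_cases hxN : x ∈ N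
    · left
      have := orderOf_dvd_natCard (⟨x, hxN⟩ : N)
      rwa [Subgroup.orderOf_mk] at this
    · right
      obtain ⟨u, hu, y, hy, hy1, rfl⟩ := hp.exists_conj hxN
      have ho : orderOf (u * y * u⁻¹) = orderOf y := by
        rw [← MulAut.conj_apply, MulEquiv.orderOf_eq]
      rw [ho]
      have := orderOf_dvd_natCard (⟨y, hy⟩ : H)
      rwa [Subgroup.orderOf_mk] at this
  have hp' : FrobPair X L := by
    refine ⟨hXn, hXL, by rw [hXcard, hLcard]; exact hcop, ?_⟩
    intro y hy hy1 u hu huy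
    by_contra hu1
    have h1 : orderOf u ∣ n := by
      have := orderOf_dvd_natCard (⟨u, hu⟩ : X)
      rwa [Subgroup.orderOf_mk, hXcard] at this
    have h2 : orderOf y ∣ h := by
      have := orderOf_dvd_natCard (⟨y, hy⟩ : L)
      rwa [Subgroup.orderOf_mk, hLcard] at this
    have hcomm : Commute u y := huy
    have h3 : (orderOf u).Coprime (orderOf y) := Nat.Coprime.of_dvd h1 h2 hcop
    have h4 := hcomm.orderOf_mul_eq_mul_orderOf_of_coprime h3
    rcases hmix (u * y) with h5 | h5
    · rw [h4] at h5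
      have h6 : orderOf y ∣ n := (Dvd.intro_left _ rfl).trans h5
      exact hy1 (orderOf_eq_one_iff.mp (Nat.eq_one_of_dvd_coprimes hcop h6 h2))
    · rw [h4] at h5
      have h6 : orderOf u ∣ h := (Dvd.intro _ rfl).trans h5
      exact hu1 (orderOf_eq_one_iff.mp (Nat.eq_one_of_dvd_coprimes hcop h1 h6))
  have hX1 : X ≠ ⊥ := by
    rintro rfl
    rw [Subgroup.card_bot] at hXcard
    exact hn1 hXcard.symm
  have hL1 : L ≠ ⊥ := by
    rintro rfl
    rw [Subgroup.card_bot] at hLcard
    exact hh1 hLcard.symm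
  refine ⟨⟨L, hp'.isFrobeniusComplement hX1 hL1⟩, ?_⟩
  -- same solution counts in the complements
  have hsolHL : ∀ d : ℕ, d ∣ h → sol H d = sol L d := by
    intro d hd
    have h1 := hp.sol_eq (d := d) hd
    have h2 := hp'.sol_eq (d := d) (by rw [hLcard]; exact hd)
    have hd0 : d ≠ 0 := by
      rintro rfl
      exact hh0 (Nat.eq_zero_of_zero_dvd hd)
    rw [hsoleq d hd0, h2, hXcard, ← hn] at h1
    have h3 : n * (sol L d - 1) = n * (sol H d - 1) := by omega
    have h4 := Nat.eq_of_mul_eq_mul_left (Nat.pos_of_ne_zero hn0) h3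
    have h5 := one_le_sol H d
    have h6 := one_le_sol L d
    omega
  -- the Sylow hypothesis
  obtain ⟨q, hq, hqn⟩ := Nat.exists_prime_and_dvd hn1
  haveI : Fact q.Prime := ⟨hq⟩
  obtain ⟨QF⟩ : Nonempty (Sylow q F) := inferInstance
  obtain ⟨QG⟩ : Nonempty (Sylow q G) := inferInstance
  have hsH : Syl H := by
    obtain ⟨h1, h2⟩ := hQF q hqn QF
    obtain ⟨V, hV, hVQ, hVc, hVb⟩ := exists_V (QF : Subgroup F) h1 QF.isPGroup'
      (sylow_ne_bot QF (by rw [← hnh]; exact hqn.trans (Dvd.intro _ rfl)))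
    exact hp.syl V hV (hVQ.trans h2) hVc hVb
  have hsL : Syl L := by
    have h1 := hQG q hqn QG
    have h2 : (QG : Subgroup G) ≤ X := by
      intro x hx
      have h3 : x ^ Nat.card (QG : Subgroup G) = 1 := by
        have h0 : (⟨x, hx⟩ : (QG : Subgroup G)) ^ Nat.card (QG : Subgroup G) = 1 := pow_card_eq_one'
        exact congrArg Subtype.val h0
      have h4 : Nat.card (QG : Subgroup G) ∣ n := by
        rw [QG.card_eq_multiplicity]
        have hqh : ¬ q ∣ h := fun e => hq.one_lt.ne' (Nat.eq_one_of_dvd_coprimes hcop hqn e)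
        rw [hGcard, Nat.factorization_mul hn0 hh0]
        simp only [Finsupp.coe_add, Pi.add_apply]
        rw [Nat.factorization_eq_zero_of_not_dvd hqh, add_zero]
        exact Nat.ordProj_dvd n q
      have h5 : x ^ n = 1 := by
        obtain ⟨c, hc⟩ := h4
        rw [hc, pow_mul, h3, one_pow]
      have h6 : (x : G ⧸ X) ^ n = 1 := by
        rw [← QuotientGroup.mk_pow, h5]
        rfl
      have h7 : Nat.card (G ⧸ X) = h := hXidx
      have h8 : (x : G ⧸ X) ^ h = 1 := by
        rw [← h7]; exact pow_card_eq_one'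
      have h9 : orderOf (x : G ⧸ X) = 1 :=
        Nat.eq_one_of_dvd_coprimes hcop (orderOf_dvd_of_pow_eq_one h6) (orderOf_dvd_of_pow_eq_one h8)
      exact (QuotientGroup.eq_one_iff x).mp (orderOf_eq_one_iff.mp h9)
    obtain ⟨V, hV, hVQ, hVc, hVb⟩ := exists_V (QG : Subgroup G) h1 QG.isPGroup'
      (sylow_ne_bot QG (by rw [hGcard]; exact hqn.trans (Dvd.intro _ rfl)))
    exact hp'.syl V hV (hVQ.trans h2) hVc hVb
  haveI hNs : Group.IsSolvable N := inferInstance
  rw [solvable_iff_of_complement hXn hXL hXs, solvable_iff_of_complement hNn hp.compl hNs]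
  constructor
  · intro hs
    exact solvable_transfer hs hsL (by rw [hLcard]) (fun d hd => (hsolHL d (by rw [← hLcard]; exact hd)).symm)
  · intro hs
    exact solvable_transfer hs hsH (by rw [hLcard]) (fun d hd => hsolHL d hd)

end Cfsg.Agent.H19
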