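import Cfsg.Agent.Lib.H19.Ito2
import Cfsg.Agent.Lib.H14.Nilp
import Cfsg.Agent.Lib.H19.SelfNorm

/-! Itô's theorem on groups with two conjugacy class sizes, the main theorem (helper19). -/

set_option autoImplicit false
set_option linter.style.haveILetI false

namespace Cfsg.Agent.H19

open Cfsg

variable {G : Type*} [Group G] [Finite G]

/-- Two different primes cannot divide the unique non-trivial class size. -/
theorem not_two_primes {n p r : ℕ} (hpp : p.Prime) (hrp : r.Prime) (hpr : p ≠ r) (hn : 1 < n)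
    (hpn : p ∣ n) (hrn : r ∣ n) (h : ∀ x : G, (cz x).index = 1 ∨ (cz x).index = n) {x₀ : G}
    (hx₀ : x₀ ∉ Subgroup.center G) : False := by
  classical
  haveI : Fact p.Prime := ⟨hpp⟩
  haveI : Fact r.Prime := ⟨hrp⟩
  obtain ⟨yp, kp, hyp, hypc⟩ := exists_nc_pelt h hpn hx₀
  obtain ⟨yr, kr, hyr, hyrc⟩ := exists_nc_pelt h hrn hx₀
  have hab : ∀ g : G, g ∉ Subgroup.center G → ∀ a ∈ cz g, ∀ b ∈ cz g, a * b = b * a := by
    intro g hg
    obtain ⟨q, k, x, hq, hk, hxc, hcz, -⟩ := exists_ppart h g hg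
    haveI : Fact q.Prime := ⟨hq⟩
    rw [hcz]
    by_cases hqp : q = p
    · obtain ⟨y', j, hy', hy'o, hy'c⟩ := exists_nc_pelt_in_cz h hxc hyrc hyr
      exact cz_abelian_of_two_primes h (by rw [hqp]; exact hpr) hxc hk hy' hy'o hy'c
    · obtain ⟨y', j, hy', hy'o, hy'c⟩ := exists_nc_pelt_in_cz h hxc hypc hyp
      exact cz_abelian_of_two_primes h hqp hxc hk hy' hy'o hy'c
  have hG0 : Nat.card G ≠ 0 := Nat.card_pos.ne'
  set D := (Nat.card G).factorization p with hD
  obtain ⟨a', j, ha', ha'o, ha'c⟩ := exists_nc_pelt_in_cz h hypc hyrc hyr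
  have hco : (p ^ D).Coprime (ordCompl[p] (Nat.card G)) :=
    Nat.Coprime.pow_left _ ((Nat.Prime.coprime_iff_not_dvd hpp).2 (Nat.not_dvd_ordCompl hpp hG0))
  have hDD : p ^ D * ordCompl[p] (Nat.card G) = Nat.card G := Nat.ordProj_mul_ordCompl_eq_self _ _
  refine partition_contra hn (fun x hx => index_nc h hx) hab hco hDD hypc (mem_cz.mpr rfl) hypc ?_ ha' ha'c ?_
  · apply orderOf_dvd_iff_pow_eq_one.mp
    rw [hyp]
    apply pow_dvd_pow
    have h1 : p ^ kp ∣ Nat.card G := hyp ▸ orderOf_dvd_natCard yp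
    exact (hpp.pow_dvd_iff_le_factorization hG0).mp h1
  · apply orderOf_dvd_iff_pow_eq_one.mp
    rw [ha'o]
    have h1 : r ^ j ∣ Nat.card G := ha'o ▸ orderOf_dvd_natCard a'
    rw [← hDD] at h1
    have h2 : (r ^ j).Coprime (p ^ D) := Nat.Coprime.pow _ _ ((Nat.coprime_primes hrp hpp).mpr hpr.symm)
    exact h2.dvd_of_dvd_mul_left h1

/-- A `p`-element acting on an abelian `p`-subgroup such that `C_A(y) = C_A(y^p)` centralizes it. -/
theorem centralizes_of_cz_pow {p : ℕ} [hp : Fact p.Prime] {A : Subgroup G} (hA : IsPGroup p A)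
    (hab : ∀ a ∈ A, ∀ b ∈ A, a * b = b * a) {y : G} {k : ℕ} (hy : orderOf y = p ^ k)
    (hn : y ∈ Subgroup.normalizer (A : Set G))
    (hcz : ∀ a ∈ A, y ^ p * a = a * y ^ p → y * a = a * y) : ∀ a ∈ A, y * a = a * y := by
  classical
  have hconj : ∀ a ∈ A, y * a * y⁻¹ ∈ A := fun a ha => (Subgroup.mem_normalizer_iff.mp hn a).mp ha
  let W : Subgroup G :=
    { carrier := {w | ∃ a ∈ A, w = y * a * y⁻¹ * a⁻¹}
      mul_mem' := by
        rintro _ _ ⟨a, ha, rfl⟩ ⟨b, hb, rfl⟩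
        refine ⟨a * b, A.mul_mem ha hb, ?_⟩
        have h1 : Commute a⁻¹ (y * b * y⁻¹) := hab _ (A.inv_mem ha) _ (hconj b hb)
        have h2 : Commute a⁻¹ b⁻¹ := hab _ (A.inv_mem ha) _ (A.inv_mem hb)
        calc y * a * y⁻¹ * a⁻¹ * (y * b * y⁻¹ * b⁻¹)
            = y * a * y⁻¹ * (a⁻¹ * (y * b * y⁻¹)) * b⁻¹ := by group
          _ = y * a * y⁻¹ * ((y * b * y⁻¹) * a⁻¹) * b⁻¹ := by rw [h1.eq]
          _ = y * (a * b) * y⁻¹ * (a⁻¹ * b⁻¹) := by group
          _ = y * (a * b) * y⁻¹ * (b⁻¹ * a⁻¹) := by rw [h2.eq]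
          _ = y * (a * b) * y⁻¹ * (a * b)⁻¹ := by group
      one_mem' := ⟨1, A.one_mem, by group⟩
      inv_mem' := by
        rintro _ ⟨a, ha, rfl⟩
        refine ⟨a⁻¹, A.inv_mem ha, ?_⟩
        have h1 : Commute a (y * a⁻¹ * y⁻¹) := hab _ ha _ (hconj _ (A.inv_mem ha))
        calc (y * a * y⁻¹ * a⁻¹)⁻¹ = a * (y * a⁻¹ * y⁻¹) := by group
          _ = (y * a⁻¹ * y⁻¹) * a := h1.eq
          _ = y * a⁻¹ * y⁻¹ * a⁻¹⁻¹ := by group }
  have hWA : W ≤ A := by
    rintro _ ⟨a, ha, rfl⟩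
    exact A.mul_mem (hconj a ha) (A.inv_mem ha)
  have hWp : IsPGroup p W := hA.to_le hWA
  have hWn : y ∈ Subgroup.normalizer (W : Set G) := by
    apply mem_normalizer_of_conj_le
    rintro _ ⟨a, ha, rfl⟩
    refine ⟨y * a * y⁻¹, hconj a ha, ?_⟩
    group
  by_contra hno
  push Not at hno
  obtain ⟨a₀, ha₀, ha₀y⟩ := hno
  have hW1 : W ≠ ⊥ := by
    intro h0
    have h1 : y * a₀ * y⁻¹ * a₀⁻¹ ∈ W := ⟨a₀, ha₀, rfl⟩
    rw [h0, Subgroup.mem_bot] at h1
    apply ha₀y
    calc y * a₀ = y * a₀ * y⁻¹ * a₀⁻¹ * (a₀ * y) := by group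
      _ = a₀ * y := by rw [h1, one_mul]
  obtain ⟨w, hw, hw1, hwy⟩ := exists_fixed_of_pelt hWp hW1 hy hWn
  obtain ⟨j, hj⟩ := orderOf_of_mem_isPGroup hWp hw
  rcases j with _ | j
  · rw [pow_zero, orderOf_eq_one_iff] at hj
    exact hw1 hj
  set w₁ := w ^ (p ^ j) with hw₁
  have hw₁W : w₁ ∈ W := W.pow_mem hw _
  have hw₁y : Commute y w₁ := (show Commute y w from hwy).pow_right _
  have hw₁p : w₁ ^ p = 1 := by
    rw [hw₁, ← pow_mul, ← pow_succ, ← hj, pow_orderOf_eq_one]
  have hw₁1 : w₁ ≠ 1 := by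
    intro h0
    have h1 := orderOf_dvd_of_pow_eq_one h0
    rw [hj] at h1
    have h2 := (Nat.pow_dvd_pow_iff_le_right hp.out.one_lt).mp h1
    omega
  obtain ⟨b, hb, hbw⟩ := hw₁W
  have hstep : y * b * y⁻¹ = w₁ * b := by
    rw [hbw]
    group
  have hpow : ∀ i : ℕ, y ^ i * b * (y ^ i)⁻¹ = w₁ ^ i * b := by
    intro i
    induction i with
    | zero => simp
    | succ i ih =>
      calc y ^ (i + 1) * b * (y ^ (i + 1))⁻¹ = y * (y ^ i * b * (y ^ i)⁻¹) * y⁻¹ := by
            rw [pow_succ', mul_inv_rev]; group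
        _ = y * (w₁ ^ i * b) * y⁻¹ := by rw [ih]
        _ = (y * w₁ ^ i) * b * y⁻¹ := by group
        _ = (w₁ ^ i * y) * b * y⁻¹ := by rw [(hw₁y.pow_right i).eq]
        _ = w₁ ^ i * (y * b * y⁻¹) := by group
        _ = w₁ ^ i * (w₁ * b) := by rw [hstep]
        _ = w₁ ^ (i + 1) * b := by rw [pow_succ]; group
  have h1 := hpow p
  rw [hw₁p, one_mul] at h1
  have h2 : y ^ p * b = b * y ^ p := by
    calc y ^ p * b = y ^ p * b * (y ^ p)⁻¹ * y ^ p := by group
      _ = b * y ^ p := by rw [h1]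
  have h3 := hcz b hb h2
  apply hw₁1
  rw [hbw, h3]
  group

/-- **Itô's theorem.** -/
theorem ito_main (n : ℕ) (hn : 1 < n) (h : ∀ x : G, (cz x).index = 1 ∨ (cz x).index = n)
    (hex : ∃ x : G, (cz x).index = n) :
    ∃ (p : ℕ) (_ : Fact p.Prime) (a : ℕ), n = p ^ a ∧ ∀ P : Sylow p G, (P : Subgroup G).Normal ∧
      (∃ N : Subgroup G, N.Normal ∧ N.IsComplement' (P : Subgroup G) ∧ IsMulCommutative N ∧
        ∀ x ∈ N, ∀ y ∈ (P : Subgroup G), x * y = y * x) ∧
      ∃ A : Subgroup (P : Subgroup G), A.Normal ∧ IsMulCommutative A ∧ ∀ y : (P : Subgroup G), y ^ p ∈ A := by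
  classical
  obtain ⟨x₀, hx₀i⟩ := hex
  have hx₀ : x₀ ∉ Subgroup.center G := by
    intro h1
    have := cz_index_eq_one_iff.mpr h1
    omega
  set p := n.minFac with hpdef
  have hpp : p.Prime := Nat.minFac_prime (by omega)
  haveI hp : Fact p.Prime := ⟨hpp⟩
  have hpn : p ∣ n := Nat.minFac_dvd n
  have huniq : ∀ {d : ℕ}, d.Prime → d ∣ n → d = p := by
    intro d hd hdn
    by_contra hne
    exact not_two_primes hd hpp hne hn hdn hpn h hx₀
  have hnpow : n = p ^ n.primeFactorsList.length :=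
    Nat.eq_prime_pow_of_unique_prime_dvd (by omega) huniq
  refine ⟨p, hp, _, hnpow, ?_⟩
  -- `p'`-elements are central
  have hcentral : ∀ g : G, (orderOf g).Coprime p → g ∈ Subgroup.center G := by
    intro g hg
    by_contra hgc
    obtain ⟨q, k, x, hq, hk, hxc, -, hxz⟩ := exists_ppart h g hgc
    haveI : Fact q.Prime := ⟨hq⟩
    have hqn : q ∣ n := by
      by_contra hnd
      exact hxc (central_of_not_dvd h hnd hk)
    have hqp := huniq hq hqn
    have h1 : orderOf x ∣ orderOf g := by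
      obtain ⟨i, rfl⟩ := hxz
      exact orderOf_dvd_of_pow_eq_one (by
        simp only
        rw [← zpow_natCast, ← zpow_mul, mul_comm, zpow_mul, zpow_natCast, pow_orderOf_eq_one, one_zpow])
    rw [hk, hqp] at h1
    rcases k with _ | k
    · rw [pow_zero, orderOf_eq_one_iff] at hk
      rw [hk] at hxc
      exact hxc (Subgroup.one_mem _)
    · have h2 : p ∣ orderOf g := (dvd_pow_self p (by omega)).trans h1
      exact (Nat.Prime.coprime_iff_not_dvd hpp).mp hg.symm h2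
  let N : Subgroup G :=
    { carrier := {g | (orderOf g).Coprime p}
      mul_mem' := by
        rintro a b ha hb
        have hc : Commute a b := (Subgroup.mem_center_iff.mp (hcentral b hb) a)
        exact Nat.Coprime.coprime_dvd_left hc.orderOf_mul_dvd_mul_orderOf (Nat.Coprime.mul_left ha hb)
      one_mem' := by
        show (orderOf (1 : G)).Coprime p
        rw [orderOf_one]
        exact Nat.coprime_one_left p
      inv_mem' := by
        intro a ha
        show (orderOf a⁻¹).Coprime p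
        rw [orderOf_inv]
        exact ha }
  have hNc : N ≤ Subgroup.center G := fun g hg => hcentral g hg
  haveI hNn : N.Normal := by
    constructor
    intro n₀ hn₀ g
    rw [Subgroup.mem_center_iff.mp (hNc hn₀) g, mul_assoc, mul_inv_cancel, mul_one]
    exact hn₀
  have hNab : IsMulCommutative N :=
    ⟨⟨fun a b => Subtype.ext (Subgroup.mem_center_iff.mp (hNc a.2) b).symm⟩⟩
  have hNp : ¬ p ∣ Nat.card N := by
    intro hd
    obtain ⟨y, hy⟩ := exists_prime_orderOf_dvd_card' p hd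
    have h1 : (orderOf (y : G)).Coprime p := y.2
    rw [Subgroup.orderOf_coe, hy, Nat.coprime_self] at h1
    exact hpp.ne_one h1
  have hNq : IsPGroup p (G ⧸ N) := by
    intro q
    obtain ⟨g, rfl⟩ := QuotientGroup.mk_surjective q
    obtain ⟨a, b, e, -, ⟨k, hk⟩, hb, -, -⟩ := exists_primary_decomp p g
    refine ⟨k, ?_⟩
    have h1 : (b : G ⧸ N) = 1 := (QuotientGroup.eq_one_iff b).mpr hb
    rw [e, QuotientGroup.mk_mul, h1, mul_one, ← QuotientGroup.mk_pow, ← hk, pow_orderOf_eq_one,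
      QuotientGroup.mk_one]
  obtain ⟨c, hc⟩ := IsPGroup.iff_card.mp hNq
  have hNcard : Nat.card N * p ^ c = Nat.card G := by
    rw [← hc]
    exact N.card_mul_index
  have hfac : (Nat.card G).factorization p = c := by
    have hN0 : Nat.card N ≠ 0 := Nat.card_pos.ne'
    rw [← hNcard, Nat.factorization_mul hN0 (pow_ne_zero _ hpp.ne_zero), Finsupp.add_apply,
      Nat.factorization_eq_zero_of_not_dvd hNp, hpp.factorization_pow, Finsupp.single_eq_same, zero_add]
  intro P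
  have hPcard : Nat.card P = p ^ c := by
    rw [← hfac]
    exact P.card_eq_multiplicity
  have hPcard' : Nat.card (P : Subgroup G) = p ^ c := hPcard
  have hcompl : N.IsComplement' (P : Subgroup G) := by
    apply Subgroup.isComplement'_of_coprime
    · rw [hPcard', hNcard]
    · rw [hPcard']
      exact (Nat.Coprime.pow_left c ((Nat.Prime.coprime_iff_not_dvd hpp).2 hNp)).symm
  have hPn : (P : Subgroup G).Normal := by
    constructor
    intro s hs g
    have hg : g ∈ (P : Subgroup G) ⊔ N := by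
      rw [hcompl.symm.sup_eq_top]
      exact Subgroup.mem_top g
    obtain ⟨y, hy, z, hz, rfl⟩ := Subgroup.mem_sup_of_normal_right.mp hg
    have h1 := Subgroup.mem_center_iff.mp (hNc hz) s
    have h2 : y * z * s * (y * z)⁻¹ = y * s * y⁻¹ := by
      calc y * z * s * (y * z)⁻¹ = y * (z * s) * z⁻¹ * y⁻¹ := by group
        _ = y * (s * z) * z⁻¹ * y⁻¹ := by rw [← h1]
        _ = y * s * y⁻¹ := by group
    rw [h2]
    exact Subgroup.mul_mem _ (Subgroup.mul_mem _ hy hs) (Subgroup.inv_mem _ hy)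
  refine ⟨hPn, ⟨N, hNn, hcompl, hNab, ?_⟩, ?_⟩
  · intro x hx y _
    exact (Subgroup.mem_center_iff.mp (hNc hx) y).symm
  -- the abelian normal subgroup
  haveI : Group.IsNilpotent (P : Subgroup G) := P.isPGroup'.isNilpotent
  obtain ⟨A, hAn, hAab, hAc⟩ := H14.exists_normal_abelian_selfCentralizing (G := (P : Subgroup G))
  refine ⟨A, hAn, hAab, ?_⟩
  intro y
  have hmemA : ∀ w : (P : Subgroup G), (∀ a ∈ A, w * a = a * w) → w ∈ A := by
    intro w hw
    apply hAc
    rw [Subgroup.mem_centralizer_iff]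
    intro a ha
    exact (hw a ha).symm
  by_cases hc : ((y : G) ^ p) ∈ Subgroup.center G
  · apply hmemA
    intro a _
    apply Subtype.ext
    have h1 := Subgroup.mem_center_iff.mp hc (a : G)
    simpa using h1.symm
  · have hcz := cz_eq_cz_pow h hc
    set A₀ : Subgroup G := A.map (P : Subgroup G).subtype with hA₀
    have hA₀p : IsPGroup p A₀ := (P.isPGroup'.to_subgroup A).map _
    have hA₀ab : ∀ a ∈ A₀, ∀ b ∈ A₀, a * b = b * a := by
      rintro _ ⟨a, ha, rfl⟩ _ ⟨b, hb, rfl⟩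
      exact congrArg Subtype.val (mul_comm_of_isMulCommutative hAab ha hb)
    obtain ⟨j, hj⟩ := orderOf_of_mem_isPGroup P.isPGroup' y.2
    have hy0 := centralizes_of_cz_pow hA₀p hA₀ab hj (by
      apply mem_normalizer_of_conj_le
      rintro _ ⟨a, ha, rfl⟩
      exact ⟨y * a * y⁻¹, hAn.conj_mem a ha y, rfl⟩) (by
      intro a _ h2
      have h3 : a ∈ cz ((y : G) ^ p) := mem_cz.mpr h2.symm
      rw [← hcz] at h3
      exact (mem_cz.mp h3).symm)
    have hyA : y ∈ A := by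
      apply hmemA
      intro a ha
      apply Subtype.ext
      exact hy0 a ⟨a, ha, rfl⟩
    exact A.pow_mem hyA p

end Cfsg.Agent.H19
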