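import Mathlib
import Cfsg.Agent.Lib.H14.UniqueSub

/-!
Homomorphisms from a noncyclic `p`-group to a group of order `p`, and complements of a central
subgroup of order `p`.
-/

set_option autoImplicit false

namespace Cfsg.Agent.H19.KulH

universe u

/-- There are at least `p ^ 2` homomorphisms. -/
theorem sq_dvd_card_hom {X T : Type*} [Group X] [Finite X] [Group T] {p : ℕ} [hp : Fact p.Prime]
    (hX : IsPGroup p X) (hc : ¬ IsCyclic X) (hT : Nat.card T = p) :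
    p ^ 2 ∣ Nat.card (X →* T) := by
  classical
  haveI : Finite T := Nat.finite_of_card_ne_zero (by rw [hT]; exact hp.out.ne_zero)
  haveI hTc : IsCyclic T := isCyclic_of_prime_card hT
  letI : CommGroup T := IsCyclic.commGroup
  haveI : Finite (X →* T) := by
    apply Finite.of_injective (fun f : X →* T => (f : X → T))
    intro f g h
    exact DFunLike.coe_injective h
  have hpow : ∀ t : T, t ^ p = 1 := by
    intro t
    rw [← hT]
    exact pow_card_eq_one'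
  have hH : IsPGroup p (X →* T) := by
    intro f
    refine ⟨1, ?_⟩
    ext x
    simp [hpow]
  obtain ⟨e, he⟩ := IsPGroup.iff_card.mp hH
  rw [he]
  haveI : Nontrivial X := by
    by_contra hnt
    rw [not_nontrivial_iff_subsingleton] at hnt
    exact hc inferInstance
  obtain ⟨M₁, hM₁⟩ : ∃ M : Subgroup X, IsCoatom M := by
    rcases eq_top_or_exists_le_coatom (⊥ : Subgroup X) with h | ⟨M, hM, -⟩
    · exact absurd h bot_ne_top
    · exact ⟨M, hM⟩
  obtain ⟨x, hx⟩ : ∃ x : X, x ∉ M₁ := by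
    by_contra hno
    push_neg at hno
    exact hM₁.1 ((Subgroup.eq_top_iff' M₁).mpr hno)
  obtain ⟨M₂, hM₂, hxM₂⟩ : ∃ M : Subgroup X, IsCoatom M ∧ x ∈ M := by
    rcases eq_top_or_exists_le_coatom (Subgroup.zpowers x) with h | ⟨M, hM, hle⟩
    · exfalso
      apply hc
      refine ⟨x, fun y => ?_⟩
      have hy : y ∈ Subgroup.zpowers x := by rw [h]; trivial
      exact hy
    · exact ⟨M, hM, hle (Subgroup.mem_zpowers x)⟩
  have hne : M₁ ≠ M₂ := by
    rintro rfl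
    exact hx hxM₂
  obtain ⟨hM₁n, hM₁i⟩ := Cfsg.Agent.H14.coatom_normal_index hX hM₁
  obtain ⟨hM₂n, hM₂i⟩ := Cfsg.Agent.H14.coatom_normal_index hX hM₂
  haveI := hM₁n
  haveI := hM₂n
  obtain ⟨y, hy, hyM₂⟩ : ∃ y ∈ M₁, y ∉ M₂ := by
    by_contra hno
    push_neg at hno
    exact hne ((hM₁.le_iff_eq hM₂.1).mp hno).symm
  obtain ⟨f₁, hf₁⟩ : ∃ f : X →* T, ∀ w, f w = 1 ↔ w ∈ M₁ := by
    have e : (X ⧸ M₁) ≃* T := mulEquivOfPrimeCardEq (p := p) hM₁i hT
    refine ⟨e.toMonoidHom.comp (QuotientGroup.mk' M₁), fun w => ?_⟩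
    simp only [MonoidHom.comp_apply, MulEquiv.toMonoidHom_eq_coe, MonoidHom.coe_coe,
      EmbeddingLike.map_eq_one_iff, QuotientGroup.mk'_apply, QuotientGroup.eq_one_iff]
  obtain ⟨f₂, hf₂⟩ : ∃ f : X →* T, ∀ w, f w = 1 ↔ w ∈ M₂ := by
    have e : (X ⧸ M₂) ≃* T := mulEquivOfPrimeCardEq (p := p) hM₂i hT
    refine ⟨e.toMonoidHom.comp (QuotientGroup.mk' M₂), fun w => ?_⟩
    simp only [MonoidHom.comp_apply, MulEquiv.toMonoidHom_eq_coe, MonoidHom.coe_coe,
      EmbeddingLike.map_eq_one_iff, QuotientGroup.mk'_apply, QuotientGroup.eq_one_iff]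
  let g : Fin p × Fin p → (X →* T) := fun ij => f₁ ^ ij.1.val * f₂ ^ ij.2.val
  have hg : Function.Injective g := by
    rintro ⟨i, j⟩ ⟨i', j'⟩ h
    have h1 := DFunLike.congr_fun h x
    have h2 := DFunLike.congr_fun h y
    simp only [g, MonoidHom.mul_apply, MonoidHom.pow_apply] at h1 h2
    rw [(hf₂ x).mpr hxM₂, one_pow, one_pow, mul_one, mul_one] at h1
    rw [(hf₁ y).mpr hy, one_pow, one_pow, one_mul, one_mul] at h2
    have ho1 : orderOf (f₁ x) = p := orderOf_eq_prime (hpow _) (fun h => hx ((hf₁ x).mp h))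
    have ho2 : orderOf (f₂ y) = p := orderOf_eq_prime (hpow _) (fun h => hyM₂ ((hf₂ y).mp h))
    have h3 : i.val = i'.val := pow_injOn_Iio_orderOf (by rw [Set.mem_Iio, ho1]; exact i.2)
      (by rw [Set.mem_Iio, ho1]; exact i'.2) h1
    have h4 : j.val = j'.val := pow_injOn_Iio_orderOf (by rw [Set.mem_Iio, ho2]; exact j.2)
      (by rw [Set.mem_Iio, ho2]; exact j'.2) h2
    rw [Fin.ext h3, Fin.ext h4]
  have hle := Nat.card_le_card_of_injective g hg
  rw [Nat.card_prod, Nat.card_eq_fintype_card, Fintype.card_fin, he] at hle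
  have hle2 : p ^ 2 ≤ p ^ e := by
    rw [pow_two]
    exact hle
  have h2e : 2 ≤ e := (Nat.pow_le_pow_iff_right hp.out.one_lt).mp hle2
  exact pow_dvd_pow p h2e

section compl

variable {G : Type u} [Group G] [Finite G]

/-- the homomorphism twisted by `φ`. -/
def twist (X Z : Subgroup G) (hZ : ∀ a ∈ Z, ∀ g : G, a * g = g * a) (φ : X →* Z) : X →* G where
  toFun x := x.1 * (φ x).1
  map_one' := by simp
  map_mul' := by
    intro a b
    simp only [Subgroup.coe_mul, map_mul]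
    have := hZ (φ a).1 (φ a).2 b.1
    calc a.1 * b.1 * ((φ a).1 * (φ b).1) = a.1 * (b.1 * (φ a).1) * (φ b).1 := by group
      _ = a.1 * ((φ a).1 * b.1) * (φ b).1 := by rw [this]
      _ = a.1 * (φ a).1 * (b.1 * (φ b).1) := by group

theorem twist_apply (X Z : Subgroup G) (hZ : ∀ a ∈ Z, ∀ g : G, a * g = g * a) (φ : X →* Z) (x : X) :
    twist X Z hZ φ x = x.1 * (φ x).1 := rfl

theorem twist_injective {X Z : Subgroup G} (hZ : ∀ a ∈ Z, ∀ g : G, a * g = g * a)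
    (hXZ : X ⊓ Z = ⊥) (φ : X →* Z) : Function.Injective (twist X Z hZ φ) := by
  rw [injective_iff_map_eq_one]
  intro x hx
  rw [twist_apply] at hx
  have h1 : x.1 = (φ x).1⁻¹ := eq_inv_of_mul_eq_one_left hx
  have h2 : x.1 ∈ X ⊓ Z := ⟨x.2, by rw [h1]; exact Z.inv_mem (φ x).2⟩
  rw [hXZ, Subgroup.mem_bot] at h2
  exact Subtype.ext h2

theorem twist_range_inf {X Z : Subgroup G} (hZ : ∀ a ∈ Z, ∀ g : G, a * g = g * a)
    (hXZ : X ⊓ Z = ⊥) (φ : X →* Z) : (twist X Z hZ φ).range ⊓ Z = ⊥ := by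
  rw [eq_bot_iff]
  rintro w ⟨⟨x, rfl⟩, hw⟩
  rw [twist_apply] at hw ⊢
  have h1 : x.1 ∈ X ⊓ Z := by
    refine ⟨x.2, ?_⟩
    have h2 := Z.mul_mem hw (Z.inv_mem (φ x).2)
    rwa [mul_inv_cancel_right] at h2
  rw [hXZ, Subgroup.mem_bot] at h1
  have h3 : x = 1 := Subtype.ext h1
  rw [h3]
  simp

theorem twist_range_sup {X Z : Subgroup G} (hZ : ∀ a ∈ Z, ∀ g : G, a * g = g * a)
    (φ : X →* Z) : (twist X Z hZ φ).range ⊔ Z = X ⊔ Z := by
  apply le_antisymm
  · apply sup_le _ le_sup_right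
    rintro _ ⟨x, rfl⟩
    rw [twist_apply]
    exact Subgroup.mul_mem _ ((le_sup_left : X ≤ X ⊔ Z) x.2) ((le_sup_right : Z ≤ X ⊔ Z) (φ x).2)
  · apply sup_le _ le_sup_right
    intro x hx
    have h1 : x = twist X Z hZ φ ⟨x, hx⟩ * ((φ ⟨x, hx⟩).1)⁻¹ := by
      rw [twist_apply, mul_inv_cancel_right]
    rw [h1]
    exact Subgroup.mul_mem _ ((le_sup_left : (twist X Z hZ φ).range ≤ _) ⟨_, rfl⟩)
      ((le_sup_right : Z ≤ _) (Z.inv_mem (φ _).2))

theorem twist_range_inj {X Z : Subgroup G} (hZ : ∀ a ∈ Z, ∀ g : G, a * g = g * a)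
    (hXZ : X ⊓ Z = ⊥) {φ φ' : X →* Z} (h : (twist X Z hZ φ).range = (twist X Z hZ φ').range) :
    φ = φ' := by
  ext x
  have h1 : twist X Z hZ φ x ∈ (twist X Z hZ φ').range := by
    rw [← h]
    exact ⟨x, rfl⟩
  obtain ⟨x', hx'⟩ := h1
  rw [twist_apply, twist_apply] at hx'
  have h2 : x'.1⁻¹ * x.1 = (φ' x').1 * ((φ x).1)⁻¹ := by
    have h3 : x.1 = x'.1 * (φ' x').1 * ((φ x).1)⁻¹ := by
      rw [hx', mul_inv_cancel_right]
    rw [h3]
    group
  have h4 : x'.1⁻¹ * x.1 ∈ X ⊓ Z :=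
    ⟨X.mul_mem (X.inv_mem x'.2) x.2, by rw [h2]; exact Z.mul_mem (φ' x').2 (Z.inv_mem (φ x).2)⟩
  rw [hXZ, Subgroup.mem_bot] at h4
  have h5 : x'.1 = x.1 := by
    have := mul_eq_one_iff_eq_inv.mp h4
    exact inv_injective this
  have h6 : x' = x := Subtype.ext h5
  rw [h6] at hx'
  exact mul_left_cancel hx'.symm

theorem twist_surj {X Z H : Subgroup G} (hZ : ∀ a ∈ Z, ∀ g : G, a * g = g * a)
    (hH : H ⊓ Z = ⊥) (hsup : H ⊔ Z = X ⊔ Z) : ∃ φ : X →* Z, (twist X Z hZ φ).range = H := by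
  classical
  haveI hZn : Z.Normal := by
    constructor
    intro n hn g
    have := hZ n hn g
    rw [← this, mul_assoc, mul_inv_cancel, mul_one]
    exact hn
  have hdec : ∀ x : X, ∃ h ∈ H, ∃ ζ ∈ Z, h * ζ = x.1 := by
    intro x
    have : x.1 ∈ H ⊔ Z := by
      rw [hsup]
      exact (le_sup_left : X ≤ X ⊔ Z) x.2
    exact Subgroup.mem_sup_of_normal_right.mp this
  choose h hh ζ hζ hhζ using hdec
  have huniq : ∀ {a a' b b' : G}, a ∈ H → a' ∈ H → b ∈ Z → b' ∈ Z → a * b = a' * b' → a = a' ∧ b = b' := by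
    intro a a' b b' ha ha' hb hb' he
    have h1 : a'⁻¹ * a = b' * b⁻¹ := by
      calc a'⁻¹ * a = a'⁻¹ * (a * b) * b⁻¹ := by group
        _ = a'⁻¹ * (a' * b') * b⁻¹ := by rw [he]
        _ = b' * b⁻¹ := by group
    have h2 : a'⁻¹ * a ∈ H ⊓ Z := ⟨H.mul_mem (H.inv_mem ha') ha, by rw [h1]; exact Z.mul_mem hb' (Z.inv_mem hb)⟩
    rw [hH, Subgroup.mem_bot] at h2
    have h3 : a = a' := by
      have := mul_eq_one_iff_eq_inv.mp h2
      exact (inv_injective this).symm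
    subst h3
    exact ⟨rfl, (mul_left_cancel he)⟩
  have hmul : ∀ x y : X, ζ (x * y) = ζ x * ζ y ∧ h (x * y) = h x * h y := by
    intro x y
    have h1 : h (x * y) * ζ (x * y) = (h x * h y) * (ζ x * ζ y) := by
      rw [hhζ]
      simp only [Subgroup.coe_mul]
      rw [← hhζ x, ← hhζ y]
      have := hZ (ζ x) (hζ x) (h y)
      calc h x * ζ x * (h y * ζ y) = h x * (ζ x * h y) * ζ y := by group
        _ = h x * (h y * ζ x) * ζ y := by rw [this]
        _ = h x * h y * (ζ x * ζ y) := by group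
    have h2 := huniq (hh _) (H.mul_mem (hh x) (hh y)) (hζ _) (Z.mul_mem (hζ x) (hζ y)) h1
    exact ⟨h2.2, h2.1⟩
  let φ : X →* Z := MonoidHom.mk' (fun x => (⟨(ζ x)⁻¹, Z.inv_mem (hζ x)⟩ : Z)) (by
    intro x y
    apply Subtype.ext
    simp only [Subgroup.coe_mul]
    rw [(hmul x y).1, mul_inv_rev]
    exact (hZ _ (Z.inv_mem (hζ y)) _))
  refine ⟨φ, ?_⟩
  apply le_antisymm
  · rintro _ ⟨x, rfl⟩
    rw [twist_apply]
    change x.1 * (ζ x)⁻¹ ∈ H
    rw [← hhζ x, mul_inv_cancel_right]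
    exact hh x
  · intro a ha
    have h1 : a ∈ X ⊔ Z := by
      rw [← hsup]
      exact (le_sup_left : H ≤ H ⊔ Z) ha
    obtain ⟨x, hx, b, hb, hxb⟩ := Subgroup.mem_sup_of_normal_right.mp h1
    refine ⟨⟨x, hx⟩, ?_⟩
    rw [twist_apply]
    change x * (ζ ⟨x, hx⟩)⁻¹ = a
    have h2 : h ⟨x, hx⟩ * ζ ⟨x, hx⟩ = a * b⁻¹ := by
      rw [hhζ, ← hxb]
      group
    have h3 := huniq (hh _) ha (hζ _) (Z.inv_mem hb) h2
    rw [← hxb, h3.2]
    group

/-- The count: `p ^ 2` divides the number of noncyclic subgroups of order `p ^ k` missing `Z`. -/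
theorem sq_dvd_noncyclic {p : ℕ} [hp : Fact p.Prime] (hG : IsPGroup p G) (Z : Subgroup G)
    (hZ : ∀ a ∈ Z, ∀ g : G, a * g = g * a) (hZc : Nat.card Z = p) (k : ℕ) :
    p ^ 2 ∣ Nat.card {H : Subgroup G // Nat.card H = p ^ k ∧ ¬ Z ≤ H ∧ ¬ IsCyclic H} := by
  classical
  haveI := Fintype.ofFinite (Subgroup G)
  set 𝓝 := {H : Subgroup G // Nat.card H = p ^ k ∧ ¬ Z ≤ H ∧ ¬ IsCyclic H} with h𝓝
  haveI : Fintype 𝓝 := Fintype.ofFinite _
  let f : 𝓝 → Subgroup G := fun H => H.1 ⊔ Z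
  have hinf : ∀ H : Subgroup G, ¬ Z ≤ H → H ⊓ Z = ⊥ := by
    intro H hH
    have h1 : Nat.card (H ⊓ Z : Subgroup G) ∣ p := by
      rw [← hZc]
      exact Subgroup.card_dvd_of_le inf_le_right
    rcases (Nat.dvd_prime hp.out).mp h1 with h2 | h2
    · exact Subgroup.card_eq_one.mp h2
    · exfalso
      apply hH
      have h3 : (H ⊓ Z : Subgroup G) = Z :=
        Subgroup.eq_of_le_of_card_ge inf_le_right (by rw [h2, hZc])
      rw [← h3]
      exact inf_le_left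
  have hcard : Nat.card 𝓝 = Nat.card (Σ L : Subgroup G, {H : 𝓝 // f H = L}) :=
    Nat.card_congr (Equiv.sigmaFiberEquiv f).symm
  rw [hcard, Nat.card_sigma]
  apply Finset.dvd_sum
  intro L _
  by_cases hne : Nonempty {H : 𝓝 // f H = L}
  · obtain ⟨⟨X₀, hX₀⟩⟩ := hne
    have hX₀inf := hinf X₀.1 X₀.2.2.1
    have hcyc : ¬ IsCyclic X₀.1 := X₀.2.2.2
    have hdvd := sq_dvd_card_hom (X := X₀.1) (T := Z) (p := p) (hG.to_subgroup _) hcyc hZc
    suffices h : Nat.card {H : 𝓝 // f H = L} = Nat.card (X₀.1 →* Z) by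
      rw [h]
      exact hdvd
    symm
    apply Nat.card_congr
    refine Equiv.ofBijective (fun φ => ⟨⟨(twist X₀.1 Z hZ φ).range, ?_, ?_, ?_⟩, ?_⟩) ⟨?_, ?_⟩
    · exact (Nat.card_congr (MonoidHom.ofInjective (twist_injective hZ hX₀inf φ)).symm.toEquiv).trans
        X₀.2.1
    · intro h
      have h1 := twist_range_inf hZ hX₀inf φ
      rw [inf_eq_right.mpr h] at h1
      apply (Nat.Prime.ne_one hp.out)
      rw [← hZc, h1, Subgroup.card_bot]
    · intro h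
      apply hcyc
      haveI := h
      exact isCyclic_of_injective (MonoidHom.ofInjective (twist_injective hZ hX₀inf φ)).toMonoidHom
        (MonoidHom.ofInjective (twist_injective hZ hX₀inf φ)).injective
    · change (twist X₀.1 Z hZ φ).range ⊔ Z = L
      rw [twist_range_sup]
      exact hX₀
    · intro φ φ' h
      have h1 := congrArg (fun w => w.1.1) h
      exact twist_range_inj hZ hX₀inf h1
    · rintro ⟨⟨H, h1, h2, h3⟩, hH⟩
      have hsup : H ⊔ Z = X₀.1 ⊔ Z := by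
        have e1 : f X₀ = L := hX₀
        have e2 : f ⟨H, h1, h2, h3⟩ = L := hH
        exact e2.trans e1.symm
      obtain ⟨φ, hφ⟩ := twist_surj hZ (hinf H h2) hsup
      refine ⟨φ, ?_⟩
      apply Subtype.ext
      apply Subtype.ext
      exact hφ
  · rw [not_nonempty_iff] at hne
    rw [Nat.card_of_isEmpty]
    exact dvd_zero _

end compl

end Cfsg.Agent.H19.KulH
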