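import Mathlib
import Cfsg.Agent.Lib.H19.KulHom
import Cfsg.Agent.Lib.H19.Kulakoff
import Cfsg.Agent.Lib.H19.Kulakoff2
import Cfsg.Agent.Lib.H19.MaxClass

/-!
The number of subgroups of order `p ^ k` and the number of solutions of `x ^ (p ^ k) = 1`.
-/

set_option autoImplicit false

namespace Cfsg.Agent.H19.KulH

universe u

theorem exists_central_order {G : Type*} [Group G] [Finite G] {p : ℕ} [hp : Fact p.Prime]
    (hG : IsPGroup p G) (hne : Nontrivial G) :
    ∃ z : G, orderOf z = p ∧ ∀ a : G, a * z = z * a := by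
  haveI := hG.center_nontrivial
  have hC : (Subgroup.center G) ≠ ⊥ := by
    intro h
    have h2 : Nontrivial (Subgroup.center G) := inferInstance
    rw [h] at h2
    exact not_nontrivial_iff_subsingleton.mpr inferInstance h2
  have hcard : 1 < Nat.card (Subgroup.center G) := (Subgroup.one_lt_card_iff_ne_bot _).mpr hC
  have hdvd : p ∣ Nat.card (Subgroup.center G) := by
    obtain ⟨n, hn⟩ := IsPGroup.iff_card.mp (hG.to_subgroup (Subgroup.center G))
    rw [hn] at hcard ⊢
    rcases n with _ | n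
    · simp at hcard
    · exact dvd_pow_self p (Nat.succ_ne_zero n)
  obtain ⟨z, hz⟩ := exists_prime_orderOf_dvd_card' p hdvd
  refine ⟨z.1, ?_, ?_⟩
  · rw [← hz]
    exact (Subgroup.orderOf_coe z)
  · intro a
    exact (Subgroup.mem_center_iff.mp z.2 a)

theorem card_split {α : Type*} [Finite α] (Q P : α → Prop) :
    Nat.card {x // Q x} = Nat.card {x // Q x ∧ P x} + Nat.card {x // Q x ∧ ¬ P x} := by
  classical
  haveI := Fintype.ofFinite α
  simp only [Nat.card_eq_fintype_card, Fintype.card_subtype]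
  rw [← Finset.card_filter_add_card_filter_not (s := Finset.univ.filter Q) P, Finset.filter_filter,
    Finset.filter_filter]

section

variable {G : Type u} [Group G] [Finite G] {p : ℕ} [hp : Fact p.Prime]

theorem claim1 (z : G) (Z : Subgroup G) [Z.Normal] (hZc : Nat.card Z = p) (k : ℕ) :
    Nat.card {H : Subgroup G // Nat.card H = p ^ (k + 1) ∧ Z ≤ H} =
      Nat.card {Y : Subgroup (G ⧸ Z) // Nat.card Y = p ^ k} := by
  apply Nat.card_congr
  refine ⟨fun H => ⟨H.1.map (QuotientGroup.mk' Z), ?_⟩, fun Y => ⟨Y.1.comap (QuotientGroup.mk' Z), ?_, ?_⟩,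
    ?_, ?_⟩
  · have h1 := Cfsg.Agent.H19.card_map_mk_mul_card H.2.2
    rw [H.2.1, hZc] at h1
    exact Nat.eq_of_mul_eq_mul_right hp.out.pos (h1.trans (pow_succ p k))
  · rw [Cfsg.Agent.H19.card_comap_mk, Y.2, hZc, pow_succ]
  · intro w hw
    rw [Subgroup.mem_comap, QuotientGroup.mk'_apply, (QuotientGroup.eq_one_iff w).mpr hw]
    exact Y.1.one_mem
  · rintro ⟨H, h1, h2⟩
    apply Subtype.ext
    exact Subgroup.comap_map_eq_self (by rwa [QuotientGroup.ker_mk'])
  · rintro ⟨Y, hY⟩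
    apply Subtype.ext
    exact Subgroup.map_comap_eq_self_of_surjective (QuotientGroup.mk'_surjective Z) Y

theorem zpowers_eq_of_mem {Z : Subgroup G} (hZc : Nat.card Z = p) {w : G} (hw : w ∈ Z) (hne : w ≠ 1) :
    Subgroup.zpowers w = Z := by
  have h1 : Subgroup.zpowers w ≤ Z := Subgroup.zpowers_le.mpr hw
  have h2 : Nat.card (Subgroup.zpowers w) ∣ p := by
    rw [← hZc]
    exact Subgroup.card_dvd_of_le h1
  rcases (Nat.dvd_prime hp.out).mp h2 with h3 | h3
  · exfalso
    apply hne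
    have := Subgroup.card_eq_one.mp h3
    rwa [Subgroup.zpowers_eq_bot] at this
  · exact Subgroup.eq_of_le_of_card_ge h1 (by rw [h3, hZc])

theorem claim2 (Z : Subgroup G) (hZc : Nat.card Z = p) (k : ℕ) :
    Nat.card {g : G // g ^ p ^ (k + 1) = 1 ∧ g ^ p ^ k ∉ Z} =
      Nat.card {H : Subgroup G // (Nat.card H = p ^ (k + 1) ∧ ¬ Z ≤ H) ∧ IsCyclic H} *
        Nat.totient (p ^ (k + 1)) := by
  classical
  set B := {g : G // g ^ p ^ (k + 1) = 1 ∧ g ^ p ^ k ∉ Z} with hB
  set A := {H : Subgroup G // (Nat.card H = p ^ (k + 1) ∧ ¬ Z ≤ H) ∧ IsCyclic H} with hA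
  haveI : Fintype A := Fintype.ofFinite _
  have hfw : ∀ g : B, (Nat.card (Subgroup.zpowers g.1) = p ^ (k + 1) ∧ ¬ Z ≤ Subgroup.zpowers g.1) ∧
      IsCyclic (Subgroup.zpowers g.1) := by
    rintro ⟨g, h1, h2⟩
    have hne : g ^ p ^ k ≠ 1 := fun h => h2 (by rw [h]; exact Z.one_mem)
    have hord : orderOf g = p ^ (k + 1) := orderOf_eq_prime_pow hne h1
    refine ⟨⟨by rw [Nat.card_zpowers, hord], ?_⟩, inferInstance⟩
    intro hle
    obtain ⟨z, hz, hz1⟩ : ∃ z ∈ Z, z ≠ 1 := by
      by_contra hno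
      push_neg at hno
      have : Z = ⊥ := (Subgroup.eq_bot_iff_forall _).mpr hno
      rw [this, Subgroup.card_bot] at hZc
      exact hp.out.ne_one hZc.symm
    have hzo : orderOf z = p := by
      apply orderOf_eq_prime _ hz1
      have : (⟨z, hz⟩ : Z) ^ p = 1 := by
        rw [← hZc]
        exact pow_card_eq_one'
      exact congrArg Subtype.val this
    have hwo : orderOf (g ^ p ^ k) = p := by
      apply orderOf_eq_prime _ hne
      rw [← pow_mul, ← pow_succ]
      exact h1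
    have hu := Cfsg.Agent.H19.uniqueP_of_isCyclic (G := Subgroup.zpowers g) (p := p)
      (x := ⟨z, hle hz⟩) (y := ⟨g ^ p ^ k, Subgroup.npow_mem_zpowers g _⟩)
      (by rw [Subgroup.orderOf_mk, hzo]) (by rw [Subgroup.orderOf_mk, hwo])
    obtain ⟨i, hi⟩ := Subgroup.mem_zpowers_iff.mp hu
    have hi2 := congrArg Subtype.val hi
    simp only [Subgroup.coe_zpow] at hi2
    apply h2
    rw [← hi2]
    exact Z.zpow_mem hz i
  let f : B → A := fun g => ⟨Subgroup.zpowers g.1, hfw g⟩
  have hcard : Nat.card B = Nat.card (Σ H : A, {g : B // f g = H}) :=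
    Nat.card_congr (Equiv.sigmaFiberEquiv f).symm
  rw [hcard, Nat.card_sigma]
  have hfib : ∀ H : A, Nat.card {g : B // f g = H} = Nat.totient (p ^ (k + 1)) := by
    rintro ⟨H, ⟨hH1, hH2⟩, hH3⟩
    have hgen := Cfsg.Agent.H19.card_gen H hH3
    rw [hH1] at hgen
    rw [← hgen]
    apply Nat.card_congr
    refine ⟨fun g => ⟨g.1.1, congrArg Subtype.val g.2⟩, fun a => ⟨⟨a.1, ?_, ?_⟩, ?_⟩, ?_, ?_⟩
    · have hord : orderOf a.1 = p ^ (k + 1) := by
        have := Nat.card_zpowers a.1
        rw [a.2, hH1] at this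
        exact this.symm
      rw [← hord]
      exact pow_orderOf_eq_one a.1
    · intro hw
      have hord : orderOf a.1 = p ^ (k + 1) := by
        have := Nat.card_zpowers a.1
        rw [a.2, hH1] at this
        exact this.symm
      have hne : a.1 ^ p ^ k ≠ 1 := by
        intro h
        have h1 := orderOf_dvd_of_pow_eq_one h
        rw [hord] at h1
        have h2 := Nat.le_of_dvd (pow_pos hp.out.pos _) h1
        have h3 : p ^ k < p ^ (k + 1) := Nat.pow_lt_pow_right hp.out.one_lt (Nat.lt_succ_self k)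
        omega
      have h2 := zpowers_eq_of_mem hZc hw hne
      apply hH2
      rw [← h2]
      have h5 : a.1 ∈ H := by
        have := Subgroup.mem_zpowers a.1
        rwa [a.2] at this
      exact Subgroup.zpowers_le.mpr (H.pow_mem h5 _)
    · apply Subtype.ext
      exact a.2
    · intro g
      rfl
    · intro a
      rfl
  simp only [hfib, Finset.sum_const, Finset.card_univ, smul_eq_mul]
  rw [Nat.card_eq_fintype_card]

theorem claim3 (Z : Subgroup G) [Z.Normal] (hZc : Nat.card Z = p) (k : ℕ) :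
    Cfsg.Agent.H19.sol G (p ^ (k + 1)) = Nat.card {g : G // g ^ p ^ (k + 1) = 1 ∧ g ^ p ^ k ∉ Z} +
      p * Cfsg.Agent.H19.sol (G ⧸ Z) (p ^ k) := by
  classical
  have h1 := card_split (fun g : G => g ^ p ^ (k + 1) = 1) (fun g : G => g ^ p ^ k ∉ Z)
  unfold Cfsg.Agent.H19.sol
  rw [h1]
  congr 1
  have e := QuotientGroup.preimageMkEquivSubgroupProdSet Z {y : G ⧸ Z | y ^ p ^ k = 1}
  suffices h2 : Nat.card {x : G // x ^ p ^ (k + 1) = 1 ∧ ¬ (x ^ p ^ k ∉ Z)} =
      Nat.card (Z × {y : G ⧸ Z // y ^ p ^ k = 1}) by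
    rw [h2, Nat.card_prod, hZc]
  apply Nat.card_congr
  refine Equiv.trans ?_ e
  refine Equiv.subtypeEquivRight ?_
  intro g
  simp only [Set.mem_preimage, Set.mem_setOf_eq, not_not]
  rw [← QuotientGroup.mk_pow, QuotientGroup.eq_one_iff]
  constructor
  · exact fun h => h.2
  · intro h
    refine ⟨?_, h⟩
    rw [pow_succ, pow_mul]
    have : (⟨g ^ p ^ k, h⟩ : Z) ^ Nat.card Z = 1 := pow_card_eq_one'
    rw [hZc] at this
    exact congrArg Subtype.val this

end

/-- **The universal congruence.** -/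
theorem univ_id {p : ℕ} [hp : Fact p.Prime] : ∀ N : ℕ, ∀ (G : Type u) [Group G] [Finite G],
    Nat.card G = N → IsPGroup p G → ∀ k : ℕ, p ^ k ∣ Nat.card G →
    ∃ a : ℕ, Cfsg.Agent.H19.sol G (p ^ k) = p ^ k * a ∧
      ((p - 1) * Nat.card {H : Subgroup G // Nat.card H = p ^ k} + 1 ≡ p * a [MOD p ^ 2]) := by
  intro N
  induction N using Nat.strong_induction_on with
  | _ N ih =>
  intro G _ _ hN hG k hk
  classical
  have hp1 := hp.out.one_lt
  rcases k with _ | k
  · refine ⟨1, ?_, ?_⟩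
    · unfold Cfsg.Agent.H19.sol
      simp
    · have h1 : Nat.card {H : Subgroup G // Nat.card H = p ^ 0} = 1 := by
        rw [Nat.card_eq_one_iff_unique]
        refine ⟨⟨?_⟩, ⟨⟨⊥, by simp⟩⟩⟩
        rintro ⟨a, ha⟩ ⟨b, hb⟩
        apply Subtype.ext
        rw [pow_zero] at ha hb
        exact (Subgroup.card_eq_one.mp ha).trans (Subgroup.card_eq_one.mp hb).symm
      rw [h1, mul_one, mul_one, Nat.sub_add_cancel hp1.le]
  · haveI hne : Nontrivial G := by
      by_contra hnt
      rw [not_nontrivial_iff_subsingleton] at hnt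
      have h1 : Nat.card G = 1 := Nat.card_of_subsingleton (1 : G)
      rw [h1] at hk
      have h2 := Nat.le_of_dvd one_pos hk
      have h3 : 1 < p ^ (k + 1) := Nat.one_lt_pow (by omega) hp1
      omega
    obtain ⟨z, hzo, hzc⟩ := exists_central_order hG hne
    set Z := Subgroup.zpowers z with hZ
    have hZc : Nat.card Z = p := by rw [hZ, Nat.card_zpowers, hzo]
    have hZcentral : ∀ a ∈ Z, ∀ g : G, a * g = g * a := by
      intro a ha g
      obtain ⟨i, rfl⟩ := Subgroup.mem_zpowers_iff.mp ha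
      have hc : Commute g z := hzc g
      exact (hc.zpow_right i).eq.symm
    haveI hZn : Z.Normal := by
      constructor
      intro n hn g
      have := hZcentral n hn g
      rw [← this, mul_assoc, mul_inv_cancel, mul_one]
      exact hn
    have hcardq : Nat.card (G ⧸ Z) * p = Nat.card G := by
      rw [← hZc]
      exact (Subgroup.card_eq_card_quotient_mul_card_subgroup Z).symm
    have hGpos : 0 < Nat.card G := Nat.card_pos
    have hltN : Nat.card (G ⧸ Z) < N := by
      rw [← hN, ← hcardq]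
      have : 0 < Nat.card (G ⧸ Z) := Nat.card_pos
      nlinarith
    have hkq : p ^ k ∣ Nat.card (G ⧸ Z) := by
      rw [← hcardq, pow_succ] at hk
      exact Nat.dvd_of_mul_dvd_mul_right hp.out.pos hk
    obtain ⟨b, hb1, hb2⟩ := ih _ hltN (G ⧸ Z) rfl (hG.to_quotient Z) k hkq
    obtain ⟨a, ha⟩ := Cfsg.Agent.H19.dvd_sol (G := G) hk
    refine ⟨a, ha, ?_⟩
    have hA := card_split (fun H : Subgroup G => Nat.card H = p ^ (k + 1)) (fun H => Z ≤ H)
    have hA2 := card_split (fun H : Subgroup G => Nat.card H = p ^ (k + 1) ∧ ¬ Z ≤ H)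
      (fun H => IsCyclic H)
    have h1 := claim1 z Z hZc k
    have h2 := claim2 Z hZc k
    have h3 := claim3 Z hZc k
    have h4 := sq_dvd_noncyclic hG Z hZcentral hZc (k + 1)
    have h4' : Nat.card {H : Subgroup G // (Nat.card H = p ^ (k + 1) ∧ ¬ Z ≤ H) ∧ ¬ IsCyclic H} =
        Nat.card {H : Subgroup G // Nat.card H = p ^ (k + 1) ∧ ¬ Z ≤ H ∧ ¬ IsCyclic H} := by
      apply Nat.card_congr
      apply Equiv.subtypeEquivRight
      intro H
      exact and_assoc
    rw [hA, hA2, h1, h4']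
    set c' := Nat.card {Y : Subgroup (G ⧸ Z) // Nat.card Y = p ^ k}
    set A2 := Nat.card {H : Subgroup G // (Nat.card H = p ^ (k + 1) ∧ ¬ Z ≤ H) ∧ IsCyclic H}
    set A3 := Nat.card {H : Subgroup G // Nat.card H = p ^ (k + 1) ∧ ¬ Z ≤ H ∧ ¬ IsCyclic H}
    rw [h2, ha, hb1, Nat.totient_prime_pow_succ hp.out] at h3
    have h5 : p * a = A2 * (p - 1) + p * b := by
      have h6 : p ^ k * (p * a) = p ^ k * (A2 * (p - 1) + p * b) := by
        calc p ^ k * (p * a) = p ^ (k + 1) * a := by ring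
          _ = A2 * (p ^ k * (p - 1)) + p * (p ^ k * b) := h3
          _ = p ^ k * (A2 * (p - 1) + p * b) := by ring
      exact Nat.eq_of_mul_eq_mul_left (pow_pos hp.out.pos _) h6
    have h7 : (p - 1) * (c' + (A2 + A3)) + 1 = ((p - 1) * c' + 1) + A2 * (p - 1) + (p - 1) * A3 := by
      ring
    rw [h7, h5]
    have h8 : (p - 1) * A3 ≡ 0 [MOD p ^ 2] := (Nat.modEq_zero_iff_dvd).mpr (Dvd.dvd.mul_left h4 _)
    have h9 := (hb2.add_right (A2 * (p - 1))).add h8
    rw [add_zero] at h9
    rw [add_comm (A2 * (p - 1)) (p * b)]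
    exact h9

end Cfsg.Agent.H19.KulH
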