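import Mathlib
import Cfsg.Agent.Lib.H19.KulId
import Cfsg.Agent.Lib.H19.NoV4
import Cfsg.Agent.Lib.H19.FrBound2

/-!
`4` divides the number of solutions of `x ^ 2 = 1` in a `2`-group with a normal abelian subgroup of
order `8` containing a normal four-group.
-/

set_option autoImplicit false

namespace Cfsg.Agent.H19.KulH

open scoped commutatorElement

universe u

section

variable {G : Type u} [Group G] [Finite G]

/-- the twisted square map on an abelian normal subgroup -/
def phiMap (N : Subgroup G) (hN : N.Normal) (hc : ∀ a ∈ N, ∀ b ∈ N, a * b = b * a) (x : G) : N →* N where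
  toFun n := ⟨x⁻¹ * n.1 * x * n.1, N.mul_mem (by
    have := hN.conj_mem n.1 n.2 x⁻¹
    simpa using this) n.2⟩
  map_one' := by
    apply Subtype.ext
    simp
  map_mul' := by
    intro a b
    apply Subtype.ext
    simp only [Subgroup.coe_mul]
    have h1 : x⁻¹ * b.1 * x ∈ N := by
      have := hN.conj_mem b.1 b.2 x⁻¹
      simpa using this
    have h2 := hc a.1 a.2 (x⁻¹ * b.1 * x) h1
    calc x⁻¹ * (a.1 * b.1) * x * (a.1 * b.1) = (x⁻¹ * a.1 * x) * ((x⁻¹ * b.1 * x) * a.1) * b.1 := by
          group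
      _ = (x⁻¹ * a.1 * x) * (a.1 * (x⁻¹ * b.1 * x)) * b.1 := by rw [← h2]
      _ = x⁻¹ * a.1 * x * a.1 * (x⁻¹ * b.1 * x * b.1) := by group

theorem phiMap_apply (N : Subgroup G) (hN : N.Normal) (hc : ∀ a ∈ N, ∀ b ∈ N, a * b = b * a) (x : G)
    (n : N) : (phiMap N hN hc x n : G) = x⁻¹ * n.1 * x * n.1 := rfl

/-- the count in the normal abelian subgroup -/
theorem four_dvd_ker (E N : Subgroup G) (hE : E.Normal) (hN : N.Normal) (hEN : E ≤ N)
    (hEc : Nat.card E = 4) (hEi : ∀ e ∈ E, e ^ 2 = 1) (hNc : Nat.card N = 8)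
    (hc : ∀ a ∈ N, ∀ b ∈ N, a * b = b * a) (x : G) (hx : x ^ 2 = 1) :
    4 ∣ Nat.card (phiMap N hN hc x).ker := by
  have hxi : x⁻¹ = x := by
    rw [inv_eq_iff_mul_eq_one, ← pow_two, hx]
  by_cases hcen : ∀ e ∈ E, x⁻¹ * e * x = e
  · have hle : E.subgroupOf N ≤ (phiMap N hN hc x).ker := by
      intro e he
      rw [Subgroup.mem_subgroupOf] at he
      rw [MonoidHom.mem_ker]
      apply Subtype.ext
      rw [phiMap_apply, hcen _ he, ← pow_two, hEi _ he]
      rfl
    have h1 := Subgroup.card_dvd_of_le hle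
    have h2 : Nat.card (E.subgroupOf N) = 4 := by
      rw [← hEc]
      exact Nat.card_congr (Subgroup.subgroupOfEquivOfLe hEN).toEquiv
    rwa [h2] at h1
  · push_neg at hcen
    obtain ⟨u, hu, hux⟩ := hcen
    -- the fixed points
    let F : Subgroup G :=
      { carrier := {w | w ∈ E ∧ x⁻¹ * w * x = w}
        one_mem' := ⟨E.one_mem, by simp⟩
        mul_mem' := by
          rintro a b ⟨ha, ha'⟩ ⟨hb, hb'⟩
          refine ⟨E.mul_mem ha hb, ?_⟩
          calc x⁻¹ * (a * b) * x = (x⁻¹ * a * x) * (x⁻¹ * b * x) := by group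
            _ = a * b := by rw [ha', hb']
        inv_mem' := by
          rintro a ⟨ha, ha'⟩
          refine ⟨E.inv_mem ha, ?_⟩
          calc x⁻¹ * a⁻¹ * x = (x⁻¹ * a * x)⁻¹ := by group
            _ = a⁻¹ := by rw [ha'] }
    have hFE : F ≤ E := fun w hw => hw.1
    have hFne : F ≠ E := by
      intro h
      have : u ∈ F := by rw [h]; exact hu
      exact hux this.2
    have hFc : Nat.card F ≤ 2 := by
      have h1 : Nat.card F ∣ 4 := by
        rw [← hEc]
        exact Subgroup.card_dvd_of_le hFE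
      have h2 : Nat.card F ≠ 4 := by
        intro h
        exact hFne (Subgroup.eq_of_le_of_card_ge hFE (by rw [h, hEc]))
      have h3 : Nat.card F ≤ 4 := Nat.le_of_dvd (by norm_num) h1
      interval_cases h : Nat.card F <;> first | omega | (exfalso; revert h1; decide)
    -- the image lies in the fixed points
    have hNE : ∀ n ∈ N, n ^ 2 ∈ E ∧ ∀ s : G, s⁻¹ * n * s * n⁻¹ ∈ E := by
      intro n hn
      haveI := hE
      -- `N / E` has order two
      have hq : Nat.card (N.map (QuotientGroup.mk' E)) = 2 := by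
        have h1 := Cfsg.Agent.H19.card_map_mk_mul_card hEN
        rw [hEc, hNc] at h1
        omega
      haveI hnorm : (N.map (QuotientGroup.mk' E)).Normal := hN.map _ (QuotientGroup.mk'_surjective E)
      have hmem : (n : G ⧸ E) ∈ N.map (QuotientGroup.mk' E) := ⟨n, hn, rfl⟩
      constructor
      · rw [← QuotientGroup.eq_one_iff, QuotientGroup.mk_pow]
        have h2 : (⟨(n : G ⧸ E), hmem⟩ : N.map (QuotientGroup.mk' E)) ^ 2 = 1 := by
          rw [← hq]
          exact pow_card_eq_one'
        exact congrArg Subtype.val h2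
      · intro s
        rw [← QuotientGroup.eq_one_iff]
        simp only [QuotientGroup.mk_mul, QuotientGroup.mk_inv]
        by_cases hne : (n : G ⧸ E) = 1
        · rw [hne]
          simp
        · have hconj : ((s : G ⧸ E))⁻¹ * (n : G ⧸ E) * (s : G ⧸ E) ∈ N.map (QuotientGroup.mk' E) := by
            have := hnorm.conj_mem _ hmem (s : G ⧸ E)⁻¹
            simpa using this
          -- the only nontrivial element
          have hne' : ((s : G ⧸ E))⁻¹ * (n : G ⧸ E) * (s : G ⧸ E) ≠ 1 := by
            intro h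
            apply hne
            have h3 : (n : G ⧸ E) = (s : G ⧸ E) * (((s : G ⧸ E))⁻¹ * (n : G ⧸ E) * (s : G ⧸ E)) * ((s : G ⧸ E))⁻¹ := by
              group
            rw [h3, h]
            group
          have hzp := zpowers_eq_of_mem (p := 2) (Z := N.map (QuotientGroup.mk' E)) hq hmem hne
          have hmem2 := hconj
          rw [← hzp] at hmem2
          rcases Cfsg.Agent.H19.mem_zpowers_two_cases (x := (s : G ⧸ E)⁻¹ * (n : G ⧸ E) * (s : G ⧸ E))
              (z := (n : G ⧸ E)) (by
                have h2 : (⟨(n : G ⧸ E), hmem⟩ : N.map (QuotientGroup.mk' E)) ^ 2 = 1 := by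
                  rw [← hq]
                  exact pow_card_eq_one'
                exact congrArg Subtype.val h2) hmem2 with h4 | h4
          · exact absurd h4 hne'
          · rw [h4]
            group
    have himg : ∀ n : N, (phiMap N hN hc x n : G) ∈ F := by
      intro n
      rw [phiMap_apply]
      have hnE := hNE n.1 n.2
      have h1 : x⁻¹ * n.1 * x * n.1 ∈ E := by
        have h2 := E.mul_mem (hnE.2 x) hnE.1
        have h3 : x⁻¹ * n.1 * x * n.1⁻¹ * n.1 ^ 2 = x⁻¹ * n.1 * x * n.1 := by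
          rw [pow_two]
          group
        rwa [h3] at h2
      refine ⟨h1, ?_⟩
      have h4 : x⁻¹ * n.1 * x ∈ N := by
        have := hN.conj_mem n.1 n.2 x⁻¹
        simpa using this
      have h5 := hc _ h4 _ n.2
      calc x⁻¹ * (x⁻¹ * n.1 * x * n.1) * x = x⁻¹ * x⁻¹ * n.1 * x * (n.1 * x) := by group
        _ = x * x⁻¹ * n.1 * x * (n.1 * x) := by rw [hxi]
        _ = n.1 * (x * n.1 * x) := by group
        _ = n.1 * (x⁻¹ * n.1 * x) := by rw [hxi]
        _ = x⁻¹ * n.1 * x * n.1 := h5.symm
    have hrange : Nat.card (phiMap N hN hc x).range ≤ 2 := by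
      refine le_trans ?_ hFc
      apply Nat.card_le_card_of_injective (fun w : (phiMap N hN hc x).range => (⟨(w.1 : G), by
        obtain ⟨w, n, hn⟩ := w
        subst hn
        exact himg n⟩ : F))
      intro a b hab
      apply Subtype.ext
      apply Subtype.ext
      exact congrArg (fun w : F => (w : G)) hab
    have hmul : Nat.card (phiMap N hN hc x).ker * Nat.card (phiMap N hN hc x).range = 8 := by
      rw [← Subgroup.index_ker, Subgroup.card_mul_index, hNc]
    have hpos : 0 < Nat.card (phiMap N hN hc x).range := Nat.card_pos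
    interval_cases h : Nat.card (phiMap N hN hc x).range
    · omega
    · omega

/-- **The counting.** -/
theorem four_dvd_sol (E N : Subgroup G) (hE : E.Normal) (hN : N.Normal) (hEN : E ≤ N)
    (hEc : Nat.card E = 4) (hEi : ∀ e ∈ E, e ^ 2 = 1) (hNc : Nat.card N = 8)
    (hc : ∀ a ∈ N, ∀ b ∈ N, a * b = b * a) : 4 ∣ Cfsg.Agent.H19.sol G 2 := by
  classical
  haveI := hN
  haveI : Fintype (G ⧸ N) := Fintype.ofFinite _
  let S := {x : G // x ^ 2 = 1}
  let f : S → G ⧸ N := fun s => (s.1 : G ⧸ N)
  have hcard : Cfsg.Agent.H19.sol G 2 = Nat.card (Σ c : G ⧸ N, {s : S // f s = c}) :=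
    Nat.card_congr (Equiv.sigmaFiberEquiv f).symm
  rw [hcard, Nat.card_sigma]
  apply Finset.dvd_sum
  intro c _
  by_cases hne : Nonempty {s : S // f s = c}
  · obtain ⟨⟨⟨x, hx⟩, hxc⟩⟩ := hne
    have hxi : x⁻¹ = x := by
      rw [inv_eq_iff_mul_eq_one, ← pow_two, hx]
    have hd := four_dvd_ker E N hE hN hEN hEc hEi hNc hc x hx
    suffices h : Nat.card {s : S // f s = c} = Nat.card (phiMap N hN hc x).ker by
      rw [h]
      exact hd
    symm
    apply Nat.card_congr
    refine ⟨fun n => ⟨⟨x * n.1.1, ?_⟩, ?_⟩, fun s => ⟨⟨x⁻¹ * s.1.1, ?_⟩, ?_⟩, ?_, ?_⟩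
    · have h1 : phiMap N hN hc x n.1 = 1 := n.2
      have h2 := congrArg Subtype.val h1
      rw [phiMap_apply, hxi] at h2
      rw [pow_two]
      calc x * n.1.1 * (x * n.1.1) = x * n.1.1 * x * n.1.1 := by group
        _ = 1 := h2
    · rw [← hxc]
      change ((x * n.1.1 : G) : G ⧸ N) = (x : G ⧸ N)
      rw [QuotientGroup.mk_mul, (QuotientGroup.eq_one_iff n.1.1).mpr n.1.2, mul_one]
    · have h1 : (x : G ⧸ N) = (s.1.1 : G ⧸ N) := hxc.trans s.2.symm
      exact QuotientGroup.eq.mp h1
    · rw [MonoidHom.mem_ker]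
      apply Subtype.ext
      have h2 := s.1.2
      rw [pow_two] at h2
      change x⁻¹ * (x⁻¹ * s.1.1) * x * (x⁻¹ * s.1.1) = 1
      rw [hxi]
      have h3 : x * x = 1 := by rw [← pow_two, hx]
      calc x * (x * s.1.1) * x * (x * s.1.1) = (x * x) * s.1.1 * (x * x) * s.1.1 := by group
        _ = s.1.1 * s.1.1 := by rw [h3]; group
        _ = 1 := h2
    · intro n
      apply Subtype.ext
      apply Subtype.ext
      change x⁻¹ * (x * n.1.1) = n.1.1
      group
    · intro s
      apply Subtype.ext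
      apply Subtype.ext
      change x * (x⁻¹ * s.1.1) = s.1.1
      group
  · rw [not_nonempty_iff] at hne
    rw [Nat.card_of_isEmpty]
    exact dvd_zero _

/-- No cyclic subgroup of index at most two, order at least `16`. -/
theorem four_dvd_of_no_cyc (hG : IsPGroup 2 G) (hcard : 16 ≤ Nat.card G)
    (hno : ¬ ∃ C : Subgroup G, IsCyclic C ∧ C.index ≤ 2) : 4 ∣ Cfsg.Agent.H19.sol G 2 := by
  classical
  haveI : Fact (Nat.Prime 2) := ⟨Nat.prime_two⟩
  obtain ⟨E, hEn, hEc, hEi⟩ : ∃ V : Subgroup G, V.Normal ∧ Nat.card V = 4 ∧ ∀ v ∈ V, v ^ 2 = 1 := by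
    by_contra h
    exact hno (Cfsg.Agent.H19.exists_cyclic_index_two hG h)
  haveI := hEn
  -- central involution
  obtain ⟨z, hzE, hz0, hz2, hzc⟩ := Cfsg.Agent.H19.exists_central_mod2 hG E ⊥ hEn (by
    intro h
    have h1 : E = ⊥ := le_bot_iff.mp h
    rw [h1, Subgroup.card_bot] at hEc
    omega)
  have hz1 : z ≠ 1 := fun h => hz0 (by rw [h]; exact Subgroup.one_mem _)
  have hz21 : z ^ 2 = 1 := Subgroup.mem_bot.mp hz2
  have hzcomm : ∀ a : G, a * z = z * a := by
    intro a
    have h1 := hzc a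
    rw [Subgroup.mem_bot, commutatorElement_eq_one_iff_commute] at h1
    exact h1.eq.symm
  have hzord : orderOf z = 2 := orderOf_eq_prime hz21 hz1
  haveI hZn : (Subgroup.zpowers z).Normal := by
    constructor
    intro n hn g
    obtain ⟨k, rfl⟩ := Subgroup.mem_zpowers_iff.mp hn
    have hc : g * z = z * g := hzcomm g
    have hc2 : Commute g (z ^ k) := (show Commute g z from hc).zpow_right k
    rw [hc2.eq, mul_assoc, mul_inv_cancel, mul_one]
    exact Subgroup.zpow_mem_zpowers z k
  obtain ⟨u, huE, huz, hu2, huc⟩ := Cfsg.Agent.H19.exists_central_mod2 hG E (Subgroup.zpowers z) hEn (by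
    intro h
    have h1 : Nat.card E ≤ Nat.card (Subgroup.zpowers z) :=
      Nat.le_of_dvd Nat.card_pos (Subgroup.card_dvd_of_le h)
    rw [Nat.card_zpowers, hzord, hEc] at h1
    omega)
  have hu21 : u ^ 2 = 1 := hEi u huE
  have hEcomm : ∀ a ∈ E, ∀ b ∈ E, a * b = b * a := by
    intro a ha b hb
    have h1 := hEi _ (E.mul_mem ha hb)
    have h2 := hEi a ha
    have h3 := hEi b hb
    rw [pow_two] at h1 h2 h3
    calc a * b = a * (a * b * (a * b)) * b := by rw [h1]; group
      _ = (a * a) * b * a * (b * b) := by group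
      _ = b * a := by rw [h2, h3]; group
  -- the centralizer
  let χ : G →* Subgroup.zpowers z := MonoidHom.mk' (fun a => ⟨⁅u, a⁆, huc a⟩) (by
    intro a b
    apply Subtype.ext
    change ⁅u, a * b⁆ = ⁅u, a⁆ * ⁅u, b⁆
    rcases Cfsg.Agent.H19.mem_zpowers_two_cases hz21 (huc b) with h | h
    · have h2 : u * b = b * u := (commutatorElement_eq_one_iff_commute.mp h).eq
      rw [h, mul_one]
      simp only [commutatorElement_def]
      have h3 : u * (a * b) * u⁻¹ * (a * b)⁻¹ = u * a * (u⁻¹ * (u * b)) * u⁻¹ * (b⁻¹ * a⁻¹) := by group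
      rw [h3, h2]
      group
    · simp only [commutatorElement_def] at h ⊢
      rw [h]
      have h3 : u * (a * b) * u⁻¹ * (a * b)⁻¹ = u * a * u⁻¹ * a⁻¹ * (a * (u * b * u⁻¹ * b⁻¹) * a⁻¹) := by
        group
      rw [h3, h, hzcomm a]
      group)
  have hχ : ∀ a, χ a = 1 ↔ u * a = a * u := by
    intro a
    constructor
    · intro h
      have h1 : ⁅u, a⁆ = 1 := congrArg Subtype.val h
      exact (commutatorElement_eq_one_iff_commute.mp h1).eq
    · intro h
      apply Subtype.ext
      exact commutatorElement_eq_one_iff_commute.mpr h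
  have hkercard : 8 ≤ Nat.card χ.ker := by
    have h1 : Nat.card χ.ker * Nat.card χ.range = Nat.card G := by
      rw [← Subgroup.index_ker, Subgroup.card_mul_index]
    have h2 : Nat.card χ.range ≤ 2 := by
      have h3 : Nat.card χ.range ≤ Nat.card (Subgroup.zpowers z) :=
        Nat.le_of_dvd Nat.card_pos (Subgroup.card_subgroup_dvd_card _)
      rwa [Nat.card_zpowers, hzord] at h3
    nlinarith
  -- every element of `E` is `1, z, u, u z`
  have hEelts : ∀ e ∈ E, e = 1 ∨ e = z ∨ e = u ∨ e = u * z := by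
    intro e he
    haveI : Fintype E := Fintype.ofFinite _
    have huz1 : u ≠ 1 := fun h => huz (by rw [h]; exact Subgroup.one_mem _)
    have huz2 : u ≠ z := fun h => huz (by rw [h]; exact Subgroup.mem_zpowers z)
    have huz3 : u * z ≠ 1 := by
      intro h
      apply huz2
      have : u = z⁻¹ := eq_inv_of_mul_eq_one_left h
      rw [this, inv_eq_iff_mul_eq_one, ← pow_two, hz21]
    have huz4 : u * z ≠ z := fun h => huz1 (mul_eq_right.mp h)
    have huz5 : u * z ≠ u := fun h => hz1 (mul_eq_left.mp h)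
    let T : Finset G := {1, z, u, u * z}
    have hTcard : T.card = 4 := by
      rw [Finset.card_eq_of_equiv_fin (n := 4)]
      refine Finset.equivFinOfCardEq ?_
      simp only [T]
      rw [Finset.card_insert_of_notMem, Finset.card_insert_of_notMem, Finset.card_insert_of_notMem,
        Finset.card_singleton]
      · simp [huz5.symm]
      · simp [huz2.symm, huz4.symm]
      · simp [hz1.symm, huz1.symm, huz3.symm]
    have hsub : T ⊆ (E : Set G).toFinset := by
      intro w hw
      simp only [T, Finset.mem_insert, Finset.mem_singleton] at hw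
      rw [Set.mem_toFinset]
      rcases hw with rfl | rfl | rfl | rfl
      · exact E.one_mem
      · exact hzE
      · exact huE
      · exact E.mul_mem huE hzE
    have hEcard : (E : Set G).toFinset.card = 4 := by
      rw [Set.toFinset_card, ← Nat.card_eq_fintype_card]
      exact hEc
    have heq := Finset.eq_of_subset_of_card_le hsub (by rw [hEcard, hTcard])
    have he' : e ∈ (E : Set G).toFinset := by rw [Set.mem_toFinset]; exact he
    rw [← heq] at he'
    simpa [T] using he'
  let H : Subgroup G := Subgroup.centralizer (E : Set G)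
  have hmemH : ∀ a, a ∈ H ↔ ∀ e ∈ E, e * a = a * e := fun a => Subgroup.mem_centralizer_iff
  haveI hHn : H.Normal := by
    constructor
    intro n hn g
    rw [hmemH] at hn ⊢
    intro e he
    have h1 := hn (g⁻¹ * e * g) (by
      have := hEn.conj_mem e he g⁻¹
      simpa using this)
    calc e * (g * n * g⁻¹) = g * (g⁻¹ * e * g * n) * g⁻¹ := by group
      _ = g * (n * (g⁻¹ * e * g)) * g⁻¹ := by rw [h1]
      _ = g * n * g⁻¹ * e := by group
  have hkerH : χ.ker ≤ H := by
    intro a ha
    rw [MonoidHom.mem_ker, hχ] at ha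
    rw [hmemH]
    intro e he
    rcases hEelts e he with rfl | rfl | rfl | rfl
    · simp
    · exact (hzcomm a).symm
    · exact ha
    · rw [mul_assoc, ← hzcomm a, ← mul_assoc, ha, mul_assoc]
  have hHE : ¬ H ≤ E := by
    intro h
    have h1 : Nat.card χ.ker ≤ Nat.card E :=
      Nat.le_of_dvd Nat.card_pos (Subgroup.card_dvd_of_le (hkerH.trans h))
    omega
  obtain ⟨n, hnH, hnE, hn2, hnc⟩ := Cfsg.Agent.H19.exists_central_mod2 hG H E hHn hHE
  have hnbar : (n : G ⧸ E) ^ 2 = 1 := by
    rw [← QuotientGroup.mk_pow, QuotientGroup.eq_one_iff]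
    exact hn2
  have hnne : (n : G ⧸ E) ≠ 1 := by
    rw [Ne, QuotientGroup.eq_one_iff]
    exact hnE
  have hnord : orderOf (n : G ⧸ E) = 2 := orderOf_eq_prime hnbar hnne
  have hncen : ∀ s : G ⧸ E, s * (n : G ⧸ E) = (n : G ⧸ E) * s := by
    intro s
    obtain ⟨s, rfl⟩ := QuotientGroup.mk_surjective s
    have h1 := hnc s
    rw [commutatorElement_def] at h1
    have h2 : ((n * s * n⁻¹ * s⁻¹ : G) : G ⧸ E) = 1 := (QuotientGroup.eq_one_iff _).mpr h1
    simp only [QuotientGroup.mk_mul, QuotientGroup.mk_inv] at h2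
    calc (s : G ⧸ E) * (n : G ⧸ E)
        = ((n : G ⧸ E) * (s : G ⧸ E) * (n : G ⧸ E)⁻¹ * (s : G ⧸ E)⁻¹)⁻¹ * ((n : G ⧸ E) * (s : G ⧸ E)) := by
          group
      _ = (n : G ⧸ E) * (s : G ⧸ E) := by rw [h2, inv_one, one_mul]
  let N : Subgroup G := (Subgroup.zpowers (n : G ⧸ E)).comap (QuotientGroup.mk' E)
  haveI hnorm : (Subgroup.zpowers (n : G ⧸ E)).Normal := by
    constructor
    intro w hw g
    obtain ⟨k, rfl⟩ := Subgroup.mem_zpowers_iff.mp hw
    have hc2 : Commute g ((n : G ⧸ E) ^ k) := (show Commute g (n : G ⧸ E) from hncen g).zpow_right k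
    rw [hc2.eq, mul_assoc, mul_inv_cancel, mul_one]
    exact Subgroup.zpow_mem_zpowers _ k
  have hNn : N.Normal := hnorm.comap _
  have hEN : E ≤ N := by
    intro e he
    rw [Subgroup.mem_comap, QuotientGroup.mk'_apply, (QuotientGroup.eq_one_iff e).mpr he]
    exact Subgroup.one_mem _
  have hNc : Nat.card N = 8 := by
    have h1 := Cfsg.Agent.H19.card_comap_mk (Z := E) (Subgroup.zpowers (n : G ⧸ E))
    rw [Nat.card_zpowers, hnord, hEc] at h1
    exact h1
  have hform : ∀ a ∈ N, ∃ e ∈ E, a = e ∨ a = n * e := by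
    intro a ha
    rcases Cfsg.Agent.H19.mem_zpowers_two_cases hnbar ha with h | h
    · exact ⟨a, (QuotientGroup.eq_one_iff a).mp h, Or.inl rfl⟩
    · have h1 : (n : G ⧸ E) = (a : G ⧸ E) := h.symm
      exact ⟨n⁻¹ * a, QuotientGroup.eq.mp h1, Or.inr (by group)⟩
  have hnce : ∀ e ∈ E, e * n = n * e := (hmemH n).mp hnH
  have hc : ∀ a ∈ N, ∀ b ∈ N, a * b = b * a := by
    intro a ha b hb
    obtain ⟨e, he, h1⟩ := hform a ha
    obtain ⟨f, hf, h2⟩ := hform b hb
    rcases h1 with h1 | h1 <;> rcases h2 with h2 | h2 <;> rw [h1, h2]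
    · exact hEcomm _ he _ hf
    · calc e * (n * f) = (e * n) * f := by group
        _ = n * (e * f) := by rw [hnce e he]; group
        _ = n * (f * e) := by rw [hEcomm e he f hf]
        _ = n * f * e := by group
    · calc n * e * f = n * (e * f) := by group
        _ = n * (f * e) := by rw [hEcomm e he f hf]
        _ = (n * f) * e := by group
        _ = f * n * e := by rw [hnce f hf]
        _ = f * (n * e) := by group
    · calc n * e * (n * f) = n * (e * n) * f := by group
        _ = n * (n * e) * f := by rw [hnce e he]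
        _ = n * n * (e * f) := by group
        _ = n * n * (f * e) := by rw [hEcomm e he f hf]
        _ = n * (n * f) * e := by group
        _ = n * (f * n) * e := by rw [hnce f hf]
        _ = n * f * (n * e) := by group
  exact four_dvd_sol E N hEn hNn hEN hEc hEi hNc hc

end

end Cfsg.Agent.H19.KulH
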