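import Mathlib
import Cfsg.Agent.Lib.H19.KulTwo1
import Cfsg.Agent.Lib.H19.DerLen

/-!
`2`-groups with a cyclic maximal subgroup: the numbers of solutions of `x ^ (2 ^ k) = 1`.
-/

set_option autoImplicit false

namespace Cfsg.Agent.H19.KulH

open scoped commutatorElement
open Cfsg.Agent.H19

universe u

section

variable {G : Type u} [Group G] [Finite G]

theorem four_dvd_sol_of_comm (hA : IsPGroup 2 G) (hcomm : ∀ a b : G, a * b = b * a)
    (hnc : ¬ IsCyclic G) : 4 ∣ sol G 2 := by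
  classical
  haveI : Fact (Nat.Prime 2) := ⟨Nat.prime_two⟩
  let Ω : Subgroup G :=
    { carrier := {a | a ^ 2 = 1}
      one_mem' := by simp
      mul_mem' := by
        intro a b ha hb
        simp only [Set.mem_setOf_eq] at ha hb ⊢
        have : Commute a b := hcomm a b
        rw [this.mul_pow, ha, hb, one_mul]
      inv_mem' := by
        intro a ha
        simp only [Set.mem_setOf_eq] at ha ⊢
        rw [inv_pow, ha, inv_one] }
  have hΩ : sol G 2 = Nat.card Ω := rfl
  rw [hΩ]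
  obtain ⟨e, he⟩ := IsPGroup.iff_card.mp (hA.to_subgroup Ω)
  rw [he]
  by_cases h2 : 2 ≤ e
  · exact pow_dvd_pow 2 h2
  · exfalso
    apply hnc
    apply Cfsg.Agent.H14.isCyclic_of_comm_uniqueP hA hcomm
    intro x y hx hy
    have hxm : x ∈ Ω := by
      change x ^ 2 = 1
      rw [← hx]
      exact pow_orderOf_eq_one x
    have hym : y ∈ Ω := by
      change y ^ 2 = 1
      rw [← hy]
      exact pow_orderOf_eq_one y
    have hle : Subgroup.zpowers x ≤ Ω := Subgroup.zpowers_le.mpr hxm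
    have hc : Nat.card Ω ≤ 2 := by
      rw [he]
      have : e ≤ 1 := by omega
      calc 2 ^ e ≤ 2 ^ 1 := Nat.pow_le_pow_right (by norm_num) this
        _ = 2 := by norm_num
    have heq : Subgroup.zpowers x = Ω :=
      Subgroup.eq_of_le_of_card_ge hle (by rw [Nat.card_zpowers, hx]; exact hc)
    rw [heq]
    exact hym

theorem card_dvd_of_right_inv (L : Subgroup G) (Q : G → Prop) (h : ∀ x, Q x → ∀ l ∈ L, Q (x * l)) :
    Nat.card L ∣ Nat.card {x // Q x} := by
  classical
  haveI : Fintype (G ⧸ L) := Fintype.ofFinite _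
  let f : {x // Q x} → G ⧸ L := fun s => (s.1 : G ⧸ L)
  have hcard : Nat.card {x // Q x} = Nat.card (Σ c : G ⧸ L, {s : {x // Q x} // f s = c}) :=
    Nat.card_congr (Equiv.sigmaFiberEquiv f).symm
  rw [hcard, Nat.card_sigma]
  apply Finset.dvd_sum
  intro c _
  by_cases hne : Nonempty {s : {x // Q x} // f s = c}
  · obtain ⟨⟨⟨x, hx⟩, hxc⟩⟩ := hne
    apply dvd_of_eq
    apply Nat.card_congr
    refine ⟨fun l => ⟨⟨x * l.1, h x hx l.1 l.2⟩, ?_⟩, fun s => ⟨x⁻¹ * s.1.1, ?_⟩, ?_, ?_⟩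
    · rw [← hxc]
      change ((x * l.1 : G) : G ⧸ L) = (x : G ⧸ L)
      apply QuotientGroup.eq.mpr
      have := L.inv_mem l.2
      simpa using this
    · have h1 : (x : G ⧸ L) = (s.1.1 : G ⧸ L) := hxc.trans s.2.symm
      exact QuotientGroup.eq.mp h1
    · intro l
      apply Subtype.ext
      change x⁻¹ * (x * l.1) = l.1
      group
    · intro s
      apply Subtype.ext
      apply Subtype.ext
      change x * (x⁻¹ * s.1.1) = s.1.1
      group
  · rw [not_nonempty_iff] at hne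
    rw [Nat.card_of_isEmpty (α := {s : {x // Q x} // f s = c})]
    exact dvd_zero _

theorem sol_cyc_eq (H : Type*) [Group H] [Finite H] [hc : IsCyclic H] {d : ℕ} (hd : d ∣ Nat.card H) :
    sol H d = d := by
  classical
  haveI := Fintype.ofFinite H
  have hdpos : 0 < d := Nat.pos_of_dvd_of_pos hd Nat.card_pos
  have h1 : d ∣ sol H d := dvd_sol hd
  have h2 : sol H d ≤ d := by
    have := IsCyclic.card_pow_eq_one_le (α := H) hdpos
    unfold sol
    rw [Nat.card_eq_fintype_card, Fintype.card_subtype]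
    exact this
  have h3 : 0 < sol H d := by
    unfold sol
    haveI : Nonempty {u : H // u ^ d = 1} := ⟨⟨1, one_pow d⟩⟩
    exact Nat.card_pos
  exact le_antisymm h2 (Nat.le_of_dvd h3 h1)

/-- arithmetic of the action on a cyclic group -/
theorem r_dichotomy {n : ℕ} (hn : 2 ≤ n) {r : ℤ} (h : (2 ^ n : ℤ) ∣ r ^ 2 - 1) :
    (((2 ^ (n - 1) : ℤ) ∣ r - 1) ∧ r % 4 = 1) ∨ (((2 ^ (n - 1) : ℤ) ∣ r + 1) ∧ r % 4 = 3) := by
  obtain ⟨k, rfl⟩ : ∃ k, n = k + 1 := ⟨n - 1, by omega⟩
  simp only [Nat.add_sub_cancel]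
  have h2 : (2 : ℤ) ∣ r ^ 2 - 1 := Dvd.dvd.trans (dvd_pow_self 2 (Nat.succ_ne_zero k)) h
  have hcases : r % 4 = 1 ∨ r % 4 = 3 := by
    have h3 : r % 2 = 1 := by
      rcases Int.emod_two_eq_zero_or_one r with h4 | h4
      · exfalso
        obtain ⟨t, ht⟩ := Int.dvd_of_emod_eq_zero h4
        obtain ⟨u, hu⟩ := h2
        rw [ht] at hu
        ring_nf at hu
        omega
      · exact h4
    omega
  have hcop : ∀ s : ℤ, IsCoprime ((2 : ℤ) ^ k) (2 * s + 1) := by
    intro s
    apply IsCoprime.pow_left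
    exact ⟨-s, 1, by ring⟩
  rcases hcases with h1 | h1
  · left
    refine ⟨?_, h1⟩
    obtain ⟨s, hs⟩ : ∃ s, r = 4 * s + 1 := ⟨r / 4, by omega⟩
    have h3 : (2 : ℤ) ^ (k + 1) ∣ 2 * ((r - 1) * (2 * s + 1)) := by
      convert h using 1
      rw [hs]
      ring
    rw [pow_succ'] at h3
    have h4 := (mul_dvd_mul_iff_left (by norm_num : (2 : ℤ) ≠ 0)).mp h3
    exact (hcop s).dvd_of_dvd_mul_right h4
  · right
    refine ⟨?_, h1⟩
    obtain ⟨s, hs⟩ : ∃ s, r = 4 * s + 3 := ⟨r / 4, by omega⟩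
    have h3 : (2 : ℤ) ^ (k + 1) ∣ 2 * ((r + 1) * (2 * s + 1)) := by
      convert h using 1
      rw [hs]
      ring
    rw [pow_succ'] at h3
    have h4 := (mul_dvd_mul_iff_left (by norm_num : (2 : ℤ) ≠ 0)).mp h3
    exact (hcop s).dvd_of_dvd_mul_right h4

variable {n : ℕ}

theorem index_zpowers (hcard : Nat.card G = 2 ^ (n + 1)) {c : G} (hc : orderOf c = 2 ^ n) :
    (Subgroup.zpowers c).index = 2 := by
  have h1 := (Subgroup.zpowers c).card_mul_index
  rw [Nat.card_zpowers, hc, hcard, pow_succ] at h1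
  exact Nat.eq_of_mul_eq_mul_left (pow_pos (by norm_num) _) h1

theorem act_exists {c : G} (hidx : (Subgroup.zpowers c).index = 2) (hc : orderOf c = 2 ^ n) (y : G) :
    ∃ r : ℤ, y * c * y⁻¹ = c ^ r ∧ (2 ^ n : ℤ) ∣ r ^ 2 - 1 := by
  haveI hCn : (Subgroup.zpowers c).Normal := Subgroup.normal_of_index_eq_two hidx
  have hmem : y * c * y⁻¹ ∈ Subgroup.zpowers c := hCn.conj_mem c (Subgroup.mem_zpowers c) y
  obtain ⟨r, hr⟩ := Subgroup.mem_zpowers_iff.mp hmem
  have hyy : y * y ∈ Subgroup.zpowers c := (Subgroup.mul_mem_iff_of_index_two hidx).mpr Iff.rfl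
  obtain ⟨t, ht⟩ := Subgroup.mem_zpowers_iff.mp hyy
  refine ⟨r, hr.symm, ?_⟩
  have h1 : (y * y) * c * (y * y)⁻¹ = c := by
    rw [← ht]
    group
  have h2 : (y * y) * c * (y * y)⁻¹ = c ^ (r * r) := by
    calc (y * y) * c * (y * y)⁻¹ = y * (y * c * y⁻¹) * y⁻¹ := by group
      _ = y * c ^ r * y⁻¹ := by rw [hr]
      _ = (y * c * y⁻¹) ^ r := (conj_zpow).symm
      _ = (c ^ r) ^ r := by rw [hr]
      _ = c ^ (r * r) := (zpow_mul c r r).symm
  have h3 : c ^ (r ^ 2 - 1) = 1 := by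
    rw [zpow_sub, zpow_one, pow_two, ← h2, h1]
    group
  have h4 := orderOf_dvd_iff_zpow_eq_one.mpr h3
  rw [hc] at h4
  exact_mod_cast h4

theorem zpow_eq_one_of_dvd {c : G} (hc : orderOf c = 2 ^ n) {i : ℤ} (h : (2 ^ n : ℤ) ∣ i) :
    c ^ i = 1 := by
  apply orderOf_dvd_iff_zpow_eq_one.mp
  rw [hc]
  exact_mod_cast h

theorem dvd_of_zpow_eq_one {c : G} (hc : orderOf c = 2 ^ n) {i : ℤ} (h : c ^ i = 1) :
    (2 ^ n : ℤ) ∣ i := by
  have h4 := orderOf_dvd_iff_zpow_eq_one.mpr h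
  rw [hc] at h4
  exact_mod_cast h4

/-- The case where `c ^ 2` is not central. -/
theorem caseII (hG : IsPGroup 2 G) (hn : 3 ≤ n) (hcard : Nat.card G = 2 ^ (n + 1)) {c : G}
    (hc : orderOf c = 2 ^ n) (hII : ¬ ∀ g : G, g * c ^ 2 = c ^ 2 * g) :
    ¬ (2 ^ n ∣ sol G (2 ^ (n - 1))) ∧ ¬ (4 ∣ sol G 2) ∧ Group.nilpotencyClass G = n := by
  classical
  haveI : Fact (Nat.Prime 2) := ⟨Nat.prime_two⟩
  set C := Subgroup.zpowers c with hC
  have hidx : C.index = 2 := index_zpowers hcard hc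
  haveI hCn : C.Normal := Subgroup.normal_of_index_eq_two hidx
  have hCcard : Nat.card C = 2 ^ n := by rw [hC, Nat.card_zpowers, hc]
  have hn1 : 2 ^ n = 2 * 2 ^ (n - 1) := by
    rw [← pow_succ']
    congr 1
    omega
  have hn1' : (2 ^ n : ℤ) = 2 * 2 ^ (n - 1) := by exact_mod_cast hn1
  have hyr : ∀ y, y ∉ C → ∃ r : ℤ, y * c * y⁻¹ = c ^ r ∧ (2 ^ (n - 1) : ℤ) ∣ r + 1 ∧ r % 4 = 3 := by
    intro y hy
    obtain ⟨r, hr, hd⟩ := act_exists hidx hc y
    rcases r_dichotomy (by omega) hd with ⟨h1, h2⟩ | ⟨h1, h2⟩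
    · exfalso
      apply hII
      have hyc : y * c ^ 2 = c ^ 2 * y := by
        have h3 : y * c ^ 2 * y⁻¹ = c ^ 2 := by
          have h4 : y * c ^ 2 * y⁻¹ = (y * c * y⁻¹) ^ 2 := (conj_pow).symm
          rw [h4, hr]
          obtain ⟨u, hu⟩ := h1
          have h5 : (c ^ r) ^ 2 = c ^ (2 : ℤ) * c ^ (2 * (r - 1)) := by
            rw [← zpow_natCast, ← zpow_mul, ← zpow_add]
            congr 1
            push_cast
            ring
          rw [h5, zpow_eq_one_of_dvd hc (i := 2 * (r - 1)) (by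
            rw [hn1', hu]
            exact ⟨u, by ring⟩), mul_one]
          norm_cast
        calc y * c ^ 2 = (y * c ^ 2 * y⁻¹) * y := by group
          _ = c ^ 2 * y := by rw [h3]
      intro g
      by_cases hg : g ∈ C
      · obtain ⟨i, rfl⟩ := Subgroup.mem_zpowers_iff.mp hg
        rw [← zpow_natCast c 2, ← zpow_add, ← zpow_add, add_comm]
      · have h3 : y⁻¹ * g ∈ C := by
          rw [Subgroup.mul_mem_iff_of_index_two hidx]
          exact iff_of_false (fun h => hy (by simpa using C.inv_mem h)) hg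
        obtain ⟨i, hi⟩ := Subgroup.mem_zpowers_iff.mp h3
        have h4 : g = y * c ^ i := by rw [hi]; group
        rw [h4]
        have h5 : c ^ i * c ^ 2 = c ^ 2 * c ^ i := by
          rw [← zpow_natCast c 2, ← zpow_add, ← zpow_add, add_comm]
        calc y * c ^ i * c ^ 2 = y * (c ^ i * c ^ 2) := by group
          _ = y * (c ^ 2 * c ^ i) := by rw [h5]
          _ = (y * c ^ 2) * c ^ i := by group
          _ = (c ^ 2 * y) * c ^ i := by rw [hyc]
          _ = c ^ 2 * (y * c ^ i) := by group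
    · exact ⟨r, hr, h1, h2⟩
  have hya : ∀ y, y ∉ C → ∀ i : ℤ, y * c ^ (2 * i) * y⁻¹ = c ^ (-(2 * i)) := by
    intro y hy i
    obtain ⟨r, hr, ⟨u, hu⟩, -⟩ := hyr y hy
    have h1 : y * c ^ (2 * i) * y⁻¹ = (y * c * y⁻¹) ^ (2 * i) := (conj_zpow).symm
    rw [h1, hr, ← zpow_mul]
    have h2 : r * (2 * i) = -(2 * i) + (r + 1) * (2 * i) := by ring
    rw [h2, zpow_add, zpow_eq_one_of_dvd hc (i := (r + 1) * (2 * i)) (by
      rw [hn1', hu]
      exact ⟨u * i, by ring⟩), mul_one]
  have hfix : ∀ y, y ∉ C → ∀ i : ℤ, y * c ^ i * y⁻¹ = c ^ i → (2 ^ (n - 1) : ℤ) ∣ i := by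
    intro y hy i h
    obtain ⟨r, hr, -, hr4⟩ := hyr y hy
    have h1 : y * c ^ i * y⁻¹ = (y * c * y⁻¹) ^ i := (conj_zpow).symm
    rw [h1, hr, ← zpow_mul] at h
    have h2 : c ^ ((r - 1) * i) = 1 := by
      rw [sub_mul, one_mul, zpow_sub, h]
      group
    have h3 := dvd_of_zpow_eq_one hc h2
    obtain ⟨s, hs⟩ : ∃ s, r = 4 * s + 3 := ⟨r / 4, by omega⟩
    have hcop : IsCoprime ((2 : ℤ) ^ (n - 1)) (2 * s + 1) := by
      apply IsCoprime.pow_left
      exact ⟨-s, 1, by ring⟩
    have h4 : 2 * (2 : ℤ) ^ (n - 1) ∣ 2 * ((2 * s + 1) * i) := by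
      rw [← hn1']
      convert h3 using 1
      rw [hs]
      ring
    have h5 := (mul_dvd_mul_iff_left (by norm_num : (2 : ℤ) ≠ 0)).mp h4
    exact hcop.dvd_of_dvd_mul_left h5
  have hy4 : ∀ y, y ∉ C → y ^ 4 = 1 := by
    intro y hy
    have hyy : y * y ∈ C := (Subgroup.mul_mem_iff_of_index_two hidx).mpr Iff.rfl
    obtain ⟨t, ht⟩ := Subgroup.mem_zpowers_iff.mp hyy
    have h1 : y * c ^ t * y⁻¹ = c ^ t := by
      rw [ht]
      group
    obtain ⟨u, hu⟩ := hfix y hy t h1
    have h2 : y ^ 4 = c ^ (2 * t) := by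
      rw [two_mul, zpow_add, ht]
      calc y ^ 4 = y ^ (2 + 2) := rfl
        _ = y * y * (y * y) := by rw [pow_add, pow_two]
    rw [h2]
    apply zpow_eq_one_of_dvd hc
    rw [hn1', hu]
    exact ⟨u, by ring⟩
  have hsplit : ∀ d : ℕ, sol G d = sol C d + Nat.card {x : G // x ^ d = 1 ∧ x ∉ C} := by
    intro d
    rw [sol_subgroup_eq]
    have h1 := card_split (fun x : G => x ^ d = 1) (fun x => x ∈ C)
    have h2 : Nat.card {x : G // x ∈ C ∧ x ^ d = 1} = Nat.card {x : G // x ^ d = 1 ∧ x ∈ C} :=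
      Nat.card_congr (Equiv.subtypeEquivRight (fun x => and_comm))
    rw [h2]
    exact h1
  have hnot : Nat.card {x : G // x ∉ C} = 2 ^ n := by
    have h1 := card_split (fun _ : G => True) (fun x => x ∈ C)
    have h2 : Nat.card {x : G // True} = 2 ^ (n + 1) := by
      rw [← hcard]
      exact Nat.card_congr (Equiv.subtypeUnivEquiv (fun _ => trivial))
    have h3 : Nat.card {x : G // True ∧ x ∈ C} = 2 ^ n := by
      rw [← hCcard]
      exact Nat.card_congr (Equiv.subtypeEquivRight (fun x => by simp))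
    have h4 : Nat.card {x : G // True ∧ ¬ x ∈ C} = Nat.card {x : G // x ∉ C} :=
      Nat.card_congr (Equiv.subtypeEquivRight (fun x => by simp))
    rw [h2, h3, h4, pow_succ] at h1
    omega
  refine ⟨?_, ?_, ?_⟩
  · intro hd
    have h1 := hsplit (2 ^ (n - 1))
    have h2 : Nat.card {x : G // x ^ 2 ^ (n - 1) = 1 ∧ x ∉ C} = 2 ^ n := by
      rw [← hnot]
      apply Nat.card_congr
      apply Equiv.subtypeEquivRight
      intro x
      constructor
      · exact fun h => h.2
      · intro hx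
        refine ⟨?_, hx⟩
        obtain ⟨k, hk⟩ : ∃ k, n - 1 = k + 2 := ⟨n - 3, by omega⟩
        rw [hk, pow_add, mul_comm, pow_mul]
        have : (2 : ℕ) ^ 2 = 4 := by norm_num
        rw [this, hy4 x hx, one_pow]
    haveI : IsCyclic C := inferInstance
    have h3 : sol C (2 ^ (n - 1)) = 2 ^ (n - 1) := sol_cyc_eq C (by
      rw [hCcard]
      exact pow_dvd_pow 2 (by omega))
    rw [h2, h3] at h1
    rw [h1] at hd
    have h4 := (Nat.dvd_add_left (dvd_refl (2 ^ n))).mp hd
    have h5 := Nat.le_of_dvd (pow_pos (by norm_num) _) h4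
    have h6 : 2 ^ (n - 1) < 2 ^ n := Nat.pow_lt_pow_right (by norm_num) (by omega)
    omega
  · intro hd
    have h1 := hsplit 2
    haveI : IsCyclic C := inferInstance
    have h3 : sol C 2 = 2 := sol_cyc_eq C (by
      rw [hCcard]
      exact dvd_pow_self 2 (by omega))
    rw [h3] at h1
    set L := Subgroup.zpowers (c ^ 2) with hL
    have hLC : L ≤ C := Subgroup.zpowers_le.mpr (Subgroup.npow_mem_zpowers c 2)
    have hLcard : Nat.card L = 2 ^ (n - 1) := by
      rw [hL, Nat.card_zpowers]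
      have h4 : orderOf (c ^ 2) = orderOf c / Nat.gcd (orderOf c) 2 := orderOf_pow c
      rw [h4, hc, hn1]
      have h5 : Nat.gcd (2 * 2 ^ (n - 1)) 2 = 2 := Nat.gcd_eq_right (dvd_mul_right _ _)
      rw [h5]
      simp
    have hdv := card_dvd_of_right_inv L (fun x : G => x ^ 2 = 1 ∧ x ∉ C) (by
      rintro x ⟨hx1, hx2⟩ l hl
      refine ⟨?_, fun h => hx2 ?_⟩
      · obtain ⟨i, rfl⟩ := Subgroup.mem_zpowers_iff.mp hl
        have hl2 : (c ^ 2) ^ i = c ^ (2 * i) := by
          rw [← zpow_natCast c 2, ← zpow_mul]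
          norm_num
        have h4 := hya x⁻¹ (fun h => hx2 (by simpa using C.inv_mem h)) i
        simp only [inv_inv] at h4
        rw [hl2, pow_two]
        have hxx : x * x = 1 := by rw [← pow_two, hx1]
        calc x * c ^ (2 * i) * (x * c ^ (2 * i)) = (x * x) * (x⁻¹ * c ^ (2 * i) * x) * c ^ (2 * i) := by
              group
          _ = c ^ (-(2 * i)) * c ^ (2 * i) := by rw [hxx, h4, one_mul]
          _ = 1 := by group
      · have := C.mul_mem h (C.inv_mem (hLC hl))
        simpa using this)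
    rw [hLcard] at hdv
    have h4 : 4 ∣ 2 ^ (n - 1) := by
      have : (4 : ℕ) = 2 ^ 2 := by norm_num
      rw [this]
      exact pow_dvd_pow 2 (by omega)
    have h5 := h4.trans hdv
    rw [h1] at hd
    omega
  · -- class
    obtain ⟨y, hy⟩ : ∃ y, y ∉ C := by
      by_contra hall
      push_neg at hall
      have : C = ⊤ := (Subgroup.eq_top_iff' C).mpr hall
      rw [this, Subgroup.index_top] at hidx
      omega
    let A : Subgroup G := Subgroup.centralizer {y}
    have hmemA : ∀ a, a ∈ A ↔ a * y = y * a := fun a => Subgroup.mem_centralizer_singleton_iff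
    have hyA : y ∈ A := (hmemA y).mpr rfl
    have hcoat : IsCoatom C := Cfsg.Agent.H19.isCoatom_of_index_prime (by rw [hidx]; exact Nat.prime_two)
    have hsup : A ⊔ C = ⊤ := by
      rw [sup_comm]
      apply hcoat.2
      refine lt_of_le_of_ne le_sup_left (fun h => hy ?_)
      rw [h]
      exact (le_sup_right : A ≤ C ⊔ A) hyA
    have h1 := Cfsg.Agent.H18.card_sup_mul_card_inf A C
    rw [hsup, Subgroup.card_top, hcard, hCcard] at h1
    -- `A ⊓ C` has order two
    set z := c ^ (2 ^ (n - 1)) with hz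
    have hzo : orderOf z = 2 := by
      apply orderOf_eq_prime
      · rw [hz, ← pow_mul, ← pow_succ, Nat.sub_add_cancel (by omega : 1 ≤ n), ← hc]
        exact pow_orderOf_eq_one c
      · intro h
        have h2 := orderOf_dvd_of_pow_eq_one h
        rw [hc] at h2
        have h3 := Nat.le_of_dvd (pow_pos (by norm_num) _) h2
        have h4 : 2 ^ (n - 1) < 2 ^ n := Nat.pow_lt_pow_right (by norm_num) (by omega)
        omega
    have hAC : (A ⊓ C : Subgroup G) = Subgroup.zpowers z := by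
      apply le_antisymm
      · rintro w ⟨hw1, hw2⟩
        obtain ⟨i, rfl⟩ := Subgroup.mem_zpowers_iff.mp hw2
        have h2 : y * c ^ i * y⁻¹ = c ^ i := by
          have := (hmemA _).mp hw1
          rw [← this]
          group
        obtain ⟨u, rfl⟩ := hfix y hy i h2
        refine Subgroup.mem_zpowers_iff.mpr ⟨u, ?_⟩
        rw [hz, ← zpow_natCast, ← zpow_mul]
        norm_num
      · apply Subgroup.zpowers_le.mpr
        refine ⟨(hmemA z).mpr ?_, Subgroup.npow_mem_zpowers c _⟩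
        obtain ⟨r, hr, -, hr4⟩ := hyr y hy
        have h2 : y * z * y⁻¹ = z := by
          rw [hz, ← zpow_natCast]
          have h3 : y * c ^ ((2 ^ (n - 1) : ℕ) : ℤ) * y⁻¹ = (y * c * y⁻¹) ^ ((2 ^ (n - 1) : ℕ) : ℤ) :=
            (conj_zpow).symm
          rw [h3, hr, ← zpow_mul]
          obtain ⟨s, hs⟩ : ∃ s, r = 4 * s + 3 := ⟨r / 4, by omega⟩
          have h4 : r * ((2 ^ (n - 1) : ℕ) : ℤ) = ((2 ^ (n - 1) : ℕ) : ℤ) + (2 * (2 * s + 1)) * ((2 ^ (n - 1) : ℕ) : ℤ) := by
            rw [hs]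
            ring
          rw [h4, zpow_add, zpow_eq_one_of_dvd hc (i := (2 * (2 * s + 1)) * ((2 ^ (n - 1) : ℕ) : ℤ)) (by
            rw [hn1']
            push_cast
            exact ⟨2 * s + 1, by ring⟩), mul_one]
        calc z * y = y * (y⁻¹ * z * y) := by group
          _ = y * z := by
            congr 1
            calc y⁻¹ * z * y = y⁻¹ * (y * z * y⁻¹) * y := by rw [h2]
              _ = z := by group
    have h5 : Nat.card (A ⊓ C : Subgroup G) = 2 := by
      rw [hAC, Nat.card_zpowers, hzo]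
    rw [h5, pow_succ] at h1
    have h6 : Nat.card A = 2 ^ 2 := by
      have h7 : 2 ^ n * (Nat.card A) = 2 ^ n * 2 ^ 2 := by
        rw [mul_comm (2 ^ n) (Nat.card A), ← h1]
        ring
      exact Nat.eq_of_mul_eq_mul_left (pow_pos (by norm_num) _) h7
    have h8 : Subgroup.centralizer (A : Set G) ≤ A := by
      intro g hg
      rw [hmemA]
      exact (Subgroup.mem_centralizer_iff.mp hg y hyA).symm
    have h9 := Cfsg.Agent.H19.nilpotencyClass_of_selfCentralizing_sq (p := 2) (n + 1) G hcard A h6 h8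
    simpa using h9

/-- The case where `c ^ 2` is central. -/
theorem caseI (hG : IsPGroup 2 G) (hn : 3 ≤ n) (hcard : Nat.card G = 2 ^ (n + 1))
    (hnc : ¬ IsCyclic G) {c : G}
    (hc : orderOf c = 2 ^ n) (hI : ∀ g : G, g * c ^ 2 = c ^ 2 * g) :
    (2 ^ n ∣ sol G (2 ^ (n - 1))) ∧ (4 ∣ sol G 2) := by
  classical
  haveI : Fact (Nat.Prime 2) := ⟨Nat.prime_two⟩
  set C := Subgroup.zpowers c with hC
  have hidx : C.index = 2 := index_zpowers hcard hc
  haveI hCn : C.Normal := Subgroup.normal_of_index_eq_two hidx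
  have hCcard : Nat.card C = 2 ^ n := by rw [hC, Nat.card_zpowers, hc]
  have hn1 : 2 ^ n = 2 * 2 ^ (n - 1) := by
    rw [← pow_succ']
    congr 1
    omega
  have hn1' : (2 ^ n : ℤ) = 2 * 2 ^ (n - 1) := by exact_mod_cast hn1
  obtain ⟨x, hx⟩ : ∃ y, y ∉ C := by
    by_contra hall
    push_neg at hall
    have : C = ⊤ := (Subgroup.eq_top_iff' C).mpr hall
    rw [this, Subgroup.index_top] at hidx
    omega
  set z := c ^ (2 ^ (n - 1)) with hz
  have hz2 : z ^ 2 = 1 := by
    rw [hz, ← pow_mul, ← pow_succ, Nat.sub_add_cancel (by omega : 1 ≤ n), ← hc]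
    exact pow_orderOf_eq_one c
  have hz1 : z ≠ 1 := by
    intro h
    have h2 := orderOf_dvd_of_pow_eq_one h
    rw [hc] at h2
    have h3 := Nat.le_of_dvd (pow_pos (by norm_num) _) h2
    have h4 : 2 ^ (n - 1) < 2 ^ n := Nat.pow_lt_pow_right (by norm_num) (by omega)
    omega
  have hLcen : ∀ (i : ℤ) (g : G), g * c ^ (2 * i) = c ^ (2 * i) * g := by
    intro i g
    have h1 : Commute g (c ^ (2 : ℕ)) := hI g
    have h2 : c ^ (2 * i) = (c ^ (2 : ℕ)) ^ i := by
      rw [← zpow_natCast c 2, ← zpow_mul]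
      norm_num
    rw [h2]
    exact (h1.zpow_right i).eq
  have hzc : ∀ g : G, g * z = z * g := by
    intro g
    have h1 := hLcen ((2 ^ (n - 2) : ℕ) : ℤ) g
    have h2 : c ^ (2 * ((2 ^ (n - 2) : ℕ) : ℤ)) = z := by
      rw [hz, ← zpow_natCast]
      congr 1
      have h3 : n - 1 = (n - 2) + 1 := by omega
      rw [h3, pow_succ']
      push_cast
      ring_nf
    rwa [h2] at h1
  -- squares lie in `⟨c ^ 2⟩`
  have hsq : ∀ y : G, ∃ i : ℤ, y ^ 2 = c ^ (2 * i) := by
    intro y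
    by_cases hy : y ∈ C
    · obtain ⟨i, rfl⟩ := Subgroup.mem_zpowers_iff.mp hy
      refine ⟨i, ?_⟩
      rw [← zpow_natCast, ← zpow_mul]
      congr 1
      push_cast
      ring
    · have hyy : y * y ∈ C := (Subgroup.mul_mem_iff_of_index_two hidx).mpr Iff.rfl
      obtain ⟨t, ht⟩ := Subgroup.mem_zpowers_iff.mp hyy
      rcases Int.even_or_odd' t with ⟨i, hi | hi⟩
      · exact ⟨i, by rw [pow_two, ← ht, hi]⟩
      · exfalso
        apply hnc
        apply isCyclic_of_orderOf_eq_card y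
        rw [hcard]
        apply orderOf_eq_prime_pow
        · rw [hn1, pow_mul, pow_two, ← ht, ← zpow_natCast, ← zpow_mul, hi]
          intro h
          have h1 := dvd_of_zpow_eq_one hc h
          -- `2 ^ n` does not divide an odd multiple of `2 ^ (n-1)`
          rw [hn1'] at h1
          push_cast at h1
          have h2 : (2 : ℤ) ^ (n - 1) * 2 ∣ (2 : ℤ) ^ (n - 1) * (2 * i + 1) := by
            convert h1 using 1
            · ring
            · ring
          have h3 := (mul_dvd_mul_iff_left (pow_ne_zero _ (by norm_num))).mp h2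
          omega
        · have : y ^ Nat.card G = 1 := pow_card_eq_one'
          rwa [hcard] at this
  -- commutators
  haveI hZn : (Subgroup.zpowers z).Normal := by
    constructor
    intro w hw g
    obtain ⟨k, rfl⟩ := Subgroup.mem_zpowers_iff.mp hw
    have hc2 : Commute g (z ^ k) := (show Commute g z from hzc g).zpow_right k
    rw [hc2.eq, mul_assoc, mul_inv_cancel, mul_one]
    exact Subgroup.zpow_mem_zpowers z k
  obtain ⟨r, hr, -⟩ := act_exists hidx hc x
  have hr1 : (2 ^ (n - 1) : ℤ) ∣ r - 1 := by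
    have h1 : x * c ^ 2 * x⁻¹ = c ^ 2 := by
      rw [hI x]
      group
    have h2 : x * c ^ 2 * x⁻¹ = (x * c * x⁻¹) ^ 2 := (conj_pow).symm
    rw [h2, hr] at h1
    have h3 : c ^ (2 * (r - 1)) = 1 := by
      have h4 : (c ^ r) ^ 2 = c ^ (2 * r) := by
        rw [← zpow_natCast, ← zpow_mul]
        congr 1
        push_cast
        ring
      rw [h4] at h1
      have h5 : 2 * (r - 1) = 2 * r - 2 := by ring
      rw [h5, zpow_sub, h1]
      norm_cast
      group
    have h6 := dvd_of_zpow_eq_one hc h3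
    rw [hn1'] at h6
    exact (mul_dvd_mul_iff_left (by norm_num : (2 : ℤ) ≠ 0)).mp h6
  have hzm : ∀ s : ℤ, c ^ (2 ^ (n - 1) * s) ∈ Subgroup.zpowers z := by
    intro s
    refine Subgroup.mem_zpowers_iff.mpr ⟨s, ?_⟩
    rw [hz, ← zpow_natCast, ← zpow_mul]
    norm_num
  have hgen : Subgroup.closure ({c, x} : Set G) = ⊤ := by
    have hcoat : IsCoatom C := Cfsg.Agent.H19.isCoatom_of_index_prime (by rw [hidx]; exact Nat.prime_two)
    apply hcoat.2
    refine lt_of_le_of_ne ?_ (fun h => hx ?_)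
    · rw [hC, Subgroup.zpowers_le]
      exact Subgroup.subset_closure (by simp)
    · rw [h]
      exact Subgroup.subset_closure (by simp)
  have hcxcomm : ⁅c, x⁆ ∈ Subgroup.zpowers z := by
    have h1 : ⁅c, x⁆ = c ^ (1 - r) := by
      rw [commutatorElement_def]
      have h2 : c * x * c⁻¹ * x⁻¹ = c * (x * c * x⁻¹)⁻¹ := by group
      rw [h2, hr]
      group
    rw [h1]
    obtain ⟨u, hu⟩ := hr1
    have h3 : 1 - r = 2 ^ (n - 1) * (-u) := by
      have : r - 1 = 2 ^ (n - 1) * u := hu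
      linarith
    rw [h3]
    exact hzm _
  have hcomm : ∀ g h : G, ⁅g, h⁆ ∈ Subgroup.zpowers z := by
    intro g h
    have h1 := Cfsg.Agent.H19.comm_le_of_gen (Subgroup.zpowers z) ({c, x} : Set G) (by
      intro s hs t ht
      rcases hs with rfl | rfl <;> rcases ht with rfl | rfl
      · rw [commutatorElement_self]
        exact Subgroup.one_mem _
      · exact hcxcomm
      · rw [← commutatorElement_inv]
        exact Subgroup.inv_mem _ hcxcomm
      · rw [commutatorElement_self]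
        exact Subgroup.one_mem _)
    rw [hgen] at h1
    exact h1 (Subgroup.commutator_mem_commutator (Subgroup.mem_top g) (Subgroup.mem_top h))
  obtain ⟨q, hq⟩ : ∃ q, 2 ^ (n - 1) = 2 * (2 * q) := by
    obtain ⟨k, hk⟩ : ∃ k, n - 1 = k + 2 := ⟨n - 3, by omega⟩
    refine ⟨2 ^ k, ?_⟩
    rw [hk]
    ring
  have hP : ∀ g h : G, (g * h) ^ 2 ^ (n - 1) = g ^ 2 ^ (n - 1) * h ^ 2 ^ (n - 1) := by
    intro g h
    obtain ⟨i, hi⟩ := hsq g
    obtain ⟨j, hj⟩ := hsq h
    set w := ⁅g⁻¹, h⁆ with hw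
    have hwm : w ∈ Subgroup.zpowers z := hcomm _ _
    have hwc : ∀ a : G, a * w = w * a := by
      intro a
      obtain ⟨k, hk⟩ := Subgroup.mem_zpowers_iff.mp hwm
      rw [← hk]
      exact ((show Commute a z from hzc a).zpow_right k).eq
    have hw2 : w ^ 2 = 1 := by
      rcases Cfsg.Agent.H19.mem_zpowers_two_cases hz2 hwm with h1 | h1
      · rw [h1, one_pow]
      · rw [h1, hz2]
    have h1 : (g * h) ^ 2 = g ^ 2 * h ^ 2 * w := by
      rw [mul_assoc, hwc (h ^ 2), hw, commutatorElement_def, pow_two g, pow_two h, pow_two (g * h)]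
      group
    have hcA : Commute (g ^ 2) (h ^ 2) := by
      rw [hj]
      exact hLcen j _
    have hcB : Commute (g ^ 2 * h ^ 2) w := (hwc _)
    rw [hq]
    calc (g * h) ^ (2 * (2 * q)) = ((g * h) ^ 2) ^ (2 * q) := pow_mul _ _ _
      _ = (g ^ 2 * h ^ 2 * w) ^ (2 * q) := by rw [h1]
      _ = (g ^ 2 * h ^ 2) ^ (2 * q) * w ^ (2 * q) := hcB.mul_pow _
      _ = (g ^ 2) ^ (2 * q) * (h ^ 2) ^ (2 * q) * (w ^ 2) ^ q := by
        rw [hcA.mul_pow, pow_mul w]
      _ = g ^ (2 * (2 * q)) * h ^ (2 * (2 * q)) := by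
        rw [hw2, one_pow, mul_one, ← pow_mul, ← pow_mul]
  let K : Subgroup G :=
    { carrier := {g | g ^ 2 ^ (n - 1) = 1}
      one_mem' := by simp
      mul_mem' := by
        intro a b ha hb
        simp only [Set.mem_setOf_eq] at ha hb ⊢
        rw [hP, ha, hb, one_mul]
      inv_mem' := by
        intro a ha
        simp only [Set.mem_setOf_eq] at ha ⊢
        rw [inv_pow, ha, inv_one] }
  have hmemK : ∀ g, g ∈ K ↔ g ^ 2 ^ (n - 1) = 1 := fun g => Iff.rfl
  have hvals : ∀ g : G, g ^ 2 ^ (n - 1) = 1 ∨ g ^ 2 ^ (n - 1) = z := by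
    intro g
    obtain ⟨i, hi⟩ := hsq g
    have h1 : g ^ 2 ^ (n - 1) = z ^ i := by
      rw [hq, pow_mul, hi, hz, hq, ← zpow_natCast, ← zpow_mul, ← zpow_natCast, ← zpow_mul]
      congr 1
      push_cast
      ring
    rw [h1]
    exact Cfsg.Agent.H19.mem_zpowers_two_cases hz2 (Subgroup.zpow_mem_zpowers z i)
  have hidxK : K.index = 2 := by
    rw [Subgroup.index_eq_two_iff]
    refine ⟨c, fun b => ?_⟩
    rcases hvals b with h1 | h1
    · right
      refine ⟨h1, ?_⟩
      change ¬ (b * c) ^ 2 ^ (n - 1) = 1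
      rw [hP, h1, one_mul]
      exact hz1
    · left
      refine ⟨?_, ?_⟩
      · change (b * c) ^ 2 ^ (n - 1) = 1
        rw [hP, h1, ← hz, ← pow_two, hz2]
      · change ¬ b ^ 2 ^ (n - 1) = 1
        rw [h1]
        exact hz1
  have hKcard : Nat.card K = 2 ^ n := by
    have h1 := K.card_mul_index
    rw [hidxK, hcard, pow_succ] at h1
    exact Nat.eq_of_mul_eq_mul_right (by norm_num) h1
  have hsolK : sol G (2 ^ (n - 1)) = Nat.card K := rfl
  refine ⟨by rw [hsolK, hKcard], ?_⟩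
  have hsol2 : sol G 2 = sol K 2 := by
    rw [sol_subgroup_eq]
    apply Nat.card_congr
    apply Equiv.subtypeEquivRight
    intro x
    constructor
    · intro h
      refine ⟨?_, h⟩
      rw [hmemK, hq, pow_mul, h, one_pow]
    · exact fun h => h.2
  rw [hsol2]
  have hKC : ∀ a ∈ K, a ∈ C → ∀ g : G, g * a = a * g := by
    intro a haK haC g
    obtain ⟨i, rfl⟩ := Subgroup.mem_zpowers_iff.mp haC
    have h1 : c ^ (i * ((2 ^ (n - 1) : ℕ) : ℤ)) = 1 := by
      rw [zpow_mul, zpow_natCast]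
      exact haK
    have h2 := dvd_of_zpow_eq_one hc h1
    have h3 : (2 : ℤ) ^ (n - 1) * 2 ∣ (2 : ℤ) ^ (n - 1) * i := by
      convert h2 using 1
      · rw [hn1']
        ring
      · push_cast
        ring
    have h4 := (mul_dvd_mul_iff_left (pow_ne_zero _ (by norm_num))).mp h3
    obtain ⟨i', rfl⟩ := h4
    exact hLcen i' g
  apply four_dvd_sol_of_comm (hG.to_subgroup K)
  · rintro ⟨a, ha⟩ ⟨b, hb⟩
    apply Subtype.ext
    change a * b = b * a
    by_cases h1 : a ∈ C
    · exact (hKC a ha h1 b).symm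
    · by_cases h2 : b ∈ C
      · exact hKC b hb h2 a
      · have h3 : a⁻¹ * b ∈ C := by
          rw [Subgroup.mul_mem_iff_of_index_two hidx]
          exact iff_of_false (fun h => h1 (by simpa using C.inv_mem h)) h2
        have h4 := hKC _ (K.mul_mem (K.inv_mem ha) hb) h3 a
        calc a * b = a * (a * (a⁻¹ * b)) := by group
          _ = a * ((a⁻¹ * b) * a) := by rw [h4]
          _ = (a * (a⁻¹ * b)) * a := by group
          _ = b * a := by group
  · intro hcyc
    obtain ⟨k, hk⟩ := IsCyclic.exists_generator (α := K)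
    have h1 : orderOf k = 2 ^ n := by
      rw [orderOf_eq_card_of_forall_mem_zpowers hk, hKcard]
    have h2 : (k : G) ^ 2 ^ (n - 1) = 1 := k.2
    have h3 : orderOf (k : G) = 2 ^ n := by
      rw [Subgroup.orderOf_coe]
      exact h1
    have h4 := orderOf_dvd_of_pow_eq_one h2
    rw [h3] at h4
    have h5 := Nat.le_of_dvd (pow_pos (by norm_num) _) h4
    have h6 : 2 ^ (n - 1) < 2 ^ n := Nat.pow_lt_pow_right (by norm_num) (by omega)
    omega

end

end Cfsg.Agent.H19.KulH
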