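import Mathlib
import Cfsg.Agent.Lib.H19.KulTwo2

/-!
The parity of the number of solutions of `x ^ (2 ^ k) = 1`; the congruence for subgroups.
-/

set_option autoImplicit false

namespace Cfsg.Agent.H19.KulH

open scoped commutatorElement
open Cfsg.Agent.H19

universe u

/-- The frame: a normal subgroup of index `p ^ 2` and the maximal subgroups above it. -/
theorem exists_frame {p : ℕ} [hpf : Fact p.Prime] {P : Type u} [Group P] [Finite P] (hP : IsPGroup p P)
    (hnc : ¬ IsCyclic P) {n' : ℕ} (hn : Nat.card P = p ^ (n' + 2)) :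
    ∃ (L : Subgroup P) (𝓜 : Finset (Subgroup P)), Nat.card L = p ^ n' ∧
      (∀ M ∈ 𝓜, Nat.card M = p ^ (n' + 1)) ∧
      ∀ d, ∑ M ∈ 𝓜, sol M d = sol P d + p * sol L d := by
  classical
  have hp : p.Prime := hpf.out
  haveI : Nontrivial P := by
    by_contra hnt
    rw [not_nontrivial_iff_subsingleton] at hnt
    exact hnc inferInstance
  obtain ⟨M₁, hM₁⟩ : ∃ M : Subgroup P, IsCoatom M := by
    rcases eq_top_or_exists_le_coatom (⊥ : Subgroup P) with h | ⟨M, hM, -⟩
    · exact absurd h bot_ne_top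
    · exact ⟨M, hM⟩
  obtain ⟨x, hx⟩ : ∃ x : P, x ∉ M₁ := by
    by_contra hno
    push_neg at hno
    exact hM₁.1 ((Subgroup.eq_top_iff' M₁).mpr hno)
  obtain ⟨M₂, hM₂, hxM₂⟩ : ∃ M : Subgroup P, IsCoatom M ∧ x ∈ M := by
    rcases eq_top_or_exists_le_coatom (Subgroup.zpowers x) with h | ⟨M, hM, hle⟩
    · exfalso
      apply hnc
      refine ⟨x, fun y => ?_⟩
      have hy : y ∈ Subgroup.zpowers x := by rw [h]; trivial
      exact hy
    · exact ⟨M, hM, hle (Subgroup.mem_zpowers x)⟩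
  have hne : M₁ ≠ M₂ := by
    rintro rfl
    exact hx hxM₂
  obtain ⟨hM₁n, hM₁i⟩ := Cfsg.Agent.H14.coatom_normal_index hP hM₁
  obtain ⟨hM₂n, hM₂i⟩ := Cfsg.Agent.H14.coatom_normal_index hP hM₂
  haveI := hM₁n
  haveI := hM₂n
  have hsup : M₁ ⊔ M₂ = ⊤ := hM₁.2 _ (lt_of_le_of_ne le_sup_left (fun h => hx (h ▸ (le_sup_right : M₂ ≤ M₁ ⊔ M₂) hxM₂)))
  have hcardindex : ∀ M : Subgroup P, M.index = p → Nat.card M = p ^ (n' + 1) := by
    intro M hM
    have h1 := M.card_mul_index
    rw [hM, hn, show n' + 2 = (n' + 1) + 1 by omega, pow_succ p (n' + 1)] at h1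
    exact Nat.eq_of_mul_eq_mul_right hp.pos h1
  set L := M₁ ⊓ M₂ with hLdef
  haveI hLn : L.Normal := inferInstance
  have hLcard : Nat.card L = p ^ n' := by
    have h1 := Cfsg.Agent.H18.card_sup_mul_card_inf M₁ M₂
    rw [hsup, Subgroup.card_top, hn, hcardindex M₁ hM₁i, hcardindex M₂ hM₂i] at h1
    have h2 : p ^ (n' + 2) * Nat.card (M₁ ⊓ M₂ : Subgroup P) = p ^ (n' + 2) * p ^ n' := by
      rw [h1, ← pow_add, ← pow_add]
      congr 1
      omega
    exact Nat.eq_of_mul_eq_mul_left (pow_pos hp.pos _) h2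
  have hLq : Nat.card (P ⧸ L) = p ^ 2 := by
    have h1 := Subgroup.card_eq_card_quotient_mul_card_subgroup L
    rw [hn, hLcard] at h1
    have h2 : Nat.card (P ⧸ L) * p ^ n' = p ^ 2 * p ^ n' := by
      rw [← h1, ← pow_add]
      congr 1
      omega
    exact Nat.eq_of_mul_eq_mul_right (pow_pos hp.pos _) h2
  have hpowmem : ∀ M : Subgroup P, M.Normal → M.index = p → ∀ y : P, y ^ p ∈ M := by
    intro M hMn hMi y
    haveI := hMn
    rw [← QuotientGroup.eq_one_iff, QuotientGroup.mk_pow]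
    have h1 : Nat.card (P ⧸ M) = p := hMi
    rw [← h1]
    exact pow_card_eq_one'
  have hLp : ∀ y : P, y ^ p ∈ L := fun y => ⟨hpowmem M₁ hM₁n hM₁i y, hpowmem M₂ hM₂n hM₂i y⟩
  let 𝓜 : Finset (Subgroup P) := (Set.toFinite {M : Subgroup P | L ≤ M ∧ M.index = p}).toFinset
  have h𝓜 : ∀ M : Subgroup P, M ∈ 𝓜 ↔ L ≤ M ∧ M.index = p := by
    intro M
    simp [𝓜]
  have hid := fun d => sum_sol_max L hLq hLp 𝓜 h𝓜 d
  have hsolall : ∀ (K : Type _) [Group K] [Finite K] (D : ℕ), Nat.card K ∣ D → sol K D = Nat.card K := by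
    intro K _ _ D hD
    unfold sol
    apply Nat.card_congr
    apply Equiv.subtypeUnivEquiv
    intro u
    obtain ⟨c, rfl⟩ := hD
    rw [pow_mul, pow_card_eq_one', one_pow]
  have h𝓜card : 𝓜.card = p + 1 := by
    have h1 := hid (Nat.card P)
    have h2 : ∑ M ∈ 𝓜, sol M (Nat.card P) = 𝓜.card * p ^ (n' + 1) := by
      rw [Finset.sum_congr rfl (g := fun _ => p ^ (n' + 1)) ?_]
      · simp
      · intro M hM
        rw [hsolall M _ (Subgroup.card_subgroup_dvd_card M)]
        exact hcardindex M ((h𝓜 M).mp hM).2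
    rw [h2, hsolall L _ (Subgroup.card_subgroup_dvd_card L), hsolall P _ (dvd_refl _), hLcard, hn] at h1
    have hpos : 0 < p ^ n' := pow_pos hp.pos _
    have h3 : (𝓜.card * p + 1) * p ^ n' = (p ^ 2 + 𝓜.card) * p ^ n' := by
      calc (𝓜.card * p + 1) * p ^ n' = 𝓜.card * p ^ (n' + 1) + p ^ n' := by ring
        _ = p ^ (n' + 2) + 𝓜.card * p ^ n' := h1
        _ = (p ^ 2 + 𝓜.card) * p ^ n' := by ring
    have h4 := Nat.eq_of_mul_eq_mul_right hpos h3
    have hp1 := hp.one_lt
    obtain ⟨q, rfl⟩ : ∃ q, p = q + 2 := ⟨p - 2, by omega⟩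
    have h5 : (𝓜.card : ℤ) * ((q : ℤ) + 1) = ((q : ℤ) + 3) * ((q : ℤ) + 1) := by
      have h6 : ((𝓜.card * (q + 2) + 1 : ℕ) : ℤ) = (((q + 2) ^ 2 + 𝓜.card : ℕ) : ℤ) := by rw [h4]
      push_cast at h6
      linarith
    have h7 : (𝓜.card : ℤ) = (q : ℤ) + 3 := mul_right_cancel₀ (by positivity) h5
    have h8 : (𝓜.card : ℤ) = ((q + 2 + 1 : ℕ) : ℤ) := by push_cast; linarith
    exact_mod_cast h8
  refine ⟨L, 𝓜, hLcard, fun M hM => hcardindex M ((h𝓜 M).mp hM).2, fun d => ?_⟩
  have hid2 := hid d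
  rw [h𝓜card] at hid2
  have : (p + 1) * sol L d = p * sol L d + sol L d := by ring
  omega

section

variable {G : Type u} [Group G] [Finite G]

theorem sol_eq_card_of_no_order (hG : IsPGroup 2 G) {m : ℕ} (hcard : Nat.card G = 2 ^ (m + 1))
    (hnc : ¬ IsCyclic G) : sol G (2 ^ m) = 2 ^ (m + 1) := by
  rw [← hcard]
  unfold sol
  apply Nat.card_congr
  apply Equiv.subtypeUnivEquiv
  intro x
  have h2 : orderOf x ∣ 2 ^ (m + 1) := by rw [← hcard]; exact orderOf_dvd_natCard x
  obtain ⟨j, hj, hj2⟩ := (Nat.dvd_prime_pow Nat.prime_two).mp h2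
  have hjne : j ≠ m + 1 := by
    rintro rfl
    exact hnc (isCyclic_of_orderOf_eq_card x (by rw [hj2, hcard]))
  rw [← orderOf_dvd_iff_pow_eq_one, hj2]
  exact pow_dvd_pow 2 (by omega)

theorem no_max_both (hG : IsPGroup 2 G) {n : ℕ} (hn : 3 ≤ n) (hcard : Nat.card G = 2 ^ (n + 1))
    (hnc : ¬ IsCyclic G) (hc : ∀ c : G, orderOf c ≠ 2 ^ n) :
    (2 ^ n ∣ sol G (2 ^ (n - 1))) ∧ 4 ∣ sol G 2 := by
  refine ⟨?_, ?_⟩
  · have h1 : sol G (2 ^ (n - 1)) = 2 ^ (n + 1) := by
      rw [← hcard]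
      unfold sol
      apply Nat.card_congr
      apply Equiv.subtypeUnivEquiv
      intro x
      have h2 : orderOf x ∣ 2 ^ (n + 1) := by rw [← hcard]; exact orderOf_dvd_natCard x
      obtain ⟨j, hj, hj2⟩ := (Nat.dvd_prime_pow Nat.prime_two).mp h2
      have hjne : j ≠ n + 1 := by
        rintro rfl
        exact hnc (isCyclic_of_orderOf_eq_card x (by rw [hj2, hcard]))
      have hjne2 : j ≠ n := by
        rintro rfl
        exact hc x hj2
      rw [← orderOf_dvd_iff_pow_eq_one, hj2]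
      exact pow_dvd_pow 2 (by omega)
    rw [h1]
    exact pow_dvd_pow 2 (by omega)
  · apply four_dvd_of_no_cyc hG
    · rw [hcard]
      calc 16 = 2 ^ 4 := by norm_num
        _ ≤ 2 ^ (n + 1) := Nat.pow_le_pow_right (by norm_num) (by omega)
    · rintro ⟨C, hC, hidx⟩
      have hi0 : C.index ≠ 0 := Subgroup.index_ne_zero_of_finite
      have hcases : C.index = 1 ∨ C.index = 2 := by omega
      rcases hcases with h | h
      · apply hnc
        rw [Subgroup.index_eq_one] at h
        rw [h] at hC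
        exact isCyclic_of_surjective (Subgroup.topEquiv (G := G)).toMonoidHom
          (Subgroup.topEquiv (G := G)).surjective
      · obtain ⟨k, hk⟩ := hC.exists_generator
        apply hc k.1
        rw [Subgroup.orderOf_coe, orderOf_eq_card_of_forall_mem_zpowers hk]
        have h1 := C.card_mul_index
        rw [h, hcard, pow_succ] at h1
        exact Nat.eq_of_mul_eq_mul_right (by norm_num) h1

/-- `A*`: the top case of the parity statement. -/
theorem thmAstar (hG : IsPGroup 2 G) {n : ℕ} (hn : 3 ≤ n) (hcard : Nat.card G = 2 ^ (n + 1))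
    (hnc : ¬ IsCyclic G) : 2 ^ n ∣ sol G (2 ^ (n - 1)) ↔ 4 ∣ sol G 2 := by
  by_cases hc : ∃ c : G, orderOf c = 2 ^ n
  · obtain ⟨c, hc⟩ := hc
    by_cases hI : ∀ g : G, g * c ^ 2 = c ^ 2 * g
    · obtain ⟨h1, h2⟩ := caseI hG hn hcard hnc hc hI
      exact iff_of_true h1 h2
    · obtain ⟨h1, h2, -⟩ := caseII hG hn hcard hc hI
      exact iff_of_false h1 h2
  · push_neg at hc
    obtain ⟨h1, h2⟩ := no_max_both hG hn hcard hnc hc
    exact iff_of_true h1 h2

end

/-- Parity: all the numbers behave like the one for `k = 1`. -/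
theorem ev_T : ∀ N : ℕ, ∀ (G : Type u) [Group G] [Finite G], Nat.card G = N → IsPGroup 2 G →
    ∀ m k : ℕ, Nat.card G = 2 ^ m → 1 ≤ k → k + 2 ≤ m →
      (2 ^ (k + 1) ∣ sol G (2 ^ k) ↔ 4 ∣ sol G 2) := by
  intro N
  induction N using Nat.strong_induction_on with
  | _ N ih =>
  intro G _ _ hN hG m k hcard hk1 hk2
  classical
  haveI : Fact (Nat.Prime 2) := ⟨Nat.prime_two⟩
  by_cases hcyc : IsCyclic G
  · have h1 : sol G (2 ^ k) = 2 ^ k := sol_cyc_eq G (by
      rw [hcard]
      exact pow_dvd_pow 2 (by omega))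
    have h2 : sol G 2 = 2 := sol_cyc_eq G (by
      rw [hcard]
      exact dvd_pow_self 2 (by omega))
    rw [h1, h2]
    refine iff_of_false ?_ (by norm_num)
    intro h
    have h3 := Nat.le_of_dvd (pow_pos (by norm_num) _) h
    have h4 : 2 ^ k < 2 ^ (k + 1) := Nat.pow_lt_pow_right (by norm_num) (Nat.lt_succ_self k)
    omega
  rcases Nat.lt_or_ge 1 k with hk | hk
  swap
  · have : k = 1 := by omega
    subst this
    norm_num
  rcases Nat.lt_or_ge (k + 2) m with hlt | hge
  swap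
  · have hm : m = k + 2 := by omega
    subst hm
    have h1 := thmAstar hG (n := k + 1) (by omega) hcard hcyc
    simpa using h1
  obtain ⟨n', rfl⟩ : ∃ n', m = n' + 2 := ⟨m - 2, by omega⟩
  obtain ⟨L, 𝓜, hL, h𝓜, hid⟩ := exists_frame hG hcyc hcard
  -- the parity data
  have hpow : ∀ M ∈ 𝓜, ∃ a b : ℕ, sol M (2 ^ k) = 2 ^ k * a ∧ sol M 2 = 2 * b ∧ (2 ∣ a ↔ 2 ∣ b) := by
    intro M hM
    have hMc := h𝓜 M hM
    obtain ⟨a, ha⟩ := dvd_sol (G := M) (m := 2 ^ k) (by
      rw [hMc]
      exact pow_dvd_pow 2 (by omega))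
    obtain ⟨b, hb⟩ := dvd_sol (G := M) (m := 2) (by
      rw [hMc]
      exact dvd_pow_self 2 (by omega))
    refine ⟨a, b, ha, hb, ?_⟩
    have hlt2 : Nat.card M < N := by
      rw [← hN, hcard, hMc]
      exact Nat.pow_lt_pow_right (by norm_num) (by omega)
    have h1 := ih _ hlt2 M rfl (hG.to_subgroup M) (n' + 1) k hMc hk1 (by omega)
    rw [ha, hb, pow_succ] at h1
    have h2 : (2 ^ k * 2 ∣ 2 ^ k * a) ↔ 2 ∣ a := mul_dvd_mul_iff_left (pow_ne_zero _ (by norm_num))
    have h3 : (4 ∣ 2 * b) ↔ 2 ∣ b := by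
      have : (4 : ℕ) = 2 * 2 := by norm_num
      rw [this]
      exact mul_dvd_mul_iff_left (by norm_num)
    rw [h2, h3] at h1
    exact h1
  choose! a b ha hb hab using hpow
  obtain ⟨l, hl⟩ := dvd_sol (G := L) (m := 2 ^ k) (by
    rw [hL]
    exact pow_dvd_pow 2 (by omega))
  obtain ⟨l', hl'⟩ := dvd_sol (G := L) (m := 2) (by
    rw [hL]
    exact dvd_pow_self 2 (by omega))
  obtain ⟨s, hs⟩ := dvd_sol (G := G) (m := 2 ^ k) (by
    rw [hcard]
    exact pow_dvd_pow 2 (by omega))
  obtain ⟨s', hs'⟩ := dvd_sol (G := G) (m := 2) (by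
    rw [hcard]
    exact dvd_pow_self 2 (by omega))
  have h1 := hid (2 ^ k)
  have h2 := hid 2
  rw [Finset.sum_congr rfl ha, ← Finset.mul_sum, hs, hl] at h1
  rw [Finset.sum_congr rfl hb, ← Finset.mul_sum, hs', hl'] at h2
  have h3 : ∑ M ∈ 𝓜, a M = s + 2 * l := by
    apply Nat.eq_of_mul_eq_mul_left (pow_pos (by norm_num : 0 < 2) k)
    rw [h1]
    ring
  have h4 : ∑ M ∈ 𝓜, b M = s' + 2 * l' := by
    apply Nat.eq_of_mul_eq_mul_left (by norm_num : 0 < 2)
    rw [h2]
    ring
  have hpar : ∑ M ∈ 𝓜, a M ≡ ∑ M ∈ 𝓜, b M [MOD 2] := by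
    unfold Nat.ModEq
    rw [Finset.sum_nat_mod, Finset.sum_nat_mod (f := b)]
    congr 1
    apply Finset.sum_congr rfl
    intro M hM
    have := hab M hM
    omega
  rw [h3, h4] at hpar
  rw [hs, hs', pow_succ]
  have h5 : (2 ^ k * 2 ∣ 2 ^ k * s) ↔ 2 ∣ s := mul_dvd_mul_iff_left (pow_ne_zero _ (by norm_num))
  have h6 : (4 ∣ 2 * s') ↔ 2 ∣ s' := by
    have : (4 : ℕ) = 2 * 2 := by norm_num
    rw [this]
    exact mul_dvd_mul_iff_left (by norm_num)
  rw [h5, h6]
  unfold Nat.ModEq at hpar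
  omega

section

variable {G : Type u} [Group G] [Finite G]

/-- The divisibility for `p = 2`. -/
theorem ev_final (hG : IsPGroup 2 G) {m : ℕ} (hcard : Nat.card G = 2 ^ m) (hnc : ¬ IsCyclic G)
    (hclass : Group.nilpotencyClass G ≠ m - 1) (k : ℕ) (hk1 : 1 ≤ k) (hk2 : k < m) :
    2 ^ (k + 1) ∣ sol G (2 ^ k) := by
  classical
  haveI : Fact (Nat.Prime 2) := ⟨Nat.prime_two⟩
  obtain ⟨m', rfl⟩ : ∃ m', m = m' + 1 := ⟨m - 1, by omega⟩
  rcases Nat.lt_or_ge (k + 1) (m' + 1) with hlt | hge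
  swap
  · have hk : k = m' := by omega
    subst hk
    rw [sol_eq_card_of_no_order hG hcard hnc]
  have hm2 : m' + 1 ≠ 2 := by
    intro h
    apply hclass
    have h1 : m' = 1 := by omega
    subst h1
    have h2 := Cfsg.Agent.H19.nilpotencyClass_of_selfCentralizing_sq (p := 2) 2 G hcard ⊤
      (by rw [Subgroup.card_top, hcard]) le_top
    simpa using h2
  have hone : 4 ∣ sol G 2 := by
    by_cases hm3 : m' + 1 = 3
    · have h1 : m' = 2 := by omega
      subst h1
      by_cases hcomm : ∀ a b : G, a * b = b * a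
      · exact four_dvd_sol_of_comm hG hcomm hnc
      · exfalso
        push_neg at hcomm
        obtain ⟨a, b, hab⟩ := hcomm
        apply hclass
        let A : Subgroup G := Subgroup.centralizer {a}
        have hmemA : ∀ g, g ∈ A ↔ g * a = a * g := fun g => Subgroup.mem_centralizer_singleton_iff
        have haA : a ∈ A := (hmemA a).mpr rfl
        have hbA : b ∉ A := fun h => hab ((hmemA b).mp h).symm
        haveI hne : Nontrivial G := by
          by_contra hnt
          rw [not_nontrivial_iff_subsingleton] at hnt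
          exact hnc inferInstance
        obtain ⟨z, hzo, hzc⟩ := exists_central_order hG hne
        have hzA : z ∈ A := (hmemA z).mpr (hzc a).symm
        have hz1 : z ≠ 1 := by
          intro h
          rw [h, orderOf_one] at hzo
          omega
        have haz : a ≠ z := by
          intro h
          apply hab
          rw [h]
          exact (hzc b).symm
        have ha1 : a ≠ 1 := by
          intro h
          apply hab
          rw [h]
          simp
        have hle3 : 3 ≤ Nat.card A := by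
          haveI : Fintype A := Fintype.ofFinite _
          rw [Nat.card_eq_fintype_card]
          have hS : ({⟨1, A.one_mem⟩, ⟨a, haA⟩, ⟨z, hzA⟩} : Finset A).card = 3 := by
            rw [Finset.card_insert_of_notMem, Finset.card_insert_of_notMem, Finset.card_singleton]
            · simp only [Finset.mem_singleton, Subtype.mk.injEq]
              exact haz
            · simp only [Finset.mem_insert, Finset.mem_singleton, Subtype.mk.injEq, not_or]
              exact ⟨ha1.symm, hz1.symm⟩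
          rw [← hS]
          exact Finset.card_le_univ _
        have hdvd : Nat.card A ∣ 2 ^ 3 := by
          rw [← hcard]
          exact Subgroup.card_subgroup_dvd_card A
        obtain ⟨j, hj, hj2⟩ := (Nat.dvd_prime_pow Nat.prime_two).mp hdvd
        have hne8 : Nat.card A ≠ 2 ^ 3 := by
          intro h
          have h3 : A = ⊤ := Subgroup.eq_top_of_card_eq A (by rw [h, hcard])
          apply hbA
          rw [h3]
          exact Subgroup.mem_top b
        have hj' : j = 2 := by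
          rw [hj2] at hle3 hne8
          rcases (by omega : j = 0 ∨ j = 1 ∨ j = 2 ∨ j = 3) with h | h | h | h
          · rw [h] at hle3
            norm_num at hle3
          · rw [h] at hle3
            norm_num at hle3
          · exact h
          · rw [h] at hne8
            exact absurd rfl hne8
        have hA4 : Nat.card A = 2 ^ 2 := by rw [hj2, hj']
        have hcentr : Subgroup.centralizer (A : Set G) ≤ A := by
          intro g hg
          rw [hmemA]
          exact (Subgroup.mem_centralizer_iff.mp hg a haA).symm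
        have h2 := Cfsg.Agent.H19.nilpotencyClass_of_selfCentralizing_sq (p := 2) 3 G hcard A hA4 hcentr
        simpa using h2
    · have hm4 : 3 ≤ m' := by omega
      by_cases hc : ∃ c : G, orderOf c = 2 ^ m'
      · obtain ⟨c, hc⟩ := hc
        by_cases hI : ∀ g : G, g * c ^ 2 = c ^ 2 * g
        · exact (caseI hG hm4 hcard hnc hc hI).2
        · exfalso
          apply hclass
          have := (caseII hG hm4 hcard hc hI).2.2
          simpa using this
      · push_neg at hc
        exact (no_max_both hG hm4 hcard hnc hc).2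
  exact (ev_T _ G rfl hG (m' + 1) k hcard hk1 (by omega)).mpr hone

/-- The congruence. -/
theorem subgroup_count {p : ℕ} [hp : Fact p.Prime] (hG : IsPGroup p G) (k : ℕ) (hk : p ^ k ∣ Nat.card G)
    (hd : p ^ (k + 1) ∣ sol G (p ^ k)) :
    Nat.card {H : Subgroup G // Nat.card H = p ^ k} ≡ 1 + p [MOD p ^ 2] := by
  obtain ⟨a, ha, hmod⟩ := univ_id (p := p) _ G rfl hG k hk
  have hp1 := hp.out.one_lt
  rw [ha, pow_succ] at hd
  have hd2 : p ∣ a := (mul_dvd_mul_iff_left (pow_ne_zero _ hp.out.ne_zero)).mp hd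
  obtain ⟨b, rfl⟩ := hd2
  have h1 : p * (p * b) ≡ 0 [MOD p ^ 2] := by
    rw [Nat.modEq_zero_iff_dvd]
    exact ⟨b, by ring⟩
  have h2 := hmod.trans h1
  have h3 : (p - 1) * (1 + p) + 1 ≡ 0 [MOD p ^ 2] := by
    rw [Nat.modEq_zero_iff_dvd]
    obtain ⟨q, rfl⟩ : ∃ q, p = q + 1 := ⟨p - 1, by omega⟩
    refine ⟨1, ?_⟩
    simp only [Nat.add_sub_cancel]
    ring
  have h4 := h2.trans h3.symm
  have h5 := Nat.ModEq.add_right_cancel' 1 h4
  apply Nat.ModEq.cancel_left_of_coprime _ h5
  have h6 : Nat.Coprime (p ^ 2) (p - 1) := by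
    apply Nat.Coprime.pow_left
    have h7 : Nat.Coprime p (p - 1) := by
      rw [Nat.coprime_self_sub_right hp1.le]
      exact Nat.coprime_one_right p
    exact h7
  exact h6

end

end Cfsg.Agent.H19.KulH
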