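import Mathlib
import Cfsg.Agent.Lib.H03.PSolv
import Cfsg.Agent.Lib.H15.OddInvol
import Cfsg.Agent.Lib.H18.Syl

/-! Orbit-spanned representations of `p`-soluble groups: fixed vectors. -/

set_option autoImplicit false

namespace Cfsg.Agent.H19

universe u v w

section basic

variable {k : Type w} {V : Type v} {H : Type u} [Field k] [AddCommGroup V] [Module k V] [Group H]

/-- Stabilizer of a vector. -/
def repStab (ρ : Representation k H V) (v : V) : Subgroup H where
  carrier := {h | ρ h v = v}
  mul_mem' := by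
    intro a b ha hb
    simp only [Set.mem_setOf_eq] at *
    rw [map_mul, Module.End.mul_apply, hb, ha]
  one_mem' := by simp
  inv_mem' := by
    intro a ha
    simp only [Set.mem_setOf_eq] at *
    have : ρ a⁻¹ (ρ a v) = v := by
      rw [← Module.End.mul_apply, ← map_mul]; simp
    rwa [ha] at this

theorem mem_repStab {ρ : Representation k H V} {v : V} {h : H} : h ∈ repStab ρ v ↔ ρ h v = v := Iff.rfl

theorem card_orbit_eq_index [Finite H] (ρ : Representation k H V) (v : V) :
    Nat.card {u : V | ∃ h : H, ρ h v = u} = (repStab ρ v).index := by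
  letI act : MulAction H V :=
    { smul := fun h x => ρ h x
      one_smul := fun x => by change ρ 1 x = x; simp
      mul_smul := fun a b x => by change ρ (a * b) x = ρ a (ρ b x); simp }
  have h2 := MulAction.index_stabilizer H v
  have h1 : MulAction.stabilizer H v = repStab ρ v := rfl
  rw [h1] at h2
  rw [h2]
  rfl

/-- The average over a subgroup. -/
noncomputable def repAvg (ρ : Representation k H V) (L : Subgroup H) [Fintype L] : V →ₗ[k] V :=
  (Fintype.card L : k)⁻¹ • ∑ l : L, ρ (l : H)

variable (ρ : Representation k H V) (L : Subgroup H) [Fintype L]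

theorem repAvg_apply (v : V) : repAvg ρ L v = (Fintype.card L : k)⁻¹ • ∑ l : L, ρ (l : H) v := by
  simp [repAvg, LinearMap.sum_apply]

theorem repAvg_fixed (v : V) {x : H} (hx : x ∈ L) : ρ x (repAvg ρ L v) = repAvg ρ L v := by
  rw [repAvg_apply, map_smul, map_sum]
  congr 1
  refine Fintype.sum_equiv (Equiv.mulLeft (⟨x, hx⟩ : L)) _ _ fun l => ?_
  simp [Equiv.mulLeft]

theorem repAvg_of_fixed (hL : (Fintype.card L : k) ≠ 0) {v : V} (hv : ∀ l ∈ L, ρ l v = v) :
    repAvg ρ L v = v := by
  rw [repAvg_apply]
  have : ∑ l : L, ρ (l : H) v = (Fintype.card L : k) • v := by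
    rw [Finset.sum_congr rfl fun (l : L) _ => hv l l.2]
    simp [Finset.card_univ, Nat.cast_smul_eq_nsmul]
  rw [this, smul_smul, inv_mul_cancel₀ hL, one_smul]

theorem repAvg_comm [hn : L.Normal] (h : H) (v : V) : ρ h (repAvg ρ L v) = repAvg ρ L (ρ h v) := by
  rw [repAvg_apply, repAvg_apply, map_smul, map_sum]
  congr 1
  refine Fintype.sum_equiv (MulAut.conjNormal h).toEquiv _ _ fun l => ?_
  have : ((MulAut.conjNormal h l : L) : H) = h * l * h⁻¹ := MulAut.conjNormal_apply h l
  change ρ h (ρ (l : H) v) = ρ ((MulAut.conjNormal h l : L) : H) (ρ h v)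
  rw [this]
  simp

/-- The average expressed through the orbit. -/
theorem repAvg_eq_image [DecidableEq V] (hL : (Fintype.card L : k) ≠ 0) (u : V) :
    repAvg ρ L u = (((Finset.univ.image fun l : L => ρ (l : H) u).card : ℕ) : k)⁻¹ •
      ∑ w ∈ Finset.univ.image (fun l : L => ρ (l : H) u), w := by
  classical
  set O := Finset.univ.image (fun l : L => ρ (l : H) u) with hO
  set c := (Finset.univ.filter fun l : L => ρ (l : H) u = u).card with hc
  have hfib : ∀ w ∈ O, (Finset.univ.filter fun l : L => ρ (l : H) u = w).card = c := by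
    intro w hw
    obtain ⟨l₀, -, rfl⟩ := Finset.mem_image.mp hw
    rw [hc]
    refine Finset.card_bij (fun l _ => l₀⁻¹ * l) ?_ ?_ ?_
    · intro l hl
      simp only [Finset.mem_filter, Finset.mem_univ, true_and] at hl ⊢
      simp only [Subgroup.coe_mul, Subgroup.coe_inv, map_mul, Module.End.mul_apply, hl]
      simp
    · intro l₁ _ l₂ _ h
      exact mul_left_cancel h
    · intro l hl
      simp only [Finset.mem_filter, Finset.mem_univ, true_and] at hl
      refine ⟨l₀ * l, ?_, by simp⟩
      simp only [Finset.mem_filter, Finset.mem_univ, true_and]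
      simp only [Subgroup.coe_mul, map_mul, Module.End.mul_apply, hl]
  have h1 : ∑ l : L, ρ (l : H) u = c • ∑ w ∈ O, w := by
    have := Finset.sum_comp (s := Finset.univ) (f := fun w : V => w) (g := fun l : L => ρ (l : H) u)
    simp only at this
    rw [this, Finset.smul_sum]
    exact Finset.sum_congr rfl fun w hw => by rw [hfib w hw]
  have h2 : Fintype.card L = c * O.card := by
    have := Finset.card_eq_sum_card_image (fun l : L => ρ (l : H) u) Finset.univ
    rw [Finset.card_univ] at this
    rw [this, Finset.sum_congr rfl fun w hw => hfib w hw]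
    simp [mul_comm]
  rw [repAvg_apply, h1]
  have h3 : (Fintype.card L : k) = (c : k) * (O.card : k) := by rw [h2]; push_cast; ring
  have hc0 : (c : k) ≠ 0 := fun h0 => hL (by rw [h3, h0, zero_mul])
  have hO0 : (O.card : k) ≠ 0 := fun h0 => hL (by rw [h3, h0, mul_zero])
  rw [← Nat.cast_smul_eq_nsmul k, smul_smul, h3]
  congr 1
  field_simp

theorem repAvg_eq_of_orbit (L' : Subgroup H) [Fintype L'] (hL : (Fintype.card L : k) ≠ 0)
    (hL' : (Fintype.card L' : k) ≠ 0) (u : V)
    (h : ∀ w, (∃ l ∈ L, ρ l u = w) ↔ (∃ l ∈ L', ρ l u = w)) :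
    repAvg ρ L u = repAvg ρ L' u := by
  classical
  rw [repAvg_eq_image ρ L hL, repAvg_eq_image ρ L' hL']
  have : (Finset.univ.image fun l : L => ρ (l : H) u) = Finset.univ.image fun l : L' => ρ (l : H) u := by
    ext w
    simp only [Finset.mem_image, Finset.mem_univ, true_and]
    constructor
    · rintro ⟨l, rfl⟩
      obtain ⟨l', hl', h'⟩ := (h _).mp ⟨l, l.2, rfl⟩
      exact ⟨⟨l', hl'⟩, h'⟩
    · rintro ⟨l, rfl⟩
      obtain ⟨l', hl', h'⟩ := (h _).mpr ⟨l, l.2, rfl⟩
      exact ⟨⟨l', hl'⟩, h'⟩
  rw [this]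

end basic

section key

variable {k : Type w} {V : Type v} {H : Type u} [Field k] [AddCommGroup V] [Module k V] [Group H]
  [Finite H]

/-- Vectors with coprime orbit are fixed by normal subgroups of invertible order. -/
theorem fixed_of_coprime (ρ : Representation k H V) (a b : V) (N : Subgroup H) [hNn : N.Normal] [Fintype N]
    (hN : (Fintype.card N : k) ≠ 0)
    (hspan : Submodule.span k {u : V | ∃ h : H, ρ h a = u} = ⊤)
    (hcop : (repStab ρ a).index.Coprime (repStab ρ b).index) {n : H} (hn : n ∈ N) : ρ n b = b := by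
  classical
  let B₀ : Subgroup H := repStab ρ b ⊓ N
  letI : Fintype B₀ := Fintype.ofFinite _
  have hB₀ : (Fintype.card B₀ : k) ≠ 0 := by
    intro h0
    apply hN
    have h1 : Nat.card (B₀.subgroupOf N) * (B₀.subgroupOf N).index = Nat.card N := Subgroup.card_mul_index _
    have h2 : Nat.card (B₀.subgroupOf N) = Nat.card B₀ :=
      Nat.card_congr (Subgroup.subgroupOfEquivOfLe (inf_le_right)).toEquiv
    rw [h2] at h1
    simp only [Nat.card_eq_fintype_card] at h1
    rw [← h1]
    push_cast
    rw [h0, zero_mul]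
  have horb : ∀ x : H, repAvg ρ B₀ (ρ x a) = repAvg ρ N (ρ x a) := by
    intro x
    refine repAvg_eq_of_orbit ρ B₀ N hB₀ hN _ fun w => ⟨?_, ?_⟩
    · rintro ⟨l, hl, rfl⟩
      exact ⟨l, hl.2, rfl⟩
    · rintro ⟨l, hl, rfl⟩
      have hidx : (repStab ρ (ρ x a)).index = (repStab ρ a).index := by
        rw [← card_orbit_eq_index, ← card_orbit_eq_index]
        have hset : {u : V | ∃ h : H, ρ h (ρ x a) = u} = {u : V | ∃ h : H, ρ h a = u} := by
          ext u
          constructor
          · rintro ⟨h, rfl⟩
            exact ⟨h * x, by simp⟩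
          · rintro ⟨h, rfl⟩
            exact ⟨h * x⁻¹, by simp⟩
        rw [hset]
      have h1 : (repStab ρ b).relIndex N ∣ (repStab ρ b).index :=
        Cfsg.Agent.H18.relIndex_dvd_index_of_normal_right _ _
      have h2 : (repStab ρ (ρ x a)).relIndex N ∣ (repStab ρ a).index := by
        rw [← hidx]
        exact Cfsg.Agent.H18.relIndex_dvd_index_of_normal_right _ _
      have hc : ((repStab ρ b).subgroupOf N).index.Coprime ((repStab ρ (ρ x a)).subgroupOf N).index :=
        (Nat.Coprime.coprime_dvd_left h1 (Nat.Coprime.coprime_dvd_right h2 hcop.symm))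
      obtain ⟨r, hr, c, hc', hrc⟩ := Cfsg.Agent.H15.exists_mul_of_coprime_index _ _ hc (⟨l, hl⟩ : N)
      refine ⟨r, ⟨Subgroup.mem_subgroupOf.mp hr, r.2⟩, ?_⟩
      have h3 : l = (r : H) * (c : H) := congrArg Subtype.val hrc
      rw [h3, map_mul, Module.End.mul_apply]
      have h4 : ρ (c : H) (ρ x a) = ρ x a := Subgroup.mem_subgroupOf.mp hc'
      rw [h4]
  have hall : (ρ n) ∘ₗ (repAvg ρ B₀) = repAvg ρ B₀ := by
    refine LinearMap.ext_on hspan ?_
    rintro _ ⟨x, rfl⟩
    simp only [LinearMap.comp_apply]
    rw [horb]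
    exact repAvg_fixed ρ N _ hn
  have hb : repAvg ρ B₀ b = b := repAvg_of_fixed ρ B₀ hB₀ fun l hl => hl.1
  have := LinearMap.congr_fun hall b
  simp only [LinearMap.comp_apply] at this
  rwa [hb] at this

/-- Vectors fixed by `N`. -/
def fixN (ρ : Representation k H V) (N : Subgroup H) : Submodule k V where
  carrier := {v | ∀ n ∈ N, ρ n v = v}
  add_mem' := by
    intro a b ha hb n hn
    rw [map_add, ha n hn, hb n hn]
  zero_mem' := by
    intro n _
    simp
  smul_mem' := by
    intro c a ha n hn
    rw [map_smul, ha n hn]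

theorem mem_fixN {ρ : Representation k H V} {N : Subgroup H} {v : V} :
    v ∈ fixN ρ N ↔ ∀ n ∈ N, ρ n v = v := Iff.rfl

theorem fixN_stable (ρ : Representation k H V) (N : Subgroup H) [hN : N.Normal] (h : H) {w : V}
    (hw : w ∈ fixN ρ N) : ρ h w ∈ fixN ρ N := by
  intro n hn
  have h1 : h⁻¹ * n * h ∈ N := by
    have := hN.conj_mem n hn h⁻¹
    simpa using this
  have h2 := hw _ h1
  have h3 : ρ n (ρ h w) = ρ h (ρ (h⁻¹ * n * h) w) := by
    rw [← Module.End.mul_apply, ← map_mul, ← Module.End.mul_apply, ← map_mul]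
    congr 2
    group
  rw [h3, h2]

/-- The representation on `N`-fixed vectors. -/
def restrictFix (ρ : Representation k H V) (N : Subgroup H) [hN : N.Normal] :
    Representation k H (fixN ρ N) where
  toFun h := (ρ h).restrict (fun _ hw => fixN_stable ρ N h hw)
  map_one' := by
    ext w
    simp
  map_mul' a b := by
    ext w
    simp

/-- The representation of the quotient on `N`-fixed vectors. -/
def quotRep (ρ : Representation k H V) (N : Subgroup H) [hN : N.Normal] :
    Representation k (H ⧸ N) (fixN ρ N) :=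
  QuotientGroup.lift N (restrictFix ρ N) (by
    intro n hn
    ext w
    exact w.2 n hn)

theorem quotRep_mk (ρ : Representation k H V) (N : Subgroup H) [hN : N.Normal] (h : H) (w : fixN ρ N) :
    ((quotRep ρ N (h : H ⧸ N) w : fixN ρ N) : V) = ρ h w := rfl

theorem comap_repStab_quotRep (ρ : Representation k H V) (N : Subgroup H) [hN : N.Normal] (w : fixN ρ N) :
    (repStab (quotRep ρ N) w).comap (QuotientGroup.mk' N) = repStab ρ (w : V) := by
  ext h
  constructor
  · intro hh
    have h1 : quotRep ρ N (h : H ⧸ N) w = w := hh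
    have h2 := congrArg Subtype.val h1
    exact h2
  · intro hh
    refine Subtype.ext ?_
    exact hh

theorem index_repStab_quotRep (ρ : Representation k H V) (N : Subgroup H) [hN : N.Normal] (w : fixN ρ N) :
    (repStab (quotRep ρ N) w).index = (repStab ρ (w : V)).index := by
  rw [← comap_repStab_quotRep, Subgroup.index_comap_of_surjective _ (QuotientGroup.mk'_surjective N)]

/-- The descent to the quotient. -/
theorem orbSpan_descend (p : ℕ) [hp : Fact p.Prime] (ρ : Representation k H V) [Module.Finite k V]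
    (N : Subgroup H) [hN : N.Normal] (a a' : V) (ha' : a' ∈ fixN ρ N)
    (hst : repStab ρ a ≤ repStab ρ a') (P : Sylow p H) (hP : ∀ x ∈ (P : Subgroup H), ρ x a = a)
    (hspan' : Submodule.span k {u : V | ∃ h : H, ρ h a' = u} = fixN ρ N)
    (hb : ∀ b : V, (repStab ρ a).index.Coprime (repStab ρ b).index → b ∈ fixN ρ N)
    (IH : (∃ P : Sylow p (H ⧸ N), ∀ x ∈ (P : Subgroup (H ⧸ N)),
            quotRep ρ N x (⟨a', ha'⟩ : fixN ρ N) = ⟨a', ha'⟩) →
        Submodule.span k {u : fixN ρ N | ∃ h : H ⧸ N, quotRep ρ N h (⟨a', ha'⟩ : fixN ρ N) = u} = ⊤ →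
        Module.finrank k (quotRep ρ N).invariants ≤ 1 ∧
        ∀ b : fixN ρ N, (repStab (quotRep ρ N) ⟨a', ha'⟩).index.Coprime (repStab (quotRep ρ N) b).index →
          ∀ h : H ⧸ N, quotRep ρ N h b = b) :
    Module.finrank k ρ.invariants ≤ 1 ∧
    ∀ b : V, (repStab ρ a).index.Coprime (repStab ρ b).index → ∀ h : H, ρ h b = b := by
  have hinv : ∀ v ∈ ρ.invariants, v ∈ fixN ρ N := fun v hv n _ => hv n
  have hA : ∃ P : Sylow p (H ⧸ N), ∀ x ∈ (P : Subgroup (H ⧸ N)),
      quotRep ρ N x (⟨a', ha'⟩ : fixN ρ N) = ⟨a', ha'⟩ := by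
    refine ⟨P.mapSurjective (QuotientGroup.mk'_surjective N), ?_⟩
    intro x hx
    rw [Sylow.coe_mapSurjective] at hx
    obtain ⟨y, hy, rfl⟩ := hx
    refine Subtype.ext ?_
    exact hst (hP y hy)
  have hB : Submodule.span k {u : fixN ρ N | ∃ h : H ⧸ N, quotRep ρ N h (⟨a', ha'⟩ : fixN ρ N) = u} = ⊤ := by
    rw [eq_top_iff]
    rintro ⟨w, hw⟩ -
    have hw' := hw
    rw [← hspan'] at hw'
    have h3 : (Submodule.span k {u : fixN ρ N | ∃ h : H ⧸ N, quotRep ρ N h (⟨a', ha'⟩ : fixN ρ N) = u}).map
        (fixN ρ N).subtype = Submodule.span k {u : V | ∃ h : H, ρ h a' = u} := by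
      rw [Submodule.map_span]
      congr 1
      ext u
      constructor
      · rintro ⟨_, ⟨x, rfl⟩, rfl⟩
        induction x using QuotientGroup.induction_on with
        | H h => exact ⟨h, rfl⟩
      · rintro ⟨h, rfl⟩
        exact ⟨_, ⟨(h : H ⧸ N), rfl⟩, rfl⟩
    rw [← h3] at hw'
    obtain ⟨z, hz, hzw⟩ := hw'
    have h4 : z = ⟨w, hw⟩ := Subtype.ext hzw
    rwa [h4] at hz
  obtain ⟨h1, h2⟩ := IH hA hB
  constructor
  · let f : ρ.invariants →ₗ[k] (quotRep ρ N).invariants :=
      { toFun := fun v => ⟨⟨v.1, hinv v.1 v.2⟩, fun x => by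
          induction x using QuotientGroup.induction_on with
          | H h =>
            refine Subtype.ext ?_
            exact v.2 h⟩
        map_add' := fun _ _ => rfl
        map_smul' := fun _ _ => rfl }
    have hf : Function.Injective f := by
      intro x y hxy
      have h3 := congrArg (fun z : (quotRep ρ N).invariants => ((z : fixN ρ N) : V)) hxy
      exact Subtype.ext h3
    exact (LinearMap.finrank_le_finrank_of_injective hf).trans h1
  · intro b hbc h
    have hbW := hb b hbc
    have h3 : quotRep ρ N (h : H ⧸ N) ⟨b, hbW⟩ = ⟨b, hbW⟩ := by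
      refine h2 ⟨b, hbW⟩ ?_ (h : H ⧸ N)
      rw [index_repStab_quotRep, index_repStab_quotRep]
      exact Nat.Coprime.coprime_dvd_left (Subgroup.index_dvd_of_le hst) hbc
    exact congrArg Subtype.val h3

end key

section main

variable {k : Type w} [Field k]

open Cfsg in
theorem orbSpan_main (p : ℕ) [hp : Fact p.Prime] [hk : CharP k p] :
    ∀ n : ℕ, ∀ (H : Type u) [Group H] [Finite H], Nat.card H = n → IsPSolvable p H →
    ∀ (V : Type v) [AddCommGroup V] [Module k V] (ρ : Representation k H V) (a : V),
    (∃ P : Sylow p H, ∀ x ∈ (P : Subgroup H), ρ x a = a) →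
    Submodule.span k {u : V | ∃ h : H, ρ h a = u} = ⊤ →
    Module.finrank k ρ.invariants ≤ 1 ∧
    ∀ b : V, (repStab ρ a).index.Coprime (repStab ρ b).index → ∀ h : H, ρ h b = b := by
  intro n
  induction n using Nat.strong_induction_on with
  | _ n ih =>
  intro H _ _ hn hsol V _ _ ρ a hfix hspan
  classical
  haveI hfin : Module.Finite k V := by
    refine ⟨?_⟩
    rw [← hspan]
    exact Submodule.fg_span (Set.finite_range fun h : H => ρ h a)
  obtain ⟨P, hP⟩ := hfix
  by_cases htriv : (⊤ : Subgroup H) = ⊥
  · -- trivial group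
    have hone : ∀ h : H, h = 1 := fun h => by
      have : h ∈ (⊤ : Subgroup H) := Subgroup.mem_top h
      rw [htriv] at this
      exact Subgroup.mem_bot.mp this
    constructor
    · have h1 : Module.finrank k V ≤ 1 := by
        refine finrank_le_one a fun w => ?_
        have hw : w ∈ Submodule.span k {u : V | ∃ h : H, ρ h a = u} := by rw [hspan]; trivial
        have h2 : {u : V | ∃ h : H, ρ h a = u} = {a} := by
          ext u
          constructor
          · rintro ⟨h, rfl⟩
            rw [hone h]
            simp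
          · rintro rfl
            exact ⟨1, by simp⟩
        rw [h2, Submodule.mem_span_singleton] at hw
        exact hw
      exact (Submodule.finrank_le _).trans h1
    · intro b _ h
      rw [hone h]
      simp
  · obtain ⟨N, -, hNn, hNne, hNc⟩ :=
      Cfsg.Agent.H03.exists_normal_le_of_isPSolvable hsol (inferInstance : (⊤ : Subgroup H).Normal) htriv
    have hlt : Nat.card (H ⧸ N) < n := by
      have h1 := N.card_mul_index
      have h2 : Nat.card N ≠ 1 := by
        intro h
        exact hNne (Subgroup.card_eq_one.mp h)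
      have h3 : 0 < Nat.card N := Nat.card_pos
      have h4 : 0 < N.index := Nat.pos_of_ne_zero Subgroup.index_ne_zero_of_finite
      rw [← hn, ← h1]
      change N.index < _
      have h5 : 2 ≤ Nat.card N := by omega
      nlinarith
    have hsol' : IsPSolvable p (H ⧸ N) :=
      Cfsg.Agent.H03.isPSolvable_of_surjective (QuotientGroup.mk'_surjective N) hsol
    haveI := hNn
    rcases hNc with hNp | hNc
    · -- `N` is a `p`-group: it acts trivially
      have hNP : N ≤ (P : Subgroup H) := by
        have h1 : IsPGroup p (↥((P : Subgroup H) ⊔ N)) :=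
          IsPGroup.to_sup_of_normal_right P.isPGroup' hNp
        have h2 := P.is_maximal' h1 le_sup_left
        exact le_sup_right.trans h2.le
      have hfixall : ∀ v : V, v ∈ fixN ρ N := by
        intro v
        have hv : v ∈ Submodule.span k {u : V | ∃ h : H, ρ h a = u} := by rw [hspan]; trivial
        have h1 : Submodule.span k {u : V | ∃ h : H, ρ h a = u} ≤ fixN ρ N := by
          rw [Submodule.span_le]
          rintro _ ⟨h, rfl⟩
          exact fixN_stable ρ N h fun m hm => hP m (hNP hm)
        exact h1 hv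
      have htop : fixN ρ N = ⊤ := eq_top_iff.mpr fun v _ => hfixall v
      refine orbSpan_descend p ρ N a a (hfixall a) le_rfl P hP ?_ (fun b _ => hfixall b) ?_
      · rw [hspan, htop]
      · exact ih _ hlt (H ⧸ N) rfl hsol' (fixN ρ N) (quotRep ρ N) ⟨a, hfixall a⟩
    · -- `N` is a `p'`-group
      letI : Fintype N := Fintype.ofFinite _
      have hN0 : (Fintype.card N : k) ≠ 0 := by
        intro h0
        have h1 := (CharP.cast_eq_zero_iff k p (Fintype.card N)).mp h0
        rw [← Nat.card_eq_fintype_card] at h1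
        have h2 := Nat.Coprime.eq_one_of_dvd hNc.symm h1
        exact hp.out.one_lt.ne' h2
      set a' := repAvg ρ N a with ha'
      have ha'W : a' ∈ fixN ρ N := fun m hm => repAvg_fixed ρ N a hm
      refine orbSpan_descend p ρ N a a' ha'W ?_ P hP ?_ ?_ ?_
      · intro h hh
        change ρ h a' = a'
        rw [ha', repAvg_comm]
        congr 1
      · apply le_antisymm
        · rw [Submodule.span_le]
          rintro _ ⟨h, rfl⟩
          exact fixN_stable ρ N h ha'W
        · intro w hw
          have hw1 : repAvg ρ N w = w := repAvg_of_fixed ρ N hN0 hw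
          have hw2 : w ∈ Submodule.span k {u : V | ∃ h : H, ρ h a = u} := by rw [hspan]; trivial
          rw [← hw1]
          have h3 : (Submodule.span k {u : V | ∃ h : H, ρ h a = u}).map (repAvg ρ N) ≤
              Submodule.span k {u : V | ∃ h : H, ρ h a' = u} := by
            rw [Submodule.map_le_iff_le_comap, Submodule.span_le]
            rintro _ ⟨h, rfl⟩
            refine Submodule.subset_span ⟨h, ?_⟩
            rw [ha', repAvg_comm]
          exact h3 ⟨w, hw2, rfl⟩
      · intro b hb m hm
        exact fixed_of_coprime ρ a b N hN0 hspan hb hm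
      · exact ih _ hlt (H ⧸ N) rfl hsol' (fixN ρ N) (quotRep ρ N) ⟨a', ha'W⟩

end main

end Cfsg.Agent.H19
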