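import Mathlib
import Cfsg.Agent.Lib.H19.PDih
import Cfsg.Agent.Lib.H05.Dih
import Cfsg.Agent.Lib.H03.S4Rec

/-!
The prime `2` analogue: subgroups with normal Sylow `2`-subgroup and cyclic quotient.
-/

set_option autoImplicit false

namespace Cfsg.Agent.H19

open scoped commutatorElement

open DihedralGroup in
/-- noncyclic subgroups of a dihedral `2`-group are dihedral -/
theorem sub_dih_two {A : Type*} [Group A] [Finite A] {n : ℕ} (ι : A →* DihedralGroup (2 ^ n))
    (hι : Function.Injective ι) (hnc : ¬ IsCyclic A) :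
    ∃ m : ℕ, 1 ≤ m ∧ Nonempty (A ≃* DihedralGroup (2 ^ m)) := by
  classical
  haveI hne : NeZero (2 ^ n) := ⟨by positivity⟩
  let Rot : Subgroup (DihedralGroup (2 ^ n)) := Subgroup.zpowers (r 1)
  have hmemRot : ∀ y, y ∈ Rot ↔ ∃ i, y = r i := Cfsg.Agent.H05.mem_rot
  let A0 : Subgroup A := Rot.comap ι
  have hmem : ∀ y : A, y ∈ A0 ↔ ∃ i, ι y = r i := fun y => hmemRot _
  let ι0 : A0 →* Rot := ι.subgroupComap Rot
  have hι0 : Function.Injective ι0 := by
    intro a b hab
    apply Subtype.ext
    apply hι
    exact congrArg Subtype.val hab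
  haveI : IsCyclic Rot := by
    exact Subgroup.isCyclic_zpowers _
  have hcyc0 : IsCyclic A0 := isCyclic_of_injective ι0 hι0
  obtain ⟨γ, hγ⟩ := hcyc0.exists_generator
  have hcard0 : Nat.card A0 ∣ 2 ^ n := by
    have h1 := Subgroup.card_dvd_of_injective ι0 hι0
    have h2 : Nat.card Rot = 2 ^ n := by
      change Nat.card (Subgroup.zpowers (r 1 : DihedralGroup (2 ^ n))) = _
      rw [Nat.card_zpowers, orderOf_r_one]
    rwa [h2] at h1
  obtain ⟨m, -, hm⟩ := (Nat.dvd_prime_pow Nat.prime_two).mp hcard0
  have hoγ : orderOf (γ : A) = 2 ^ m := by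
    rw [Subgroup.orderOf_coe, orderOf_eq_card_of_forall_mem_zpowers hγ, hm]
  have hex : ∃ x : A, x ∉ A0 := by
    by_contra hcon
    push_neg at hcon
    apply hnc
    have htop : A0 = ⊤ := by
      rw [eq_top_iff]
      intro y _
      exact hcon y
    have e : A0 ≃* A := (MulEquiv.subgroupCongr htop).trans Subgroup.topEquiv
    exact isCyclic_of_surjective e.toMonoidHom e.surjective
  obtain ⟨x, hx⟩ := hex
  obtain ⟨j, hj⟩ : ∃ j, ι x = sr j := by
    rcases h : ι x with i | i
    · exact absurd ((hmem x).mpr ⟨i, h⟩) hx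
    · exact ⟨i, rfl⟩
  have hxx : x * x = 1 := by
    apply hι
    rw [map_mul, hj, sr_mul_sr, map_one, one_def]
    simp
  obtain ⟨i0, hi0⟩ := (hmem γ.1).mp γ.2
  have hrel : x * (γ : A) * x⁻¹ = (γ : A)⁻¹ := by
    apply hι
    rw [map_mul, map_mul, map_inv, map_inv, hj, hi0, inv_sr, inv_r, sr_mul_r, sr_mul_sr]
    simp
  have hindex : A0.index = 2 := by
    rw [Subgroup.index_eq_two_iff]
    refine ⟨x, ?_⟩
    intro b
    rcases h : ι b with i | i
    · right
      refine ⟨(hmem b).mpr ⟨i, h⟩, ?_⟩
      intro h2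
      obtain ⟨i', hi'⟩ := (hmem _).mp h2
      rw [map_mul, hj, h, r_mul_sr] at hi'
      cases hi'
    · left
      refine ⟨(hmem _).mpr ⟨j - i, ?_⟩, ?_⟩
      · rw [map_mul, hj, h, sr_mul_sr]
      · intro h2
        obtain ⟨i', hi'⟩ := (hmem b).mp h2
        rw [h] at hi'
        cases hi'
  have hcardA : Nat.card A = 2 * 2 ^ m := by
    have := A0.card_mul_index
    rw [hindex, hm] at this
    rw [← this]
    ring
  refine ⟨m, ?_, Cfsg.Agent.H15.dihedral_of (γ : A) x (2 ^ m) (by positivity) hoγ hxx hrel hcardA ?_⟩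
  · by_contra hm0
    have hm1 : m = 0 := by omega
    apply hnc
    rw [hm1] at hcardA
    have : Fact (Nat.card A).Prime := ⟨by rw [hcardA]; norm_num⟩
    exact isCyclic_of_prime_card (p := Nat.card A) rfl
  · intro h
    apply hx
    have hle : Subgroup.zpowers (γ : A) ≤ A0 := by
      rw [Subgroup.zpowers_le]
      exact γ.2
    exact hle h

/-- a Klein four subgroup -/
theorem exists_klein {G : Type*} [Group G] (u v : G) (hu : u * u = 1) (hv : v * v = 1)
    (huv : u * v = v * u) (hu1 : u ≠ 1) (hv1 : v ≠ 1) (hne : u ≠ v) :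
    ∃ K : Subgroup G, (∀ y, y ∈ K ↔ y = 1 ∨ y = u ∨ y = v ∨ y = u * v) ∧ Nat.card K = 4 := by
  classical
  have hui : u⁻¹ = u := inv_eq_of_mul_eq_one_left hu
  have hvi : v⁻¹ = v := inv_eq_of_mul_eq_one_left hv
  have e1 : u * (u * v) = v := by rw [← mul_assoc, hu, one_mul]
  have e2 : v * (u * v) = u := by rw [huv, ← mul_assoc, hv, one_mul]
  have e3 : (u * v) * u = v := by rw [huv, mul_assoc, hu, mul_one]
  have e4 : (u * v) * v = u := by rw [mul_assoc, hv, mul_one]
  have e5 : (u * v) * (u * v) = 1 := by rw [mul_assoc, e2, hu]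
  let K : Subgroup G :=
    { carrier := {y | y = 1 ∨ y = u ∨ y = v ∨ y = u * v}
      one_mem' := Or.inl rfl
      mul_mem' := by
        rintro a b (rfl | rfl | rfl | rfl) (rfl | rfl | rfl | rfl) <;>
          simp [hu, hv, e1, e2, e3, e4, e5, ← huv]
      inv_mem' := by
        rintro a (rfl | rfl | rfl | rfl)
        · simp
        · simp [hui]
        · simp [hvi]
        · simp only [Set.mem_setOf_eq, mul_inv_rev, hui, hvi, ← huv]
          simp }
  refine ⟨K, fun y => Iff.rfl, ?_⟩
  have hK : (K : Set G) = (({1, u, v, u * v} : Finset G) : Set G) := by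
    ext y
    simp [K]
  have hcard : ({1, u, v, u * v} : Finset G).card = 4 := by
    rw [Finset.card_insert_of_notMem, Finset.card_insert_of_notMem, Finset.card_insert_of_notMem,
      Finset.card_singleton]
    · simp only [Finset.mem_singleton]
      intro h
      apply hu1
      have := congrArg (fun z => z * v⁻¹) h
      simpa using this.symm
    · simp only [Finset.mem_insert, Finset.mem_singleton, not_or]
      refine ⟨hne, ?_⟩
      intro h
      apply hv1
      have := congrArg (fun z => u⁻¹ * z) h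
      simpa using this.symm
    · simp only [Finset.mem_insert, Finset.mem_singleton, not_or]
      refine ⟨hu1.symm, hv1.symm, ?_⟩
      intro h
      apply hne
      have h2 : u * v * v = v := by rw [← h, one_mul]
      rw [mul_assoc, hv, mul_one] at h2
      exact h2
  have h2 : Nat.card K = Nat.card (K : Set G) := rfl
  rw [h2, hK, Nat.card_coe_set_eq, Set.ncard_coe_finset, hcard]

section odd

variable {H : Type*} [Group H] [Finite H]

/-- an element of odd order centralizes a normal subgroup whose automorphism group is a `2`-group. -/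
theorem comm_odd (S : Subgroup H) [hS : S.Normal] (hA : IsPGroup 2 (MulAut S)) {w : H}
    (hw : Odd (orderOf w)) {s : H} (hs : s ∈ S) : w * s = s * w := by
  have hfin : orderOf w ≠ 0 := (orderOf_pos w).ne'
  set σ := MulAut.conjNormal (H := S) w with hσ
  have h1 : σ = 1 := by
    obtain ⟨n, hn⟩ := hA σ
    have h3 : σ ^ orderOf w = 1 := by
      rw [hσ, ← map_pow, pow_orderOf_eq_one, map_one]
    have h4 : orderOf σ ∣ Nat.gcd (2 ^ n) (orderOf w) :=
      Nat.dvd_gcd (orderOf_dvd_of_pow_eq_one hn) (orderOf_dvd_of_pow_eq_one h3)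
    have h5 : Nat.Coprime (2 ^ n) (orderOf w) :=
      Nat.Coprime.pow_left _ ((Nat.coprime_two_left).mpr hw)
    rw [h5] at h4
    exact orderOf_eq_one_iff.mp (Nat.eq_one_of_dvd_one h4)
  have h2 : σ ⟨s, hs⟩ = ⟨s, hs⟩ := by rw [h1]; rfl
  have h3 : w * s * w⁻¹ = s := congrArg Subtype.val h2
  exact mul_inv_eq_iff_eq_mul.mp h3

/-- elements with odd order centralising imply the whole `2`-part. -/
theorem central_of_cyclic_two (S : Sylow 2 H) [hS : (S : Subgroup H).Normal]
    (hc : IsCyclic (S : Subgroup H)) : (S : Subgroup H) ≤ Subgroup.center H := by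
  haveI : Fact (Nat.Prime 2) := ⟨Nat.prime_two⟩
  have hA : IsPGroup 2 (MulAut (S : Subgroup H)) := Cfsg.Agent.H05.isP_aut_cyclic S.isPGroup'
  intro s hs
  rw [Subgroup.mem_center_iff]
  intro x
  obtain ⟨a, b, rfl, hab, ⟨k, hk⟩, hb, -, -⟩ := exists_primary_decomp 2 x
  have haS : a ∈ (S : Subgroup H) := mem_sylow_of_normal hk S hS
  have h1 : a * s = s * a := by
    have := hc.commutative.is_comm.comm (⟨a, haS⟩ : (S : Subgroup H)) ⟨s, hs⟩
    exact congrArg Subtype.val this
  have hodd : Odd (orderOf b) := (Nat.coprime_two_right).mp hb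
  have h2 : b * s = s * b := comm_odd S hA hodd hs
  calc a * b * s = a * (b * s) := by group
    _ = a * (s * b) := by rw [h2]
    _ = (a * s) * b := by group
    _ = s * a * b := by rw [h1]
    _ = s * (a * b) := by group

end odd

section main

variable {G : Type*} [Group G] [Finite G]

/-- the hypothesis at `2` -/
def RestrictedTwo (G : Type*) [Group G] : Prop :=
  ∀ H : Subgroup G, (∀ S : Sylow 2 ↥H, (S : Subgroup ↥H).Normal) →
    (∀ (S : Sylow 2 ↥H) [(S : Subgroup ↥H).Normal], IsCyclic (↥H ⧸ (S : Subgroup ↥H))) →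
    IsCyclic H ∨ (∃ n : ℕ, Nonempty (H ≃* DihedralGroup (2 ^ n))) ∨
      Nonempty (H ≃* alternatingGroup (Fin 4))

open DihedralGroup in
theorem lhs2 (P : Sylow 2 G)
    (hR : IsCyclic P ∨
      ((∃ n : ℕ, 1 ≤ n ∧ Nonempty ((P : Subgroup G) ≃* DihedralGroup (2 ^ n))) ∧
        ∀ K : Subgroup G, K ≤ P → Nat.card K = 4 → (∀ k ∈ K, k ^ 2 = 1) →
          Subgroup.centralizer (K : Set G) = K)) :
    RestrictedTwo G := by
  classical
  haveI : Fact (Nat.Prime 2) := ⟨Nat.prime_two⟩
  intro H hN hC
  obtain ⟨S⟩ := (inferInstance : Nonempty (Sylow 2 H))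
  haveI hSn := hN S
  have hq := hC S
  have hSG : IsPGroup 2 ((S : Subgroup H).map H.subtype) := S.isPGroup'.map _
  obtain ⟨P1, hP1⟩ := hSG.exists_le_sylow
  obtain ⟨g, hg⟩ := MulAction.exists_smul_eq G P P1
  have hmemP : ∀ w : H, w ∈ (S : Subgroup H) → g⁻¹ * (w : G) * g ∈ (P : Subgroup G) := by
    intro w hw
    have h1 : (w : G) ∈ (P1 : Subgroup G) := hP1 ⟨w, hw, rfl⟩
    rw [← hg, Sylow.coe_subgroup_smul] at h1
    exact mem_conj_smul.mp h1
  let φ : (S : Subgroup H) →* (P : Subgroup G) :=
    ((MulAut.conj g⁻¹).toMonoidHom.comp (H.subtype.comp (S : Subgroup H).subtype)).codRestrict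
      (P : Subgroup G) (by
        intro w
        have := hmemP w.1 w.2
        simpa [MulAut.conj_apply] using this)
  have hφ : Function.Injective φ := by
    intro a b hab
    have h1 : g⁻¹ * (a.1 : G) * g = g⁻¹ * (b.1 : G) * g := by
      have := congrArg Subtype.val hab
      simpa [φ, MulAut.conj_apply] using this
    have h2 : (a.1 : G) = b.1 := by
      have h3 := mul_right_cancel h1
      exact mul_left_cancel h3
    exact Subtype.ext (Subtype.ext h2)
  by_cases hScyc : IsCyclic (S : Subgroup H)
  · left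
    exact cyc_of_central S (central_of_cyclic_two S hScyc) hScyc hq
  have hPnc : ¬ IsCyclic P := fun h => hScyc (isCyclic_of_injective φ hφ)
  obtain ⟨⟨n, hn1, ⟨e⟩⟩, hK⟩ := hR.resolve_left hPnc
  obtain ⟨m, hm1, ⟨f⟩⟩ := sub_dih_two (e.toMonoidHom.comp φ) (e.injective.comp hφ) hScyc
  haveI hne : NeZero (2 ^ m) := ⟨by positivity⟩
  set h0 : ZMod (2 ^ m) := ((2 ^ (m - 1) : ℕ) : ZMod (2 ^ m)) with hh0
  have hh0ne : h0 ≠ 0 := by
    rw [hh0, Ne, ZMod.natCast_eq_zero_iff]
    intro hd
    have := Nat.le_of_dvd (by positivity) hd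
    have h3 : 2 ^ (m - 1) < 2 ^ m := Nat.pow_lt_pow_right (by norm_num) (by omega)
    omega
  have hh02 : h0 + h0 = 0 := by
    rw [hh0, ← Nat.cast_add, ZMod.natCast_eq_zero_iff]
    have : 2 ^ (m - 1) + 2 ^ (m - 1) = 2 ^ m := by
      obtain ⟨m', rfl⟩ : ∃ m', m = m' + 1 := ⟨m - 1, by omega⟩
      simp only [Nat.add_sub_cancel]
      ring
    rw [this]
  let z : (S : Subgroup H) := f.symm (r h0)
  let xs : (S : Subgroup H) := f.symm (sr 0)
  have hfz : z * z = 1 := by
    apply f.injective
    simp [z, hh02]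
  have hfx : xs * xs = 1 := by
    apply f.injective
    simp [xs]
  have hfc : z * xs = xs * z := by
    apply f.injective
    simp only [map_mul, z, xs, MulEquiv.apply_symm_apply, r_mul_sr, sr_mul_r]
    congr 1
    have : h0 = -h0 := by
      rw [eq_neg_iff_add_eq_zero]
      exact hh02
    rw [zero_sub, zero_add]
    exact this.symm
  have hz1 : z ≠ 1 := by
    intro h
    have h2 : f z = f 1 := by rw [h]
    simp only [z, MulEquiv.apply_symm_apply, map_one, one_def] at h2
    exact hh0ne (r.inj h2)
  have hx1 : xs ≠ 1 := by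
    intro h
    have h2 : f xs = f 1 := by rw [h]
    simp only [xs, MulEquiv.apply_symm_apply, map_one, one_def] at h2
    cases h2
  have hzx : z ≠ xs := by
    intro h
    have h2 : f z = f xs := by rw [h]
    simp only [z, xs, MulEquiv.apply_symm_apply] at h2
    cases h2
  set z' : G := ((z : H) : G) with hz'
  set x' : G := ((xs : H) : G) with hx'
  have hz'z : z' * z' = 1 := by
    have := congrArg (fun t : (S : Subgroup H) => ((t : H) : G)) hfz
    exact this
  have hx'x : x' * x' = 1 := by
    have := congrArg (fun t : (S : Subgroup H) => ((t : H) : G)) hfx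
    exact this
  have hz'x : z' * x' = x' * z' := by
    have := congrArg (fun t : (S : Subgroup H) => ((t : H) : G)) hfc
    exact this
  have hinjS : ∀ a b : (S : Subgroup H), ((a : H) : G) = ((b : H) : G) → a = b :=
    fun a b h => Subtype.ext (Subtype.ext h)
  have hSelf : ∀ y : G, y * z' = z' * y → y * x' = x' * y →
      y = 1 ∨ y = z' ∨ y = x' ∨ y = z' * x' := by
    intro y hy1 hy2
    set u := g⁻¹ * z' * g with hu
    set v := g⁻¹ * x' * g with hv
    have huu : u * u = 1 := by
      have : u * u = g⁻¹ * (z' * z') * g := by rw [hu]; group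
      rw [this, hz'z]
      group
    have hvv : v * v = 1 := by
      have : v * v = g⁻¹ * (x' * x') * g := by rw [hv]; group
      rw [this, hx'x]
      group
    have huv : u * v = v * u := by
      have e1 : u * v = g⁻¹ * (z' * x') * g := by rw [hu, hv]; group
      have e2 : v * u = g⁻¹ * (x' * z') * g := by rw [hu, hv]; group
      rw [e1, e2, hz'x]
    have hne1 : ∀ t : G, t ≠ 1 → g⁻¹ * t * g ≠ 1 := by
      intro t ht h
      apply ht
      have h1 : t = g * (g⁻¹ * t * g) * g⁻¹ := by group
      rw [h1, h]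
      group
    have hu1 : u ≠ 1 := hne1 _ (fun h => hz1 (hinjS _ _ h))
    have hv1 : v ≠ 1 := hne1 _ (fun h => hx1 (hinjS _ _ h))
    have huvne : u ≠ v := by
      intro h
      apply hzx
      apply hinjS
      have h1 := mul_right_cancel h
      exact mul_left_cancel h1
    obtain ⟨K, hKm, hKc⟩ := exists_klein u v huu hvv huv hu1 hv1 huvne
    have huP : u ∈ (P : Subgroup G) := hmemP _ z.2
    have hvP : v ∈ (P : Subgroup G) := hmemP _ xs.2
    have hKP : K ≤ (P : Subgroup G) := by
      intro k hk
      rcases (hKm k).mp hk with rfl | rfl | rfl | rfl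
      · exact Subgroup.one_mem _
      · exact huP
      · exact hvP
      · exact Subgroup.mul_mem _ huP hvP
    have hK2 : ∀ k ∈ K, k ^ 2 = 1 := by
      intro k hk
      rw [pow_two]
      rcases (hKm k).mp hk with rfl | rfl | rfl | rfl
      · simp
      · exact huu
      · exact hvv
      · calc u * v * (u * v) = u * (v * u) * v := by group
          _ = u * (u * v) * v := by rw [huv]
          _ = (u * u) * (v * v) := by group
          _ = 1 := by rw [huu, hvv]; simp
    have hCK := hK K hKP hKc hK2
    set y0 := g⁻¹ * y * g with hy0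
    have hy0u : y0 * u = u * y0 := by
      have e1 : y0 * u = g⁻¹ * (y * z') * g := by rw [hy0, hu]; group
      have e2 : u * y0 = g⁻¹ * (z' * y) * g := by rw [hy0, hu]; group
      rw [e1, e2, hy1]
    have hy0v : y0 * v = v * y0 := by
      have e1 : y0 * v = g⁻¹ * (y * x') * g := by rw [hy0, hv]; group
      have e2 : v * y0 = g⁻¹ * (x' * y) * g := by rw [hy0, hv]; group
      rw [e1, e2, hy2]
    have hmemC : y0 ∈ Subgroup.centralizer (K : Set G) := by
      rw [Subgroup.mem_centralizer_iff]
      intro k hk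
      rcases (hKm k).mp hk with rfl | rfl | rfl | rfl
      · simp
      · exact hy0u.symm
      · exact hy0v.symm
      · calc u * v * y0 = u * (v * y0) := by group
          _ = u * (y0 * v) := by rw [hy0v]
          _ = (u * y0) * v := by group
          _ = (y0 * u) * v := by rw [hy0u]
          _ = y0 * (u * v) := by group
    rw [hCK] at hmemC
    have hback : ∀ t : G, y0 = g⁻¹ * t * g → y = t := by
      intro t ht
      have h1 := mul_right_cancel ht
      exact mul_left_cancel h1
    rcases (hKm y0).mp hmemC with h | h | h | h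
    · left
      apply hback
      rw [h]
      group
    · right; left
      exact hback _ h
    · right; right; left
      exact hback _ h
    · right; right; right
      apply hback
      rw [h, hu, hv]
      group
  have hcent : ∀ w : H, (∀ v ∈ (S : Subgroup H), w * v = v * w) → w ∈ (S : Subgroup H) := by
    intro w hw
    have h1 := congrArg Subtype.val (hw z.1 z.2)
    have h2 := congrArg Subtype.val (hw xs.1 xs.2)
    rcases hSelf w.1 h1 h2 with h | h | h | h
    · have : w = 1 := Subtype.ext h
      rw [this]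
      exact Subgroup.one_mem _
    · have : w = z.1 := Subtype.ext h
      rw [this]
      exact z.2
    · have : w = xs.1 := Subtype.ext h
      rw [this]
      exact xs.2
    · have : w = z.1 * xs.1 := Subtype.ext h
      rw [this]
      exact Subgroup.mul_mem _ z.2 xs.2
  have hoddS : ∀ w : H, Odd (orderOf w) → w ∈ (S : Subgroup H) → w = 1 := by
    intro w hw hwS
    obtain ⟨k, hk⟩ := IsPGroup.iff_orderOf.mp S.isPGroup' ⟨w, hwS⟩
    rw [Subgroup.orderOf_mk] at hk
    rw [hk] at hw
    rcases k with _ | k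
    · rw [pow_zero] at hk
      exact orderOf_eq_one_iff.mp hk
    · exfalso
      rw [pow_succ] at hw
      exact (Nat.not_even_iff_odd.mpr hw) (Nat.even_mul.mpr (Or.inr even_two))
  have hfinal : (S : Subgroup H) = ⊤ → (∃ n : ℕ, Nonempty (H ≃* DihedralGroup (2 ^ n))) := by
    intro htop
    refine ⟨m, ⟨?_⟩⟩
    exact (Subgroup.topEquiv.symm.trans (MulEquiv.subgroupCongr htop.symm)).trans f
  have hodd1 : (∀ w : H, Odd (orderOf w) → w = 1) → (S : Subgroup H) = ⊤ := by
    intro hw
    rw [eq_top_iff]
    intro x _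
    obtain ⟨a, b, rfl, hab, ⟨k, hk⟩, hb, -, -⟩ := exists_primary_decomp 2 x
    have haS : a ∈ (S : Subgroup H) := mem_sylow_of_normal hk S hSn
    rw [hw b ((Nat.coprime_two_right).mp hb), mul_one]
    exact haS
  by_cases hm2 : 2 ≤ m
  · right; left
    have hA : IsPGroup 2 (MulAut (S : Subgroup H)) :=
      Cfsg.Agent.H24.isPGroup_mulAut_congr f (Cfsg.Agent.H05.isP_aut_dih hm2)
    apply hfinal
    apply hodd1
    intro w hw
    apply hoddS w hw
    apply hcent
    intro v hv
    exact comm_odd _ hA hw hv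
  have hm : m = 1 := by omega
  subst hm
  have hcS : Nat.card (S : Subgroup H) = 4 := by
    rw [Nat.card_congr f.toEquiv, DihedralGroup.nat_card]
    norm_num
  have hcube : ∀ w : H, Odd (orderOf w) → w ^ 3 = 1 := by
    intro w hw
    let θ : H →* Equiv.Perm (S : Subgroup H) :=
      (MulAut.toPerm (S : Subgroup H)).comp (MulAut.conjNormal (H := (S : Subgroup H)))
    have h1 : orderOf (θ w) ∣ 24 := by
      have h2 := orderOf_dvd_natCard (θ w)
      have h3 : Nat.card (Equiv.Perm (S : Subgroup H)) = 24 := by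
        rw [Nat.card_perm, hcS]
        rfl
      rwa [h3] at h2
    have h2 : orderOf (θ w) ∣ orderOf w := orderOf_map_dvd θ w
    have h3 : orderOf (θ w) ∣ 3 := by
      have h4 : (orderOf w).Coprime 8 := by
        have : Nat.Coprime (orderOf w) (2 ^ 3) :=
          Nat.Coprime.pow_right _ ((Nat.coprime_two_right).mpr hw)
        simpa using this
      have h5 : (orderOf (θ w)).Coprime 8 := Nat.Coprime.coprime_dvd_left h2 h4
      have : (24 : ℕ) = 8 * 3 := by norm_num
      rw [this] at h1
      exact h5.dvd_of_dvd_mul_left h1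
    have h4 : θ (w ^ 3) = 1 := by
      rw [map_pow]
      exact orderOf_dvd_iff_pow_eq_one.mp h3
    have h5 : w ^ 3 ∈ (S : Subgroup H) := by
      apply hcent
      intro v hv
      have h6 : θ (w ^ 3) ⟨v, hv⟩ = ⟨v, hv⟩ := by rw [h4]; rfl
      have h7 : (w ^ 3) * v * (w ^ 3)⁻¹ = v := congrArg Subtype.val h6
      exact mul_inv_eq_iff_eq_mul.mp h7
    apply hoddS _ _ h5
    have h6 : orderOf (w ^ 3) ∣ orderOf w := by
      apply orderOf_dvd_of_pow_eq_one
      rw [← pow_mul, mul_comm, pow_mul, pow_orderOf_eq_one, one_pow]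
    exact Odd.of_dvd_nat hw h6
  have hqdvd : Nat.card (H ⧸ (S : Subgroup H)) ∣ 3 := by
    obtain ⟨zq, hzq⟩ := hq.exists_generator
    obtain ⟨y, rfl⟩ := QuotientGroup.mk_surjective zq
    rw [← orderOf_eq_card_of_forall_mem_zpowers hzq]
    apply orderOf_dvd_of_pow_eq_one
    obtain ⟨a, b, rfl, hab, ⟨k, hk⟩, hb, -, -⟩ := exists_primary_decomp 2 y
    have haS : a ∈ (S : Subgroup H) := mem_sylow_of_normal hk S hSn
    have h1 : ((a * b : H) : H ⧸ (S : Subgroup H)) = (b : H ⧸ (S : Subgroup H)) := by
      rw [QuotientGroup.mk_mul, (QuotientGroup.eq_one_iff a).mpr haS, one_mul]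
    rw [h1, ← QuotientGroup.mk_pow, hcube b ((Nat.coprime_two_right).mp hb)]
    rfl
  have hidx := (S : Subgroup H).card_mul_index
  rw [Subgroup.index_eq_card] at hidx
  rcases (Nat.dvd_prime Nat.prime_three).mp hqdvd with h1 | h3
  · right; left
    apply hfinal
    rw [← Subgroup.index_eq_one, Subgroup.index_eq_card]
    exact h1
  · right; right
    rw [hcS, h3] at hidx
    exact Cfsg.Agent.H03.S4R.alt_four_of (S : Subgroup H) hcS (fun g hg => hcent g hg) hidx.symm

theorem alt4_not_comm (h : ∀ a b : alternatingGroup (Fin 4), a * b = b * a) : False := by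
  let a : alternatingGroup (Fin 4) :=
    ⟨Equiv.swap 0 1 * Equiv.swap 2 3, Equiv.Perm.mem_alternatingGroup.2 (by decide)⟩
  let b : alternatingGroup (Fin 4) :=
    ⟨Equiv.swap 0 1 * Equiv.swap 1 2, Equiv.Perm.mem_alternatingGroup.2 (by decide)⟩
  have h1 := congrArg (fun t : alternatingGroup (Fin 4) => (t : Equiv.Perm (Fin 4)) 0) (h a b)
  revert h1
  decide

open DihedralGroup in
theorem rhs2 (P : Sylow 2 G) (hL : RestrictedTwo G) :
    IsCyclic P ∨
      ((∃ n : ℕ, 1 ≤ n ∧ Nonempty ((P : Subgroup G) ≃* DihedralGroup (2 ^ n))) ∧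
        ∀ K : Subgroup G, K ≤ P → Nat.card K = 4 → (∀ k ∈ K, k ^ 2 = 1) →
          Subgroup.centralizer (K : Set G) = K) := by
  classical
  haveI : Fact (Nat.Prime 2) := ⟨Nat.prime_two⟩
  obtain ⟨h1, h2⟩ := pi_of_normal_sup (P : Subgroup G) P.isPGroup' 1 (Subgroup.one_mem _)
    (P : Subgroup G) (by simp)
  have hKpart : ∀ K : Subgroup G, K ≤ P → Nat.card K = 4 → (∀ k ∈ K, k ^ 2 = 1) →
      Subgroup.centralizer (K : Set G) = K := by
    intro K hKP hKc hK2
    have hKcomm : ∀ a ∈ K, ∀ b ∈ K, a * b = b * a := by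
      intro a ha b hb
      have h3 := hK2 _ (K.mul_mem ha hb)
      have h4 := hK2 _ ha
      have h5 := hK2 _ hb
      rw [pow_two] at h3 h4 h5
      have h6 : a⁻¹ = a := inv_eq_of_mul_eq_one_left h4
      have h7 : b⁻¹ = b := inv_eq_of_mul_eq_one_left h5
      have h8 : (a * b)⁻¹ = a * b := inv_eq_of_mul_eq_one_left h3
      rw [mul_inv_rev, h6, h7] at h8
      exact h8.symm
    apply le_antisymm
    · intro c hc
      have hKp : IsPGroup 2 K := P.isPGroup'.to_le hKP
      have hcN : c ∈ Subgroup.normalizer (K : Set G) := Subgroup.centralizer_le_normalizer _ hc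
      obtain ⟨h3, h4⟩ := pi_of_normal_sup K hKp c hcN (K ⊔ Subgroup.zpowers c) rfl
      have hKH : K ≤ K ⊔ Subgroup.zpowers c := le_sup_left
      have hcH : c ∈ K ⊔ Subgroup.zpowers c := Subgroup.mem_sup_right (Subgroup.mem_zpowers c)
      have hHC : K ⊔ Subgroup.zpowers c ≤ Subgroup.centralizer (K : Set G) := by
        apply sup_le
        · intro a ha
          rw [Subgroup.mem_centralizer_iff]
          intro b hb
          exact hKcomm b hb a ha
        · rw [Subgroup.zpowers_le]
          exact hc
      have hHc : K ⊔ Subgroup.zpowers c ≤ Subgroup.centralizer ({c} : Set G) := by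
        apply sup_le
        · intro a ha
          rw [Subgroup.mem_centralizer_singleton_iff]
          exact ((Subgroup.mem_centralizer_iff.mp hc) a ha)
        · rw [Subgroup.zpowers_le, Subgroup.mem_centralizer_singleton_iff]
      have hcomm : ∀ a b : ↥(K ⊔ Subgroup.zpowers c), a * b = b * a := by
        rintro ⟨a, ha⟩ ⟨b, hb⟩
        apply Subtype.ext
        change a * b = b * a
        have hb2 : b ∈ Subgroup.centralizer ((K ⊔ Subgroup.zpowers c : Subgroup G) : Set G) := by
          have h5 : K ≤ Subgroup.centralizer ((K ⊔ Subgroup.zpowers c : Subgroup G) : Set G) :=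
            Subgroup.le_centralizer_iff.mp hHC
          have h6 : Subgroup.zpowers c ≤
              Subgroup.centralizer ((K ⊔ Subgroup.zpowers c : Subgroup G) : Set G) := by
            rw [Subgroup.zpowers_le, Subgroup.mem_centralizer_iff]
            intro t ht
            exact (Subgroup.mem_centralizer_singleton_iff.mp (hHc ht))
          exact (sup_le h5 h6) hb
        exact (Subgroup.mem_centralizer_iff.mp hb2) a ha
      rcases hL _ h3 h4 with hcy | ⟨n, ⟨e⟩⟩ | ⟨⟨e⟩⟩
      · exfalso
        letI := Fintype.ofFinite ↥(K ⊔ Subgroup.zpowers c)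
        have h5 := IsCyclic.card_pow_eq_one_le (α := ↥(K ⊔ Subgroup.zpowers c)) (n := 2) (by norm_num)
        have h6 : Nat.card K ≤ (Finset.univ.filter
            (fun a : ↥(K ⊔ Subgroup.zpowers c) => a ^ 2 = 1)).card := by
          let ι : K → {a // a ∈ Finset.univ.filter
              (fun a : ↥(K ⊔ Subgroup.zpowers c) => a ^ 2 = 1)} :=
            fun k => ⟨⟨k.1, hKH k.2⟩, by
              simp only [Finset.mem_filter, Finset.mem_univ, true_and]
              apply Subtype.ext
              exact hK2 k.1 k.2⟩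
          have hι : Function.Injective ι := by
            intro a b hab
            have := congrArg (fun t => ((t.1 : ↥(K ⊔ Subgroup.zpowers c)) : G)) hab
            exact Subtype.ext this
          have h7 := Nat.card_le_card_of_injective ι hι
          rw [Nat.card_eq_fintype_card (α := {a // a ∈ Finset.univ.filter
              (fun a : ↥(K ⊔ Subgroup.zpowers c) => a ^ 2 = 1)}), Fintype.card_coe] at h7
          exact h7
        omega
      · by_cases hn : 2 ≤ n
        · exfalso
          have h5 := hcomm (e.symm (r 1)) (e.symm (sr 0))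
          have h6 := congrArg e h5
          simp only [map_mul, MulEquiv.apply_symm_apply, r_mul_sr, sr_mul_r, zero_sub, zero_add] at h6
          have h7 : (-1 : ZMod (2 ^ n)) = 1 := sr.inj h6
          have h8 : ((2 : ℕ) : ZMod (2 ^ n)) = 0 := by
            have : (1 : ZMod (2 ^ n)) + 1 = 0 := by
              nth_rewrite 1 [← h7]
              simp
            push_cast
            rw [← this]
            norm_num
          rw [ZMod.natCast_eq_zero_iff] at h8
          have h9 : 4 ∣ 2 := by
            have : (4 : ℕ) = 2 ^ 2 := by norm_num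
            rw [this]
            exact (pow_dvd_pow 2 hn).trans h8
          omega
        · have hle : Nat.card ↥(K ⊔ Subgroup.zpowers c) ≤ Nat.card K := by
            rw [Nat.card_congr e.toEquiv, DihedralGroup.nat_card, hKc]
            have : 2 ^ n ≤ 2 ^ 1 := Nat.pow_le_pow_right (by norm_num) (by omega)
            omega
          have heq := Subgroup.eq_of_le_of_card_ge hKH hle
          rw [← heq] at hcH
          exact hcH
      · exfalso
        apply alt4_not_comm
        intro a b
        have h5 := hcomm (e.symm a) (e.symm b)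
        have h6 := congrArg e h5
        simpa using h6
    · intro a ha
      rw [Subgroup.mem_centralizer_iff]
      intro b hb
      exact hKcomm b hb a ha
  rcases hL _ h1 h2 with hc | ⟨n, ⟨e⟩⟩ | ⟨⟨e⟩⟩
  · exact Or.inl hc
  · by_cases hn : n = 0
    · left
      subst hn
      have h3 : Nat.card (P : Subgroup G) = 2 := by
        rw [Nat.card_congr e.toEquiv, DihedralGroup.nat_card]
        norm_num
      exact isCyclic_of_prime_card h3
    · right
      exact ⟨⟨n, by omega, ⟨e⟩⟩, hKpart⟩
  · exfalso
    have h3 : Nat.card (P : Subgroup G) = 12 := by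
      rw [Nat.card_congr e.toEquiv]
      have h4 := two_mul_nat_card_alternatingGroup (α := Fin 4)
      rw [Nat.card_perm] at h4
      have h6 : Nat.card (Fin 4) = 4 := by simp
      rw [h6] at h4
      have h5 : Nat.factorial 4 = 24 := rfl
      omega
    obtain ⟨k, hk⟩ := IsPGroup.iff_card.mp P.isPGroup'
    rw [h3] at hk
    have h4 : 3 ∣ 2 ^ k := by rw [← hk]; norm_num
    have h5 := Nat.Prime.dvd_of_dvd_pow Nat.prime_three h4
    omega

end main

end Cfsg.Agent.H19
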