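import Mathlib
import Cfsg.Agent.Lib.H19.PElt1

/-!
The inequality `CInq` for abelian `H`.
-/

set_option linter.unusedSectionVars false
set_option linter.style.haveILetI false

namespace Cfsg.Agent.H19.PElt

open Subgroup

variable {G : Type*} [Group G] [Finite G] {p : ℕ} [hp : Fact p.Prime]

/-- The inequality for `H`, `P`. -/
def CInq (p : ℕ) (H P : Subgroup G) [Fintype P] : Prop :=
  (∏ y : P, Nat.card ↥(H ⊓ centralizer ({(y : G)} : Set G))) ^ p ≤
    Nat.card H ^ Nat.card P * Nat.card ↥(H ⊓ centralizer (P : Set G)) ^ ((p - 1) * Nat.card P)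

theorem exists_central_elt {A M : Type*} [Group A] [Finite A] [Group M] (hA : IsPGroup p A)
    (ψ : A →* M) (h : ∃ q, ψ q ≠ 1) :
    ∃ z, ψ z ≠ 1 ∧ (ψ z) ^ p = 1 ∧ ∀ q, Commute (ψ q) (ψ z) := by
  have hI : IsPGroup p ψ.range := hA.of_surjective ψ.rangeRestrict ψ.rangeRestrict_surjective
  obtain ⟨q, hq⟩ := h
  haveI : Finite ψ.range := Finite.of_surjective ψ.rangeRestrict ψ.rangeRestrict_surjective
  haveI : Nontrivial ψ.range := ⟨⟨⟨ψ q, q, rfl⟩, 1, fun h => hq (congrArg Subtype.val h)⟩⟩
  haveI := hI.center_nontrivial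
  have hZ : IsPGroup p (center ψ.range) := hI.to_subgroup _
  obtain ⟨k, hk⟩ := IsPGroup.iff_card.mp hZ
  have h1 : 1 < Nat.card (center ψ.range) := Finite.one_lt_card
  have hk0 : k ≠ 0 := by
    rintro rfl
    simp [hk] at h1
  have hdvd : p ∣ Nat.card (center ψ.range) := by
    rw [hk]
    exact dvd_pow_self _ hk0
  obtain ⟨x, hx⟩ := exists_prime_orderOf_dvd_card' p hdvd
  obtain ⟨z, hz⟩ := (x : ψ.range).2
  have hx1 : x ≠ 1 := by
    rintro rfl
    rw [orderOf_one] at hx
    exact hp.out.one_lt.ne hx
  refine ⟨z, ?_, ?_, ?_⟩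
  · intro h0
    apply hx1
    apply Subtype.ext
    apply Subtype.ext
    rw [← hz, h0]
    rfl
  · have : x ^ p = 1 := by rw [← hx]; exact pow_orderOf_eq_one x
    have h2 := congrArg (fun w : center ψ.range => ((w : ψ.range) : M)) this
    simp only [map_pow, Subgroup.coe_pow, Subgroup.coe_one] at h2
    rw [← hz] at h2
    exact h2
  · intro r
    have hm := (Subgroup.mem_center_iff.mp x.2) ⟨ψ r, r, rfl⟩
    have h2 := congrArg Subtype.val hm
    simp only [Subgroup.coe_mul] at h2
    rw [← hz] at h2
    exact h2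

/-- Commutative group structure on an abelian subgroup. -/
abbrev commOf (H : Subgroup G) (hcomm : ∀ x ∈ H, ∀ y ∈ H, x * y = y * x) : CommGroup H :=
  { H.toGroup with mul_comm := fun a b => Subtype.ext (hcomm _ a.2 _ b.2) }

/-- The conjugation action of `P` on `H`. -/
noncomputable def psi (P H : Subgroup G) (hPN : P ≤ normalizer (H : Set G)) : P →* MulAut H :=
  H.normalizerMonoidHom.comp (Subgroup.inclusion hPN)

theorem psi_apply (P H : Subgroup G) (hPN : P ≤ normalizer (H : Set G)) (q : P) (h : H) :
    ((psi P H hPN q h : H) : G) = (q : G) * h * (q : G)⁻¹ := rfl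

theorem fixA_psi (P H : Subgroup G) (hPN : P ≤ normalizer (H : Set G)) (q : P) :
    fixA (psi P H hPN q) = (centralizer ({(q : G)} : Set G)).subgroupOf H := by
  ext h
  rw [mem_fixA, Subgroup.mem_subgroupOf, mem_centralizer_singleton_iff, ← Subtype.coe_inj,
    psi_apply, mul_inv_eq_iff_eq_mul]
  exact ⟨fun h' => h'.symm, fun h' => h'.symm⟩

theorem card_fixA_psi (P H : Subgroup G) (hPN : P ≤ normalizer (H : Set G)) (q : P) :
    Nat.card (fixA (psi P H hPN q)) = Nat.card ↥(H ⊓ centralizer ({(q : G)} : Set G)) := by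
  rw [fixA_psi, card_inf_of_subgroupOf]

/-- `(†)` in `G`. -/
theorem dagger_G (P H : Subgroup G) (hPN : P ≤ normalizer (H : Set G))
    (hcomm : ∀ x ∈ H, ∀ y ∈ H, x * y = y * x) (hcop : (Nat.card H).Coprime p) (y z : P)
    (hyz : Commute (psi P H hPN y) (psi P H hPN z)) (hzp : (psi P H hPN z) ^ p = 1) :
    ∏ c : ZMod p, Nat.card ↥(H ⊓ centralizer ({((y * z ^ c.val : P) : G)} : Set G)) ≤
      Nat.card ↥((H ⊓ centralizer ({(z : G)} : Set G)) ⊓ centralizer ({(y : G)} : Set G)) ^ p *
        (H ⊓ centralizer ({(z : G)} : Set G)).relIndex H := by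
  classical
  have key := @dagger_aut ↥H (commOf H hcomm) _ p _ hcop (psi P H hPN y) (psi P H hPN z) hyz hzp
  have h1 : ∀ c : ZMod p, Nat.card ↥(fixA ((psi P H hPN y) * (psi P H hPN z) ^ c.val)) =
      Nat.card ↥(H ⊓ centralizer ({((y * z ^ c.val : P) : G)} : Set G)) := by
    intro c
    rw [← card_fixA_psi P H hPN, map_mul, map_pow]
  have h2 : Nat.card ↥(fixA (psi P H hPN y) ⊓ fixA (psi P H hPN z)) =
      Nat.card ↥((H ⊓ centralizer ({(z : G)} : Set G)) ⊓ centralizer ({(y : G)} : Set G)) := by
    have h0 : ((centralizer ({(y : G)} : Set G)).subgroupOf H) ⊓ ((centralizer ({(z : G)} : Set G)).subgroupOf H)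
        = ((centralizer ({(y : G)} : Set G)) ⊓ (centralizer ({(z : G)} : Set G))).subgroupOf H := by
      ext x
      simp only [Subgroup.mem_inf, Subgroup.mem_subgroupOf]
    rw [fixA_psi, fixA_psi, h0, card_inf_of_subgroupOf]
    congr 2
    ext x
    simp only [Subgroup.mem_inf]
    tauto
  have h3 : (fixA (psi P H hPN z)).index = (H ⊓ centralizer ({(z : G)} : Set G)).relIndex H := by
    rw [fixA_psi, Subgroup.relIndex, Subgroup.inf_subgroupOf_left]
  have key' := key
  simp only [h1, h2, h3] at key'
  exact key'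

theorem abelian_ineq (P : Subgroup G) [Fintype P] (hP : IsPGroup p P) :
    ∀ (m : ℕ) (H : Subgroup G), Nat.card H = m → (∀ x ∈ H, ∀ y ∈ H, x * y = y * x) →
      (Nat.card H).Coprime p → P ≤ normalizer (H : Set G) → CInq p H P := by
  classical
  intro m
  induction m using Nat.strong_induction_on with
  | _ m IH =>
    intro H hm hcomm hcop hPN
    by_cases htriv : ∀ q : P, psi P H hPN q = 1
    · -- trivial action
      have hle : ∀ q : P, ∀ h ∈ H, h ∈ centralizer ({(q : G)} : Set G) := by
        intro q h hh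
        have h1 := congrArg (fun f : MulAut H => ((f ⟨h, hh⟩ : H) : G)) (htriv q)
        simp only [psi_apply, MulAut.one_apply] at h1
        rw [mem_centralizer_singleton_iff]
        rw [mul_inv_eq_iff_eq_mul] at h1
        exact h1.symm
      have h1 : ∀ y : P, H ⊓ centralizer ({(y : G)} : Set G) = H := by
        intro y
        exact inf_eq_left.mpr (fun h hh => hle y h hh)
      have h2 : H ⊓ centralizer (P : Set G) = H := by
        refine inf_eq_left.mpr (fun h hh => ?_)
        rw [Subgroup.mem_centralizer_iff]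
        intro q hq
        have := hle ⟨q, hq⟩ h hh
        rw [mem_centralizer_singleton_iff] at this
        exact this.symm
      unfold CInq
      simp only [h1, h2, Finset.prod_const, Finset.card_univ, Fintype.card_eq_nat_card]
      rw [← pow_mul, ← pow_add]
      apply le_of_eq
      congr 1
      have hp1 : 1 ≤ p := hp.out.one_lt.le
      have : p = (p - 1) + 1 := (Nat.sub_add_cancel hp1).symm
      calc Nat.card P * p = Nat.card P * ((p - 1) + 1) := by rw [← this]
        _ = _ := by ring
    · push_neg at htriv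
      obtain ⟨z, hz1, hzp, hzc⟩ := exists_central_elt (p := p) hP (psi P H hPN) htriv
      set H₁ : Subgroup G := H ⊓ centralizer ({(z : G)} : Set G) with hH₁
      have hle : H₁ ≤ H := inf_le_left
      -- `H₁` proper
      have hlt : Nat.card H₁ < Nat.card H := by
        have hne : H₁ ≠ H := by
          intro he
          apply hz1
          refine MulEquiv.ext (fun h => Subtype.ext ?_)
          have hh : (h : G) ∈ H₁ := by rw [he]; exact h.2
          have := (Subgroup.mem_inf.mp hh).2
          rw [mem_centralizer_singleton_iff] at this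
          rw [psi_apply, MulAut.one_apply, ← this, mul_inv_cancel_right]
        have h1 : (H₁ : Set G) ⊂ H := by
          refine ⟨hle, fun hsub => hne (le_antisymm hle hsub)⟩
        have := Set.ncard_lt_ncard h1 (Set.toFinite _)
        rw [← Nat.card_coe_set_eq, ← Nat.card_coe_set_eq] at this
        exact this
      have hcomm₁ : ∀ x ∈ H₁, ∀ y ∈ H₁, x * y = y * x := fun x hx y hy => hcomm x (hle hx) y (hle hy)
      have hcop₁ : (Nat.card H₁).Coprime p :=
        Nat.Coprime.coprime_dvd_left (Subgroup.card_dvd_of_le hle) hcop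
      -- `P` normalizes `H₁`
      have hstep : ∀ q : P, ∀ h ∈ H₁, (q : G) * h * (q : G)⁻¹ ∈ H₁ := by
        intro q h hh
        have hhH := (Subgroup.mem_inf.mp hh).1
        have hhz := (Subgroup.mem_inf.mp hh).2
        rw [mem_centralizer_singleton_iff] at hhz
        have h1 : (q : G) * h * (q : G)⁻¹ ∈ H := by
          have := hPN q.2
          exact (mem_normalizer_iff.mp this h).mp hhH
        refine Subgroup.mem_inf.mpr ⟨h1, ?_⟩
        rw [mem_centralizer_singleton_iff]
        -- use commutation of the actions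
        have hc := hzc q
        have h2 := congrArg (fun f : MulAut H => ((f ⟨h, hhH⟩ : H) : G)) hc.eq
        simp only [MulAut.mul_apply, psi_apply] at h2
        have h3 : (z : G) * h * (z : G)⁻¹ = h := by rw [← hhz, mul_inv_cancel_right]
        rw [h3] at h2
        exact eq_mul_inv_iff_mul_eq.mp h2
      have hPN₁ : P ≤ normalizer (H₁ : Set G) := by
        intro q hq
        rw [mem_normalizer_iff]
        intro h
        constructor
        · exact hstep ⟨q, hq⟩ h
        · intro hh
          have := hstep ⟨q, hq⟩⁻¹ _ hh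
          simpa [mul_assoc] using this
      have hIH : CInq p H₁ P := IH _ (hm ▸ hlt) H₁ rfl hcomm₁ hcop₁ hPN₁
      have hCP : H₁ ⊓ centralizer (P : Set G) = H ⊓ centralizer (P : Set G) := by
        ext h
        simp only [hH₁, Subgroup.mem_inf]
        constructor
        · rintro ⟨⟨h1, _⟩, h3⟩
          exact ⟨h1, h3⟩
        · rintro ⟨h1, h3⟩
          refine ⟨⟨h1, ?_⟩, h3⟩
          rw [mem_centralizer_singleton_iff]
          exact ((Subgroup.mem_centralizer_iff.mp h3) z z.2).symm
      have hdag : ∀ y : P, ∏ c : ZMod p, Nat.card ↥(H ⊓ centralizer ({((y * z ^ c.val : P) : G)} : Set G)) ≤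
          Nat.card ↥(H₁ ⊓ centralizer ({(y : G)} : Set G)) ^ p * H₁.relIndex H :=
        fun y => dagger_G P H hPN hcomm hcop y z (hzc y) hzp
      have hre : ∀ i : ℕ, ∏ y : P, Nat.card ↥(H ⊓ centralizer ({((y * z ^ i : P) : G)} : Set G)) =
          ∏ y : P, Nat.card ↥(H ⊓ centralizer ({(y : G)} : Set G)) := by
        intro i
        exact Fintype.prod_equiv (Equiv.mulRight (z ^ i)) _ _ (fun y => rfl)
      have hcardH : Nat.card H₁ * H₁.relIndex H = Nat.card H := by
        have := Subgroup.card_mul_index (H₁.subgroupOf H)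
        rw [card_inf_of_subgroupOf, inf_eq_right.mpr hle] at this
        exact this
      unfold CInq at hIH ⊢
      rw [hCP] at hIH
      calc (∏ y : P, Nat.card ↥(H ⊓ centralizer ({(y : G)} : Set G))) ^ p
          = ∏ y : P, ∏ c : ZMod p, Nat.card ↥(H ⊓ centralizer ({((y * z ^ c.val : P) : G)} : Set G)) := by
            rw [Finset.prod_comm]
            simp only [hre]
            rw [Finset.prod_const, Finset.card_univ, ZMod.card]
        _ ≤ ∏ y : P, (Nat.card ↥(H₁ ⊓ centralizer ({(y : G)} : Set G)) ^ p * H₁.relIndex H) :=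
            Finset.prod_le_prod' (fun y _ => hdag y)
        _ = (∏ y : P, Nat.card ↥(H₁ ⊓ centralizer ({(y : G)} : Set G))) ^ p *
              H₁.relIndex H ^ Nat.card P := by
            rw [Finset.prod_mul_distrib, Finset.prod_pow, Finset.prod_const, Finset.card_univ,
              Fintype.card_eq_nat_card]
        _ ≤ (Nat.card H₁ ^ Nat.card P * Nat.card ↥(H ⊓ centralizer (P : Set G)) ^ ((p - 1) * Nat.card P)) *
              H₁.relIndex H ^ Nat.card P := Nat.mul_le_mul_right _ hIH
        _ = Nat.card H ^ Nat.card P * Nat.card ↥(H ⊓ centralizer (P : Set G)) ^ ((p - 1) * Nat.card P) := by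
            rw [← hcardH, mul_pow]
            ring

end Cfsg.Agent.H19.PElt
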