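import Mathlib
import Cfsg.Agent.Lib.H19.PElt2

/-!
Counting Sylow subgroups containing an element, under quotients.
-/

set_option linter.unusedSectionVars false
set_option linter.style.haveILetI false
set_option linter.unusedVariables false

namespace Cfsg.Agent.H19.PElt

open Subgroup
open scoped Pointwise

variable {G : Type*} [Group G] [Finite G] {H : Type*} [Group H] [Finite H]
  {p : ℕ} [hp : Fact p.Prime]

/-- The number of Sylow `p`-subgroups containing `x`. -/
noncomputable def sylCount (p : ℕ) [Fact p.Prime] {G : Type*} [Group G] [Finite G] (x : G) : ℕ :=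
  Nat.card {Q : Sylow p G // x ∈ (Q : Subgroup G)}

/-- The main inequality. -/
def IneqI (p : ℕ) [Fact p.Prime] (G : Type*) [Group G] [Finite G] : Prop :=
  ∀ (P : Sylow p G) [Fintype (P : Subgroup G)],
    (∏ y : (P : Subgroup G), sylCount p (y : G)) ^ p ≤
      Nat.card (Sylow p G) ^ Nat.card (P : Subgroup G)

theorem mem_smul_sylow (k : G) (Q : Sylow p G) (t : G) :
    t ∈ ((k • Q : Sylow p G) : Subgroup G) ↔ k⁻¹ * t * k ∈ (Q : Subgroup G) := by
  rw [Sylow.coe_subgroup_smul, Subgroup.mem_pointwise_smul_iff_inv_smul_mem]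
  simp [MulAut.smul_def]

theorem sylMap_smul {f : G →* H} (hf : Function.Surjective f) (k : G) (hk : k ∈ f.ker)
    (Q : Sylow p G) : (k • Q).mapSurjective hf = Q.mapSurjective hf := by
  have hk' : f k = 1 := hk
  rw [Sylow.ext_iff, Sylow.coe_mapSurjective, Sylow.coe_mapSurjective]
  ext y
  constructor
  · rintro ⟨t, ht, rfl⟩
    rw [SetLike.mem_coe] at ht
    rw [mem_smul_sylow] at ht
    refine ⟨_, ht, ?_⟩
    simp [hk']
  · rintro ⟨q, hq, rfl⟩
    refine ⟨k * q * k⁻¹, ?_, ?_⟩
    · rw [SetLike.mem_coe, mem_smul_sylow]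
      have h0 : k⁻¹ * (k * q * k⁻¹) * k = q := by group
      rw [h0]
      exact hq
    · simp [hk']

theorem lemmaA {f : G →* H} (hf : Function.Surjective f) (Q₀ : Sylow p G) (T : Subgroup G)
    (hT : IsPGroup p T) (hTL : T ≤ ((Q₀ : Subgroup G).map f).comap f) :
    ∃ k ∈ f.ker, T ≤ ((k • Q₀ : Sylow p G) : Subgroup G) := by
  set L : Subgroup G := ((Q₀ : Subgroup G).map f).comap f with hL
  have hQL : (Q₀ : Subgroup G) ≤ L := Subgroup.le_comap_map _ _
  let S₀ : Sylow p L := Q₀.subtype hQL
  have hT' : IsPGroup p (T.subgroupOf L) :=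
    hT.comap_of_injective L.subtype L.subtype_injective
  obtain ⟨S₁, hS₁⟩ := hT'.exists_le_sylow
  obtain ⟨g, hg⟩ := MulAction.exists_smul_eq L S₀ S₁
  have hgL : f (g : G) ∈ (Q₀ : Subgroup G).map f := g.2
  obtain ⟨q, hq, hqg⟩ := hgL
  refine ⟨(g : G) * q⁻¹, ?_, ?_⟩
  · rw [MonoidHom.mem_ker, map_mul, map_inv, hqg, mul_inv_cancel]
  · intro t ht
    rw [mem_smul_sylow]
    have h1 : (⟨t, hTL ht⟩ : L) ∈ (S₁ : Subgroup L) := hS₁ (by
      rw [Subgroup.mem_subgroupOf]
      exact ht)
    rw [← hg, mem_smul_sylow] at h1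
    have h2 : ((g : G)⁻¹ * t * g) ∈ (Q₀ : Subgroup G) := by
      have h3 : (g⁻¹ * ⟨t, hTL ht⟩ * g : L) ∈ ((Q₀.subtype hQL : Sylow p L) : Subgroup L) := h1
      rw [Sylow.coe_subtype, Subgroup.mem_subgroupOf] at h3
      exact h3
    have h4 : ((g : G) * q⁻¹)⁻¹ * t * ((g : G) * q⁻¹) = q * ((g : G)⁻¹ * t * g) * q⁻¹ := by
      group
    rw [h4]
    exact (Q₀ : Subgroup G).mul_mem ((Q₀ : Subgroup G).mul_mem hq h2) ((Q₀ : Subgroup G).inv_mem hq)

theorem eq_one_of_mem_coprime {K : Subgroup G} (hK : (Nat.card K).Coprime p) (Q : Sylow p G)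
    {t : G} (ht : t ∈ K) (hq : t ∈ (Q : Subgroup G)) : t = 1 := by
  obtain ⟨a, ha⟩ := IsPGroup.iff_card.mp Q.2
  have h1 : orderOf t ∣ Nat.card K := Subgroup.orderOf_dvd_natCard K ht
  have h2 : orderOf t ∣ p ^ a := ha ▸ Subgroup.orderOf_dvd_natCard _ hq
  have h3 : orderOf t = 1 := Nat.eq_one_of_dvd_coprimes (Nat.Coprime.pow_right a hK) h1 h2
  exact orderOf_eq_one_iff.mp h3

theorem card_inf_centralizer_smul (K : Subgroup G) [hKn : K.Normal] (g : G) (Q : Sylow p G) :
    Nat.card ↥(K ⊓ centralizer (((g • Q : Sylow p G) : Subgroup G) : Set G)) =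
      Nat.card ↥(K ⊓ centralizer ((Q : Subgroup G) : Set G)) := by
  have h : (K ⊓ centralizer ((Q : Subgroup G) : Set G)).map (MulAut.conj g).toMonoidHom =
      K ⊓ centralizer (((g • Q : Sylow p G) : Subgroup G) : Set G) := by
    ext y
    constructor
    · rintro ⟨t, ht, rfl⟩
      obtain ⟨ht1, ht2⟩ := Subgroup.mem_inf.mp ht
      rw [Subgroup.mem_inf]
      refine ⟨hKn.conj_mem t ht1 g, ?_⟩
      rw [Subgroup.mem_centralizer_iff]
      intro s hs
      rw [SetLike.mem_coe, mem_smul_sylow] at hs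
      have := (Subgroup.mem_centralizer_iff.mp ht2) _ hs
      show s * (g * t * g⁻¹) = (g * t * g⁻¹) * s
      have h5 : g⁻¹ * s * g * t = t * (g⁻¹ * s * g) := this
      calc s * (g * t * g⁻¹) = g * (g⁻¹ * s * g * t) * g⁻¹ := by group
        _ = g * (t * (g⁻¹ * s * g)) * g⁻¹ := by rw [h5]
        _ = _ := by group
    · intro hy
      obtain ⟨hy1, hy2⟩ := Subgroup.mem_inf.mp hy
      refine ⟨g⁻¹ * y * g, Subgroup.mem_inf.mpr ⟨?_, ?_⟩, ?_⟩
      · simpa using hKn.conj_mem y hy1 g⁻¹
      · rw [Subgroup.mem_centralizer_iff]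
        intro q hq
        have hq' : g * q * g⁻¹ ∈ ((g • Q : Sylow p G) : Subgroup G) := by
          rw [mem_smul_sylow]
          have h0 : g⁻¹ * (g * q * g⁻¹) * g = q := by group
          rw [h0]
          exact hq
        have h5 := (Subgroup.mem_centralizer_iff.mp hy2) _ hq'
        calc q * (g⁻¹ * y * g) = g⁻¹ * ((g * q * g⁻¹) * y) * g := by group
          _ = g⁻¹ * (y * (g * q * g⁻¹)) * g := by rw [h5]
          _ = _ := by group
      · show g * (g⁻¹ * y * g) * g⁻¹ = y
        group
  rw [← h]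
  exact Subgroup.card_map_of_injective (MulEquiv.injective _)

theorem count_fiber {f : G →* H} (hf : Function.Surjective f) (hK : (Nat.card f.ker).Coprime p)
    (Q₁ : Sylow p G) (x : G) (hx : x ∈ (Q₁ : Subgroup G)) :
    ({Q : Sylow p G | x ∈ (Q : Subgroup G) ∧ Q.mapSurjective hf = Q₁.mapSurjective hf}).ncard *
      Nat.card ↥(f.ker ⊓ centralizer ((Q₁ : Subgroup G) : Set G)) =
      Nat.card ↥(f.ker ⊓ centralizer ({x} : Set G)) := by
  classical
  set J : Subgroup G := f.ker ⊓ centralizer ({x} : Set G) with hJ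
  have hS : {Q : Sylow p G | x ∈ (Q : Subgroup G) ∧ Q.mapSurjective hf = Q₁.mapSurjective hf} =
      MulAction.orbit J Q₁ := by
    ext Q
    constructor
    · rintro ⟨hxQ, hφ⟩
      have hTL : (Q : Subgroup G) ≤ ((Q₁ : Subgroup G).map f).comap f := by
        intro t ht
        have h1 : f t ∈ (Q : Subgroup G).map f := ⟨t, ht, rfl⟩
        have h2 : ((Q.mapSurjective hf : Sylow p H) : Subgroup H) = (Q : Subgroup G).map f := rfl
        rw [← h2, hφ] at h1
        exact h1
      obtain ⟨k, hk, hle⟩ := lemmaA hf Q₁ Q Q.2 hTL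
      have hQe : ((k • Q₁ : Sylow p G) : Subgroup G) = Q := Q.3 (k • Q₁).2 hle
      have hQe' : k • Q₁ = Q := Sylow.ext hQe
      have h1 : k⁻¹ * x * k ∈ (Q₁ : Subgroup G) := by
        rw [← mem_smul_sylow, hQe']
        exact hxQ
      have h2 : k⁻¹ * x * k * x⁻¹ = 1 := by
        apply eq_one_of_mem_coprime hK Q₁
        · have hn : f.ker.Normal := f.normal_ker
          have : k⁻¹ * x * k * x⁻¹ = k⁻¹ * (x * k * x⁻¹) := by group
          rw [this]
          exact f.ker.mul_mem (f.ker.inv_mem hk) (hn.conj_mem k hk x)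
        · exact (Q₁ : Subgroup G).mul_mem h1 ((Q₁ : Subgroup G).inv_mem hx)
      have h3 : k ∈ centralizer ({x} : Set G) := by
        rw [mem_centralizer_singleton_iff]
        have h4 : k⁻¹ * x * k = x := mul_inv_eq_one.mp h2
        have h5 : x * k = k * x := by
          calc x * k = k * (k⁻¹ * x * k) := by group
            _ = k * x := by rw [h4]
        exact h5.symm
      exact ⟨⟨k, Subgroup.mem_inf.mpr ⟨hk, h3⟩⟩, hQe'⟩
    · rintro ⟨⟨j, hj⟩, rfl⟩
      obtain ⟨hj1, hj2⟩ := Subgroup.mem_inf.mp hj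
      have hjs : (⟨j, hj⟩ : J) • Q₁ = j • Q₁ := rfl
      rw [mem_centralizer_singleton_iff] at hj2
      refine ⟨?_, ?_⟩
      · show x ∈ ((j • Q₁ : Sylow p G) : Subgroup G)
        rw [mem_smul_sylow]
        have : j⁻¹ * x * j = x := by
          rw [mul_assoc, ← hj2, inv_mul_cancel_left]
        rw [this]
        exact hx
      · exact sylMap_smul hf j hj1 Q₁
  have hst : (MulAction.stabilizer J Q₁).map J.subtype =
      f.ker ⊓ centralizer ((Q₁ : Subgroup G) : Set G) := by
    ext y
    constructor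
    · rintro ⟨⟨j, hj⟩, hjs, rfl⟩
      obtain ⟨hj1, hj2⟩ := Subgroup.mem_inf.mp hj
      have hjs' : j • Q₁ = Q₁ := hjs
      refine Subgroup.mem_inf.mpr ⟨hj1, ?_⟩
      rw [Subgroup.mem_centralizer_iff]
      intro q hq
      have h1 : j * q * j⁻¹ ∈ ((j • Q₁ : Sylow p G) : Subgroup G) := by
        rw [mem_smul_sylow]
        have h0 : j⁻¹ * (j * q * j⁻¹) * j = q := by group
        rw [h0]
        exact hq
      rw [hjs'] at h1
      have h3 : j * q * j⁻¹ * q⁻¹ = 1 := by
        apply eq_one_of_mem_coprime hK Q₁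
        · have hn : f.ker.Normal := f.normal_ker
          have h4 : j * q * j⁻¹ * q⁻¹ = j * (q * j⁻¹ * q⁻¹) := by group
          rw [h4]
          exact f.ker.mul_mem hj1 (hn.conj_mem _ (f.ker.inv_mem hj1) q)
        · exact (Q₁ : Subgroup G).mul_mem h1 ((Q₁ : Subgroup G).inv_mem hq)
      have h4 : j * q * j⁻¹ = q := mul_inv_eq_one.mp h3
      have h5 : j * q = q * j := by
        calc j * q = (j * q * j⁻¹) * j := by group
          _ = q * j := by rw [h4]
      exact h5.symm
    · intro hy
      obtain ⟨hy1, hy2⟩ := Subgroup.mem_inf.mp hy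
      rw [Subgroup.mem_centralizer_iff] at hy2
      have hyJ : y ∈ J := Subgroup.mem_inf.mpr ⟨hy1, by
        rw [mem_centralizer_singleton_iff]
        exact (hy2 x hx).symm⟩
      refine ⟨⟨y, hyJ⟩, ?_, rfl⟩
      show y • Q₁ = Q₁
      have hle : (Q₁ : Subgroup G) ≤ ((y • Q₁ : Sylow p G) : Subgroup G) := by
        intro q hq
        rw [mem_smul_sylow]
        have h3 : q * y = y * q := hy2 q hq
        have h4 : y⁻¹ * q * y = q := by
          rw [mul_assoc, h3, inv_mul_cancel_left]
        rw [h4]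
        exact hq
      exact Sylow.ext (Q₁.3 (y • Q₁).2 hle)
  have hidx := MulAction.index_stabilizer J Q₁
  have hcard := Subgroup.card_mul_index (MulAction.stabilizer J Q₁)
  rw [hS, ← hidx, ← hst, Subgroup.card_map_of_injective J.subtype_injective, mul_comm]
  exact hcard

theorem count_formula {f : G →* H} (hf : Function.Surjective f) (hK : (Nat.card f.ker).Coprime p)
    (P : Sylow p G) (x : G) (hx : x ∈ (P : Subgroup G)) :
    sylCount p x * Nat.card ↥(f.ker ⊓ centralizer ((P : Subgroup G) : Set G)) =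
      sylCount p (f x) * Nat.card ↥(f.ker ⊓ centralizer ({x} : Set G)) := by
  classical
  haveI : Fintype (Sylow p G) := Fintype.ofFinite _
  haveI : Fintype (Sylow p H) := Fintype.ofFinite _
  set c := Nat.card ↥(f.ker ⊓ centralizer ((P : Subgroup G) : Set G)) with hc
  set J := Nat.card ↥(f.ker ⊓ centralizer ({x} : Set G)) with hJ
  let T : Finset (Sylow p G) := Finset.univ.filter (fun Q => x ∈ (Q : Subgroup G))
  let T' : Finset (Sylow p H) := Finset.univ.filter (fun Q => f x ∈ (Q : Subgroup H))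
  have h1 : sylCount p x = T.card := by
    unfold sylCount
    rw [Nat.card_eq_fintype_card, Fintype.card_subtype]
  have h2 : sylCount p (f x) = T'.card := by
    unfold sylCount
    rw [Nat.card_eq_fintype_card, Fintype.card_subtype]
  have hmaps : ∀ Q ∈ T, Q.mapSurjective hf ∈ T' := by
    intro Q hQ
    rw [Finset.mem_filter] at hQ ⊢
    exact ⟨Finset.mem_univ _, ⟨x, hQ.2, rfl⟩⟩
  have h3 : T.card = ∑ b ∈ T', (T.filter (fun Q => Q.mapSurjective hf = b)).card :=
    Finset.card_eq_sum_card_fiberwise hmaps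
  have h4 : ∀ b ∈ T', (T.filter (fun Q => Q.mapSurjective hf = b)).card * c = J := by
    intro b hb
    rw [Finset.mem_filter] at hb
    obtain ⟨Q₀, hQ₀⟩ := Sylow.mapSurjective_surjective hf p b
    have hTL : Subgroup.zpowers x ≤ ((Q₀ : Subgroup G).map f).comap f := by
      rw [Subgroup.zpowers_le]
      have h5 : ((Q₀.mapSurjective hf : Sylow p H) : Subgroup H) = (Q₀ : Subgroup G).map f := rfl
      rw [Subgroup.mem_comap, ← h5, hQ₀]
      exact hb.2
    have hxp : IsPGroup p (Subgroup.zpowers x) :=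
      P.2.to_le ((Subgroup.zpowers_le).mpr hx)
    obtain ⟨k, hk, hle⟩ := lemmaA hf Q₀ _ hxp hTL
    set Q₁ := k • Q₀ with hQ₁
    have hxQ₁ : x ∈ (Q₁ : Subgroup G) := hle (Subgroup.mem_zpowers x)
    have hφ : Q₁.mapSurjective hf = b := by
      rw [hQ₁, sylMap_smul hf k hk, hQ₀]
    have hcount := count_fiber hf hK Q₁ x hxQ₁
    have hc' : Nat.card ↥(f.ker ⊓ centralizer ((Q₁ : Subgroup G) : Set G)) = c := by
      obtain ⟨g, hg⟩ := MulAction.exists_smul_eq G P Q₁
      rw [← hg]
      haveI : f.ker.Normal := f.normal_ker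
      exact card_inf_centralizer_smul _ _ _
    rw [hc', hφ] at hcount
    have hset : (↑(T.filter (fun Q => Q.mapSurjective hf = b)) : Set (Sylow p G)) =
        {Q : Sylow p G | x ∈ (Q : Subgroup G) ∧ Q.mapSurjective hf = b} := by
      ext Q
      simp [T]
    rw [← Set.ncard_coe_finset, hset]
    exact hcount
  rw [h1, h2, h3, Finset.sum_mul]
  rw [Finset.sum_congr rfl h4, Finset.sum_const, smul_eq_mul]

theorem sylCount_one (G : Type*) [Group G] [Finite G] : sylCount p (1 : G) = Nat.card (Sylow p G) := by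
  unfold sylCount
  exact Nat.card_congr (Equiv.subtypeUnivEquiv (fun Q => (Q : Subgroup G).one_mem))

theorem card_sylow_formula {f : G →* H} (hf : Function.Surjective f) (hK : (Nat.card f.ker).Coprime p)
    (P : Sylow p G) :
    Nat.card (Sylow p G) * Nat.card ↥(f.ker ⊓ centralizer ((P : Subgroup G) : Set G)) =
      Nat.card (Sylow p H) * Nat.card f.ker := by
  have h := count_formula hf hK P 1 (P : Subgroup G).one_mem
  rw [map_one, sylCount_one, sylCount_one] at h
  rw [h]
  congr 2
  have : f.ker ⊓ centralizer ({(1 : G)} : Set G) = f.ker := by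
    refine inf_eq_left.mpr (fun y _ => ?_)
    rw [mem_centralizer_singleton_iff]
    simp
  rw [this]

/-- Product over a surjective homomorphism. -/
theorem prod_comp_surj {A B : Type*} [Group A] [Group B] [Fintype A] [Fintype B] (g : A →* B)
    (hg : Function.Surjective g) (F : B → ℕ) :
    ∏ a, F (g a) = (∏ b, F b) ^ Nat.card g.ker := by
  classical
  have h := Finset.prod_comp (s := (Finset.univ : Finset A)) F g
  rw [h]
  have himg : (Finset.univ : Finset A).image g = Finset.univ := by
    ext b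
    simpa using hg b
  rw [himg, ← Finset.prod_pow]
  refine Finset.prod_congr rfl (fun b _ => ?_)
  congr 1
  have h1 := MonoidHom.card_fiber_eq_of_mem_range g (x := b) (y := 1) (hg b) ⟨1, map_one g⟩
  rw [h1]
  rw [Nat.card_eq_fintype_card, Fintype.card_subtype]
  congr 1
  ext a
  simp [MonoidHom.mem_ker]

/-- Quotient by a normal `p`-subgroup. -/
theorem ineq_of_pgroup_quotient {f : G →* H} (hf : Function.Surjective f) (hK : IsPGroup p f.ker)
    (IH : IneqI p H) : IneqI p G := by
  classical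
  haveI hn : f.ker.Normal := f.normal_ker
  have hle : ∀ Q : Sylow p G, f.ker ≤ (Q : Subgroup G) := fun Q => hK.le_sylow_of_normal Q
  have hmem : ∀ (Q : Sylow p G) (x : G), x ∈ (Q : Subgroup G) ↔ f x ∈ (Q : Subgroup G).map f := by
    intro Q x
    constructor
    · intro hx
      exact ⟨x, hx, rfl⟩
    · rintro ⟨q, hq, hqx⟩
      have h1 : q⁻¹ * x ∈ f.ker := by
        rw [MonoidHom.mem_ker, map_mul, map_inv, hqx, inv_mul_cancel]
      have h2 := (Q : Subgroup G).mul_mem hq (hle Q h1)
      simpa using h2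
  have hinj : Function.Injective (Sylow.mapSurjective hf : Sylow p G → Sylow p H) := by
    intro Q Q' h
    apply Sylow.ext
    ext x
    rw [hmem Q x, hmem Q' x]
    have h1 : (Q : Subgroup G).map f = (Q' : Subgroup G).map f := congrArg (fun R : Sylow p H => (R : Subgroup H)) h
    rw [h1]
  have hbij : Function.Bijective (Sylow.mapSurjective hf : Sylow p G → Sylow p H) :=
    ⟨hinj, Sylow.mapSurjective_surjective hf p⟩
  have hcount : ∀ x : G, sylCount p x = sylCount p (f x) := by
    intro x
    unfold sylCount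
    refine Nat.card_congr (Equiv.subtypeEquiv (Equiv.ofBijective _ hbij) ?_)
    intro Q
    exact hmem Q x
  have hcardS : Nat.card (Sylow p G) = Nat.card (Sylow p H) :=
    Nat.card_congr (Equiv.ofBijective _ hbij)
  intro P _
  set P' := P.mapSurjective hf with hP'
  haveI : Fintype (P' : Subgroup H) := Fintype.ofFinite _
  have hIH := IH P'
  let g : (P : Subgroup G) →* (P' : Subgroup H) := f.subgroupMap (P : Subgroup G)
  have hg : Function.Surjective g := f.subgroupMap_surjective _
  have h1 : ∏ y : (P : Subgroup G), sylCount p (y : G) =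
      (∏ b : (P' : Subgroup H), sylCount p (b : H)) ^ Nat.card g.ker := by
    have h2 := prod_comp_surj g hg (fun b => sylCount p (b : H))
    rw [← h2]
    refine Finset.prod_congr rfl (fun y _ => hcount _)
  have h3 : Nat.card (P : Subgroup G) = Nat.card (P' : Subgroup H) * Nat.card g.ker := by
    have h4 := Subgroup.card_mul_index g.ker
    rw [Subgroup.index_ker, MonoidHom.range_eq_top.mpr hg, Subgroup.card_top] at h4
    rw [← h4, mul_comm]
  rw [h1, h3, hcardS, pow_mul, pow_right_comm]
  exact Nat.pow_le_pow_left hIH _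

/-- Quotient by a normal `p'`-subgroup. -/
theorem ineq_of_coprime_quotient {f : G →* H} (hf : Function.Surjective f)
    (hK : (Nat.card f.ker).Coprime p) (IH : IneqI p H)
    (hC : ∀ (P : Sylow p G) [Fintype (P : Subgroup G)], CInq p f.ker (P : Subgroup G)) :
    IneqI p G := by
  classical
  intro P _
  set P' := P.mapSurjective hf with hP'
  haveI : Fintype (P' : Subgroup H) := Fintype.ofFinite _
  have hIH := IH P'
  have hCP := hC P
  let g : (P : Subgroup G) →* (P' : Subgroup H) := f.subgroupMap (P : Subgroup G)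
  have hgs : Function.Surjective g := f.subgroupMap_surjective _
  have hgi : Function.Injective g := by
    rw [injective_iff_map_eq_one]
    intro y hy
    have h1 : f (y : G) = 1 := congrArg Subtype.val hy
    exact Subtype.ext (eq_one_of_mem_coprime hK P h1 y.2)
  have hgb : Function.Bijective g := ⟨hgi, hgs⟩
  have hNP : Nat.card (P' : Subgroup H) = Nat.card (P : Subgroup G) :=
    (Nat.card_congr (Equiv.ofBijective g hgb)).symm
  have hM' : ∏ y : (P : Subgroup G), sylCount p (f (y : G)) = ∏ b : (P' : Subgroup H), sylCount p (b : H) :=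
    Function.Bijective.prod_comp hgb (fun b : (P' : Subgroup H) => sylCount p (b : H))
  set c := Nat.card ↥(f.ker ⊓ centralizer (((P : Subgroup G)) : Set G)) with hc
  set N := Nat.card (P : Subgroup G) with hN
  have hcpos : 0 < c := Nat.card_pos
  have hform : (∏ y : (P : Subgroup G), sylCount p (y : G)) * c ^ N =
      (∏ y : (P : Subgroup G), sylCount p (f (y : G))) *
        ∏ y : (P : Subgroup G), Nat.card ↥(f.ker ⊓ centralizer ({(y : G)} : Set G)) := by
    rw [← Finset.prod_mul_distrib]
    have h0 : c ^ N = ∏ _y : (P : Subgroup G), c := by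
      rw [Finset.prod_const, Finset.card_univ, Fintype.card_eq_nat_card]
    rw [h0, ← Finset.prod_mul_distrib]
    exact Finset.prod_congr rfl (fun y _ => count_formula hf hK P (y : G) y.2)
  have hsyl := card_sylow_formula hf hK P
  rw [hNP] at hIH
  rw [hM'] at hform
  unfold CInq at hCP
  have hfin : (∏ y : (P : Subgroup G), sylCount p (y : G)) ^ p * c ^ (p * N) ≤
      Nat.card (Sylow p G) ^ N * c ^ (p * N) := by
    have h1 : (∏ y : (P : Subgroup G), sylCount p (y : G)) ^ p * c ^ (p * N) =
        ((∏ y : (P : Subgroup G), sylCount p (y : G)) * c ^ N) ^ p := by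
      rw [mul_pow, ← pow_mul, mul_comm N p]
    rw [h1, hform, mul_pow]
    have h2 : Nat.card (Sylow p G) ^ N * c ^ (p * N) =
        (Nat.card (Sylow p H) ^ N) * (Nat.card f.ker ^ N * c ^ ((p - 1) * N)) := by
      have hp1 : p = (p - 1) + 1 := (Nat.sub_add_cancel hp.out.one_lt.le).symm
      have h3 : c ^ (p * N) = c ^ N * c ^ ((p - 1) * N) := by
        rw [← pow_add]
        congr 1
        calc p * N = ((p - 1) + 1) * N := by rw [← hp1]
          _ = _ := by ring
      rw [h3, ← mul_assoc, ← mul_pow, hsyl, mul_pow]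
      ring
    rw [h2]
    exact Nat.mul_le_mul hIH hCP
  exact Nat.le_of_mul_le_mul_right hfin (pow_pos hcpos _)

end Cfsg.Agent.H19.PElt
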