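import Mathlib
import Cfsg.Agent.Lib.H19.PElt3
import Cfsg.Agent.Lib.H01.CoprimeFact
import Cfsg.Agent.Lib.H01.Coprime3
import Cfsg.Agent.Lib.H26.QuadSL2
import Cfsg.Agent.Lib.H03.PSolv

/-!
Reduction of `CInq` to Sylow subgroups, and the main inequality for `p`-solvable groups.
-/

set_option linter.unusedSectionVars false
set_option linter.style.haveILetI false
set_option linter.unusedVariables false

namespace Cfsg.Agent.H19.PElt

open Subgroup
open scoped Pointwise
open Cfsg.Agent.H01
open Cfsg.Agent.H01.CF

universe u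

variable {G : Type*} [Group G] [Finite G] {p : ℕ} [hp : Fact p.Prime]

/-- In a `p`-group every Sylow subgroup is everything. -/
theorem sylow_top_of_pgroup {Q : Type*} [Group Q] [Finite Q] (hQ : IsPGroup p Q) (S : Sylow p Q) :
    (S : Subgroup Q) = ⊤ := (S.3 (hQ.to_subgroup ⊤) le_top).symm

theorem card_sylow_of_pgroup {Q : Type*} [Group Q] [Finite Q] (hQ : IsPGroup p Q) :
    Nat.card (Sylow p Q) = 1 := by
  haveI : Subsingleton (Sylow p Q) := ⟨fun S T => Sylow.ext (by
    rw [sylow_top_of_pgroup hQ S, sylow_top_of_pgroup hQ T])⟩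
  haveI : Nonempty (Sylow p Q) := Sylow.nonempty
  exact Nat.card_unique

theorem sylCount_of_pgroup {Q : Type*} [Group Q] [Finite Q] (hQ : IsPGroup p Q) (w : Q) :
    sylCount p w = 1 := by
  unfold sylCount
  have h : Nat.card {S : Sylow p Q // w ∈ (S : Subgroup Q)} = Nat.card (Sylow p Q) :=
    Nat.card_congr (Equiv.subtypeUnivEquiv (fun S => by
      rw [sylow_top_of_pgroup hQ S]
      exact Subgroup.mem_top w))
  rw [h, card_sylow_of_pgroup hQ]

theorem ineqI_of_pgroup {Q : Type*} [Group Q] [Finite Q] (hQ : IsPGroup p Q) : IneqI p Q := by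
  intro P _
  simp only [sylCount_of_pgroup hQ, card_sylow_of_pgroup hQ]
  simp

/-- Transfer of cardinalities from `L` to `G`. -/
theorem card_of_mem_iff {L : Subgroup G} (A : Subgroup L) (B : Subgroup G) (hBL : B ≤ L)
    (h : ∀ w : L, w ∈ A ↔ (w : G) ∈ B) : Nat.card A = Nat.card B := by
  have hA : A = B.subgroupOf L := by
    ext w
    rw [Subgroup.mem_subgroupOf]
    exact h w
  rw [hA, card_inf_of_subgroupOf, inf_eq_right.mpr hBL]

theorem cinq_of_sup (R P : Subgroup G) [Fintype P] (hR : (Nat.card R).Coprime p)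
    (hP : IsPGroup p P) (hPN : P ≤ normalizer (R : Set G)) (hI : IneqI p ↥(R ⊔ P)) :
    CInq p R P := by
  classical
  set L : Subgroup G := R ⊔ P with hL
  have hRL : R ≤ L := le_sup_left
  have hPL : P ≤ L := le_sup_right
  have hLN : L ≤ normalizer (R : Set G) := sup_le Subgroup.le_normalizer hPN
  haveI hn : (R.subgroupOf L).Normal := (normal_subgroupOf_iff_le_normalizer hRL).mpr hLN
  let f : L →* (L ⧸ R.subgroupOf L) := QuotientGroup.mk' _
  have hf : Function.Surjective f := QuotientGroup.mk'_surjective _
  have hker : f.ker = R.subgroupOf L := QuotientGroup.ker_mk' _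
  have hcardRL : Nat.card f.ker = Nat.card R := by
    rw [hker, card_inf_of_subgroupOf, inf_eq_right.mpr hRL]
  have hK : (Nat.card f.ker).Coprime p := hcardRL ▸ hR
  -- `P` in `L`
  have hPL' : IsPGroup p (P.subgroupOf L) := hP.comap_of_injective L.subtype L.subtype_injective
  have hcardPL : Nat.card (P.subgroupOf L) = Nat.card P := by
    rw [card_inf_of_subgroupOf, inf_eq_right.mpr hPL]
  have hcardL : Nat.card R * Nat.card P = Nat.card L := by
    obtain ⟨k, hk⟩ := IsPGroup.iff_card.mp hP
    refine card_sup_of_le_normalizer hPN ?_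
    rw [hk]
    exact Nat.Coprime.pow_right k hR
  have hidx : (P.subgroupOf L).index = Nat.card R := by
    have h1 := Subgroup.card_mul_index (P.subgroupOf L)
    rw [hcardPL, ← hcardL, mul_comm] at h1
    exact Nat.eq_of_mul_eq_mul_right Nat.card_pos h1
  have hpdiv : ¬ p ∣ (P.subgroupOf L).index := by
    rw [hidx]
    intro hd
    have := Nat.Coprime.eq_one_of_dvd hR.symm hd
    exact hp.out.one_lt.ne' this
  let S : Sylow p L := hPL'.toSylow hpdiv
  have hScoe : (S : Subgroup L) = P.subgroupOf L := rfl
  -- the quotient is a `p`-group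
  have hQ : IsPGroup p (L ⧸ R.subgroupOf L) := by
    have hsurj : Function.Surjective (f.comp (P.subgroupOf L).subtype) := by
      intro y
      obtain ⟨w, rfl⟩ := hf y
      obtain ⟨n, hn', a, ha, hw⟩ := exists_mul_of_mem_sup hPN w.2
      refine ⟨⟨⟨a, hPL ha⟩, by
        rw [Subgroup.mem_subgroupOf]
        exact ha⟩, ?_⟩
      show f ⟨a, hPL ha⟩ = f w
      have hw' : w = ⟨n, hRL hn'⟩ * ⟨a, hPL ha⟩ := Subtype.ext hw
      have hn1 : f ⟨n, hRL hn'⟩ = 1 := by
        rw [← MonoidHom.mem_ker, hker, Subgroup.mem_subgroupOf]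
        exact hn'
      rw [hw', map_mul, hn1, one_mul]
    exact hPL'.of_surjective _ hsurj
  letI : Fintype (S : Subgroup L) := Fintype.ofFinite _
  have hIS := hI S
  have hcount : ∀ y : (S : Subgroup L),
      sylCount p (y : L) * Nat.card ↥(f.ker ⊓ centralizer ((S : Subgroup L) : Set L)) =
        Nat.card ↥(f.ker ⊓ centralizer ({(y : L)} : Set L)) := by
    intro y
    have := count_formula hf hK S (y : L) y.2
    rw [sylCount_of_pgroup hQ, one_mul] at this
    exact this
  have hsyl := card_sylow_formula hf hK S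
  rw [card_sylow_of_pgroup hQ, one_mul, hcardRL] at hsyl
  -- transfers
  have hT1 : ∀ y : (S : Subgroup L), Nat.card ↥(f.ker ⊓ centralizer ({(y : L)} : Set L)) =
      Nat.card ↥(R ⊓ centralizer ({((y : L) : G)} : Set G)) := by
    intro y
    apply card_of_mem_iff _ _ (inf_le_left.trans hRL)
    intro w
    rw [Subgroup.mem_inf, Subgroup.mem_inf, hker, Subgroup.mem_subgroupOf,
      mem_centralizer_singleton_iff, mem_centralizer_singleton_iff, ← Subtype.coe_inj]
    rfl
  have hT2 : Nat.card ↥(f.ker ⊓ centralizer ((S : Subgroup L) : Set L)) =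
      Nat.card ↥(R ⊓ centralizer (P : Set G)) := by
    apply card_of_mem_iff _ _ (inf_le_left.trans hRL)
    intro w
    rw [Subgroup.mem_inf, Subgroup.mem_inf, hker, Subgroup.mem_subgroupOf,
      Subgroup.mem_centralizer_iff, Subgroup.mem_centralizer_iff]
    refine and_congr_right (fun _ => ?_)
    constructor
    · intro h q hq
      have h1 := h ⟨q, hPL hq⟩ (by
        rw [SetLike.mem_coe, hScoe, Subgroup.mem_subgroupOf]
        exact hq)
      exact congrArg Subtype.val h1
    · intro h q hq
      rw [SetLike.mem_coe, hScoe, Subgroup.mem_subgroupOf] at hq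
      exact Subtype.ext (h _ hq)
  -- reindex
  let e : (S : Subgroup L) ≃ P :=
    { toFun := fun y => ⟨((y : L) : G), by
        have h1 : (y : L) ∈ P.subgroupOf L := y.2
        exact Subgroup.mem_subgroupOf.mp h1⟩
      invFun := fun q => ⟨⟨q, hPL q.2⟩, by
        show (⟨q, hPL q.2⟩ : L) ∈ P.subgroupOf L
        rw [Subgroup.mem_subgroupOf]
        exact q.2⟩
      left_inv := fun y => rfl
      right_inv := fun q => rfl }
  have hNS : Nat.card (S : Subgroup L) = Nat.card P := Nat.card_congr e
  set c := Nat.card ↥(R ⊓ centralizer (P : Set G)) with hc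
  set M := ∏ y : (S : Subgroup L), sylCount p (y : L) with hM
  have hprod : ∏ y : P, Nat.card ↥(R ⊓ centralizer ({(y : G)} : Set G)) = M * c ^ Nat.card P := by
    have h0 : c ^ Nat.card P = ∏ _y : (S : Subgroup L), c := by
      rw [Finset.prod_const, Finset.card_univ, Fintype.card_eq_nat_card, hNS]
    rw [h0, hM, ← Finset.prod_mul_distrib]
    symm
    refine Fintype.prod_equiv e _ _ (fun y => ?_)
    have h1 := hcount y
    rw [hT1, hT2] at h1
    exact h1
  unfold CInq
  rw [hprod]
  rw [hT2] at hsyl
  rw [hNS] at hIS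
  set n := Nat.card (Sylow p L) with hn'
  set N := Nat.card P with hN
  have hp1 : p = (p - 1) + 1 := (Nat.sub_add_cancel hp.out.one_lt.le).symm
  calc (M * c ^ N) ^ p = M ^ p * c ^ (p * N) := by
        rw [mul_pow, ← pow_mul, mul_comm N p]
    _ ≤ n ^ N * c ^ (p * N) := Nat.mul_le_mul_right _ hIS
    _ = (n * c) ^ N * c ^ ((p - 1) * N) := by
        rw [mul_pow, mul_assoc, ← pow_add]
        congr 2
        calc p * N = ((p - 1) + 1) * N := by rw [← hp1]
          _ = _ := by ring
    _ = _ := by rw [hsyl]

/-- Centralizers of invariant Sylow subgroups are Sylow subgroups of centralizers (general form). -/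
theorem sylIn_centralizer_gen {r : ℕ} [hr : Fact r.Prime] {A K R : Subgroup G}
    (hAK : A ≤ normalizer (K : Set G)) (hcop : (Nat.card A).Coprime (Nat.card K))
    (hsolv : Group.IsSolvable A) (hR : SylIn r R K) (hAR : A ≤ normalizer (R : Set G)) :
    SylIn r (R ⊓ centralizer (A : Set G)) (K ⊓ centralizer (A : Set G)) := by
  classical
  obtain ⟨P₁, hP₁⟩ := hR.to_sylow
  set M := K ⊓ centralizer (A : Set G) with hM
  have hRCp : IsPGroup r (R ⊓ centralizer (A : Set G) : Subgroup G) := hR.2.1.to_le inf_le_left
  obtain ⟨D, hD⟩ := Cfsg.Agent.H13.exists_sylow_subgroup_le (K := M)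
    (A := R ⊓ centralizer (A : Set G)) (inf_le_inf_right _ hR.1) hRCp
  have hDs := sylIn_of_sylow D
  set D' := (D : Subgroup M).map M.subtype with hD'
  have hD'M : D' ≤ M := hDs.1
  have hA₁D : A ≤ normalizer (D' : Set G) := by
    intro a ha
    apply Cfsg.Agent.H13.centralizer_le_normalizer_of_le
    rw [mem_centralizer_iff]
    intro t ht
    have h1 : t ∈ centralizer (A : Set G) := (Subgroup.mem_inf.mp (hD'M ht)).2
    exact ((mem_centralizer_iff.mp h1) a ha).symm
  obtain ⟨P₂, hP₂, hP₂n⟩ := Cfsg.Agent.H01.invariant_subgroup_le_invariant_sylow hAK hcop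
    (Or.inl hsolv) r D' (hD'M.trans inf_le_left) hDs.2.1 hA₁D
  have hRn : A ≤ normalizer (((P₁ : Subgroup K).map K.subtype : Subgroup G) : Set G) := by
    rw [hP₁]; exact hAR
  obtain ⟨c, hc, hce⟩ := Cfsg.Agent.H01.conj_invariant_sylow hAK hcop (Or.inl hsolv) r P₂ P₁ hP₂n hRn
  have hcD : D'.map (MulAut.conj (c : G)).toMonoidHom ≤ R ⊓ centralizer (A : Set G) := by
    rintro _ ⟨d, hd, rfl⟩
    have hda : d ∈ centralizer (A : Set G) := (Subgroup.mem_inf.mp (hD'M hd)).2
    rw [Subgroup.mem_inf]
    constructor
    · obtain ⟨t, ht, rfl⟩ := hP₂ hd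
      rw [← hP₁]
      refine ⟨MulAut.conj c • t, ?_, rfl⟩
      have : MulAut.conj c • t ∈ MulAut.conj c • (P₂ : Subgroup K) := smul_mem_pointwise_smul _ _ _ ht
      rw [← Sylow.pointwise_smul_def, hce] at this
      exact this
    · show (c : G) * d * (c : G)⁻¹ ∈ centralizer (A : Set G)
      exact (centralizer (A : Set G)).mul_mem ((centralizer (A : Set G)).mul_mem hc hda)
        ((centralizer (A : Set G)).inv_mem hc)
  have hcard : Nat.card (D' : Subgroup G) ≤ Nat.card (R ⊓ centralizer (A : Set G) : Subgroup G) := by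
    have h1 : Nat.card (D'.map (MulAut.conj (c : G)).toMonoidHom) = Nat.card D' :=
      Subgroup.card_map_of_injective (MulEquiv.injective _)
    rw [← h1]
    exact Subgroup.card_le_of_le hcD
  have heq : R ⊓ centralizer (A : Set G) = D' := Subgroup.eq_of_le_of_card_ge hD hcard
  rw [heq]
  exact hDs

theorem eq_prod_primeFactors {X M : ℕ} (hX : X ≠ 0) (hXM : X ∣ M) (hM : M ≠ 0) :
    X = ∏ r ∈ M.primeFactors, r ^ X.factorization r := by
  conv_lhs => rw [← Nat.factorization_prod_pow_eq_self hX]
  rw [Finsupp.prod_of_support_subset (s := M.primeFactors)]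
  · rw [Nat.support_factorization]
    exact Nat.primeFactors_mono hXM hM
  · intro i _
    exact pow_zero i

theorem centralizer_zpowers_eq (x : G) :
    centralizer ((zpowers x : Subgroup G) : Set G) = centralizer ({x} : Set G) := by
  ext c
  rw [mem_centralizer_singleton_iff, Subgroup.mem_centralizer_iff]
  constructor
  · intro h
    exact (h x (mem_zpowers x)).symm
  · intro h y hy
    obtain ⟨i, rfl⟩ := mem_zpowers_iff.mp hy
    have h1 : Commute x c := h.symm
    exact (h1.zpow_left i).eq

theorem isSolvable_of_isPGroup' {A : Subgroup G} (hA : IsPGroup p A) : Group.IsSolvable A := by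
  haveI : Group.IsNilpotent A := hA.isNilpotent
  infer_instance

theorem cinq_of_sylows (N P : Subgroup G) [Fintype P] (hN : (Nat.card N).Coprime p)
    (hP : IsPGroup p P) (hPN : P ≤ normalizer (N : Set G))
    (h : ∀ r : ℕ, r.Prime → r ∣ Nat.card N → ∀ R : Subgroup G, SylIn r R N →
      P ≤ normalizer (R : Set G) → CInq p R P) : CInq p N P := by
  classical
  have hsolv : Group.IsSolvable P := isSolvable_of_isPGroup' hP
  have hNne : Nat.card N ≠ 0 := Nat.card_pos.ne'
  have hcopS : ∀ A : Subgroup G, A ≤ P → (Nat.card A).Coprime (Nat.card N) := by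
    intro A hA
    obtain ⟨k, hk⟩ := IsPGroup.iff_card.mp (hP.to_le hA)
    rw [hk]
    exact Nat.Coprime.pow_left k hN.symm
  have hex : ∀ r ∈ (Nat.card N).primeFactors, ∃ R : Subgroup G, SylIn r R N ∧
      P ≤ normalizer (R : Set G) := by
    intro r hr
    haveI : Fact r.Prime := ⟨Nat.prime_of_mem_primeFactors hr⟩
    obtain ⟨S, hS⟩ := exists_invariant_sylow hPN (hcopS P le_rfl) (Or.inl hsolv) r
    exact ⟨_, sylIn_of_sylow S, hS⟩
  choose! R hR hRn using hex
  have hcardA : ∀ A : Subgroup G, A ≤ P → Nat.card ↥(N ⊓ centralizer (A : Set G)) =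
      ∏ r ∈ (Nat.card N).primeFactors, Nat.card ↥(R r ⊓ centralizer (A : Set G)) := by
    intro A hA
    rw [eq_prod_primeFactors (X := Nat.card ↥(N ⊓ centralizer (A : Set G))) Nat.card_pos.ne'
      (Subgroup.card_dvd_of_le inf_le_left) hNne]
    refine Finset.prod_congr rfl (fun r hr => ?_)
    haveI : Fact r.Prime := ⟨Nat.prime_of_mem_primeFactors hr⟩
    have hs := sylIn_centralizer_gen (hA.trans hPN) (hcopS A hA)
      (isSolvable_of_isPGroup' (hP.to_le hA)) (hR r hr) (hA.trans (hRn r hr))
    rw [hs.card]
  have hcardN : Nat.card N = ∏ r ∈ (Nat.card N).primeFactors, Nat.card (R r) := by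
    conv_lhs => rw [eq_prod_primeFactors (X := Nat.card N) hNne dvd_rfl hNne]
    refine Finset.prod_congr rfl (fun r hr => ?_)
    haveI : Fact r.Prime := ⟨Nat.prime_of_mem_primeFactors hr⟩
    rw [(hR r hr).card]
  have hcardy : ∀ y : P, Nat.card ↥(N ⊓ centralizer ({(y : G)} : Set G)) =
      ∏ r ∈ (Nat.card N).primeFactors, Nat.card ↥(R r ⊓ centralizer ({(y : G)} : Set G)) := by
    intro y
    have hyA : zpowers (y : G) ≤ P := (zpowers_le).mpr y.2
    have := hcardA _ hyA
    simpa only [centralizer_zpowers_eq] using this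
  have hcardP := hcardA P le_rfl
  have hr : ∀ r ∈ (Nat.card N).primeFactors, CInq p (R r) P := by
    intro r hr'
    exact h r (Nat.prime_of_mem_primeFactors hr') (Nat.dvd_of_mem_primeFactors hr') _ (hR r hr') (hRn r hr')
  obtain ⟨PF, hPF⟩ : ∃ PF, PF = (Nat.card N).primeFactors := ⟨_, rfl⟩
  rw [← hPF] at hr hcardP hcardN
  simp only [← hPF] at hcardy
  unfold CInq at hr ⊢
  simp only [hcardy]
  rw [hcardP, hcardN, Finset.prod_comm, ← Finset.prod_pow, ← Finset.prod_pow, ← Finset.prod_pow,
    ← Finset.prod_mul_distrib]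
  exact Finset.prod_le_prod' hr

/-- The main inequality for `p`-solvable groups. -/
theorem main_ineq : ∀ (m : ℕ) (G : Type u) [Group G] [Finite G], Nat.card G = m →
    Cfsg.IsPSolvable p G → IneqI p G := by
  intro m
  induction m using Nat.strong_induction_on with
  | _ m IH =>
    intro G _ _ hm hsol
    classical
    by_cases htriv : (⊤ : Subgroup G) = ⊥
    · apply ineqI_of_pgroup
      have : Subsingleton G := by
        rw [← Subgroup.subsingleton_iff]
        exact subsingleton_of_bot_eq_top htriv.symm
      exact IsPGroup.of_card (n := 0) (by simp)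
    · obtain ⟨M, -, hMn, hMne, hMtype⟩ := Cfsg.Agent.H03.exists_normal_le_of_isPSolvable hsol
        (inferInstance : (⊤ : Subgroup G).Normal) htriv
      haveI := hMn
      have hquot : ∀ (N : Subgroup G) [N.Normal], N ≠ ⊥ → Nat.card (G ⧸ N) < m := by
        intro N _ hN
        have h1 := Subgroup.card_eq_card_quotient_mul_card_subgroup N
        have h2 : 1 < Nat.card N := by
          rw [Subgroup.one_lt_card_iff_ne_bot]
          exact hN
        rw [← hm, h1]
        exact lt_mul_of_one_lt_right Nat.card_pos h2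
      rcases hMtype with hMp | hMc
      · have hH : Cfsg.IsPSolvable p (G ⧸ M) :=
          Cfsg.Agent.H03.isPSolvable_of_surjective (QuotientGroup.mk'_surjective M) hsol
        have IH' := IH _ (hquot M hMne) (G ⧸ M) rfl hH
        refine ineq_of_pgroup_quotient (f := QuotientGroup.mk' M) (QuotientGroup.mk'_surjective M) ?_ IH'
        rw [QuotientGroup.ker_mk']
        exact hMp
      · by_cases hpp : ∃ r : ℕ, r.Prime ∧ IsPGroup r M
        · obtain ⟨r, hr, hrM⟩ := hpp
          haveI : Fact r.Prime := ⟨hr⟩
          set Z : Subgroup G := (center M).map M.subtype with hZ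
          haveI hZn : Z.Normal := inferInstance
          haveI : Nontrivial M := (Subgroup.nontrivial_iff_ne_bot M).mpr hMne
          have hZne : Z ≠ ⊥ := by
            have hc := hrM.center_nontrivial
            intro h0
            rw [hZ, Subgroup.map_eq_bot_iff_of_injective _ M.subtype_injective] at h0
            exact (Subgroup.nontrivial_iff_ne_bot _).mp hc h0
          have hZcomm : ∀ x ∈ Z, ∀ y ∈ Z, x * y = y * x := by
            rintro _ ⟨a, ha, rfl⟩ _ ⟨b, hb, rfl⟩
            have := (Subgroup.mem_center_iff.mp ha) b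
            exact (congrArg Subtype.val this).symm
          have hZM : Z ≤ M := Subgroup.map_subtype_le _
          have hZc : (Nat.card Z).Coprime p :=
            Nat.Coprime.coprime_dvd_left (Subgroup.card_dvd_of_le hZM) hMc
          have hH : Cfsg.IsPSolvable p (G ⧸ Z) :=
            Cfsg.Agent.H03.isPSolvable_of_surjective (QuotientGroup.mk'_surjective Z) hsol
          have IH' := IH _ (hquot Z hZne) (G ⧸ Z) rfl hH
          refine ineq_of_coprime_quotient (f := QuotientGroup.mk' Z) (QuotientGroup.mk'_surjective Z)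
            (by rw [QuotientGroup.ker_mk']; exact hZc) IH' ?_
          intro P _
          rw [QuotientGroup.ker_mk']
          exact abelian_ineq (P : Subgroup G) P.2 _ Z rfl hZcomm hZc (by
            rw [Subgroup.normalizer_eq_top_iff.mpr hZn]
            exact le_top)
        · have hH : Cfsg.IsPSolvable p (G ⧸ M) :=
            Cfsg.Agent.H03.isPSolvable_of_surjective (QuotientGroup.mk'_surjective M) hsol
          have IH' := IH _ (hquot M hMne) (G ⧸ M) rfl hH
          refine ineq_of_coprime_quotient (f := QuotientGroup.mk' M) (QuotientGroup.mk'_surjective M)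
            (by rw [QuotientGroup.ker_mk']; exact hMc) IH' ?_
          intro P _
          rw [QuotientGroup.ker_mk']
          have hPN : (P : Subgroup G) ≤ normalizer (M : Set G) := by
            rw [Subgroup.normalizer_eq_top_iff.mpr hMn]
            exact le_top
          refine cinq_of_sylows M (P : Subgroup G) hMc P.2 hPN ?_
          intro r hr hd R hRs hRn
          have hRM : R ≤ M := hRs.1
          have hRc : (Nat.card R).Coprime p :=
            Nat.Coprime.coprime_dvd_left (Subgroup.card_dvd_of_le hRM) hMc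
          refine cinq_of_sup R (P : Subgroup G) hRc P.2 hRn ?_
          have hlt : Nat.card ↥(R ⊔ (P : Subgroup G)) < m := by
            obtain ⟨k, hk⟩ := IsPGroup.iff_card.mp P.2
            have h1 := card_sup_of_le_normalizer (N := R) (A := (P : Subgroup G)) hRn
              (by rw [hk]; exact Nat.Coprime.pow_right k hRc)
            have h2 := card_sup_of_le_normalizer (N := M) (A := (P : Subgroup G)) hPN
              (by rw [hk]; exact Nat.Coprime.pow_right k hMc)
            have h3 : Nat.card ↥(M ⊔ (P : Subgroup G)) ≤ m := by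
              rw [← hm]
              exact Subgroup.card_le_card_group _
            have hRlt : Nat.card R < Nat.card M := by
              have hne : R ≠ M := by
                rintro rfl
                exact hpp ⟨r, hr, hRs.2.1⟩
              have hss : (R : Set G) ⊂ M := ⟨hRM, fun hsub => hne (le_antisymm hRM hsub)⟩
              have := Set.ncard_lt_ncard hss (Set.toFinite _)
              rw [← Nat.card_coe_set_eq, ← Nat.card_coe_set_eq] at this
              exact this
            have hPpos : 0 < Nat.card (P : Subgroup G) := Nat.card_pos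
            calc Nat.card ↥(R ⊔ (P : Subgroup G)) = Nat.card R * Nat.card (P : Subgroup G) := h1.symm
              _ < Nat.card M * Nat.card (P : Subgroup G) := Nat.mul_lt_mul_of_pos_right hRlt hPpos
              _ = Nat.card ↥(M ⊔ (P : Subgroup G)) := h2
              _ ≤ m := h3
          exact IH _ hlt ↥(R ⊔ (P : Subgroup G)) rfl (Cfsg.Agent.H26.QuadSL.isPSolvable_subgroup hsol _)

end Cfsg.Agent.H19.PElt
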