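import Mathlib
import Cfsg.Agent.Lib.H19.PElt4

/-!
From the main inequality to the lower bound on the number of `p`-elements.
-/

set_option linter.unusedSectionVars false
set_option linter.style.haveILetI false
set_option linter.unusedVariables false

namespace Cfsg.Agent.H19.PElt

open Subgroup
open scoped Pointwise

universe u

variable {G : Type u} [Group G] [Finite G] {p : ℕ} [hp : Fact p.Prime]

theorem sylCount_conj (g x : G) : sylCount p (g * x * g⁻¹) = sylCount p x := by
  unfold sylCount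
  refine Nat.card_congr (Equiv.subtypeEquiv (MulAction.toPerm g⁻¹) ?_)
  intro Q
  show g * x * g⁻¹ ∈ (Q : Subgroup G) ↔ x ∈ ((g⁻¹ • Q : Sylow p G) : Subgroup G)
  rw [mem_smul_sylow]
  simp

theorem mem_sylow_iff (x : G) : (∃ Q : Sylow p G, x ∈ (Q : Subgroup G)) ↔ ∃ k : ℕ, orderOf x = p ^ k := by
  constructor
  · rintro ⟨Q, hQ⟩
    obtain ⟨k, hk⟩ := Q.2 ⟨x, hQ⟩
    have h1 : x ^ p ^ k = 1 := congrArg Subtype.val hk
    obtain ⟨j, -, hj⟩ := (Nat.dvd_prime_pow hp.out).mp (orderOf_dvd_of_pow_eq_one h1)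
    exact ⟨j, hj⟩
  · rintro ⟨k, hk⟩
    have h1 : IsPGroup p (zpowers x) := by
      apply IsPGroup.of_card (n := k)
      rw [Nat.card_zpowers, hk]
    obtain ⟨Q, hQ⟩ := h1.exists_le_sylow
    exact ⟨Q, hQ (mem_zpowers x)⟩

theorem final_of_ineq (P : Sylow p G) (hI : IneqI p G) :
    Nat.card (P : Subgroup G) ^ p * Nat.card (Sylow p G) ^ (p - 1) ≤
      Nat.card {g : G // ∃ k : ℕ, orderOf g = p ^ k} ^ p := by
  classical
  letI : Fintype G := Fintype.ofFinite G
  letI : Fintype (Sylow p G) := Fintype.ofFinite _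
  letI : Fintype (P : Subgroup G) := Fintype.ofFinite _
  set N := Nat.card (P : Subgroup G) with hN
  set n := Nat.card (Sylow p G) with hn
  set u := Nat.card {g : G // ∃ k : ℕ, orderOf g = p ^ k} with hu
  have hNpos : 0 < N := Nat.card_pos
  have hnpos : 0 < n := Nat.card_pos
  have hNR : (0 : ℝ) < N := by exact_mod_cast hNpos
  have hnR : (0 : ℝ) < n := by exact_mod_cast hnpos
  let w : G → ℝ := fun x => ((sylCount p x : ℕ) : ℝ)⁻¹
  have hmpos : ∀ x : (P : Subgroup G), 0 < sylCount p (x : G) := by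
    intro x
    unfold sylCount
    haveI : Nonempty {Q : Sylow p G // (x : G) ∈ (Q : Subgroup G)} := ⟨⟨P, x.2⟩⟩
    exact Nat.card_pos
  have hwpos : ∀ x : (P : Subgroup G), 0 < w x := by
    intro x
    have := hmpos x
    simp only [w]
    positivity
  -- conjugation invariance
  have hS : ∀ Q : Sylow p G, ∑ x : (Q : Subgroup G), w x = ∑ x : (P : Subgroup G), w x := by
    intro Q
    obtain ⟨g, rfl⟩ := MulAction.exists_smul_eq G P Q
    let e : (P : Subgroup G) ≃ ((g • P : Sylow p G) : Subgroup G) :=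
      { toFun := fun x => ⟨g * x * g⁻¹, by
          rw [mem_smul_sylow]
          have h0 : g⁻¹ * (g * (x : G) * g⁻¹) * g = x := by group
          rw [h0]
          exact x.2⟩
        invFun := fun y => ⟨g⁻¹ * y * g, (mem_smul_sylow g P y).mp y.2⟩
        left_inv := fun x => Subtype.ext (by simp [mul_assoc])
        right_inv := fun y => Subtype.ext (by simp [mul_assoc]) }
    symm
    refine Fintype.sum_equiv e _ _ (fun x => ?_)
    simp only [w]
    show ((sylCount p (x : G) : ℕ) : ℝ)⁻¹ = ((sylCount p (g * (x : G) * g⁻¹) : ℕ) : ℝ)⁻¹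
    rw [sylCount_conj]
  -- double count
  have hU : (n : ℝ) * ∑ x : (P : Subgroup G), w x = u := by
    have h1 : (n : ℝ) * ∑ x : (P : Subgroup G), w x =
        ∑ Q : Sylow p G, ∑ x : (Q : Subgroup G), w x := by
      rw [Finset.sum_congr rfl (fun Q _ => hS Q), Finset.sum_const, Finset.card_univ,
        nsmul_eq_mul, hn, Nat.card_eq_fintype_card]
    have h2 : ∀ Q : Sylow p G, ∑ x : (Q : Subgroup G), w x =
        ∑ x : G, if x ∈ (Q : Subgroup G) then w x else 0 := by
      intro Q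
      rw [← Finset.sum_filter]
      exact (Finset.sum_subtype _ (fun x => by simp) _).symm
    rw [h1, Finset.sum_congr rfl (fun Q _ => h2 Q), Finset.sum_comm]
    have h3 : ∀ x : G, (∑ Q : Sylow p G, if x ∈ (Q : Subgroup G) then w x else 0) =
        if (∃ k : ℕ, orderOf x = p ^ k) then 1 else 0 := by
      intro x
      rw [← Finset.sum_filter, Finset.sum_const, nsmul_eq_mul]
      have h4 : ((Finset.univ.filter (fun Q : Sylow p G => x ∈ (Q : Subgroup G))).card : ℝ) =
          (sylCount p x : ℕ) := by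
        unfold sylCount
        rw [Nat.card_eq_fintype_card, Fintype.card_subtype]
      rw [h4]
      by_cases hx : ∃ k : ℕ, orderOf x = p ^ k
      · rw [if_pos hx]
        obtain ⟨Q, hQ⟩ := (mem_sylow_iff x).mpr hx
        have hpos : 0 < sylCount p x := by
          unfold sylCount
          haveI : Nonempty {Q : Sylow p G // x ∈ (Q : Subgroup G)} := ⟨⟨Q, hQ⟩⟩
          exact Nat.card_pos
        have hne : ((sylCount p x : ℕ) : ℝ) ≠ 0 := by exact_mod_cast hpos.ne'
        simp only [w]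
        exact mul_inv_cancel₀ hne
      · rw [if_neg hx]
        have h0 : sylCount p x = 0 := by
          unfold sylCount
          haveI : IsEmpty {Q : Sylow p G // x ∈ (Q : Subgroup G)} :=
            ⟨fun Q => hx ((mem_sylow_iff x).mp ⟨Q.1, Q.2⟩)⟩
          exact Nat.card_of_isEmpty
        rw [h0]
        simp
    rw [Finset.sum_congr rfl (fun x _ => h3 x), Finset.sum_boole]
    rw [hu, Nat.card_eq_fintype_card, Fintype.card_subtype]
  -- AM-GM
  set A' := ∑ x : (P : Subgroup G), w x with hA'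
  set M := ∏ y : (P : Subgroup G), sylCount p (y : G) with hM
  have hMpos : 0 < M := Finset.prod_pos (fun y _ => hmpos y)
  have hMR : (0 : ℝ) < M := by exact_mod_cast hMpos
  have hprodw : ∏ x : (P : Subgroup G), w x = (M : ℝ)⁻¹ := by
    rw [hM]
    push_cast
    rw [Finset.prod_inv_distrib]
  have hAM : (M : ℝ)⁻¹ ≤ (A' / N) ^ N := by
    have hcardU : ((Finset.univ : Finset (P : Subgroup G)).card : ℝ) = N := by
      rw [Finset.card_univ, Fintype.card_eq_nat_card]
    have h2 := Real.geom_mean_le_arith_mean_weighted (Finset.univ : Finset (P : Subgroup G))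
      (fun _ => (N : ℝ)⁻¹) (fun x => w x) (fun _ _ => by positivity)
      (by
        rw [Finset.sum_const, nsmul_eq_mul, hcardU]
        exact mul_inv_cancel₀ hNR.ne')
      (fun x _ => (hwpos x).le)
    have h3 : ∑ x : (P : Subgroup G), (N : ℝ)⁻¹ * w x = A' / N := by
      rw [← Finset.mul_sum, hA', div_eq_inv_mul]
    rw [h3] at h2
    have h4 : (∏ x : (P : Subgroup G), (w x) ^ ((N : ℝ)⁻¹)) ^ N = (M : ℝ)⁻¹ := by
      rw [← Finset.prod_pow, ← hprodw]
      refine Finset.prod_congr rfl (fun x _ => ?_)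
      exact Real.rpow_inv_natCast_pow (hwpos x).le hNpos.ne'
    rw [← h4]
    exact pow_le_pow_left₀ (Finset.prod_nonneg (fun x _ => by
      have := hwpos x
      positivity)) h2 _
  have hIP := hI P
  have hIPR : (M : ℝ) ^ p ≤ (n : ℝ) ^ N := by exact_mod_cast hIP
  set A := A' / N with hA
  have hApos : 0 < A := by
    have hA'pos : 0 < A' := by
      have : Nonempty (P : Subgroup G) := ⟨1⟩
      exact Finset.sum_pos (fun x _ => hwpos x) Finset.univ_nonempty
    positivity
  -- combine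
  have h1 : ((n : ℝ) ^ N)⁻¹ ≤ (A ^ N) ^ p := by
    calc ((n : ℝ) ^ N)⁻¹ ≤ ((M : ℝ) ^ p)⁻¹ := by
          apply inv_anti₀ (by positivity) hIPR
      _ = ((M : ℝ)⁻¹) ^ p := by rw [inv_pow]
      _ ≤ (A ^ N) ^ p := pow_le_pow_left₀ (by positivity) hAM _
  have h2 : 1 ≤ ((n : ℝ) * A ^ p) ^ N := by
    have h3 : ((n : ℝ) * A ^ p) ^ N = (n : ℝ) ^ N * (A ^ N) ^ p := by
      rw [mul_pow, ← pow_mul, ← pow_mul, mul_comm p N]
    rw [h3]
    have h4 : (n : ℝ) ^ N * ((n : ℝ) ^ N)⁻¹ = 1 := mul_inv_cancel₀ (by positivity)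
    calc (1 : ℝ) = (n : ℝ) ^ N * ((n : ℝ) ^ N)⁻¹ := h4.symm
      _ ≤ _ := mul_le_mul_of_nonneg_left h1 (by positivity)
  have h5 : 1 ≤ (n : ℝ) * A ^ p := by
    by_contra hlt
    push_neg at hlt
    have := pow_lt_one₀ (by positivity) hlt hNpos.ne'
    linarith
  -- conclude
  have hAu : A = u / (n * N) := by
    rw [hA, ← hU]
    field_simp
  rw [hAu, div_pow, mul_pow] at h5
  have hp1 : p = (p - 1) + 1 := (Nat.sub_add_cancel hp.out.one_lt.le).symm
  have h6 : ((N : ℝ) ^ p) * (n : ℝ) ^ (p - 1) ≤ (u : ℝ) ^ p := by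
    have hnp : (n : ℝ) ^ p = (n : ℝ) ^ (p - 1) * n := by
      conv_lhs => rw [hp1]
      rw [pow_succ]
    have hpos : (0 : ℝ) < (n : ℝ) ^ p * (N : ℝ) ^ p := by positivity
    have h7 : (n : ℝ) ^ p * (N : ℝ) ^ p ≤ n * (u : ℝ) ^ p := by
      have h8 := mul_le_mul_of_nonneg_right h5 hpos.le
      rw [one_mul] at h8
      calc (n : ℝ) ^ p * (N : ℝ) ^ p ≤ _ := h8
        _ = n * (u : ℝ) ^ p := by
          field_simp
    rw [hnp] at h7
    have h9 : (n : ℝ) * ((N : ℝ) ^ p * (n : ℝ) ^ (p - 1)) ≤ n * (u : ℝ) ^ p := by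
      calc (n : ℝ) * ((N : ℝ) ^ p * (n : ℝ) ^ (p - 1)) = (n : ℝ) ^ (p - 1) * n * (N : ℝ) ^ p := by ring
        _ ≤ _ := h7
    exact le_of_mul_le_mul_left h9 hnR
  exact_mod_cast h6

theorem main_result (hG : Cfsg.IsPSolvable p G) (P : Sylow p G) :
    Nat.card (P : Subgroup G) ^ p * Nat.card (Sylow p G) ^ (p - 1) ≤
      Nat.card {g : G // ∃ k : ℕ, orderOf g = p ^ k} ^ p :=
  final_of_ineq P (main_ineq _ G rfl hG)

end Cfsg.Agent.H19.PElt
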