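import Mathlib

/-! Commuting is transitive in `SL₂` in characteristic two (helper19). -/

set_option autoImplicit false
set_option linter.style.haveILetI false

namespace Cfsg.Agent.H19

open Matrix

section

variable {F : Type*} [Field F] [CharP F 2]

theorem comm_entries (A B : SpecialLinearGroup (Fin 2) F) (h : A * B = B * A) :
    A.1 0 1 * B.1 1 0 = B.1 0 1 * A.1 1 0 ∧
    (A.1 0 0 - A.1 1 1) * B.1 0 1 = (B.1 0 0 - B.1 1 1) * A.1 0 1 ∧
    (B.1 0 0 - B.1 1 1) * A.1 1 0 = (A.1 0 0 - A.1 1 1) * B.1 1 0 := by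
  have h' : A.1 * B.1 = B.1 * A.1 := congrArg Subtype.val h
  have e00 := congrFun (congrFun h' 0) 0
  have e01 := congrFun (congrFun h' 0) 1
  have e10 := congrFun (congrFun h' 1) 0
  simp only [Matrix.mul_apply, Fin.sum_univ_two] at e00 e01 e10
  refine ⟨?_, ?_, ?_⟩
  · linear_combination e00
  · linear_combination e01
  · linear_combination e10

theorem comm_of_entries (A B : SpecialLinearGroup (Fin 2) F)
    (h1 : A.1 0 1 * B.1 1 0 = B.1 0 1 * A.1 1 0)
    (h2 : (A.1 0 0 - A.1 1 1) * B.1 0 1 = (B.1 0 0 - B.1 1 1) * A.1 0 1)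
    (h3 : (B.1 0 0 - B.1 1 1) * A.1 1 0 = (A.1 0 0 - A.1 1 1) * B.1 1 0) : A * B = B * A := by
  apply Subtype.ext
  show A.1 * B.1 = B.1 * A.1
  ext i j
  fin_cases i <;> fin_cases j <;>
    simp only [Matrix.mul_apply, Fin.sum_univ_two, Fin.zero_eta, Fin.mk_one, Fin.isValue]
  · linear_combination h1
  · linear_combination h2
  · linear_combination h3
  · linear_combination -h1

theorem ne_scalar_of_ne_one (b : SpecialLinearGroup (Fin 2) F) (hb : b ≠ 1) :
    b.1 0 1 ≠ 0 ∨ b.1 1 0 ≠ 0 ∨ b.1 0 0 - b.1 1 1 ≠ 0 := by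
  by_contra hno
  push Not at hno
  obtain ⟨h1, h2, h3⟩ := hno
  apply hb
  have hd := b.2
  rw [Matrix.det_fin_two, h1, h2] at hd
  have h4 : b.1 1 1 = b.1 0 0 := (sub_eq_zero.mp h3).symm
  rw [h4] at hd
  have h5 : (b.1 0 0 - 1) * (b.1 0 0 - 1) = 0 := by
    have h2' : (2 : F) = 0 := CharTwo.two_eq_zero
    linear_combination hd + (1 - b.1 0 0) * h2'
  have h6 : b.1 0 0 = 1 := by
    have := mul_self_eq_zero.mp h5
    exact sub_eq_zero.mp this
  apply Subtype.ext
  ext i j
  fin_cases i <;> fin_cases j <;> simp [h1, h2, h4, h6]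

/-- Commuting is transitive on non-identity elements. -/
theorem commute_trans_SL2 (a b c : SpecialLinearGroup (Fin 2) F) (hb : b ≠ 1) (h1 : a * b = b * a)
    (h2 : b * c = c * b) : a * c = c * a := by
  obtain ⟨s1, u1, t1⟩ := comm_entries a b h1
  obtain ⟨s2, u2, t2⟩ := comm_entries c b h2.symm
  have key : ∀ (p q r u s t u' s' t' : F), (q ≠ 0 ∨ r ≠ 0 ∨ p ≠ 0) →
      s * r = q * t → u * q = p * s → p * t = u * r →
      s' * r = q * t' → u' * q = p * s' → p * t' = u' * r →
      s * t' = s' * t ∧ u * s' = u' * s ∧ u' * t = u * t' := by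
    intro p q r u s t u' s' t' hne h1 h2 h3 h4 h5 h6
    by_cases hq : q ≠ 0
    · refine ⟨?_, ?_, ?_⟩
      · apply mul_left_cancel₀ hq
        linear_combination (-s) * h4 + s' * h1
      · apply mul_left_cancel₀ hq
        linear_combination s' * h2 - s * h5
      · apply mul_left_cancel₀ hq
        linear_combination (-u') * h1 + (-s) * h6 + (-t') * h2
    · by_cases hr : r ≠ 0
      · have k1 : s * t' = s' * t := by
          apply mul_left_cancel₀ hr
          linear_combination t' * h1 - t * h4
        refine ⟨k1, ?_, ?_⟩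
        · apply mul_left_cancel₀ hr
          linear_combination (-s') * h3 + s * h6 - p * k1
        · apply mul_left_cancel₀ hr
          linear_combination (-t) * h6 + t' * h3
      · push Not at hq hr
        have hp : p ≠ 0 := by
          rcases hne with h | h | h
          · exact absurd hq h
          · exact absurd hr h
          · exact h
        have hs : s = 0 := by
          have : p * s = 0 := by rw [← h2, hq, mul_zero]
          exact (mul_eq_zero.mp this).resolve_left hp
        have ht : t = 0 := by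
          have : p * t = 0 := by rw [h3, hr, mul_zero]
          exact (mul_eq_zero.mp this).resolve_left hp
        have hs' : s' = 0 := by
          have : p * s' = 0 := by rw [← h5, hq, mul_zero]
          exact (mul_eq_zero.mp this).resolve_left hp
        have ht' : t' = 0 := by
          have : p * t' = 0 := by rw [h6, hr, mul_zero]
          exact (mul_eq_zero.mp this).resolve_left hp
        simp [hs, ht, hs', ht']
  have hne := ne_scalar_of_ne_one b hb
  have hne' : b.1 0 1 ≠ 0 ∨ b.1 1 0 ≠ 0 ∨ b.1 0 0 - b.1 1 1 ≠ 0 := hne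
  obtain ⟨k1, k2, k3⟩ := key _ _ _ _ _ _ _ _ _ hne' s1 u1 t1 s2 u2 t2
  exact comm_of_entries a c k1 k2 (by linear_combination k3)

theorem center_SL2_eq_bot : Subgroup.center (SpecialLinearGroup (Fin 2) F) = ⊥ := by
  rw [eq_bot_iff]
  intro A hA
  rw [Subgroup.mem_bot]
  by_contra hne
  have h := ne_scalar_of_ne_one A hne
  obtain ⟨r, hr, hr'⟩ := Matrix.SpecialLinearGroup.mem_center_iff.mp hA
  have h00 : A.1 0 0 = r := by rw [← hr']; simp
  have h11 : A.1 1 1 = r := by rw [← hr']; simp
  have h01 : A.1 0 1 = 0 := by rw [← hr']; simp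
  have h10 : A.1 1 0 = 0 := by rw [← hr']; simp
  rcases h with h | h | h
  · exact h h01
  · exact h h10
  · apply h
    rw [h00, h11, sub_self]

/-- Commuting is transitive on non-identity elements of `PSL₂` in characteristic two. -/
theorem commute_trans_PSL2 (a b c : ProjectiveSpecialLinearGroup (Fin 2) F) (hb : b ≠ 1)
    (h1 : a * b = b * a) (h2 : b * c = c * b) : a * c = c * a := by
  have hz := center_SL2_eq_bot (F := F)
  have hinj : ∀ x y : SpecialLinearGroup (Fin 2) F,
      ((x : ProjectiveSpecialLinearGroup (Fin 2) F) = y) → x = y := by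
    intro x y h
    have h3 := QuotientGroup.eq.mp h
    rw [hz, Subgroup.mem_bot] at h3
    rw [inv_mul_eq_one] at h3
    exact h3
  obtain ⟨a', rfl⟩ := QuotientGroup.mk_surjective a
  obtain ⟨b', rfl⟩ := QuotientGroup.mk_surjective b
  obtain ⟨c', rfl⟩ := QuotientGroup.mk_surjective c
  have hb' : b' ≠ 1 := by
    rintro rfl
    exact hb rfl
  have e1 : a' * b' = b' * a' := hinj _ _ h1
  have e2 : b' * c' = c' * b' := hinj _ _ h2
  have := commute_trans_SL2 a' b' c' hb' e1 e2
  exact congrArg (fun w : SpecialLinearGroup (Fin 2) F => (w : ProjectiveSpecialLinearGroup (Fin 2) F)) this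

end

/-- Centralizers are TI in a group where commuting is transitive. -/
theorem centralizer_isTI {G : Type*} [Group G]
    (hCT : ∀ a b c : G, b ≠ 1 → a * b = b * a → b * c = c * b → a * c = c * a) (x : G) :
    ∀ g : G, g ∉ Subgroup.normalizer ((Subgroup.centralizer ({x} : Set G) : Subgroup G) : Set G) →
      ∀ y ∈ (Subgroup.centralizer ({x} : Set G) : Set G),
        g * y * g⁻¹ ∈ (Subgroup.centralizer ({x} : Set G) : Set G) → y = 1 := by
  intro g hg y hy hy2
  by_contra hy1
  apply hg
  have hx1 : x ≠ 1 := by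
    rintro rfl
    apply hg
    have : Subgroup.centralizer ({1} : Set G) = ⊤ := by
      rw [eq_top_iff]
      intro z _
      rw [Subgroup.mem_centralizer_singleton_iff]
      simp
    rw [this, Subgroup.mem_normalizer_iff]
    intro h
    simp
  have hy' : x * y = y * x := (Subgroup.mem_centralizer_singleton_iff.mp hy).symm
  have hy2' : x * (g * y * g⁻¹) = (g * y * g⁻¹) * x := (Subgroup.mem_centralizer_singleton_iff.mp hy2).symm
  have hy'1 : g * y * g⁻¹ ≠ 1 := by
    intro h
    apply hy1
    have : y = g⁻¹ * (g * y * g⁻¹) * g := by group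
    rw [this, h]
    group
  have conj_comm : ∀ u v : G, u * v = v * u → (g * u * g⁻¹) * (g * v * g⁻¹) = (g * v * g⁻¹) * (g * u * g⁻¹) := by
    intro u v h
    calc (g * u * g⁻¹) * (g * v * g⁻¹) = g * (u * v) * g⁻¹ := by group
      _ = g * (v * u) * g⁻¹ := by rw [h]
      _ = _ := by group
  rw [Subgroup.mem_normalizer_iff]
  intro h
  constructor
  · intro hh
    have h1 : x * h = h * x := (Subgroup.mem_centralizer_singleton_iff.mp hh).symm
    have h2 : h * y = y * h := hCT h x y hx1 h1.symm hy'
    have h3 := conj_comm h y h2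
    have h4 : (g * h * g⁻¹) * x = x * (g * h * g⁻¹) := hCT _ (g * y * g⁻¹) x hy'1 h3 hy2'.symm
    exact Subgroup.mem_centralizer_singleton_iff.mpr h4
  · intro hh
    have h1 : x * (g * h * g⁻¹) = (g * h * g⁻¹) * x := (Subgroup.mem_centralizer_singleton_iff.mp hh).symm
    have h2 : (g * h * g⁻¹) * (g * y * g⁻¹) = (g * y * g⁻¹) * (g * h * g⁻¹) :=
      hCT _ x _ hx1 h1.symm hy2'
    have h3 : h * y = y * h := by
      have e1 : g⁻¹ * ((g * h * g⁻¹) * (g * y * g⁻¹)) * g = h * y := by group
      have e2 : g⁻¹ * ((g * y * g⁻¹) * (g * h * g⁻¹)) * g = y * h := by group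
      rw [← e1, h2, e2]
    have h4 : h * x = x * h := hCT h y x hy1 h3 hy'.symm
    exact Subgroup.mem_centralizer_singleton_iff.mpr h4

end Cfsg.Agent.H19
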