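import Cfsg.Agent.Lib.H19.Basic
import Cfsg.Agent.Lib.H17.Derangement
import Mathlib

set_option autoImplicit false
open scoped Pointwise

namespace Cfsg.Agent.H19

variable {K : Type*} [Group K] [Finite K]

/-- The non-identity elements in conjugates of `L`. -/
def conjUnion (L : Subgroup K) : Set K := {z | z ≠ 1 ∧ ∃ k : K, k⁻¹ * z * k ∈ L}

/-- A nontrivial TI self-normalizing subgroup has a union of conjugates covering at least half. -/
theorem card_le_two_mul_conjUnion (L : Subgroup K) (hL : L ≠ ⊥)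
    (hTI : ∀ (c y : K), y ≠ 1 → y ∈ L → c * y * c⁻¹ ∈ L → c ∈ L) :
    Nat.card K ≤ 2 * (conjUnion L).ncard := by
  classical
  let f : (K ⧸ L) × {y : L // y ≠ 1} → conjUnion L := fun p =>
    ⟨(p.1.out : K) * ((p.2 : L) : K) * (p.1.out : K)⁻¹, by
      refine ⟨?_, p.1.out, ?_⟩
      · intro h
        apply p.2.2
        apply Subtype.ext
        have : (((p.2 : L) : K)) = (p.1.out : K)⁻¹ * ((p.1.out : K) * ((p.2 : L) : K) * (p.1.out : K)⁻¹) * p.1.out := by group
        rw [this, h]; simp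
      · simp [mul_assoc]⟩
  have hf : Function.Injective f := by
    rintro ⟨q, y⟩ ⟨q', y'⟩ h
    have h1 : (q.out : K) * ((y : L) : K) * (q.out : K)⁻¹ = (q'.out : K) * ((y' : L) : K) * (q'.out : K)⁻¹ :=
      congrArg Subtype.val h
    have hy1 : ((y : L) : K) ≠ 1 := fun h0 => y.2 (Subtype.ext h0)
    have h2 : (q'.out : K)⁻¹ * q.out * ((y : L) : K) * ((q'.out : K)⁻¹ * q.out)⁻¹ = ((y' : L) : K) := by
      calc (q'.out : K)⁻¹ * q.out * ((y : L) : K) * ((q'.out : K)⁻¹ * q.out)⁻¹
          = (q'.out : K)⁻¹ * ((q.out : K) * ((y : L) : K) * (q.out : K)⁻¹) * q'.out := by group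
        _ = (q'.out : K)⁻¹ * ((q'.out : K) * ((y' : L) : K) * (q'.out : K)⁻¹) * q'.out := by rw [h1]
        _ = ((y' : L) : K) := by group
    have h3 : (q'.out : K)⁻¹ * q.out ∈ L := by
      apply hTI _ _ hy1 (y : L).2
      rw [h2]
      exact (y' : L).2
    have h4 : q = q' := by
      rw [← QuotientGroup.out_eq' q, ← QuotientGroup.out_eq' q']
      apply Eq.symm
      rw [QuotientGroup.eq]
      exact h3
    subst h4
    have h5 : ((y : L) : K) = ((y' : L) : K) := by
      have := mul_left_cancel (mul_right_cancel h1)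
      exact this
    congr 1
    exact Subtype.ext (Subtype.ext h5)
  have hcard := Nat.card_le_card_of_injective f hf
  rw [Nat.card_prod, Nat.card_coe_set_eq] at hcard
  -- count
  have hsub : Nat.card {y : L // y ≠ 1} = Nat.card L - 1 := by
    have : Fintype L := Fintype.ofFinite L
    rw [Nat.card_eq_fintype_card, Nat.card_eq_fintype_card, Fintype.card_subtype_compl]
    simp
  rw [hsub] at hcard
  have hL2 : 2 ≤ Nat.card L := by
    have : Nontrivial L := (Subgroup.nontrivial_iff_ne_bot L).2 hL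
    exact Finite.one_lt_card
  have hidx := Subgroup.card_mul_index L
  have h6 : L.index = Nat.card (K ⧸ L) := rfl
  calc Nat.card K = Nat.card L * L.index := hidx.symm
    _ ≤ 2 * ((Nat.card L - 1) * L.index) := by
        have : Nat.card L ≤ 2 * (Nat.card L - 1) := by omega
        calc Nat.card L * L.index ≤ (2 * (Nat.card L - 1)) * L.index := Nat.mul_le_mul_right _ this
          _ = 2 * ((Nat.card L - 1) * L.index) := by ring
    _ ≤ 2 * (conjUnion L).ncard := by
        apply Nat.mul_le_mul_left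
        rw [h6, mul_comm]
        exact hcard

/-- A finite nontrivial group with a conjugation-invariant family of TI, self-normalizing subgroups
covering it has a member equal to the whole group. -/
theorem top_mem_of_partition [Nontrivial K] (𝓟 : Set (Subgroup K))
    (hne : ∀ L ∈ 𝓟, L ≠ ⊥)
    (h1 : ∀ L ∈ 𝓟, ∀ c : K, MulAut.conj c • L ∈ 𝓟)
    (h2 : ∀ L ∈ 𝓟, ∀ L' ∈ 𝓟, ∀ y : K, y ≠ 1 → y ∈ L → y ∈ L' → L = L')
    (h3 : ∀ L ∈ 𝓟, ∀ c : K, MulAut.conj c • L = L → c ∈ L)
    (h4 : ∀ x : K, x ≠ 1 → ∃ L ∈ 𝓟, x ∈ L) :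
    (⊤ : Subgroup K) ∈ 𝓟 := by
  classical
  obtain ⟨x₀, hx₀⟩ := exists_ne (1 : K)
  obtain ⟨L₁, hL₁, -⟩ := h4 x₀ hx₀
  have hTI : ∀ L ∈ 𝓟, ∀ (c y : K), y ≠ 1 → y ∈ L → c * y * c⁻¹ ∈ L → c ∈ L := by
    intro L hL c y hy hyL hcy
    apply h3 L hL c
    apply h2 _ (h1 L hL c) _ hL (c * y * c⁻¹)
    · intro h
      apply hy
      have : y = c⁻¹ * (c * y * c⁻¹) * c := by group
      rw [this, h]; simp
    · rw [mem_conj_smul]
      simpa [mul_assoc] using hyL
    · exact hcy
  have hbig : ∀ L ∈ 𝓟, Nat.card K ≤ 2 * (conjUnion L).ncard := fun L hL =>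
    card_le_two_mul_conjUnion L (hne L hL) (hTI L hL)
  -- every nonidentity element lies in a conjugate of `L₁`
  have hcover : ∀ x : K, x ≠ 1 → x ∈ conjUnion L₁ := by
    intro x hx
    by_contra hno
    obtain ⟨L₂, hL₂, hxL₂⟩ := h4 x hx
    have hdisj : Disjoint (conjUnion L₁) (conjUnion L₂) := by
      rw [Set.disjoint_left]
      rintro z ⟨hz, k, hk⟩ ⟨-, m, hm⟩
      apply hno
      have h5 : MulAut.conj k • L₁ = MulAut.conj m • L₂ := by
        apply h2 _ (h1 L₁ hL₁ k) _ (h1 L₂ hL₂ m) z hz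
        · rw [mem_conj_smul]; exact hk
        · rw [mem_conj_smul]; exact hm
      have h6 : x ∈ MulAut.conj m⁻¹ • (MulAut.conj k • L₁) := by
        rw [h5, smul_smul, ← map_mul, inv_mul_cancel, map_one, one_smul]
        exact hxL₂
      rw [smul_smul, ← map_mul, mem_conj_smul] at h6
      exact ⟨hx, m⁻¹ * k, h6⟩
    have hsubset : conjUnion L₁ ∪ conjUnion L₂ ⊆ {z : K | z ≠ 1} := by
      rintro z (hz | hz)
      · exact hz.1
      · exact hz.1
    have hcard := Set.ncard_le_ncard hsubset (Set.toFinite _)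
    rw [Set.ncard_union_eq hdisj (Set.toFinite _) (Set.toFinite _)] at hcard
    have hcompl : ({z : K | z ≠ 1}).ncard = Nat.card K - 1 := by
      have e : {z : K | z ≠ 1} = ({1} : Set K)ᶜ := by
        ext z; simp
      rw [e, Set.ncard_compl _ , Set.ncard_singleton]
    rw [hcompl] at hcard
    have h7 := hbig L₁ hL₁
    have h8 := hbig L₂ hL₂
    have hpos : 0 < Nat.card K := Nat.card_pos
    omega
  by_cases htop : L₁ = ⊤
  · rw [← htop]; exact hL₁
  · exfalso
    obtain ⟨g, hg⟩ := Cfsg.Agent.H17.exists_not_mem_conj L₁ htop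
    by_cases hg1 : g = 1
    · apply hg 1
      rw [hg1]
      simp [L₁.one_mem]
    · obtain ⟨-, k, hk⟩ := hcover g hg1
      exact hg k hk

end Cfsg.Agent.H19
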