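import Mathlib
import Cfsg.Agent.Lib.H19.Basic

/-! The number of conjugacy classes of `π`-elements is at most the `π`-part of the order (helper19). -/

set_option autoImplicit false
set_option linter.style.haveILetI false

namespace Cfsg.Agent.H19

universe u

/-- Conjugacy classes of `π`-elements, in the form used in the statements. -/
abbrev PiCl (π : Set ℕ) (G : Type*) [Group G] :=
  {C : ConjClasses G // ∀ q : ℕ, q.Prime → (∃ g : G, ConjClasses.mk g = C ∧ q ∣ orderOf g) → q ∈ π}

theorem orderOf_eq_of_mk_eq {G : Type*} [Group G] {g h : G} (e : ConjClasses.mk g = ConjClasses.mk h) :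
    orderOf g = orderOf h := by
  have h1 : IsConj g h := ConjClasses.mk_eq_mk_iff_isConj.mp e
  obtain ⟨c, hc⟩ := isConj_iff.mp h1
  rw [← hc]
  have : c * g * c⁻¹ = (MulAut.conj c) g := rfl
  rw [this, MulEquiv.orderOf_eq]

/-- A class `mk w` of a `π`-element is a member of `PiCl`. -/
def PiCl.mk {π : Set ℕ} {G : Type*} [Group G] (w : G) (hw : ∀ q : ℕ, q.Prime → q ∣ orderOf w → q ∈ π) :
    PiCl π G :=
  ⟨ConjClasses.mk w, by
    rintro q hq ⟨g, hg, hd⟩
    apply hw q hq
    rwa [← orderOf_eq_of_mk_eq hg]⟩

theorem PiCl.exists_rep {π : Set ℕ} {G : Type*} [Group G] (C : PiCl π G) :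
    ∃ g : G, ConjClasses.mk g = C.1 ∧ ∀ q : ℕ, q.Prime → q ∣ orderOf g → q ∈ π := by
  obtain ⟨g, hg⟩ := ConjClasses.exists_rep C.1
  exact ⟨g, hg, fun q hq hd => C.2 q hq ⟨g, hg, hd⟩⟩

theorem ordProj_le_of_dvd {a b : ℕ} (q : ℕ) (hq : q.Prime) (hb : b ≠ 0) (h : a ∣ b) :
    q ^ a.factorization q ≤ q ^ b.factorization q := by
  apply Nat.pow_le_pow_right hq.pos
  exact (Nat.factorization_le_iff_dvd (ne_zero_of_dvd_ne_zero hb h) hb).mpr h q

theorem card_piCl_le (S : Finset ℕ) (hS : ∀ q ∈ S, q.Prime) :
    ∀ (G : Type u) [Group G] [Finite G],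
      Nat.card (PiCl (S : Set ℕ) G) ≤ ∏ q ∈ S, q ^ (Nat.card G).factorization q := by
  classical
  induction S using Finset.induction_on with
  | empty =>
    intro G _ _
    simp only [Finset.prod_empty]
    rw [Finite.card_le_one_iff_subsingleton]
    constructor
    intro C D
    have key : ∀ C : PiCl ((∅ : Finset ℕ) : Set ℕ) G, C.1 = ConjClasses.mk 1 := by
      intro C
      obtain ⟨g, hg, h⟩ := PiCl.exists_rep C
      have h1 : orderOf g = 1 := by
        by_contra hne
        obtain ⟨q, hq, hd⟩ := Nat.exists_prime_and_dvd hne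
        have := h q hq hd
        simp at this
      rw [orderOf_eq_one_iff.mp h1] at hg
      exact hg.symm
    exact Subtype.ext ((key C).trans (key D).symm)
  | insert p S' hp ih =>
    intro G _ _
    have hpp : p.Prime := hS p (Finset.mem_insert_self _ _)
    have hS' : ∀ q ∈ S', q.Prime := fun q hq => hS q (Finset.mem_insert_of_mem hq)
    haveI : Fact p.Prime := ⟨hpp⟩
    have ih' := ih hS'
    obtain ⟨P⟩ : Nonempty (Sylow p G) := Sylow.nonempty
    -- the data attached to a class
    have hdata : ∀ C : PiCl ((insert p S' : Finset ℕ) : Set ℕ) G, ∃ u : (P : Subgroup G), ∃ w : G,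
        w ∈ Subgroup.centralizer ({(u : G)} : Set G) ∧
          (∀ q : ℕ, q.Prime → q ∣ orderOf w → q ∈ (S' : Set ℕ)) ∧
          C.1 = ConjClasses.mk ((u : G) * w) := by
      intro C
      obtain ⟨g, hg, hpi⟩ := PiCl.exists_rep C
      obtain ⟨a, b, hab, hcomm, ⟨k, hk⟩, hbp, -, hbz⟩ := exists_primary_decomp p g
      -- conjugate `a` into `P`
      obtain ⟨Q, hQ⟩ := exists_sylow_of_orderOf hk
      obtain ⟨h, hh⟩ := MulAction.exists_smul_eq G Q P
      have hu : h * a * h⁻¹ ∈ (P : Subgroup G) := by
        rw [← hh]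
        have : (h • Q : Sylow p G) = (P : Sylow p G) := hh
        rw [Sylow.coe_subgroup_smul, Subgroup.mem_pointwise_smul_iff_inv_smul_mem]
        simpa [MulAut.smul_def, mul_assoc] using hQ
      have hbord : orderOf b ∣ orderOf g := by
        have := Subgroup.orderOf_dvd_natCard (Subgroup.zpowers g) hbz
        rwa [Nat.card_zpowers] at this
      refine ⟨⟨h * a * h⁻¹, hu⟩, h * b * h⁻¹, ?_, ?_, ?_⟩
      · rw [Subgroup.mem_centralizer_singleton_iff]
        show h * b * h⁻¹ * (h * a * h⁻¹) = h * a * h⁻¹ * (h * b * h⁻¹)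
        calc h * b * h⁻¹ * (h * a * h⁻¹) = h * (b * a) * h⁻¹ := by group
          _ = h * (a * b) * h⁻¹ := by rw [hcomm.eq]
          _ = h * a * h⁻¹ * (h * b * h⁻¹) := by group
      · intro q hq hd
        have e1 : h * b * h⁻¹ = (MulAut.conj h) b := rfl
        rw [e1, MulEquiv.orderOf_eq] at hd
        have h1 := hpi q hq (hd.trans hbord)
        simp only [Finset.coe_insert, Set.mem_insert_iff] at h1
        rcases h1 with rfl | h1
        · exfalso
          have h2 : q ∣ Nat.gcd (orderOf b) q := Nat.dvd_gcd hd dvd_rfl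
          rw [hbp] at h2
          exact hq.one_lt.ne' (Nat.dvd_one.mp h2)
        · exact h1
      · rw [← hg, hab]
        apply ConjClasses.mk_eq_mk_iff_isConj.mpr
        rw [isConj_iff]
        exact ⟨h, by group⟩
    choose f w hwC hwpi hCw using hdata
    -- fibres
    set n := ∏ q ∈ S', q ^ (Nat.card G).factorization q with hn
    have hfib : ∀ u : (P : Subgroup G), Nat.card {C // f C = u} ≤ n := by
      intro u
      have h1 := ih' (Subgroup.centralizer ({(u : G)} : Set G))
      refine le_trans ?_ (h1.trans ?_)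
      · -- injection into the classes of the centralizer
        have hw' : ∀ C : {C // f C = u}, w C.1 ∈ Subgroup.centralizer ({(u : G)} : Set G) := by
          intro C
          have := hwC C.1
          rwa [C.2] at this
        let Φ : {C // f C = u} → PiCl (S' : Set ℕ) (Subgroup.centralizer ({(u : G)} : Set G)) :=
          fun C => PiCl.mk (⟨w C.1, hw' C⟩ : Subgroup.centralizer ({(u : G)} : Set G)) (by
            intro q hq hd
            rw [Subgroup.orderOf_mk] at hd
            exact hwpi C.1 q hq hd)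
        apply Nat.card_le_card_of_injective Φ
        intro C D hCD
        have h2 : ConjClasses.mk (⟨w C.1, hw' C⟩ : Subgroup.centralizer ({(u : G)} : Set G)) =
            ConjClasses.mk (⟨w D.1, hw' D⟩ : Subgroup.centralizer ({(u : G)} : Set G)) :=
          congrArg Subtype.val hCD
        have h3 := ConjClasses.mk_eq_mk_iff_isConj.mp h2
        obtain ⟨c, hc⟩ := isConj_iff.mp h3
        have hc' : (c : G) * w C.1 * (c : G)⁻¹ = w D.1 := congrArg Subtype.val hc
        have hcu : (c : G) * (u : G) = (u : G) * (c : G) :=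
          Subgroup.mem_centralizer_singleton_iff.mp c.2
        apply Subtype.ext
        apply Subtype.ext
        have e1 := hCw C.1
        have e2 := hCw D.1
        rw [C.2] at e1
        rw [D.2] at e2
        rw [e1, e2]
        apply ConjClasses.mk_eq_mk_iff_isConj.mpr
        rw [isConj_iff]
        refine ⟨c, ?_⟩
        rw [← hc']
        calc (c : G) * ((u : G) * w C.1) * (c : G)⁻¹ = ((c : G) * (u : G)) * w C.1 * (c : G)⁻¹ := by group
          _ = ((u : G) * (c : G)) * w C.1 * (c : G)⁻¹ := by rw [hcu]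
          _ = (u : G) * ((c : G) * w C.1 * (c : G)⁻¹) := by group
      · apply Finset.prod_le_prod'
        intro q hq
        exact ordProj_le_of_dvd q (hS' q hq) Nat.card_pos.ne' (Subgroup.card_subgroup_dvd_card _)
    haveI : Fintype (P : Subgroup G) := Fintype.ofFinite _
    have hsum : Nat.card (PiCl ((insert p S' : Finset ℕ) : Set ℕ) G) =
        ∑ u : (P : Subgroup G), Nat.card {C // f C = u} := by
      rw [← Nat.card_congr (Equiv.sigmaFiberEquiv f), Nat.card_sigma]
    rw [hsum, Finset.prod_insert hp]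
    have hPcard : Nat.card (P : Subgroup G) = p ^ (Nat.card G).factorization p :=
      Sylow.card_eq_multiplicity P
    calc ∑ u : (P : Subgroup G), Nat.card {C // f C = u}
        ≤ ∑ _u : (P : Subgroup G), n := Finset.sum_le_sum (fun u _ => hfib u)
      _ = Nat.card (P : Subgroup G) * n := by
        rw [Finset.sum_const, Finset.card_univ, Nat.card_eq_fintype_card, smul_eq_mul]
      _ = _ := by rw [hPcard]

end Cfsg.Agent.H19
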