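import Cfsg.Agent.Lib.H19.PiClasses
import Cfsg.Agent.Lib.H19.PiSep

/-! The number of classes of `π`-elements is submultiplicative (helper19). -/

set_option autoImplicit false
set_option linter.style.haveILetI false

namespace Cfsg.Agent.H19

section decomp

variable {G : Type*} [Group G] {π : Set ℕ}

theorem eq_one_of_pi_and_co {w : G} (h1 : IsPiElt π w) (h2 : IsPiElt πᶜ w) : w = 1 := by
  have : orderOf w = 1 := by
    by_contra hne
    obtain ⟨q, hq, hd⟩ := Nat.exists_prime_and_dvd hne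
    exact h2 q hq hd (h1 q hq hd)
  exact orderOf_eq_one_iff.mp this

/-- Uniqueness of the `π`-decomposition. -/
theorem pi_decomp_unique {g y z u v : G} (hg : g = y * z) (hc : Commute y z)
    (hy : IsPiElt π y) (hz : IsPiElt πᶜ z) (hg' : g = u * v) (hu : IsPiElt π u) (hv : IsPiElt πᶜ v)
    (hu' : u ∈ Subgroup.zpowers g) (hv' : v ∈ Subgroup.zpowers g) : y = u ∧ z = v := by
  have hyg : Commute y g := by
    rw [hg]
    exact (Commute.refl y).mul_right hc
  have hzg : Commute z g := by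
    rw [hg]
    exact hc.symm.mul_right (Commute.refl z)
  have hyu : Commute y u := by
    obtain ⟨k, rfl⟩ := hu'
    exact hyg.zpow_right k
  have hzv : Commute z v := by
    obtain ⟨k, rfl⟩ := hv'
    exact hzg.zpow_right k
  have e : y⁻¹ * u = z * v⁻¹ := by
    have h0 : y * z = u * v := by rw [← hg, hg']
    rw [inv_mul_eq_iff_eq_mul, ← mul_assoc, h0, mul_inv_cancel_right]
  have h1 : IsPiElt π (y⁻¹ * u) := hy.inv.mul hu (hyu.inv_left)
  have h2 : IsPiElt πᶜ (y⁻¹ * u) := by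
    rw [e]
    exact hz.mul hv.inv hzv.inv_right
  have h3 := eq_one_of_pi_and_co h1 h2
  have h4 : y = u := by
    rw [inv_mul_eq_one] at h3
    exact h3
  refine ⟨h4, ?_⟩
  rw [← mul_right_inj y]
  rw [← hg, hg', h4]

/-- The conjugation action of a subgroup on an invariant set. -/
@[reducible] def conjOn (N : Subgroup G) (S : Set G) (hS : ∀ n ∈ N, ∀ y ∈ S, n * y * n⁻¹ ∈ S) :
    MulAction N S where
  smul := fun n y => ⟨(n : G) * y * (n : G)⁻¹, hS n n.2 y y.2⟩
  one_smul := by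
    rintro ⟨y, hy⟩
    apply Subtype.ext
    show (1 : G) * y * (1 : G)⁻¹ = y
    simp
  mul_smul := by
    rintro ⟨a, ha⟩ ⟨b, hb⟩ ⟨y, hy⟩
    apply Subtype.ext
    show (a * b) * y * (a * b)⁻¹ = a * (b * y * b⁻¹) * a⁻¹
    group

theorem orbit_formula [Finite G] (N : Subgroup G) (S : Set G) (hS : ∀ n ∈ N, ∀ y ∈ S, n * y * n⁻¹ ∈ S) :
    letI := conjOn N S hS
    Nat.card (MulAction.orbitRel.Quotient N S) * Nat.card N =
      Nat.card {p : N × S // (p.1 : G) * p.2 = p.2 * p.1} := by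
  classical
  letI := conjOn N S hS
  haveI : Fintype N := Fintype.ofFinite _
  haveI : Fintype S := Fintype.ofFinite _
  haveI : Fintype (MulAction.orbitRel.Quotient N S) := Fintype.ofFinite _
  have h := MulAction.sum_card_fixedBy_eq_card_orbits_mul_card_group N S
  rw [Nat.card_eq_fintype_card, Nat.card_eq_fintype_card, ← h, ← Fintype.card_sigma,
    ← Nat.card_eq_fintype_card]
  apply Nat.card_congr
  refine
    { toFun := fun x => ⟨(x.1, x.2.1), ?_⟩
      invFun := fun p => ⟨p.1.1, ⟨p.1.2, ?_⟩⟩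
      left_inv := fun _ => rfl
      right_inv := fun _ => rfl }
  · have h1 : x.1 • x.2.1 = x.2.1 := x.2.2
    have h2 := congrArg Subtype.val h1
    have h3 : (x.1 : G) * x.2.1 * (x.1 : G)⁻¹ = x.2.1 := h2
    rw [mul_inv_eq_iff_eq_mul] at h3
    exact h3
  · show p.1.1 • p.1.2 = p.1.2
    apply Subtype.ext
    show (p.1.1 : G) * p.1.2 * (p.1.1 : G)⁻¹ = p.1.2
    rw [mul_inv_eq_iff_eq_mul]
    exact p.2

end decomp

section main

variable {G : Type*} [Group G] [Finite G] (N : Subgroup G) [N.Normal] (π : Set ℕ)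

/-- `π`-elements in a coset. -/
def cosetPi (x : G) : Set G := {y | x⁻¹ * y ∈ N ∧ IsPiElt π y}

/-- `π`-elements of the normal subgroup. -/
def normalPi : Set G := {v | v ∈ N ∧ IsPiElt π v}

theorem cosetPi_inv (x : G) : ∀ n ∈ N, ∀ y ∈ cosetPi N π x, n * y * n⁻¹ ∈ cosetPi N π x := by
  rintro n hn y ⟨h1, h2⟩
  refine ⟨?_, h2.conj n⟩
  have e : x⁻¹ * (n * y * n⁻¹) = (x⁻¹ * n * x) * (x⁻¹ * y) * n⁻¹ := by group
  rw [e]
  refine N.mul_mem (N.mul_mem ?_ h1) (N.inv_mem hn)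
  have := ‹N.Normal›.conj_mem n hn x⁻¹
  simpa using this

theorem normalPi_inv : ∀ n ∈ N, ∀ y ∈ normalPi N π, n * y * n⁻¹ ∈ normalPi N π := by
  rintro n hn y ⟨h1, h2⟩
  exact ⟨N.mul_mem (N.mul_mem hn h1) (N.inv_mem hn), h2.conj n⟩

/-- The comparison of commuting pairs. -/
theorem card_pairs_le (x : G) :
    Nat.card {p : N × cosetPi N π x // (p.1 : G) * p.2 = p.2 * p.1} ≤
      Nat.card {p : N × normalPi N π // (p.1 : G) * p.2 = p.2 * p.1} := by
  classical
  -- the two parts of elements of `N`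
  have hdec : ∀ n : N, ∃ u v : G, (n : G) = u * v ∧ Commute u v ∧ IsPiElt π u ∧ IsPiElt πᶜ v ∧
      u ∈ Subgroup.zpowers (n : G) ∧ v ∈ Subgroup.zpowers (n : G) := fun n =>
    exists_pi_decomp π (n : G)
  choose u v huv hc hu hv hu' hv' using hdec
  have hmem : ∀ n : N, ∀ w ∈ Subgroup.zpowers (n : G), w ∈ N := by
    rintro n _ ⟨k, rfl⟩
    exact N.zpow_mem n.2 k
  let y₀ : G → G := fun w => if h : ∃ y, x⁻¹ * y ∈ N ∧ y * w = w * y then h.choose else 1
  have hy₀ : ∀ w y, x⁻¹ * y ∈ N → y * w = w * y → x⁻¹ * y₀ w ∈ N ∧ y₀ w * w = w * y₀ w := by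
    intro w y h1 h2
    have h : ∃ y, x⁻¹ * y ∈ N ∧ y * w = w * y := ⟨y, h1, h2⟩
    have : y₀ w = h.choose := dif_pos h
    rw [this]
    exact h.choose_spec
  have hcomm : ∀ p : {p : N × cosetPi N π x // (p.1 : G) * p.2 = p.2 * p.1},
      Commute (p.1.2 : G) (u p.1.1) ∧ Commute (p.1.2 : G) (v p.1.1) := by
    rintro ⟨⟨n, y⟩, h⟩
    have h1 : Commute (y : G) (n : G) := h.symm
    constructor
    · obtain ⟨k, hk⟩ := hu' n
      show Commute (y : G) (u n)
      rw [← hk]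
      exact h1.zpow_right k
    · obtain ⟨k, hk⟩ := hv' n
      show Commute (y : G) (v n)
      rw [← hk]
      exact h1.zpow_right k
  have hprod : ∀ p : {p : N × cosetPi N π x // (p.1 : G) * p.2 = p.2 * p.1},
      x⁻¹ * ((p.1.2 : G) * v p.1.1) ∈ N := by
    rintro ⟨⟨n, y⟩, h⟩
    have e : x⁻¹ * ((y : G) * v n) = (x⁻¹ * y) * v n := by group
    show x⁻¹ * ((y : G) * v n) ∈ N
    rw [e]
    exact N.mul_mem y.2.1 (hmem n _ (hv' n))
  have hcc : ∀ p : {p : N × cosetPi N π x // (p.1 : G) * p.2 = p.2 * p.1},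
      ((p.1.2 : G) * v p.1.1) * u p.1.1 = u p.1.1 * ((p.1.2 : G) * v p.1.1) := by
    intro p
    exact (((hcomm p).1).mul_left (hc p.1.1).symm : Commute _ _)
  refine Nat.card_le_card_of_injective (fun p => ⟨(⟨(y₀ (u p.1.1))⁻¹ * (p.1.2 * v p.1.1), ?_⟩,
    ⟨u p.1.1, hmem _ _ (hu' _), hu _⟩), ?_⟩) ?_
  · have h1 := (hy₀ (u p.1.1) _ (hprod p) (hcc p)).1
    have e : (y₀ (u p.1.1))⁻¹ * ((p.1.2 : G) * v p.1.1) =
        (x⁻¹ * y₀ (u p.1.1))⁻¹ * (x⁻¹ * ((p.1.2 : G) * v p.1.1)) := by group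
    rw [e]
    exact N.mul_mem (N.inv_mem h1) (hprod p)
  · have h1 := (hy₀ (u p.1.1) _ (hprod p) (hcc p)).2
    have h2 := hcc p
    have h3 : Commute (y₀ (u p.1.1))⁻¹ (u p.1.1) := (show Commute _ _ from h1).inv_left
    exact ((h3.mul_left (show Commute _ _ from h2)) : Commute _ _)
  · rintro ⟨⟨n, y⟩, h⟩ ⟨⟨n', y'⟩, h'⟩ heq
    have h1 := congrArg (fun p => (p.1.1 : G)) heq
    have h2 := congrArg (fun p => ((p.1.2 : normalPi N π) : G)) heq
    simp only at h1 h2
    rw [h2, mul_right_inj] at h1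
    -- two decompositions of the same element
    have hyc : Commute (y : G) (v n) := (hcomm ⟨⟨n, y⟩, h⟩).2
    have hyc' : Commute (y' : G) (v n') := (hcomm ⟨⟨n', y'⟩, h'⟩).2
    obtain ⟨a, b, hab, -, ha, hb, ha', hb'⟩ := exists_pi_decomp π ((y : G) * v n)
    have e1 := pi_decomp_unique rfl hyc y.2.2 (hv n) hab ha hb ha' hb'
    have e2 := pi_decomp_unique h1 hyc' y'.2.2 (hv n') hab ha hb ha' hb'
    have hy : (y : G) = y' := e1.1.trans e2.1.symm
    have hv2 : v n = v n' := e1.2.trans e2.2.symm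
    have hn : n = n' := by
      apply Subtype.ext
      rw [huv n, huv n', h2, hv2]
    subst hn
    have hy' : y = y' := Subtype.ext hy
    subst hy'
    rfl

/-- A class in the fibre is reached from the coset. -/
theorem card_fiber_le (D : PiCl π (G ⧸ N))
    (f : PiCl π G → PiCl π (G ⧸ N))
    (hf : ∀ (C : PiCl π G) (g : G), ConjClasses.mk g = C.1 →
      (f C).1 = ConjClasses.mk (g : G ⧸ N)) :
    Nat.card {C : PiCl π G // f C = D} ≤ Nat.card (PiCl π N) := by
  classical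
  by_cases hne : Nonempty {C : PiCl π G // f C = D}
  swap
  · rw [not_nonempty_iff] at hne
    simp
  obtain ⟨⟨C₀, hC₀⟩⟩ := hne
  obtain ⟨x, hx, -⟩ := PiCl.exists_rep C₀
  have hD : D.1 = ConjClasses.mk (x : G ⧸ N) := by
    rw [← hC₀]
    exact hf C₀ x hx
  -- each class in the fibre meets the coset
  have hmeet : ∀ C : {C : PiCl π G // f C = D}, ∃ y ∈ cosetPi N π x, ConjClasses.mk y = C.1.1 := by
    rintro ⟨C, hC⟩
    obtain ⟨g, hg, hgπ⟩ := PiCl.exists_rep C
    have h1 : (ConjClasses.mk (g : G ⧸ N)) = ConjClasses.mk (x : G ⧸ N) := by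
      rw [← hD, ← hC]
      exact (hf C g hg).symm
    obtain ⟨c, hc⟩ := isConj_iff.mp (ConjClasses.mk_eq_mk_iff_isConj.mp h1)
    obtain ⟨c', rfl⟩ := QuotientGroup.mk_surjective c
    refine ⟨c' * g * c'⁻¹, ⟨?_, IsPiElt.conj hgπ c'⟩, ?_⟩
    · rw [← QuotientGroup.eq]
      rw [← hc]
      rfl
    · show ConjClasses.mk (c' * g * c'⁻¹) = C.1
      rw [← hg]
      apply ConjClasses.mk_eq_mk_iff_isConj.mpr
      exact (isConj_iff.mpr ⟨c', rfl⟩).symm
  choose y hy hyC using hmeet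
  letI a1 := conjOn N (cosetPi N π x) (cosetPi_inv N π x)
  letI a2 := conjOn N (normalPi N π) (normalPi_inv N π)
  have h1 : Nat.card {C : PiCl π G // f C = D} ≤
      Nat.card (MulAction.orbitRel.Quotient N (cosetPi N π x)) := by
    refine Nat.card_le_card_of_injective
      (fun C => Quotient.mk _ (⟨y C, hy C⟩ : cosetPi N π x)) ?_
    intro C C' heq
    have h2 : (⟨y C, hy C⟩ : cosetPi N π x) ∈ MulAction.orbit N (⟨y C', hy C'⟩ : cosetPi N π x) :=
      Quotient.exact heq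
    obtain ⟨n, hn⟩ := h2
    have h3 : (n : G) * y C' * (n : G)⁻¹ = y C := congrArg Subtype.val hn
    apply Subtype.ext
    apply Subtype.ext
    rw [← hyC, ← hyC, ← h3]
    apply ConjClasses.mk_eq_mk_iff_isConj.mpr
    exact (isConj_iff.mpr ⟨(n : G), rfl⟩).symm
  have h4 : Nat.card (MulAction.orbitRel.Quotient N (normalPi N π)) ≤ Nat.card (PiCl π N) := by
    have hrep : ∀ C : PiCl π N, ∃ g : N, ConjClasses.mk g = C.1 ∧ IsPiElt π g := fun C => PiCl.exists_rep C
    choose r hr hrπ using hrep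
    refine Nat.card_le_card_of_surjective
      (fun C => Quotient.mk _ (⟨(r C : G), ⟨(r C).2, isPiElt_coe.mpr (hrπ C)⟩⟩ : normalPi N π)) ?_
    intro O
    obtain ⟨⟨v, hv, hvπ⟩, rfl⟩ := Quotient.exists_rep O
    let C : PiCl π N := PiCl.mk (⟨v, hv⟩ : N) (isPiElt_coe (x := ⟨v, hv⟩).mp hvπ)
    refine ⟨C, ?_⟩
    apply Quotient.sound
    have h5 : ConjClasses.mk (r C) = ConjClasses.mk (⟨v, hv⟩ : N) := hr C
    obtain ⟨c, hc⟩ := isConj_iff.mp (ConjClasses.mk_eq_mk_iff_isConj.mp h5)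
    refine ⟨c⁻¹, ?_⟩
    apply Subtype.ext
    have h6 : (c : G) * (r C) * (c : G)⁻¹ = v := congrArg (Subtype.val) hc
    show ((c : G)⁻¹) * v * ((c : G)⁻¹)⁻¹ = (r C : G)
    rw [← h6]
    group
  have h5 := orbit_formula N (cosetPi N π x) (cosetPi_inv N π x)
  have h6 := orbit_formula N (normalPi N π) (normalPi_inv N π)
  have h7 := card_pairs_le N π x
  have h8 : Nat.card (MulAction.orbitRel.Quotient N (cosetPi N π x)) ≤
      Nat.card (MulAction.orbitRel.Quotient N (normalPi N π)) := by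
    refine Nat.le_of_mul_le_mul_right ?_ (Nat.card_pos (α := N))
    rw [h5, h6]
    exact h7
  exact h1.trans (h8.trans h4)

/-- The number of classes of `π`-elements is submultiplicative. -/
theorem card_piCl_le_mul :
    Nat.card (PiCl π G) ≤ Nat.card (PiCl π N) * Nat.card (PiCl π (G ⧸ N)) := by
  classical
  have hdef : ∀ C : PiCl π G, ∀ q : ℕ, q.Prime →
      (∃ g : (G ⧸ N), ConjClasses.mk g = ConjClasses.map (QuotientGroup.mk' N) C.1 ∧ q ∣ orderOf g) → q ∈ π := by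
    rintro C q hq ⟨g, hg, hd⟩
    obtain ⟨g', hg', hπ⟩ := PiCl.exists_rep C
    rw [← hg'] at hg
    have h1 : ConjClasses.mk g = ConjClasses.mk (QuotientGroup.mk' N g') := hg
    rw [orderOf_eq_of_mk_eq h1] at hd
    exact hπ q hq (hd.trans (orderOf_map_dvd _ _))
  let f : PiCl π G → PiCl π (G ⧸ N) := fun C => ⟨ConjClasses.map (QuotientGroup.mk' N) C.1, hdef C⟩
  have hf : ∀ (C : PiCl π G) (g : G), ConjClasses.mk g = C.1 →
      (f C).1 = ConjClasses.mk (g : G ⧸ N) := by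
    intro C g hg
    show ConjClasses.map (QuotientGroup.mk' N) C.1 = _
    rw [← hg]
    rfl
  haveI : Fintype (PiCl π (G ⧸ N)) := Fintype.ofFinite _
  haveI : Fintype (PiCl π G) := Fintype.ofFinite _
  have h1 : Nat.card (PiCl π G) = Nat.card (Σ D : PiCl π (G ⧸ N), {C : PiCl π G // f C = D}) :=
    Nat.card_congr (Equiv.sigmaFiberEquiv f).symm
  rw [h1, Nat.card_sigma, Nat.card_eq_fintype_card (α := PiCl π (G ⧸ N))]
  calc _ ≤ ∑ _D : PiCl π (G ⧸ N), Nat.card (PiCl π N) :=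
        Finset.sum_le_sum (fun D _ => card_fiber_le N π D f hf)
    _ = _ := by
        rw [Finset.sum_const, Finset.card_univ, smul_eq_mul, mul_comm]

end main

end Cfsg.Agent.H19
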