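import Mathlib
import Cfsg.Agent.Lib.H19.Sp1

/-! Power graphs determine the prime graph (helper19). -/

set_option autoImplicit false

namespace Cfsg.Agent.H19.PG

open Subgroup

universe u v

section Basic

variable {G : Type u} [Group G]

/-- Adjacency or equality in the power graph. -/
def Cmp (x y : G) : Prop := x ∈ zpowers y ∨ y ∈ zpowers x

/-- Same closed neighbourhood in the power graph. -/
def Twin (a b : G) : Prop := ∀ w : G, Cmp a w ↔ Cmp b w

/-- Dominating vertex of the power graph. -/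
def Dom (a : G) : Prop := ∀ w : G, Cmp a w

/-- The size of the twin class. -/
noncomputable def tw (a : G) : ℕ := Nat.card {b : G // Twin a b}

/-- Being a power of a prime (or one). -/
def IsPP (n : ℕ) : Prop := ∃ r k : ℕ, r.Prime ∧ n = r ^ k

lemma Cmp.symm {x y : G} (h : Cmp x y) : Cmp y x := Or.symm h

lemma Cmp.refl (x : G) : Cmp x x := Or.inl (mem_zpowers x)

lemma Twin.refl (a : G) : Twin a a := fun _ => Iff.rfl

lemma Twin.symm {a b : G} (h : Twin a b) : Twin b a := fun w => (h w).symm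

lemma Twin.trans {a b c : G} (h : Twin a b) (k : Twin b c) : Twin a c :=
  fun w => (h w).trans (k w)

lemma Twin.cmp {a b : G} (h : Twin a b) : Cmp a b := (h b).2 (Cmp.refl b)

lemma Twin.dom {a b : G} (h : Twin a b) (hd : Dom a) : Dom b := fun w => (h w).1 (hd w)

lemma dom_one : Dom (1 : G) := fun _ => Or.inl (one_mem _)

lemma ne_one_of_not_dom {a : G} (h : ¬ Dom a) : a ≠ 1 := by
  rintro rfl
  exact h dom_one

lemma twin_of_zpowers_eq {a b : G} (h : zpowers a = zpowers b) : Twin a b := by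
  intro w
  unfold Cmp
  have h1 : a ∈ zpowers w ↔ b ∈ zpowers w := by
    rw [← zpowers_le, ← zpowers_le, h]
  rw [h1, h]

variable [Finite G]

lemma zpowers_eq_of_mem_of_order {a b : G} (h : a ∈ zpowers b) (ho : orderOf a = orderOf b) :
    zpowers a = zpowers b := by
  apply Subgroup.eq_of_le_of_card_ge (zpowers_le.2 h)
  rw [Nat.card_zpowers, Nat.card_zpowers, ho]

lemma order_eq_of_zpowers_eq {a b : G} (h : zpowers a = zpowers b) : orderOf a = orderOf b := by
  rw [← Nat.card_zpowers, ← Nat.card_zpowers, h]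

lemma mem_of_dvd {a b t : G} (ha : a ∈ zpowers t) (hb : b ∈ zpowers t)
    (h : orderOf a ∣ orderOf b) : a ∈ zpowers b := by
  have h2 := Cfsg.Agent.H19.Sp.mem_of_pow_card_eq_one (C := zpowers t)
    (zpowers (⟨b, hb⟩ : zpowers t)) (y := ⟨a, ha⟩) (by
      rw [Nat.card_zpowers, Subgroup.orderOf_mk]
      exact Subtype.ext (by simpa using orderOf_dvd_iff_pow_eq_one.1 h))
  obtain ⟨k, hk⟩ := mem_zpowers_iff.1 h2
  refine mem_zpowers_iff.2 ⟨k, ?_⟩
  have h3 := congrArg Subtype.val hk
  simpa using h3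

lemma exists_order {t : G} {d : ℕ} (hd : d ∣ orderOf t) :
    ∃ w ∈ zpowers t, orderOf w = d := by
  refine ⟨t ^ (orderOf t / d), npow_mem_zpowers t _, ?_⟩
  exact orderOf_pow_orderOf_div (orderOf_pos t).ne' hd

lemma card_gens (a : G) :
    Nat.card {b : G // zpowers a = zpowers b} = (orderOf a).totient := by
  classical
  haveI := Fintype.ofFinite (zpowers a)
  have hd : orderOf a ∣ Fintype.card (zpowers a) := by
    rw [← Nat.card_eq_fintype_card, Nat.card_zpowers]
  have h := IsCyclic.card_orderOf_eq_totient hd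
  rw [← h, ← Fintype.card_subtype, ← Nat.card_eq_fintype_card]
  apply Nat.card_congr
  refine ⟨fun b => ⟨⟨b.1, ?_⟩, ?_⟩, fun x => ⟨x.1.1, ?_⟩, ?_, ?_⟩
  · exact (SetLike.ext_iff.1 b.2 b.1).2 (mem_zpowers _)
  · rw [Subgroup.orderOf_mk]; exact (order_eq_of_zpowers_eq b.2).symm
  · have hx : orderOf (x.1 : G) = orderOf a := by
      rw [Subgroup.orderOf_coe]; exact x.2
    exact (zpowers_eq_of_mem_of_order x.1.2 hx).symm
  · intro b; rfl
  · intro x; rfl

lemma totient_le_tw (a : G) : (orderOf a).totient ≤ tw a := by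
  rw [← card_gens a]
  exact Nat.card_le_card_of_injective
    (fun b : {b : G // zpowers a = zpowers b} => (⟨b.1, twin_of_zpowers_eq b.2⟩ : {b : G // Twin a b}))
    (fun x y h => Subtype.ext (by simpa using h))

lemma tw_eq_of_all (a : G) (h : ∀ b, Twin a b → zpowers a = zpowers b) :
    tw a = (orderOf a).totient := by
  rw [← card_gens a]
  exact Nat.card_congr (Equiv.subtypeEquivRight (fun b => ⟨h b, twin_of_zpowers_eq⟩))

lemma L1 {a b : G} (hab : a ∈ zpowers b) (hne : zpowers a ≠ zpowers b) (h1 : a ≠ 1)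
    (hw : ∀ w ∈ zpowers b, Cmp a w) : IsPP (orderOf b) := by
  have hdn : orderOf a ∣ orderOf b := orderOf_dvd_of_mem_zpowers hab
  have hn0 : orderOf b ≠ 0 := (orderOf_pos b).ne'
  obtain ⟨k, hk⟩ := hdn
  have hk1 : k ≠ 1 := by
    rintro rfl
    exact hne (zpowers_eq_of_mem_of_order hab (by simpa using hk.symm))
  obtain ⟨s, hs, hsk⟩ := Nat.exists_prime_and_dvd hk1
  obtain ⟨e, m, hm, hn⟩ := Nat.exists_eq_pow_mul_and_not_dvd hn0 s hs.ne_one
  have hf : s ^ e ∣ orderOf b := ⟨m, hn⟩
  obtain ⟨w, hw1, hw2⟩ := exists_order hf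
  have hnd : ¬ s ^ e ∣ orderOf a := by
    intro hd
    apply hm
    have h2 : s ^ e * s ∣ s ^ e * m := by
      rw [← hn, hk]
      exact mul_dvd_mul hd hsk
    exact Nat.dvd_of_mul_dvd_mul_left (pow_pos hs.pos e) h2
  have hd1 : orderOf a ∣ s ^ e := by
    rcases hw w hw1 with h | h
    · rw [← hw2]; exact orderOf_dvd_of_mem_zpowers h
    · exact absurd (hw2 ▸ orderOf_dvd_of_mem_zpowers h) hnd
  obtain ⟨j, hj, hj2⟩ := (Nat.dvd_prime_pow hs).1 hd1
  have hj0 : j ≠ 0 := by
    rintro rfl
    exact h1 (orderOf_eq_one_iff.1 (by simpa using hj2))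
  refine ⟨s, (orderOf b).primeFactorsList.length, hs,
    Nat.eq_prime_pow_of_unique_prime_dvd hn0 ?_⟩
  intro t ht htn
  by_contra hts
  obtain ⟨w', hw1', hw2'⟩ := exists_order htn
  rcases hw w' hw1' with h | h
  · have h3 := orderOf_dvd_of_mem_zpowers h
    rw [hw2', hj2] at h3
    have hst : s ∣ t := (dvd_pow_self s hj0).trans h3
    exact hts ((Nat.prime_dvd_prime_iff_eq hs ht).1 hst).symm
  · have h3 := orderOf_dvd_of_mem_zpowers h
    rw [hw2', hj2] at h3
    exact hts ((Nat.prime_dvd_prime_iff_eq ht hs).1 (ht.dvd_of_dvd_pow h3))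

lemma L2 {a b x : G} (ht : Twin a b) (hab : a ∈ zpowers b) (hne : zpowers a ≠ zpowers b)
    (h1 : a ≠ 1) (hax : a ∈ zpowers x) : IsPP (orderOf x) := by
  obtain ⟨r, s, hr, hb⟩ := L1 hab hne h1 (fun w hw => (ht w).2 (Or.inr hw))
  have hdn := orderOf_dvd_of_mem_zpowers hab
  rw [hb] at hdn
  obtain ⟨i, hi, hai⟩ := (Nat.dvd_prime_pow hr).1 hdn
  have hi0 : i ≠ 0 := by
    rintro rfl
    exact h1 (orderOf_eq_one_iff.1 (by simpa using hai))
  have his : i < s := by
    apply lt_of_le_of_ne hi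
    rintro rfl
    exact hne (zpowers_eq_of_mem_of_order hab (hai.trans hb.symm))
  refine ⟨r, (orderOf x).primeFactorsList.length, hr,
    Nat.eq_prime_pow_of_unique_prime_dvd (orderOf_pos x).ne' ?_⟩
  intro t htp htx
  by_contra htr
  have hcop : Nat.Coprime (r ^ i) t :=
    Nat.Coprime.pow_left _ ((Nat.coprime_primes hr htp).2 (Ne.symm htr))
  have hax' : r ^ i ∣ orderOf x := hai ▸ orderOf_dvd_of_mem_zpowers hax
  have hd : r ^ i * t ∣ orderOf x := hcop.mul_dvd_of_dvd_of_dvd hax' htx
  obtain ⟨w, hwx, hw⟩ := exists_order hd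
  have haw : a ∈ zpowers w := mem_of_dvd hax hwx (by rw [hai, hw]; exact dvd_mul_right _ _)
  have hc : Cmp b w := (ht w).1 (Or.inl haw)
  rcases hc with h | h
  · have h2 := orderOf_dvd_of_mem_zpowers h
    rw [hb, hw] at h2
    have h3 : r ^ i * r ∣ r ^ i * t := (pow_succ r i ▸ pow_dvd_pow r his).trans h2
    have h4 : r ∣ t := Nat.dvd_of_mul_dvd_mul_left (pow_pos hr.pos i) h3
    exact htr ((Nat.prime_dvd_prime_iff_eq hr htp).1 h4).symm
  · have h2 := orderOf_dvd_of_mem_zpowers h
    rw [hb, hw] at h2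
    have h3 : t ∣ r ^ s := (dvd_mul_left t _).trans h2
    exact htr ((Nat.prime_dvd_prime_iff_eq htp hr).1 (htp.dvd_of_dvd_pow h3))

lemma L3 {a b x : G} (hnd : ¬ Dom a) (hax : a ∈ zpowers x) (hx : ¬ IsPP (orderOf x))
    (ht : Twin a b) : zpowers a = zpowers b := by
  by_contra hne
  have ha1 := ne_one_of_not_dom hnd
  have hb1 : b ≠ 1 := ne_one_of_not_dom (fun hd => hnd (ht.symm.dom hd))
  rcases ht.cmp with h | h
  · exact hx (L2 ht h hne ha1 hax)
  · have hbx : b ∈ zpowers x := (zpowers_le.2 hax) h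
    exact hx (L2 ht.symm h (Ne.symm hne) hb1 hbx)

lemma tw_eq_totient {a x : G} (hnd : ¬ Dom a) (hax : a ∈ zpowers x)
    (hx : ¬ IsPP (orderOf x)) : tw a = (orderOf a).totient :=
  tw_eq_of_all a (fun _ hb => L3 hnd hax hx hb)

lemma chain {t u v : G} (ho : IsPP (orderOf t)) (hu : u ∈ zpowers t) (hv : v ∈ zpowers t) :
    Cmp u v := by
  obtain ⟨r, k, hr, hk⟩ := ho
  have h1 := orderOf_dvd_of_mem_zpowers hu
  have h2 := orderOf_dvd_of_mem_zpowers hv
  rw [hk] at h1 h2
  obtain ⟨i, _, hi⟩ := (Nat.dvd_prime_pow hr).1 h1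
  obtain ⟨j, _, hj⟩ := (Nat.dvd_prime_pow hr).1 h2
  rcases le_total i j with h | h
  · exact Or.inl (mem_of_dvd hu hv (by rw [hi, hj]; exact pow_dvd_pow r h))
  · exact Or.inr (mem_of_dvd hv hu (by rw [hi, hj]; exact pow_dvd_pow r h))

lemma interval {a b t : G} (hab : a ∈ zpowers b) (hbt : b ∈ zpowers t) (ht : Twin a t)
    (h1 : a ≠ 1) : Twin b t := by
  by_cases hne : zpowers a = zpowers t
  · have h2 : zpowers b = zpowers t :=
      le_antisymm (zpowers_le.2 hbt) (hne ▸ zpowers_le.2 hab)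
    exact twin_of_zpowers_eq h2
  · have hat : a ∈ zpowers t := zpowers_le.2 hbt hab
    have hpp := L1 hat hne h1 (fun w hw => (ht w).2 (Or.inr hw))
    intro w
    constructor
    · rintro (h | h)
      · exact (ht w).1 (Or.inl (zpowers_le.2 h hab))
      · exact Or.inr (zpowers_le.2 hbt h)
    · rintro (h | h)
      · exact Or.inl (zpowers_le.2 h hbt)
      · exact chain hpp hbt h

lemma mon {a b : G} (hab : a ∈ zpowers b) (hnt : ¬ Twin a b) (hnd : ¬ Dom a) :
    tw a ≤ tw b := by
  classical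
  obtain ⟨t, hat, hmax⟩ : ∃ t, Twin a t ∧ ∀ c, Twin a c → orderOf c ≤ orderOf t := by
    haveI := Fintype.ofFinite G
    obtain ⟨t, ht, hm⟩ := Finset.exists_max_image (Finset.univ.filter (fun c => Twin a c))
      orderOf ⟨a, by simp [Twin.refl]⟩
    exact ⟨t, by simpa using ht, fun c hc => hm c (by simpa using hc)⟩
  have hc_in : ∀ c, Twin a c → c ∈ zpowers t := by
    intro c hc
    rcases (hat.symm.trans hc).cmp with h | h
    · have heq := zpowers_eq_of_mem_of_order h (le_antisymm
        (Nat.le_of_dvd (orderOf_pos c) (orderOf_dvd_of_mem_zpowers h)) (hmax c hc))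
      rw [heq]; exact mem_zpowers c
    · exact h
  have hcab : Cmp t b := (hat b).1 (Or.inl hab)
  have ha1 := ne_one_of_not_dom hnd
  have hbt : b ∉ zpowers t := fun h => hnt (hat.trans (interval hab h hat ha1).symm)
  have htb : t ∈ zpowers b := by
    rcases hcab with h | h
    · exact h
    · exact absurd h hbt
  have hdvd : orderOf t ∣ orderOf b := orderOf_dvd_of_mem_zpowers htb
  refine le_trans ?_ (totient_le_tw b)
  by_cases hall : ∀ c, Twin a c → zpowers t = zpowers c
  · have h1 : tw a ≤ (orderOf t).totient := by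
      rw [← card_gens t]
      exact Nat.card_le_card_of_injective
        (fun c : {c : G // Twin a c} => (⟨c.1, hall c.1 c.2⟩ : {c : G // zpowers t = zpowers c}))
        (fun x y h => Subtype.ext (by simpa using h))
    exact h1.trans (Nat.le_of_dvd (Nat.totient_pos.2 (orderOf_pos b))
      (Nat.totient_dvd_of_dvd hdvd))
  · push_neg at hall
    obtain ⟨c, hc, hcne⟩ := hall
    have hct : Twin c t := hc.symm.trans hat
    have hcin := hc_in c hc
    have hc1 : c ≠ 1 := ne_one_of_not_dom (fun hd => hnd (hc.symm.dom hd))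
    have ht1 : t ≠ 1 := ne_one_of_not_dom (fun hd => hnd (hat.symm.dom hd))
    obtain ⟨r, s, hr, ht'⟩ := L1 hcin (Ne.symm hcne) hc1 (fun w hw => (hct w).2 (Or.inr hw))
    have hcb : c ∈ zpowers b := zpowers_le.2 htb hcin
    obtain ⟨r', s', hr', hb'⟩ := L2 hct hcin (Ne.symm hcne) hc1 hcb
    have hs0 : s ≠ 0 := by
      rintro rfl
      exact ht1 (orderOf_eq_one_iff.1 (by simpa using ht'))
    have hrr : r = r' := by
      have h2 : r ∣ r' ^ s' := by
        rw [← hb']
        exact (by rw [ht']; exact dvd_pow_self r hs0 : r ∣ orderOf t).trans hdvd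
      exact (Nat.prime_dvd_prime_iff_eq hr hr').1 (hr.dvd_of_dvd_pow h2)
    subst hrr
    have hss : s < s' := by
      have hle : orderOf t ≠ orderOf b := fun h => hbt (by
        have := zpowers_eq_of_mem_of_order htb h
        rw [this]; exact mem_zpowers b)
      have h3 : orderOf t ∣ orderOf b := hdvd
      rw [ht', hb'] at h3 hle
      have h4 := (Nat.pow_dvd_pow_iff_le_right hr.one_lt).1 h3
      exact lt_of_le_of_ne h4 (fun h => hle (by rw [h]))
    have h1 : tw a ≤ orderOf t := by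
      rw [← Nat.card_zpowers t]
      exact Nat.card_le_card_of_injective
        (fun c : {c : G // Twin a c} => (⟨c.1, hc_in c.1 c.2⟩ : zpowers t))
        (fun x y h => Subtype.ext (by simpa using h))
    refine h1.trans ?_
    rw [ht', hb', Nat.totient_prime_pow hr (by omega)]
    have h5 : r ^ s ≤ r ^ (s' - 1) := Nat.pow_le_pow_right hr.pos (by omega)
    have h6 : 0 < r - 1 := by have := hr.two_le; omega
    exact h5.trans (Nat.le_mul_of_pos_right _ h6)

end Basic

lemma numeric {d m : ℕ} (hdm : d ∣ m) (hlt : d < m) (hd : 0 < d)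
    (h : d.totient = m.totient) : m = 2 * d ∧ Nat.Coprime d 2 := by
  obtain ⟨k, rfl⟩ := hdm
  have hk0 : 0 < k := Nat.pos_of_ne_zero (by rintro rfl; simp at hlt)
  have hk1 : k ≠ 1 := by rintro rfl; simp at hlt
  have key := Nat.totient_gcd_mul_totient_mul d k
  rw [← h] at key
  have hphi : 0 < d.totient := Nat.totient_pos.2 hd
  set g := Nat.gcd d k with hg
  have hg0 : 0 < g := Nat.gcd_pos_of_pos_left _ hd
  have h2 : g.totient = k.totient * g := by
    have h3 : g.totient * d.totient = d.totient * (k.totient * g) := by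
      rw [key]; ring
    have h4 : d.totient * g.totient = d.totient * (k.totient * g) := by
      rw [mul_comm]; exact h3
    exact Nat.eq_of_mul_eq_mul_left hphi h4
  have h3 : g.totient ≤ g := Nat.totient_le g
  have hkt : k.totient = 1 := by
    have hkpos : 0 < k.totient := Nat.totient_pos.2 hk0
    have h4 : k.totient * g ≤ 1 * g := by rw [one_mul, ← h2]; exact h3
    have h5 := Nat.le_of_mul_le_mul_right h4 hg0
    omega
  rw [hkt, one_mul] at h2
  have hg1 : g = 1 := by
    by_contra hne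
    have hg2 : 1 < g := by omega
    have := Nat.totient_lt g hg2
    omega
  have hk2 : k = 2 := by
    rcases Nat.totient_eq_one_iff.1 hkt with h5 | h5
    · exact absurd h5 hk1
    · exact h5
  subst hk2
  exact ⟨by ring, hg1⟩

section Transport

variable {G : Type u} [Group G] {H : Type v} [Group H]

lemma twin_iff (e : G ≃ H) (he : ∀ x y : G, Cmp x y ↔ Cmp (e x) (e y)) (a b : G) :
    Twin a b ↔ Twin (e a) (e b) := by
  constructor
  · intro h w
    have h2 := h (e.symm w)
    rw [he, he, e.apply_symm_apply] at h2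
    exact h2
  · intro h w
    rw [he, he]
    exact h (e w)

lemma dom_iff (e : G ≃ H) (he : ∀ x y : G, Cmp x y ↔ Cmp (e x) (e y)) (a : G) :
    Dom a ↔ Dom (e a) := by
  constructor
  · intro h w
    have h2 := h (e.symm w)
    rw [he, e.apply_symm_apply] at h2
    exact h2
  · intro h w
    rw [he]
    exact h (e w)

lemma tw_eq (e : G ≃ H) (he : ∀ x y : G, Cmp x y ↔ Cmp (e x) (e y)) (a : G) :
    tw a = tw (e a) :=
  Nat.card_congr (e.subtypeEquiv (fun b => twin_iff e he a b))

variable [Finite G] [Finite H]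

lemma order_eq (e : G ≃ H) (he : ∀ x y : G, Cmp x y ↔ Cmp (e x) (e y)) {p : ℕ} (hp : p.Prime)
    {u : G} {x' : H} (hu : orderOf u = p) (hnd : ¬ Dom u) (hS : tw u = p - 1)
    (hx' : ¬ IsPP (orderOf x')) (hux : e u ∈ zpowers x') : orderOf (e u) = p := by
  have hnd' : ¬ Dom (e u) := fun h => hnd ((dom_iff e he u).2 h)
  have hS' : (orderOf (e u)).totient = p - 1 := by
    rw [← tw_eq_totient hnd' hux hx', ← tw_eq e he, hS]
  have hu1 := ne_one_of_not_dom hnd'
  have hm1 : orderOf (e u) ≠ 1 := fun h => hu1 (orderOf_eq_one_iff.1 h)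
  have hmp : (orderOf (e u)).Prime := by
    by_contra hnp
    have hd : (orderOf (e u)).minFac.Prime := Nat.minFac_prime hm1
    have hdm : (orderOf (e u)).minFac ∣ orderOf (e u) := Nat.minFac_dvd _
    have hdlt : (orderOf (e u)).minFac < orderOf (e u) :=
      lt_of_le_of_ne (Nat.le_of_dvd (orderOf_pos _) hdm) (fun h => hnp (h ▸ hd))
    obtain ⟨w', hw'u, hw'⟩ := exists_order hdm
    have hw'x : w' ∈ zpowers x' := zpowers_le.2 hux hw'u
    have hw'1 : w' ≠ 1 := by
      rintro rfl
      rw [orderOf_one] at hw'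
      exact hd.ne_one hw'.symm
    have hw'nd : ¬ Dom w' := by
      intro hdom
      by_cases hne : zpowers w' = zpowers x'
      · have h2 := order_eq_of_zpowers_eq hne
        have h3 : orderOf (e u) ∣ orderOf w' := by
          rw [h2]; exact orderOf_dvd_of_mem_zpowers hux
        rw [hw'] at h3
        exact absurd (Nat.le_of_dvd hd.pos h3) (not_le.2 hdlt)
      · exact hx' (L1 hw'x hne hw'1 (fun w _ => hdom w))
    have hSw' : tw w' = (orderOf (e u)).minFac.totient := by
      rw [tw_eq_totient hw'nd hw'x hx', hw']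
    have hew : e (e.symm w') = w' := e.apply_symm_apply w'
    have hwnd : ¬ Dom (e.symm w') := fun h => hw'nd (hew ▸ (dom_iff e he _).1 h)
    have hw1 := ne_one_of_not_dom hwnd
    have hcw : Cmp (e.symm w') u := (he _ u).2 (by rw [hew]; exact Or.inl hw'u)
    have huw : u ∈ zpowers (e.symm w') := by
      rcases hcw with h | h
      · exfalso
        have hz : zpowers (e.symm w') = zpowers u := by
          apply zpowers_eq_of_mem_of_order h
          have h3 := orderOf_dvd_of_mem_zpowers h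
          rw [hu] at h3
          rcases (Nat.dvd_prime hp).1 h3 with h1 | h1
          · exact absurd (orderOf_eq_one_iff.1 h1) hw1
          · rw [h1, hu]
        have ht : Twin (e.symm w') u := twin_of_zpowers_eq hz
        have ht' : Twin w' (e u) := hew ▸ (twin_iff e he _ u).1 ht
        have h4 := L3 hw'nd hw'x hx' ht'
        have h5 := order_eq_of_zpowers_eq h4
        rw [hw'] at h5
        exact hdlt.ne h5
      · exact h
    have h1 : p.totient ≤ (orderOf (e.symm w')).totient :=
      Nat.le_of_dvd (Nat.totient_pos.2 (orderOf_pos _))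
        (Nat.totient_dvd_of_dvd (hu ▸ orderOf_dvd_of_mem_zpowers huw))
    have h2 := totient_le_tw (e.symm w')
    have h3 : tw (e.symm w') = (orderOf (e u)).minFac.totient := by
      rw [tw_eq e he, hew, hSw']
    have h4 : (orderOf (e u)).minFac.totient ≤ (orderOf (e u)).totient :=
      Nat.le_of_dvd (Nat.totient_pos.2 (orderOf_pos _)) (Nat.totient_dvd_of_dvd hdm)
    have h5 := Nat.totient_prime hp
    have hq : (orderOf (e u)).minFac.totient = (orderOf (e u)).totient := by omega
    obtain ⟨hm2, hdodd⟩ := numeric hdm hdlt hd.pos hq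
    have h6 : 2 ∣ orderOf (e u) := ⟨_, hm2⟩
    have h7 : (orderOf (e u)).minFac = 2 := (Nat.minFac_eq_two_iff _).2 h6
    rw [h7] at hdodd
    norm_num at hdodd
  rw [Nat.totient_prime hmp] at hS'
  have := hmp.two_le
  have := hp.two_le
  omega

lemma dvd_of_dom {p q : ℕ} (hp : p.Prime) (hq : q.Prime) (hpq : p ≠ q) {d a b : H}
    (hd : Dom d) (hd1 : d ≠ 1) (ha : orderOf a = p) (hb : orderOf b = q) : p ∣ orderOf d := by
  rcases hd a with h | h
  · exfalso
    have h2 := orderOf_dvd_of_mem_zpowers h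
    rw [ha] at h2
    have h3 : orderOf d = p := by
      rcases (Nat.dvd_prime hp).1 h2 with h1 | h1
      · exact absurd (orderOf_eq_one_iff.1 h1) hd1
      · exact h1
    rcases hd b with h4 | h4
    · have h5 := orderOf_dvd_of_mem_zpowers h4
      rw [h3, hb] at h5
      exact hpq ((Nat.prime_dvd_prime_iff_eq hp hq).1 h5)
    · have h5 := orderOf_dvd_of_mem_zpowers h4
      rw [h3, hb] at h5
      exact hpq ((Nat.prime_dvd_prime_iff_eq hq hp).1 h5).symm
  · rw [← ha]; exact orderOf_dvd_of_mem_zpowers h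

lemma not_isPP_mul {p q : ℕ} (hp : p.Prime) (hq : q.Prime) (hpq : p ≠ q) : ¬ IsPP (p * q) := by
  rintro ⟨r, k, hr, h⟩
  have h1 : p ∣ r ^ k := h ▸ dvd_mul_right p q
  have h2 : q ∣ r ^ k := h ▸ dvd_mul_left q p
  have h3 := (Nat.prime_dvd_prime_iff_eq hp hr).1 (hp.dvd_of_dvd_pow h1)
  have h4 := (Nat.prime_dvd_prime_iff_eq hq hr).1 (hq.dvd_of_dvd_pow h2)
  exact hpq (h3.trans h4.symm)

theorem main (e : G ≃ H) (he : ∀ x y : G, Cmp x y ↔ Cmp (e x) (e y)) {p q : ℕ} (hp : p.Prime)
    (hq : q.Prime) (hpq : p ≠ q) {x : G} (hx : orderOf x = p * q) :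
    ∃ y : H, orderOf y = p * q := by
  have hcop : Nat.Coprime p q := (Nat.coprime_primes hp hq).2 hpq
  have hpx : p ∣ orderOf x := hx ▸ dvd_mul_right p q
  have hqx : q ∣ orderOf x := hx ▸ dvd_mul_left q p
  have hx1 : x ≠ 1 := by
    rintro rfl
    rw [orderOf_one] at hx
    exact hp.ne_one (Nat.eq_one_of_mul_eq_one_right hx.symm)
  by_cases hdom : Dom x
  · obtain ⟨d, hdd, hd1⟩ : ∃ d : H, Dom d ∧ d ≠ 1 := by
      by_cases h : e x = 1
      · refine ⟨e 1, (dom_iff e he 1).1 dom_one, ?_⟩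
        intro h2
        exact hx1 (e.injective (h.trans h2.symm))
      · exact ⟨e x, (dom_iff e he x).1 hdom, h⟩
    have hcard : Nat.card H = Nat.card G := (Nat.card_congr e).symm
    have hoG : orderOf x ∣ Nat.card G := orderOf_dvd_natCard x
    haveI : Fact p.Prime := ⟨hp⟩
    haveI : Fact q.Prime := ⟨hq⟩
    obtain ⟨a, ha⟩ := exists_prime_orderOf_dvd_card' (G := H) p (hcard ▸ hpx.trans hoG)
    obtain ⟨b, hb⟩ := exists_prime_orderOf_dvd_card' (G := H) q (hcard ▸ hqx.trans hoG)
    have h1 : p ∣ orderOf d := dvd_of_dom hp hq hpq hdd hd1 ha hb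
    have h2 : q ∣ orderOf d := dvd_of_dom hq hp hpq.symm hdd hd1 hb ha
    obtain ⟨y, _, hy⟩ := exists_order (hcop.mul_dvd_of_dvd_of_dvd h1 h2)
    exact ⟨y, hy⟩
  · obtain ⟨u, hux, hu⟩ := exists_order hpx
    obtain ⟨v, hvx, hv⟩ := exists_order hqx
    have hnc : ¬ Cmp u v := by
      rintro (h | h)
      · have h2 := orderOf_dvd_of_mem_zpowers h
        rw [hu, hv] at h2
        exact hpq ((Nat.prime_dvd_prime_iff_eq hp hq).1 h2)
      · have h2 := orderOf_dvd_of_mem_zpowers h
        rw [hu, hv] at h2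
        exact hpq ((Nat.prime_dvd_prime_iff_eq hq hp).1 h2).symm
    have hund : ¬ Dom u := fun h => hnc (h v)
    have hvnd : ¬ Dom v := fun h => hnc (h u).symm
    have hxpp : ¬ IsPP (orderOf x) := hx ▸ not_isPP_mul hp hq hpq
    have htx : tw x = (p - 1) * (q - 1) := by
      rw [tw_eq_totient hdom (mem_zpowers x) hxpp, hx, Nat.totient_mul hcop,
        Nat.totient_prime hp, Nat.totient_prime hq]
    have htu : tw u = p - 1 := by
      rw [tw_eq_totient hund hux hxpp, hu, Nat.totient_prime hp]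
    have htv : tw v = q - 1 := by
      rw [tw_eq_totient hvnd hvx hxpp, hv, Nat.totient_prime hq]
    have hntu : ¬ Twin (e x) (e u) := by
      intro h
      have h2 := (twin_iff e he x u).2 h
      exact hnc ((h2 v).1 (Or.inr hvx))
    have hntv : ¬ Twin (e x) (e v) := by
      intro h
      have h2 := (twin_iff e he x v).2 h
      exact hnc ((h2 u).1 (Or.inr hux)).symm
    have hxnd' : ¬ Dom (e x) := fun h => hdom ((dom_iff e he x).2 h)
    have hnc' : ¬ Cmp (e u) (e v) := fun h => hnc ((he u v).2 h)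
    have hcu : Cmp (e u) (e x) := (he u x).1 (Or.inl hux)
    have hcv : Cmp (e v) (e x) := (he v x).1 (Or.inl hvx)
    have hp2 := hp.two_le
    have hq2 := hq.two_le
    rcases hcu with hu1 | hu1
    · rcases hcv with hv1 | hv1
      · have hpp : ¬ IsPP (orderOf (e x)) := fun h => hnc' (chain h hu1 hv1)
        have h1 := order_eq e he hp hu hund htu hpp hu1
        have h2 := order_eq e he hq hv hvnd htv hpp hv1
        have h3 : p ∣ orderOf (e x) := h1 ▸ orderOf_dvd_of_mem_zpowers hu1
        have h4 : q ∣ orderOf (e x) := h2 ▸ orderOf_dvd_of_mem_zpowers hv1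
        obtain ⟨y, _, hy⟩ := exists_order (hcop.mul_dvd_of_dvd_of_dvd h3 h4)
        exact ⟨y, hy⟩
      · exact absurd (Or.inl (zpowers_le.2 hv1 hu1)) hnc'
    · rcases hcv with hv1 | hv1
      · exact absurd (Or.inr (zpowers_le.2 hu1 hv1)) hnc'
      · exfalso
        have h1 := mon hu1 hntu hxnd'
        have h2 := mon hv1 hntv hxnd'
        rw [← tw_eq e he, ← tw_eq e he, htx, htu] at h1
        rw [← tw_eq e he, ← tw_eq e he, htx, htv] at h2
        have h3 : q - 1 ≤ 1 := by
          have h5 : (p - 1) * (q - 1) ≤ (p - 1) * 1 := by rw [mul_one]; exact h1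
          exact Nat.le_of_mul_le_mul_left h5 (by omega)
        have h4 : p - 1 ≤ 1 := by
          have h5 : (p - 1) * (q - 1) ≤ 1 * (q - 1) := by rw [one_mul]; exact h2
          exact Nat.le_of_mul_le_mul_right h5 (by omega)
        omega

end Transport

end Cfsg.Agent.H19.PG
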