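import Cfsg.Agent.Lib.H21.CharInd
import Cfsg.Prelude.Def_KGroupFacts

/-! The exponent of the Schur multiplier: `exp(A)² ∣ |Q|` (helper19). -/

set_option autoImplicit false
set_option linter.style.haveILetI false

namespace Cfsg.Agent.H19

open Cfsg Module Cfsg.Agent.H21

universe u v

section

variable {Γ : Type u} [Group Γ]

/-- A central subgroup acts through scalars on an irreducible character. -/
theorem central_hom [Finite Γ] (χ : IrrCharacter Γ) (K : Subgroup Γ) (hK : K ≤ Subgroup.center Γ) :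
    ∃ μ : K →* ℂˣ, (∀ k : K, χ.1 k = (charDegree χ.1 : ℂ) * μ k) ∧
      (K ≤ commutator Γ → ∀ k : K, (μ k) ^ charDegree χ.1 = 1) := by
  classical
  obtain ⟨n, ρ, hρ, hχ⟩ := χ.2
  have hd : charDegree χ.1 = n := by
    rw [← hχ]
    simp [charDegree, Representation.char_one]
  have hnt : Nontrivial (Fin n → ℂ) := by
    by_contra hV
    rw [not_nontrivial_iff_subsingleton] at hV
    obtain ⟨a, b, hab⟩ := (inferInstance : Nontrivial (Subrepresentation ρ)).exists_pair_ne
    apply hab
    apply Subrepresentation.toSubmodule_injective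
    exact Subsingleton.elim _ _
  have hc : ∀ k : K, ∃ c : ℂ, ρ k = c • (1 : End ℂ (Fin n → ℂ)) :=
    fun k => irr_central_scalar ρ hρ (hK k.2)
  choose c hc using hc
  haveI : Nontrivial (End ℂ (Fin n → ℂ)) := inferInstance
  have hsc : ∀ a b : ℂ, a • (1 : End ℂ (Fin n → ℂ)) = b • (1 : End ℂ (Fin n → ℂ)) → a = b := by
    intro a b h
    obtain ⟨v, hv⟩ := exists_ne (0 : Fin n → ℂ)
    have h1 : a • v = b • v := LinearMap.congr_fun h v
    exact smul_left_injective ℂ hv h1
  have hmul : ∀ a b : K, c (a * b) = c a * c b := by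
    intro a b
    apply hsc
    rw [← hc, Subgroup.coe_mul, map_mul, hc, hc, smul_mul_smul_comm, one_mul]
  have hone : c 1 = 1 := by
    apply hsc
    rw [← hc]
    simp
  let μ₀ : K →* ℂ := { toFun := c, map_one' := hone, map_mul' := hmul }
  refine ⟨μ₀.toHomUnits, ?_, ?_⟩
  · intro k
    rw [hd, ← hχ]
    have h1 : ρ.character (k : Γ) = LinearMap.trace ℂ _ (ρ k) := rfl
    rw [h1, hc, map_smul]
    have h2 : LinearMap.trace ℂ (Fin n → ℂ) (1 : End ℂ (Fin n → ℂ)) = (n : ℂ) := by
      have := LinearMap.trace_one ℂ (Fin n → ℂ)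
      simpa using this
    rw [h2, smul_eq_mul, mul_comm]
    rfl
  · intro hcomm k
    rw [hd]
    -- the determinant
    let D : Γ →* ℂ := (LinearMap.det : End ℂ (Fin n → ℂ) →* ℂ).comp ρ
    have h1 : D.toHomUnits (k : Γ) = 1 := Abelianization.commutator_subset_ker D.toHomUnits (hcomm k.2)
    have h2 : D (k : Γ) = 1 := by
      have := congrArg Units.val h1
      simpa using this
    have h3 : D (k : Γ) = (c k) ^ n := by
      show LinearMap.det (ρ k) = _
      rw [hc, LinearMap.det_smul]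
      simp
    ext
    rw [Units.val_pow_eq_pow_val]
    show (c k) ^ n = 1
    rw [← h3, h2]

/-- Column orthogonality in the form needed. -/
theorem sum_degree_sq_hom [Fintype Γ] [Fintype (IrrCharacter Γ)] (K : Subgroup Γ) [Fintype K]
    (hK : K ≤ Subgroup.center Γ) (lam : K →* ℂˣ) (μ : IrrCharacter Γ → K →* ℂˣ)
    (hμ : ∀ χ (k : K), χ.1 k = (charDegree χ.1 : ℂ) * μ χ k) :
    ∑ χ : IrrCharacter Γ, (if μ χ = lam then (charDegree χ.1) ^ 2 else 0) * Nat.card K = Nat.card Γ := by
  classical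
  -- double sum
  have h1 : ∀ k : K, ∑ χ : IrrCharacter Γ, ((charDegree χ.1 : ℂ)) ^ 2 * (μ χ k : ℂ)
      = if k = 1 then (Nat.card Γ : ℂ) else 0 := by
    intro k
    have h2 : ∀ χ : IrrCharacter Γ, ((charDegree χ.1 : ℂ)) ^ 2 * (μ χ k : ℂ) =
        (charDegree χ.1 : ℂ) * χ.1 k := by
      intro χ
      rw [hμ χ k]
      ring
    simp only [h2]
    split_ifs with hk
    · subst hk
      have h3 := sum_degree_sq (G := Γ)
      have h4 : ∀ χ : IrrCharacter Γ, (charDegree χ.1 : ℂ) * χ.1 ((1 : K) : Γ) =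
          ((charDegree χ.1 ^ 2 : ℕ) : ℂ) := by
        intro χ
        rw [Subgroup.coe_one, one_eq_charDegree (isCharacter_of_irr χ.2)]
        push_cast
        ring
      simp only [h4]
      rw [← Nat.cast_sum, h3]
    · apply sum_degree_mul_value_ne
      intro h
      exact hk (Subtype.ext h)
  have h5 : ∑ k : K, (∑ χ : IrrCharacter Γ, ((charDegree χ.1 : ℂ)) ^ 2 * (μ χ k : ℂ)) * ((lam k)⁻¹ : ℂˣ)
      = (Nat.card Γ : ℂ) := by
    simp only [h1]
    rw [Finset.sum_eq_single 1]
    · simp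
    · intro b _ hb
      simp [hb]
    · intro h
      exact absurd (Finset.mem_univ _) h
  have h6 : ∑ k : K, (∑ χ : IrrCharacter Γ, ((charDegree χ.1 : ℂ)) ^ 2 * (μ χ k : ℂ)) * ((lam k)⁻¹ : ℂˣ)
      = ∑ χ : IrrCharacter Γ, ((charDegree χ.1 : ℂ)) ^ 2 * (if μ χ = lam then (Nat.card K : ℂ) else 0) := by
    simp only [Finset.sum_mul]
    rw [Finset.sum_comm]
    apply Finset.sum_congr rfl
    intro χ _
    simp only [mul_assoc]
    rw [← Finset.mul_sum]
    congr 1
    let f : K →* ℂ := (Units.coeHom ℂ).comp (μ χ * lam⁻¹)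
    have h7 : ∑ k : K, (μ χ k : ℂ) * ((lam k)⁻¹ : ℂˣ) = ∑ k : K, f k := by
      apply Finset.sum_congr rfl
      intro k _
      simp [f]
    rw [h7]
    by_cases hf : μ χ = lam
    · have : f = 1 := by
        ext k
        simp [f, hf]
      rw [this, if_pos hf]
      simp
    · have : f ≠ 1 := by
        intro h
        apply hf
        ext k
        have h8 := DFunLike.congr_fun h k
        have h9 : μ χ k * (lam k)⁻¹ = 1 := Units.ext (by simpa [f] using h8)
        have h10 : μ χ k = lam k := mul_inv_eq_one.mp h9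
        rw [h10]
      rw [if_neg hf]
      exact sum_hom_units_eq_zero f this
  rw [h6] at h5
  have h10 : ((∑ χ : IrrCharacter Γ, (if μ χ = lam then (charDegree χ.1) ^ 2 else 0) * Nat.card K : ℕ) : ℂ)
      = (Nat.card Γ : ℂ) := by
    rw [← h5]
    push_cast
    apply Finset.sum_congr rfl
    intro χ _
    split_ifs <;> simp
  exact_mod_cast h10

/-- S3952 -/
theorem exponent_sq_dvd {Q : Type u} [Group Q] [Finite Q] {A : Type v} [CommGroup A]
    (hA : Cfsg.HasSchurMultiplier Q A) : Monoid.exponent A ^ 2 ∣ Nat.card Q := by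
  classical
  obtain ⟨⟨Γ, _, _, σ, hσ, ⟨e⟩⟩, _⟩ := hA
  haveI := Fintype.ofFinite Γ
  haveI := Fintype.ofFinite (IrrCharacter Γ)
  let K := σ.ker
  haveI : Fintype K := Fintype.ofFinite _
  haveI : Finite A := Finite.of_equiv _ e.toEquiv
  letI : CommGroup K :=
    { (inferInstance : Group K) with
      mul_comm := fun a b => Subtype.ext ((Subgroup.mem_center_iff.mp (hσ.2.1 b.2)) a.1) }
  have hexp : Monoid.exponent A = Monoid.exponent K := (Monoid.exponent_eq_of_mulEquiv e).symm
  haveI : NeZero (Monoid.exponent K) := ⟨Monoid.exponent_ne_zero_of_finite⟩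
  obtain ⟨ι⟩ := CommGroup.monoidHom_mulEquiv_of_hasEnoughRootsOfUnity K ℂ
  obtain ⟨k₀, hk₀⟩ := Monoid.exists_orderOf_eq_exponent (G := K) (Monoid.ExponentExists.of_finite)
  let lam : K →* ℂˣ := ι.symm k₀
  have hlam : orderOf lam = Monoid.exponent K := by
    rw [← hk₀]
    exact orderOf_injective ι.symm.toMonoidHom ι.symm.injective k₀
  have hex := fun χ : IrrCharacter Γ => central_hom χ K hσ.2.1
  choose μ hμ1 hμ2 using hex
  have hsum := sum_degree_sq_hom K hσ.2.1 lam μ hμ1
  have hcardΓ : Nat.card Γ = Nat.card Q * Nat.card K := by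
    rw [Subgroup.card_eq_card_quotient_mul_card_subgroup K]
    congr 1
    exact Nat.card_congr (QuotientGroup.quotientKerEquivOfSurjective σ hσ.1).toEquiv
  rw [← Finset.sum_mul, hcardΓ] at hsum
  have hKpos : 0 < Nat.card K := Nat.card_pos
  have hsum' := Nat.eq_of_mul_eq_mul_right hKpos hsum
  rw [← hsum', hexp]
  apply Finset.dvd_sum
  intro χ _
  split_ifs with h
  · apply pow_dvd_pow_of_dvd
    rw [← hlam]
    apply orderOf_dvd_of_pow_eq_one
    ext k
    have h1 := hμ2 χ hσ.2.2 k
    rw [h] at h1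
    simp only [MonoidHom.pow_apply, MonoidHom.one_apply]
    rw [h1]
  · exact dvd_zero _

end

end Cfsg.Agent.H19
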