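import Cfsg.Agent.Lib.H19.SelfNorm

/-! Groups in which non-abelian subgroups are self-normalizing, part 2 (helper19). -/

set_option autoImplicit false
set_option linter.style.haveILetI false

namespace Cfsg.Agent.H19

open Cfsg

variable {G : Type*} [Group G] [Finite G]

theorem isSolvable_of_normal_abelian {K : Subgroup G} [K.Normal] (hab : IsMulCommutative K)
    (hq : Group.IsSolvable (G ⧸ K)) : Group.IsSolvable G := by
  haveI : Group.IsSolvable K := Group.isSolvable_of_comm hab.is_comm.comm
  refine Group.isSolvable_of_ker_le_range K.subtype (QuotientGroup.mk' K) ?_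
  intro x hx
  rw [MonoidHom.mem_ker] at hx
  have : x ∈ K := (QuotientGroup.eq_one_iff x).mp hx
  exact ⟨⟨x, this⟩, rfl⟩

/-- The main theorem: every non-abelian subgroup self-normalizing ⇒ solvable or simple. -/
theorem SelfNorm.solvable_or_simple (hS : SelfNorm G) : Group.IsSolvable G ∨ IsSimpleGroup G := by
  classical
  by_contra hcon
  push Not at hcon
  obtain ⟨hns, hnsimple⟩ := hcon
  have htriv : Nontrivial G := by
    by_contra h
    rw [not_nontrivial_iff_subsingleton] at h
    exact hns inferInstance
  obtain ⟨N₀, hN₀n, hN₀b, hN₀t⟩ : ∃ N₀ : Subgroup G, N₀.Normal ∧ N₀ ≠ ⊥ ∧ N₀ ≠ ⊤ := by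
    by_contra h
    push Not at h
    apply hnsimple
    refine ⟨fun N hN => ?_⟩
    by_cases h0 : N = ⊥
    · exact Or.inl h0
    · exact Or.inr (h N hN h0)
  have hsq : ∀ (K : Subgroup G) [K.Normal], K ≠ ⊤ → ¬ Group.IsSolvable (G ⧸ K) := by
    intro K hK hne hsol
    exact hns (isSolvable_of_normal_abelian (hS.normal_abelian hK hne) hsol)
  have hset : ({K : Subgroup G | K.Normal ∧ K ≠ ⊤ ∧ N₀ ≤ K}).Nonempty := ⟨N₀, hN₀n, hN₀t, le_rfl⟩
  obtain ⟨N, hNmax⟩ := (Set.toFinite _).exists_maximal hset
  obtain ⟨hNn, hNt, hN₀N⟩ := hNmax.1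
  haveI := hNn
  have hmaxN : ∀ K : Subgroup G, K.Normal → K ≠ ⊤ → N ≤ K → K = N := by
    intro K hK hK2 hK3
    exact le_antisymm (hNmax.2 ⟨hK, hK2, hN₀N.trans hK3⟩ hK3) hK3
  have hNab := hS.normal_abelian hNn hNt
  have hNb : N ≠ ⊥ := by
    intro h
    rw [h] at hN₀N
    exact hN₀b (le_bot_iff.mp hN₀N)
  by_cases hC : Subgroup.centralizer (N : Set G) = ⊤
  · -- `N` is central
    obtain ⟨⟨z, hzN⟩, hz⟩ := Subgroup.ne_bot_iff_exists_ne_one.mp hNb
    have hz1 : z ≠ 1 := fun h => hz (Subtype.ext h)
    have hzc : ∀ g : G, g * z = z * g := by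
      intro g
      have hg : g ∈ Subgroup.centralizer (N : Set G) := hC ▸ Subgroup.mem_top g
      exact (Subgroup.mem_centralizer_iff.mp hg z hzN).symm
    have ho : orderOf z ≠ 1 := fun h => hz1 (orderOf_eq_one_iff.mp h)
    obtain ⟨r, hr, hrd⟩ := Nat.exists_prime_and_dvd ho
    haveI : Fact r.Prime := ⟨hr⟩
    set y := z ^ (orderOf z / r) with hy
    have hyr : orderOf y = r := orderOf_pow_orderOf_div (orderOf_pos z).ne' hrd
    have hyc : ∀ g : G, g * y = y * g := by
      intro g
      have : Commute g z := hzc g
      exact (this.pow_right _).eq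
    obtain ⟨R⟩ : Nonempty (Sylow r G) := inferInstance
    have hrG : r ∣ Nat.card G := hyr ▸ orderOf_dvd_natCard y
    by_cases hRab : IsMulCommutative (R : Subgroup G)
    · -- abelian Sylow: transfer
      have hcomm : commutator G = ⊤ := by
        by_contra hne
        have hab := hS.normal_abelian (inferInstance : (commutator G).Normal) hne
        refine hns (isSolvable_of_normal_abelian hab ?_)
        exact Group.isSolvable_of_comm (G := Abelianization G) mul_comm
      letI : CommGroup (R : Subgroup G) :=
        { (inferInstance : Group (R : Subgroup G)) with mul_comm := hRab.is_comm.comm }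
      let ϕ : (R : Subgroup G) →* (R : Subgroup G) := MonoidHom.id _
      have h1 := MonoidHom.transfer_eq_pow ϕ y (fun k g₀ _ => by
        have h0 : Commute g₀⁻¹ y := hyc g₀⁻¹
        have : Commute g₀⁻¹ (y ^ k) := h0.pow_right k
        rw [this.eq, mul_assoc, inv_mul_cancel, mul_one])
      have h2 : MonoidHom.transfer ϕ y = 1 := by
        have h3 : y ∈ commutator G := hcomm ▸ Subgroup.mem_top y
        exact Abelianization.commutator_subset_ker (MonoidHom.transfer ϕ) h3
      rw [h2] at h1
      have h4 : y ^ (R : Subgroup G).index = 1 := by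
        have h6 : ((⟨y ^ (R : Subgroup G).index, _⟩ : (R : Subgroup G)) : G) = ((1 : (R : Subgroup G)) : G) :=
          congrArg Subtype.val h1.symm
        simpa using h6
      have h5 := orderOf_dvd_of_pow_eq_one h4
      rw [hyr] at h5
      exact R.not_dvd_index h5
    · obtain ⟨K, hK, hKne, k, hk⟩ := H13.exists_normal_pquotient (hS.frobCond R hRab) hrG
      haveI := hK
      apply hsq K hKne
      have : IsPGroup r (G ⧸ K) := IsPGroup.of_card (n := k) hk
      haveI := this.isNilpotent
      infer_instance
  · -- `C_G(N) = N`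
    have hCN : Subgroup.centralizer (N : Set G) = N := by
      apply hmaxN _ inferInstance hC
      intro a ha
      rw [Subgroup.mem_centralizer_iff]
      intro b hb
      exact mul_comm_of_isMulCommutative hNab hb ha
    haveI : Nontrivial (G ⧸ N) := by
      obtain ⟨g, hg⟩ : ∃ g, g ∉ N := by
        by_contra h
        push Not at h
        exact hNt (eq_top_iff.mpr fun g _ => h g)
      refine ⟨⟨(g : G ⧸ N), 1, ?_⟩⟩
      intro h
      exact hg ((QuotientGroup.eq_one_iff g).mp h)
    have hp : (Nat.card (G ⧸ N)).Prime := by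
      apply card_prime_of_selfNormalizing
      intro W hW
      apply le_antisymm _ Subgroup.le_normalizer
      intro t ht
      obtain ⟨g, rfl⟩ := QuotientGroup.mk'_surjective N t
      set H : Subgroup G := W.comap (QuotientGroup.mk' N) with hH
      have hnc : ¬ IsMulCommutative H := by
        intro hc
        obtain ⟨⟨w, hwW⟩, hw⟩ := Subgroup.ne_bot_iff_exists_ne_one.mp hW
        obtain ⟨n, rfl⟩ := QuotientGroup.mk'_surjective N w
        have hn : n ∉ Subgroup.centralizer (N : Set G) := by
          rw [hCN]
          intro h3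
          apply hw
          apply Subtype.ext
          exact (QuotientGroup.eq_one_iff n).mpr h3
        rw [Subgroup.mem_centralizer_iff] at hn
        push Not at hn
        obtain ⟨q, hq, hqn⟩ := hn
        have hqH : q ∈ H := by
          show (QuotientGroup.mk' N) q ∈ W
          have h7 : (QuotientGroup.mk' N) q = 1 := (QuotientGroup.eq_one_iff q).mpr hq
          rw [h7]
          exact W.one_mem
        have hnH : n ∈ H := hwW
        exact hqn (mul_comm_of_isMulCommutative hc hqH hnH)
      have hNH := hS H hnc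
      have hgN : g ∈ Subgroup.normalizer (H : Set G) := by
        apply mem_normalizer_of_conj_le
        intro h hh
        show (QuotientGroup.mk' N) (g * h * g⁻¹) ∈ W
        rw [map_mul, map_mul, map_inv]
        exact (Subgroup.mem_normalizer_iff.mp ht _).mp hh
      rw [hNH] at hgN
      exact hgN
    refine hsq N hNt ?_
    haveI : Fact (Nat.card (G ⧸ N)).Prime := ⟨hp⟩
    haveI : IsCyclic (G ⧸ N) := isCyclic_of_prime_card rfl
    letI := IsCyclic.commGroup (α := G ⧸ N)
    exact Group.isSolvable_of_comm mul_comm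

end Cfsg.Agent.H19
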