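import Cfsg.Agent.Lib.H19.SelfNorm2
import Cfsg.Agent.Lib.H01.CoprimeAb

/-! Groups in which non-abelian subgroups are self-normalizing: the solvable structure (helper19). -/

set_option autoImplicit false
set_option linter.style.haveILetI false

namespace Cfsg.Agent.H19

open Cfsg
open scoped commutatorElement

variable {G : Type*} [Group G] [Finite G]

theorem mem_of_coprime_of_index {A : Subgroup G} [A.Normal] {p k : ℕ} (hi : A.index = p ^ k) {y : G}
    (hy : (orderOf y).Coprime p) : y ∈ A := by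
  have h1 : orderOf (y : G ⧸ A) ∣ p ^ k := hi ▸ orderOf_dvd_natCard _
  have h2 : orderOf (y : G ⧸ A) ∣ orderOf y := orderOf_map_dvd (QuotientGroup.mk' A) y
  have h3 : orderOf (y : G ⧸ A) = 1 := Nat.eq_one_of_dvd_coprimes (hy.pow_right k) h2 h1
  exact (QuotientGroup.eq_one_iff y).mp (orderOf_eq_one_iff.mp h3)

theorem selfNorm_of_semidirect {x : G} {A : Subgroup G} {p : ℕ} (hp : p.Prime) (hA : A.Normal)
    (hab : IsMulCommutative A) (hx : ∃ k, orderOf x = p ^ k) (hpA : ¬ p ∣ Nat.card A)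
    (hc : (Subgroup.zpowers x).IsComplement' A) (hcen : x ^ p ∈ Subgroup.center G)
    (hf : ∀ a : G, a ∈ A → a ≠ 1 → x * a * x⁻¹ ≠ a) : SelfNorm G := by
  classical
  haveI : Fact p.Prime := ⟨hp⟩
  haveI := hA
  obtain ⟨k, hk⟩ := hx
  have hcard := hc.card_mul
  have hzc : Nat.card (Subgroup.zpowers x) = p ^ k := by rw [Nat.card_zpowers, hk]
  have hzp : IsPGroup p (Subgroup.zpowers x) := isPGroup_zpowers_of_orderOf hk
  have hiA : A.index = p ^ k := by
    have h1 := A.card_mul_index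
    rw [← hzc]
    have h2 : Nat.card A * A.index = Nat.card (Subgroup.zpowers x) * Nat.card A := by rw [h1, hcard]
    rw [mul_comm (Nat.card (Subgroup.zpowers x))] at h2
    exact Nat.eq_of_mul_eq_mul_left Nat.card_pos h2
  have hiz : (Subgroup.zpowers x).index = Nat.card A := by
    have h1 := (Subgroup.zpowers x).card_mul_index
    rw [← hcard] at h1
    exact Nat.eq_of_mul_eq_mul_left Nat.card_pos h1
  let P₀ : Sylow p G := hzp.toSylow (by rw [hiz]; exact hpA)
  have hP₀ : (P₀ : Subgroup G) = Subgroup.zpowers x := rfl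
  have hpp : ∀ y : G, (orderOf y).Coprime p → y ∈ A := fun y hy => mem_of_coprime_of_index hiA hy
  intro H hH
  apply le_antisymm _ Subgroup.le_normalizer
  have hu : ∃ u ∈ H, (∃ j, orderOf u = p ^ j) ∧ u ∉ Subgroup.center G := by
    by_contra hno
    push Not at hno
    apply hH
    apply isMulCommutative_of_forall
    intro a ha b hb
    obtain ⟨a₁, a₂, e1, c1, o1, o2, m1, m2⟩ := exists_primary_decomp p a
    obtain ⟨b₁, b₂, e2, c2, o3, o4, m3, m4⟩ := exists_primary_decomp p b
    have ha₁ : a₁ ∈ H := (Subgroup.zpowers_le.mpr ha) m1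
    have hb₁ : b₁ ∈ H := (Subgroup.zpowers_le.mpr hb) m3
    have z1 : a₁ ∈ Subgroup.center G := hno a₁ ha₁ o1
    have z2 : b₁ ∈ Subgroup.center G := hno b₁ hb₁ o3
    have hz1 := Subgroup.mem_center_iff.mp z1
    have hz2 := Subgroup.mem_center_iff.mp z2
    have c3 : Commute a₂ b₂ := mul_comm_of_isMulCommutative hab (hpp a₂ o2) (hpp b₂ o4)
    have h11 : Commute a₁ b₁ := (hz2 a₁)
    have h12 : Commute a₁ b₂ := (hz1 b₂).symm
    have h21 : Commute a₂ b₁ := hz2 a₂
    have h : Commute (a₁ * a₂) (b₁ * b₂) :=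
      Commute.mul_left (Commute.mul_right h11 h12) (Commute.mul_right h21 c3)
    rw [e1, e2]
    exact h.eq
  obtain ⟨u, huH, ⟨j, hj⟩, huc⟩ := hu
  obtain ⟨Q, hQ⟩ := exists_sylow_of_orderOf hj
  obtain ⟨g, hg⟩ := MulAction.exists_smul_eq G P₀ Q
  have hgu : g⁻¹ * u * g ∈ Subgroup.zpowers x := by
    rw [← hg, Sylow.coe_subgroup_smul] at hQ
    obtain ⟨s, hs, e⟩ := hQ
    have e' : g * s * g⁻¹ = u := e
    have : g⁻¹ * u * g = s := by rw [← e']; group
    rw [this]
    exact hs
  obtain ⟨n, hn⟩ := mem_powers_iff_mem_zpowers.mpr hgu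
  simp only at hn
  have hu_eq : u = g * x ^ n * g⁻¹ := by rw [hn]; group
  have hpn : ¬ p ∣ n := by
    rintro ⟨m, rfl⟩
    apply huc
    have hz : x ^ (p * m) ∈ Subgroup.center G := by
      rw [pow_mul]
      exact Subgroup.pow_mem _ hcen m
    have hz' := Subgroup.mem_center_iff.mp hz
    rw [hu_eq]
    have : g * x ^ (p * m) * g⁻¹ = x ^ (p * m) := by
      rw [hz' g, mul_assoc, mul_inv_cancel, mul_one]
    rw [this]
    exact hz
  have hcop : n.Coprime (orderOf x) := by
    rw [hk]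
    exact Nat.Coprime.pow_right _ (((Nat.Prime.coprime_iff_not_dvd hp).2 hpn).symm)
  obtain ⟨m, hm⟩ := exists_pow_eq_self_of_coprime hcop
  set v := g * x * g⁻¹ with hv
  have hvu : v = u ^ m := by
    rw [hu_eq, hv]
    have : ∀ t : ℕ, (g * x ^ n * g⁻¹) ^ t = g * (x ^ n) ^ t * g⁻¹ := by
      intro t
      induction t with
      | zero => simp
      | succ t ih =>
        rw [pow_succ, ih, pow_succ]
        group
    rw [this, hm]
  have hvH : v ∈ H := hvu ▸ H.pow_mem huH m
  have hvf : ∀ a ∈ A, v * a * v⁻¹ = a → a = 1 := by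
    intro a ha hva
    by_contra hne
    have h1 : g⁻¹ * a * g ∈ A := by
      have := hA.conj_mem a ha g⁻¹
      simpa using this
    have h2 : g⁻¹ * a * g ≠ 1 := by
      intro h3
      apply hne
      have : a = g * (g⁻¹ * a * g) * g⁻¹ := by group
      rw [this, h3]
      group
    apply hf _ h1 h2
    have : x * (g⁻¹ * a * g) * x⁻¹ = g⁻¹ * (v * a * v⁻¹) * g := by
      rw [hv]; group
    rw [this, hva]
  intro t ht
  -- decompose `t`
  have hgt : g⁻¹ * t * g ∈ Subgroup.zpowers x ⊔ A := by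
    rw [hc.sup_eq_top]
    exact Subgroup.mem_top _
  obtain ⟨y, hy, a₀, ha₀, hya⟩ := Subgroup.mem_sup_of_normal_right.mp hgt
  obtain ⟨i, rfl⟩ := hy
  simp only at hya
  set a := g * a₀ * g⁻¹ with ha
  have haA : a ∈ A := hA.conj_mem a₀ ha₀ g
  set w := v ^ i with hw
  have hwH : w ∈ H := H.zpow_mem hvH i
  have hconj : w = g * x ^ i * g⁻¹ := by
    rw [hw, hv]
    have : ∀ t : ℤ, (g * x * g⁻¹) ^ t = g * x ^ t * g⁻¹ := by
      intro t
      exact (map_zpow (MulAut.conj g).toMonoidHom x t).symm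
    exact this i
  have ht2 : t = w * a := by
    rw [hconj, ha]
    have : t = g * (g⁻¹ * t * g) * g⁻¹ := by group
    rw [this, ← hya]
    group
  have haN : a ∈ Subgroup.normalizer (H : Set G) := by
    have h1 : a = w⁻¹ * t := by rw [ht2]; group
    rw [h1]
    exact Subgroup.mul_mem _ (Subgroup.inv_mem _ (Subgroup.le_normalizer hwH)) ht
  have haH : a ∈ H := by
    let B : Subgroup G := H ⊓ A
    have hmem : ∀ b ∈ B, b * v * b⁻¹ * v⁻¹ ∈ B := by
      intro b hb
      refine ⟨H.mul_mem (H.mul_mem (H.mul_mem hb.1 hvH) (H.inv_mem hb.1)) (H.inv_mem hvH), ?_⟩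
      have h1 : v * b⁻¹ * v⁻¹ ∈ A := hA.conj_mem _ (A.inv_mem hb.2) v
      have : b * v * b⁻¹ * v⁻¹ = b * (v * b⁻¹ * v⁻¹) := by group
      rw [this]
      exact A.mul_mem hb.2 h1
    let f : B → B := fun b => ⟨b * v * (b : G)⁻¹ * v⁻¹, hmem b b.2⟩
    have hfi : Function.Injective f := by
      intro b c hbc
      have h1 : (b : G) * v * (b : G)⁻¹ * v⁻¹ = c * v * (c : G)⁻¹ * v⁻¹ := congrArg Subtype.val hbc
      have h2 : (c : G)⁻¹ * b ∈ A := A.mul_mem (A.inv_mem c.2.2) b.2.2
      have h3 : v * ((c : G)⁻¹ * b) * v⁻¹ = (c : G)⁻¹ * b := by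
        have h4 : (b : G) * v * (b : G)⁻¹ = c * v * (c : G)⁻¹ := mul_right_cancel h1
        have h5 : (b : G) * v = c * v * (c : G)⁻¹ * b := by
          rw [← h4]; group
        have h6 : v * (c : G)⁻¹ * (b : G) = (c : G)⁻¹ * (b * v) := by
          rw [h5]; group
        calc v * ((c : G)⁻¹ * b) * v⁻¹ = (v * (c : G)⁻¹ * b) * v⁻¹ := by group
          _ = ((c : G)⁻¹ * (b * v)) * v⁻¹ := by rw [h6]
          _ = _ := by group
      have h7 := hvf _ h2 h3
      apply Subtype.ext
      have h8 : (b : G) = c * ((c : G)⁻¹ * b) := by group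
      rw [h8, h7, mul_one]
    have hfs := Finite.injective_iff_surjective.mp hfi
    have hab2 : a * v * a⁻¹ * v⁻¹ ∈ B := by
      refine ⟨H.mul_mem ?_ (H.inv_mem hvH), ?_⟩
      · exact (Subgroup.mem_normalizer_iff.mp haN v).mp hvH
      · have h1 : v * a⁻¹ * v⁻¹ ∈ A := hA.conj_mem _ (A.inv_mem haA) v
        have : a * v * a⁻¹ * v⁻¹ = a * (v * a⁻¹ * v⁻¹) := by group
        rw [this]
        exact A.mul_mem haA h1
    obtain ⟨b, hb⟩ := hfs ⟨_, hab2⟩
    have h1 : (b : G) * v * (b : G)⁻¹ * v⁻¹ = a * v * a⁻¹ * v⁻¹ := congrArg Subtype.val hb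
    have h4 : (b : G) * v * (b : G)⁻¹ = a * v * a⁻¹ := mul_right_cancel h1
    have h2 : a⁻¹ * b ∈ A := A.mul_mem (A.inv_mem haA) b.2.2
    have h3 : v * (a⁻¹ * b) * v⁻¹ = a⁻¹ * b := by
      have h5 : (b : G) * v = a * v * a⁻¹ * b := by
        rw [← h4]; group
      have h6 : v * a⁻¹ * (b : G) = a⁻¹ * (b * v) := by
        rw [h5]; group
      calc v * (a⁻¹ * b) * v⁻¹ = (v * a⁻¹ * b) * v⁻¹ := by group
        _ = (a⁻¹ * (b * v)) * v⁻¹ := by rw [h6]
        _ = _ := by group
    have h7 := hvf _ h2 h3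
    have h8 : a = b := by
      have : a = a * (a⁻¹ * b) * (b : G)⁻¹ * b * (a⁻¹ * b)⁻¹ := by group
      rw [mul_eq_one_iff_inv_eq] at h7
      rw [inv_inv] at h7
      exact h7
    rw [h8]
    exact b.2.1
  rw [ht2]
  exact H.mul_mem hwH haH

theorem exists_normal_prime_index [Nontrivial G] [Group.IsSolvable G] :
    ∃ (M : Subgroup G) (p : ℕ), p.Prime ∧ IsCoatom M ∧ M.Normal ∧ M.index = p := by
  classical
  have hlt := Group.IsSolvable.commutator_lt_top_of_nontrivial (G := G)
  obtain ⟨M, hM, hMle⟩ := (eq_top_or_exists_le_coatom (commutator G)).resolve_left hlt.ne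
  haveI hMn : M.Normal := Subgroup.Normal.of_commutator_le G hMle
  refine ⟨M, M.index, ?_, hM, hMn, rfl⟩
  obtain ⟨g, hg⟩ : ∃ g, g ∉ M := by
    by_contra h
    push Not at h
    exact hM.1 (eq_top_iff.mpr fun g _ => h g)
  have h1 : (g : G ⧸ M) ≠ 1 := fun h => hg ((QuotientGroup.eq_one_iff g).mp h)
  have hcard1 : Nat.card (G ⧸ M) ≠ 1 := by
    intro h
    have := Nat.card_eq_one_iff_unique.mp h
    exact h1 (this.1.elim _ _)
  obtain ⟨q, hq, hqd⟩ := Nat.exists_prime_and_dvd hcard1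
  haveI : Fact q.Prime := ⟨hq⟩
  obtain ⟨y, hy⟩ := exists_prime_orderOf_dvd_card' q hqd
  set T : Subgroup G := (Subgroup.zpowers y).comap (QuotientGroup.mk' M) with hT
  have hMT : M ≤ T := by
    intro a ha
    show (QuotientGroup.mk' M) a ∈ Subgroup.zpowers y
    have : (QuotientGroup.mk' M) a = 1 := (QuotientGroup.eq_one_iff a).mpr ha
    rw [this]
    exact Subgroup.one_mem _
  have hTne : M ≠ T := by
    intro h
    obtain ⟨r, rfl⟩ := QuotientGroup.mk'_surjective M y
    have hrT : r ∈ T := Subgroup.mem_zpowers _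
    rw [← h] at hrT
    have : (QuotientGroup.mk' M) r = 1 := (QuotientGroup.eq_one_iff r).mpr hrT
    rw [this, orderOf_one] at hy
    exact hq.ne_one hy.symm
  have hTt : T = ⊤ := hM.2 T (lt_of_le_of_ne hMT hTne)
  have hz : Subgroup.zpowers y = ⊤ := by
    rw [eq_top_iff]
    intro a _
    obtain ⟨r, rfl⟩ := QuotientGroup.mk'_surjective M a
    have : r ∈ T := hTt ▸ Subgroup.mem_top r
    exact this
  have hc : Nat.card (G ⧸ M) = q := by
    rw [← hy, ← Nat.card_zpowers, hz, Subgroup.card_top]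
  show (Nat.card (G ⧸ M)).Prime
  rw [hc]
  exact hq

theorem semidirect_of_selfNorm [Group.IsSolvable G] (hnn : ¬ Group.IsNilpotent G) (hS : SelfNorm G) :
    ∃ (x : G) (A : Subgroup G) (p : ℕ), p.Prime ∧ A.Normal ∧ IsMulCommutative A ∧
      (∃ k : ℕ, orderOf x = p ^ k) ∧ ¬ p ∣ Nat.card A ∧ (Subgroup.zpowers x).IsComplement' A ∧
      x ^ p ∈ Subgroup.center G ∧ ∀ a : G, a ∈ A → a ≠ 1 → x * a * x⁻¹ ≠ a := by
  classical
  haveI : Nontrivial G := by
    by_contra h
    rw [not_nontrivial_iff_subsingleton] at h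
    exact hnn inferInstance
  obtain ⟨M, p, hp, hMc, hMn, hMi⟩ := exists_normal_prime_index (G := G)
  haveI := hMn
  haveI : Fact p.Prime := ⟨hp⟩
  have hMi' : M.index = p ^ 1 := by rw [hMi, pow_one]
  have hMab := hS.normal_abelian hMn hMc.1
  let K : Subgroup G :=
    { carrier := {m | m ∈ M ∧ (orderOf m).Coprime p}
      mul_mem' := by
        rintro a b ⟨ha, ha'⟩ ⟨hb, hb'⟩
        refine ⟨M.mul_mem ha hb, ?_⟩
        have hc : Commute a b := mul_comm_of_isMulCommutative hMab ha hb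
        exact Nat.Coprime.coprime_dvd_left hc.orderOf_mul_dvd_mul_orderOf (Nat.Coprime.mul_left ha' hb')
      one_mem' := ⟨M.one_mem, by rw [orderOf_one]; exact Nat.coprime_one_left p⟩
      inv_mem' := by
        rintro a ⟨ha, ha'⟩
        refine ⟨M.inv_mem ha, ?_⟩
        rw [orderOf_inv]
        exact ha' }
  have hKmem : ∀ m, m ∈ K ↔ m ∈ M ∧ (orderOf m).Coprime p := fun m => Iff.rfl
  have hKM : K ≤ M := fun m hm => hm.1
  haveI hKn : K.Normal := by
    constructor
    rintro n ⟨h1, h2⟩ g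
    refine ⟨hMn.conj_mem n h1 g, ?_⟩
    have : orderOf (g * n * g⁻¹) = orderOf n :=
      orderOf_injective (MulAut.conj g).toMonoidHom (MulAut.conj g).injective n
    rw [this]
    exact h2
  have hKab : IsMulCommutative K :=
    isMulCommutative_of_forall (fun a ha b hb => mul_comm_of_isMulCommutative hMab ha.1 hb.1)
  have hKp1 : ∀ y ∈ K, ∀ j : ℕ, orderOf y = p ^ j → y = 1 := by
    intro y hy j hj
    have h1 := hy.2
    rw [hj] at h1
    rcases Nat.eq_zero_or_pos j with h0 | h0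
    · rw [h0, pow_zero] at hj
      exact orderOf_eq_one_iff.mp hj
    · exfalso
      have h2 := (Nat.coprime_pow_left_iff h0 p p).mp h1
      rw [Nat.coprime_self] at h2
      exact hp.ne_one h2
  have hKp : ¬ p ∣ Nat.card K := by
    intro h
    obtain ⟨y, hy⟩ := exists_prime_orderOf_dvd_card' p h
    have h1 := hKp1 y y.2 1 (by rw [pow_one, Subgroup.orderOf_coe, hy])
    have h2 : y = 1 := Subtype.ext h1
    rw [h2, orderOf_one] at hy
    exact hp.ne_one hy.symm
  have hpelt : ∀ g : G, (orderOf g).Coprime p → g ∈ K :=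
    fun g hg => ⟨mem_of_coprime_of_index hMi' hg, hg⟩
  have hKq : IsPGroup p (G ⧸ K) := by
    intro q
    obtain ⟨g, rfl⟩ := QuotientGroup.mk_surjective q
    obtain ⟨a, b, e, -, ⟨k, hk⟩, hb, -, -⟩ := exists_primary_decomp p g
    refine ⟨k, ?_⟩
    have h1 : (b : G ⧸ K) = 1 := (QuotientGroup.eq_one_iff b).mpr (hpelt b hb)
    rw [e, QuotientGroup.mk_mul, h1, mul_one, ← QuotientGroup.mk_pow, ← hk, pow_orderOf_eq_one,
      QuotientGroup.mk_one]
  obtain ⟨g, hg⟩ : ∃ g, g ∉ M := by
    by_contra h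
    push Not at h
    exact hMc.1 (eq_top_iff.mpr fun g _ => h g)
  obtain ⟨x, b, e, -, ⟨k, hk⟩, hb, -, -⟩ := exists_primary_decomp p g
  have hxM : x ∉ M := fun h => hg (e ▸ M.mul_mem h (hKM (hpelt b hb)))
  have hgen : ∀ T : Subgroup G, M ≤ T → x ∈ T → T = ⊤ := by
    intro T hMT hxT
    exact hMc.2 T (lt_of_le_of_ne hMT (fun e => hxM (e ▸ hxT)))
  have hcentral : ∀ z, z ∈ M → x * z = z * x → z ∈ Subgroup.center G := by
    intro z hz hzx
    have h1 := hgen (Subgroup.centralizer {z}) (by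
      intro a ha
      rw [Subgroup.mem_centralizer_singleton_iff]
      exact mul_comm_of_isMulCommutative hMab ha hz) (by
      rw [Subgroup.mem_centralizer_singleton_iff]
      exact hzx)
    rw [Subgroup.mem_center_iff]
    intro a
    have h2 : a ∈ Subgroup.centralizer {z} := h1 ▸ Subgroup.mem_top a
    rw [Subgroup.mem_centralizer_singleton_iff] at h2
    exact h2
  -- the element `x` acts non-trivially
  obtain ⟨k₀, hk₀, hk₀x⟩ : ∃ k₀ ∈ K, x * k₀ * x⁻¹ ≠ k₀ := by
    by_contra hno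
    push Not at hno
    apply hnn
    have hc : K ≤ Subgroup.center G := fun z hz => hcentral z hz.1 (by
      have := hno z hz
      calc x * z = x * z * x⁻¹ * x := by group
        _ = z * x := by rw [this])
    haveI := hKq.isNilpotent
    exact Subgroup.isNilpotent_of_ker_le_center (QuotientGroup.mk' K) (by
      rw [QuotientGroup.ker_mk']
      exact hc)
  have hxnc : ¬ Commute x k₀ := by
    intro h
    apply hk₀x
    rw [h.eq]
    group
  have hzcop : (Nat.card (Subgroup.zpowers x)).Coprime (Nat.card K) := by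
    rw [Nat.card_zpowers, hk]
    exact Nat.Coprime.pow_left _ ((Nat.Prime.coprime_iff_not_dvd hp).2 hKp)
  haveI := hKab
  have hAV : Subgroup.zpowers x ≤ Subgroup.normalizer (K : Set G) := by
    rw [Subgroup.normalizer_eq_top_iff.mpr hKn]
    exact le_top
  obtain ⟨hdec1, hdec2⟩ := H01.abelian_decomposition (Subgroup.zpowers x) K hAV hzcop
  set K₁ : Subgroup G := ⁅K, Subgroup.zpowers x⁆ with hK₁
  have hK₁K : K₁ ≤ K := le_sup_right.trans_eq hdec2
  have hcz : ∀ z, x * z = z * x → z ∈ Subgroup.centralizer ((Subgroup.zpowers x : Subgroup G) : Set G) := by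
    intro z hz
    rw [Subgroup.mem_centralizer_iff]
    rintro _ ⟨i, rfl⟩
    exact (Commute.zpow_left (show Commute x z from hz) i)
  have hK₁n : K₁.Normal := by
    have h1 := hgen (Subgroup.normalizer (K₁ : Set G)) (by
      intro m hm
      apply mem_normalizer_of_conj_le
      intro k hk1
      have h2 := mul_comm_of_isMulCommutative hMab hm (hKM (hK₁K hk1))
      rw [h2, mul_assoc, mul_inv_cancel, mul_one]
      exact hk1) (by
      apply mem_normalizer_of_conj_le
      have h2 : K₁ ≤ K₁.comap (MulAut.conj x).toMonoidHom := by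
        rw [hK₁, Subgroup.commutator_le]
        intro a ha c hc
        rw [Subgroup.mem_comap]
        show x * ⁅a, c⁆ * x⁻¹ ∈ _
        have h3 : x * ⁅a, c⁆ * x⁻¹ = ⁅x * a * x⁻¹, x * c * x⁻¹⁆ := by
          simp only [commutatorElement_def]
          group
        rw [h3]
        apply Subgroup.commutator_mem_commutator (hKn.conj_mem a ha x)
        exact Subgroup.mul_mem _ (Subgroup.mul_mem _ (Subgroup.mem_zpowers x) hc)
          (Subgroup.inv_mem _ (Subgroup.mem_zpowers x))
      intro k hk1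
      exact h2 hk1)
    exact Subgroup.normalizer_eq_top_iff.mp h1
  haveI := hK₁n
  -- the action is fixed point free
  have hfree : ∀ z ∈ K, x * z * x⁻¹ = z → z = 1 := by
    intro z hz hzx
    have hzx' : x * z = z * x := by
      calc x * z = x * z * x⁻¹ * x := by group
        _ = z * x := by rw [hzx]
    have hzc := hcentral z (hKM hz) hzx'
    have hk₁m : ⁅k₀, x⁆ ∈ K₁ := Subgroup.commutator_mem_commutator hk₀ (Subgroup.mem_zpowers x)
    have hk₁1 : ⁅k₀, x⁆ ≠ 1 := by
      intro h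
      rw [commutatorElement_eq_one_iff_commute] at h
      exact hxnc h.symm
    have hk₁nc : x * ⁅k₀, x⁆ ≠ ⁅k₀, x⁆ * x := by
      intro h
      apply hk₁1
      have h2 : ⁅k₀, x⁆ ∈ (K ⊓ Subgroup.centralizer ((Subgroup.zpowers x : Subgroup G) : Set G)) ⊓ K₁ :=
        ⟨⟨hK₁K hk₁m, hcz _ h⟩, hk₁m⟩
      rw [hdec1] at h2
      exact h2
    set H : Subgroup G := Subgroup.zpowers x ⊔ K₁ with hH
    have hHnc : ¬ IsMulCommutative H := by
      intro hc
      exact hk₁nc (mul_comm_of_isMulCommutative hc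
        (Subgroup.mem_sup_left (Subgroup.mem_zpowers x)) (Subgroup.mem_sup_right hk₁m))
    have hNH := hS H hHnc
    have hzN : z ∈ Subgroup.normalizer (H : Set G) := by
      apply mem_normalizer_of_conj_le
      intro h hh
      have h2 := Subgroup.mem_center_iff.mp hzc
      rw [← h2 h, mul_assoc, mul_inv_cancel, mul_one]
      exact hh
    rw [hNH] at hzN
    obtain ⟨y, hy, w, hw, hyw⟩ := Subgroup.mem_sup_of_normal_right.mp hzN
    have hyK : y ∈ K := by
      have : y = z * w⁻¹ := by rw [← hyw]; group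
      rw [this]
      exact K.mul_mem hz (K.inv_mem (hK₁K hw))
    obtain ⟨i, rfl⟩ := hy
    have hy1 : x ^ i = 1 := by
      have h3 : orderOf (x ^ i) ∣ p ^ k := by
        rw [← hk]
        exact orderOf_dvd_of_pow_eq_one (by
          rw [← zpow_natCast, ← zpow_mul, mul_comm, zpow_mul, zpow_natCast, pow_orderOf_eq_one, one_zpow])
      obtain ⟨j, -, hj⟩ := (Nat.dvd_prime_pow hp).mp h3
      exact hKp1 _ hyK j hj
    have hyw' : x ^ i * w = z := hyw
    rw [hy1, one_mul] at hyw'
    have h2 : z ∈ (K ⊓ Subgroup.centralizer ((Subgroup.zpowers x : Subgroup G) : Set G)) ⊓ K₁ :=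
      ⟨⟨hz, hcz _ hzx'⟩, hyw' ▸ hw⟩
    rw [hdec1] at h2
    exact h2
  -- the Sylow subgroup
  have hzp : IsPGroup p (Subgroup.zpowers x) := isPGroup_zpowers_of_orderOf hk
  obtain ⟨P, hP⟩ := hzp.exists_le_sylow
  have hPx : (P : Subgroup G) = Subgroup.zpowers x := by
    by_contra hne
    have hlt : Subgroup.zpowers x < (P : Subgroup G) := lt_of_le_of_ne hP (Ne.symm hne)
    obtain ⟨w, hw1, hw2, hw3⟩ := exists_mem_normalizer_of_lt hlt P.isPGroup'.isNilpotent
    set L : Subgroup G := Subgroup.zpowers x ⊔ K with hL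
    have hLnc : ¬ IsMulCommutative L := by
      intro hc
      exact hxnc (mul_comm_of_isMulCommutative hc
        (Subgroup.mem_sup_left (Subgroup.mem_zpowers x)) (Subgroup.mem_sup_right hk₀))
    have hNL := hS L hLnc
    have hwN : w ∈ Subgroup.normalizer (L : Set G) := by
      apply mem_normalizer_of_conj_le
      intro l hl
      obtain ⟨y, hy, c, hc, rfl⟩ := Subgroup.mem_sup_of_normal_right.mp hl
      have h1 : w * y * w⁻¹ ∈ Subgroup.zpowers x := (Subgroup.mem_normalizer_iff.mp hw3 y).mp hy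
      have h2 : w * c * w⁻¹ ∈ K := hKn.conj_mem c hc w
      have : w * (y * c) * w⁻¹ = (w * y * w⁻¹) * (w * c * w⁻¹) := by group
      rw [this]
      exact L.mul_mem (Subgroup.mem_sup_left h1) (Subgroup.mem_sup_right h2)
    rw [hNL] at hwN
    obtain ⟨y, hy, c, hc, hyc⟩ := Subgroup.mem_sup_of_normal_right.mp hwN
    have hcP : c ∈ (P : Subgroup G) := by
      have : c = y⁻¹ * w := by rw [← hyc]; group
      rw [this]
      exact Subgroup.mul_mem _ (Subgroup.inv_mem _ (hP hy)) hw1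
    obtain ⟨j, hj⟩ := orderOf_of_mem_isPGroup P.isPGroup' hcP
    have hc1 := hKp1 c hc j hj
    rw [hc1, mul_one] at hyc
    exact hw2 (hyc ▸ hy)
  -- complement
  have hcompl : (Subgroup.zpowers x).IsComplement' K := by
    apply Subgroup.isComplement'_of_coprime _ hzcop
    obtain ⟨a, ha⟩ := IsPGroup.iff_card.mp hKq
    have h1 : Nat.card K * p ^ a = Nat.card G := by
      rw [← ha]
      exact K.card_mul_index
    have h2 := (P : Subgroup G).card_mul_index
    rw [hPx, Nat.card_zpowers, hk] at h2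
    have hPidx : ¬ p ∣ (Subgroup.zpowers x).index := by
      have := P.not_dvd_index
      rw [hPx] at this
      exact this
    have hka : k = a := by
      apply le_antisymm
      · have h3 : p ^ k ∣ Nat.card K * p ^ a := by
          rw [h1, ← h2]
          exact dvd_mul_right _ _
        have h4 : (p ^ k).Coprime (Nat.card K) := Nat.Coprime.pow_left _ ((Nat.Prime.coprime_iff_not_dvd hp).2 hKp)
        exact (Nat.pow_dvd_pow_iff_le_right hp.one_lt).mp (h4.dvd_of_dvd_mul_left h3)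
      · have h3 : p ^ a ∣ p ^ k * (Subgroup.zpowers x).index := by
          rw [h2, ← h1]
          exact dvd_mul_left _ _
        have h4 : (p ^ a).Coprime (Subgroup.zpowers x).index :=
          Nat.Coprime.pow_left _ ((Nat.Prime.coprime_iff_not_dvd hp).2 hPidx)
        exact (Nat.pow_dvd_pow_iff_le_right hp.one_lt).mp (h4.dvd_of_dvd_mul_right h3)
    rw [Nat.card_zpowers, hk, hka, mul_comm, h1]
  refine ⟨x, K, p, hp, hKn, hKab, ⟨k, hk⟩, hKp, hcompl, ?_, ?_⟩
  · apply hcentral
    · have h1 : ((x ^ p : G) : G ⧸ M) = 1 := by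
        rw [QuotientGroup.mk_pow]
        have : Nat.card (G ⧸ M) = p := hMi
        rw [← this]
        exact pow_card_eq_one'
      exact (QuotientGroup.eq_one_iff _).mp h1
    · exact (Commute.pow_right (Commute.refl x) p).eq
  · intro a ha hne h
    exact hne (hfree a ha h)

/-- **S4071**. -/
theorem selfNorm_iff_semidirect [Group.IsSolvable G] (hnn : ¬ Group.IsNilpotent G) :
    SelfNorm G ↔ ∃ (x : G) (A : Subgroup G) (p : ℕ), p.Prime ∧ A.Normal ∧ IsMulCommutative A ∧
      (∃ k : ℕ, orderOf x = p ^ k) ∧ ¬ p ∣ Nat.card A ∧ (Subgroup.zpowers x).IsComplement' A ∧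
      x ^ p ∈ Subgroup.center G ∧ ∀ a : G, a ∈ A → a ≠ 1 → x * a * x⁻¹ ≠ a := by
  constructor
  · exact semidirect_of_selfNorm hnn
  · rintro ⟨x, A, p, hp, hA, hab, hx, hpA, hc, hcen, hf⟩
    exact selfNorm_of_semidirect hp hA hab hx hpA hc hcen hf

end Cfsg.Agent.H19
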