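import Mathlib
import Cfsg.Agent.Lib.H12.Subnormal
import Cfsg.Agent.Lib.H18.Join
import Cfsg.Agent.Lib.H01.Fitting

/-!
Subnormalizers of `p`-subgroups (Casolo).
-/

set_option autoImplicit false

namespace Cfsg.Agent.H19

open Cfsg

universe u

variable {G : Type u} [Group G] [Finite G] {p : ℕ} [hp : Fact p.Prime]

/-- The characterization of the subnormalizer of a `p`-subgroup. -/
theorem subnormal_iff_exists (H : Subgroup G) (hH : IsPGroup p H) (g : G) :
    ((H).subgroupOf (H ⊔ Subgroup.zpowers g)).IsSubnormal ↔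
      ∃ R : Subgroup G, IsPGroup p R ∧ H ≤ R ∧ g ∈ Subgroup.normalizer (R : Set G) := by
  classical
  set L := H ⊔ Subgroup.zpowers g with hL
  have hHL : H ≤ L := le_sup_left
  have hgL : g ∈ L := Subgroup.mem_sup_right (Subgroup.mem_zpowers g)
  constructor
  · intro hsn
    have hA : IsPGroup p (H.subgroupOf L) := by
      have e : H.subgroupOf L ≃* H := Subgroup.subgroupOfEquivOfLe hHL
      exact hH.of_equiv e.symm
    have hle : H.subgroupOf L ≤ pCore p L := H12.le_pCore_of_isSubnormal hsn hA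
    refine ⟨(pCore p L).map L.subtype, ?_, ?_, ?_⟩
    · exact (H01.pCore_isPGroup (G := L) p).map _
    · intro h hh
      exact ⟨⟨h, hHL hh⟩, hle (by simpa [Subgroup.mem_subgroupOf] using hh), rfl⟩
    · haveI : (pCore p L).Normal := H01.pCore_normal (G := L) p
      have h1 := Subgroup.le_normalizer_map (H := pCore p L) L.subtype
      apply h1
      refine ⟨⟨g, hgL⟩, ?_, rfl⟩
      rw [Subgroup.normalizer_eq_top_iff.mpr ‹_›]
      trivial
  · rintro ⟨R, hR, hHR, hgR⟩
    have hLN : L ≤ Subgroup.normalizer (R : Set G) := by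
      refine sup_le (le_trans hHR Subgroup.le_normalizer) ?_
      rw [Subgroup.zpowers_le]
      exact hgR
    have hn : (R.subgroupOf L).Normal := by
      rw [Subgroup.normal_subgroupOf_iff_le_normalizer_inf]
      intro x hx n
      have h1 := (Subgroup.mem_normalizer_iff.mp (hLN hx)) n
      constructor
      · rintro ⟨h2, h3⟩
        exact ⟨h1.mp h2, L.mul_mem (L.mul_mem hx h3) (L.inv_mem hx)⟩
      · rintro ⟨h2, h3⟩
        refine ⟨h1.mpr h2, ?_⟩
        have h4 := L.mul_mem (L.mul_mem (L.inv_mem hx) h3) hx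
        simpa [mul_assoc] using h4
    have hAR : H.subgroupOf L ≤ R.subgroupOf L := fun x hx => by
      rw [Subgroup.mem_subgroupOf] at hx ⊢
      exact hHR hx
    have hRp : IsPGroup p (R.subgroupOf L) := by
      have hinj : Function.Injective (fun x : R.subgroupOf L =>
          (⟨(x : L), Subgroup.mem_subgroupOf.mp x.2⟩ : R)) := by
        intro a b h
        have h2 := congrArg Subtype.val h
        exact Subtype.ext (Subtype.ext h2)
      exact IsPGroup.of_injective hR (MonoidHom.mk' _ (fun _ _ => rfl)) hinj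
    haveI : Group.IsNilpotent (R.subgroupOf L) := hRp.isNilpotent
    have h1 : ((H.subgroupOf L).subgroupOf (R.subgroupOf L)).IsSubnormal :=
      H18.isSubnormal_of_isNilpotent _
    exact Subgroup.IsSubnormal.trans hAR h1 hn.isSubnormal

omit [Finite G] hp in
/-- normal subgroups of a subgroup `L` are normalized by `L`. -/
theorem mem_normalizer_map_subtype (L : Subgroup G) (C : Subgroup L) [hC : C.Normal] (g : L) :
    (g : G) ∈ Subgroup.normalizer ((C.map L.subtype : Subgroup G) : Set G) := by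
  have h1 := Subgroup.le_normalizer_map (H := C) L.subtype
  apply h1
  refine ⟨g, ?_, rfl⟩
  rw [Subgroup.normalizer_eq_top_iff.mpr hC]
  trivial

/-- Every subgroup normalized by `g` and containing `H`, maximal such, equals `O_p` of its
normalizer. -/
theorem exists_pCore_fixed (H : Subgroup G) (g : G)
    (h : ∃ R : Subgroup G, IsPGroup p R ∧ H ≤ R ∧ g ∈ Subgroup.normalizer (R : Set G)) :
    ∃ R : Subgroup G, H ≤ R ∧
      (pCore p (Subgroup.normalizer (R : Set G))).map (Subgroup.normalizer (R : Set G)).subtype = R ∧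
      g ∈ Subgroup.normalizer (R : Set G) := by
  classical
  let S : Set (Subgroup G) := {R | IsPGroup p R ∧ H ≤ R ∧ g ∈ Subgroup.normalizer (R : Set G)}
  obtain ⟨R, hR⟩ := S.toFinite.exists_maximal h
  obtain ⟨hR1, hR2, hR3⟩ := hR.1
  refine ⟨R, hR2, ?_, hR3⟩
  set N := Subgroup.normalizer (R : Set G) with hN
  haveI hCn : (pCore p N).Normal := H01.pCore_normal (G := N) p
  have hRn : (R.subgroupOf N).Normal := Subgroup.normal_subgroupOf_iff_le_normalizer_inf.mpr (by
    have : R ⊓ N = R := inf_eq_left.mpr Subgroup.le_normalizer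
    rw [this])
  have hRp : IsPGroup p (R.subgroupOf N) := by
    have hinj : Function.Injective (fun x : R.subgroupOf N =>
        (⟨(x : N), Subgroup.mem_subgroupOf.mp x.2⟩ : R)) := by
      intro a b h
      have h2 := congrArg Subtype.val h
      exact Subtype.ext (Subtype.ext h2)
    exact IsPGroup.of_injective hR1 (MonoidHom.mk' _ (fun _ _ => rfl)) hinj
  have hRC : R.subgroupOf N ≤ pCore p N := H01.le_pCore hRn hRp
  have hle : R ≤ (pCore p N).map N.subtype := by
    intro r hr
    have hrN : r ∈ N := Subgroup.le_normalizer hr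
    exact ⟨⟨r, hrN⟩, hRC (by simpa [Subgroup.mem_subgroupOf] using hr), rfl⟩
  have hCS : (pCore p N).map N.subtype ∈ S := by
    refine ⟨(H01.pCore_isPGroup (G := N) p).map _, le_trans hR2 hle, ?_⟩
    exact mem_normalizer_map_subtype N (pCore p N) ⟨g, hR3⟩
  exact le_antisymm (hR.2 hCS hle) hle

omit hp in
/-- The intersection of the Sylow subgroups containing a `p`-subgroup. -/
theorem sInf_sylow_isPGroup [Fact p.Prime] (H : Subgroup G) (hH : IsPGroup p H) :
    IsPGroup p ((sInf {K : Subgroup G | ∃ Q : Sylow p G, H ≤ (Q : Subgroup G) ∧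
      K = (Q : Subgroup G)} : Subgroup G)) := by
  obtain ⟨Q, hQ⟩ := hH.exists_le_sylow
  refine IsPGroup.to_le Q.isPGroup' (sInf_le ⟨Q, hQ, rfl⟩)

/-- `g` normalizes the intersection of Sylows above a subgroup it normalizes. -/
theorem mem_normalizer_sInf_sylow (R : Subgroup G) (g : G)
    (hg : g ∈ Subgroup.normalizer (R : Set G)) :
    g ∈ Subgroup.normalizer (((sInf {K : Subgroup G | ∃ Q : Sylow p G, R ≤ (Q : Subgroup G) ∧
      K = (Q : Subgroup G)} : Subgroup G)) : Set G) := by
  classical
  have key : ∀ (c : G), c ∈ Subgroup.normalizer (R : Set G) → ∀ x,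
      x ∈ (sInf {K : Subgroup G | ∃ Q : Sylow p G, R ≤ (Q : Subgroup G) ∧
        K = (Q : Subgroup G)} : Subgroup G) →
      c * x * c⁻¹ ∈ (sInf {K : Subgroup G | ∃ Q : Sylow p G, R ≤ (Q : Subgroup G) ∧
        K = (Q : Subgroup G)} : Subgroup G) := by
    intro c hc x hx
    rw [Subgroup.mem_sInf] at hx ⊢
    rintro K ⟨Q, hQ, rfl⟩
    -- conjugate `Q` by `c⁻¹`
    have hmem : ∀ y, y ∈ ((c⁻¹ • Q : Sylow p G) : Subgroup G) ↔ c * y * c⁻¹ ∈ (Q : Subgroup G) := by
      intro y
      rw [Sylow.coe_subgroup_smul, Subgroup.mem_pointwise_smul_iff_inv_smul_mem]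
      simp [MulAut.smul_def]
    have hQ' : R ≤ ((c⁻¹ • Q : Sylow p G) : Subgroup G) := by
      intro r hr
      rw [hmem]
      exact hQ ((Subgroup.mem_normalizer_iff.mp hc r).mp hr)
    have := hx _ ⟨c⁻¹ • Q, hQ', rfl⟩
    rwa [hmem] at this
  rw [Subgroup.mem_normalizer_iff]
  intro x
  constructor
  · exact key g hg x
  · intro h
    have := key g⁻¹ (Subgroup.inv_mem _ hg) _ h
    simpa [mul_assoc] using this

end Cfsg.Agent.H19
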