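import Mathlib
import Cfsg.Agent.Lib.H19.Subnorm

/-!
Casolo's count of the subnormalizer of a `p`-subgroup.
-/

set_option autoImplicit false

namespace Cfsg.Agent.H19

open Cfsg
open scoped Classical

universe u

section Mobius

variable {Y : Type*} [Group Y] [Fintype (Subgroup Y)]

theorem exists_mobius :
    ∃ μ : Subgroup Y → ℤ, μ ⊥ = 1 ∧
      ∀ A : Subgroup Y, A ≠ ⊥ → ∑ U ∈ Finset.univ.filter (fun U : Subgroup Y => U ≤ A), μ U = 0 := by
  letI : LocallyFiniteOrder (Subgroup Y) := Fintype.toLocallyFiniteOrder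
  refine ⟨fun U => IncidenceAlgebra.mu ℤ (⊥ : Subgroup Y) U, IncidenceAlgebra.mu_self _, ?_⟩
  intro A hA
  have h := IncidenceAlgebra.sum_Icc_mu_right (𝕜 := ℤ) (⊥ : Subgroup Y) A
  rw [if_neg (Ne.symm hA)] at h
  rw [← h]
  apply Finset.sum_congr _ (fun _ _ => rfl)
  ext U
  simp

/-- The closure lemma for Möbius functions. -/
theorem mobius_closure (μ : Subgroup Y → ℤ)
    (hμ : ∀ A : Subgroup Y, A ≠ ⊥ →
      ∑ U ∈ Finset.univ.filter (fun U : Subgroup Y => U ≤ A), μ U = 0)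
    (𝒜 : Finset (Subgroup Y)) (hdown : ∀ U ∈ 𝒜, ∀ V : Subgroup Y, V ≤ U → V ∈ 𝒜)
    (A : Subgroup Y) (hA𝒜 : A ∈ 𝒜) (hA : A ≠ ⊥) (hcl : ∀ U ∈ 𝒜, U ⊔ A ∈ 𝒜) :
    ∑ U ∈ 𝒜, μ U = 0 := by
  set 𝒯 := 𝒜.filter (fun T => A ≤ T) with h𝒯
  have hfib : ∀ T ∈ 𝒯, ∑ U ∈ 𝒜.filter (fun U => U ⊔ A = T), μ U = 0 := by
    intro T
    induction T using (wellFounded_lt : WellFounded (· < · : Subgroup Y → Subgroup Y → Prop)).induction with
    | _ T ih =>
    intro hT
    have hT1 : T ∈ 𝒜 := (Finset.mem_filter.mp hT).1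
    have hT2 : A ≤ T := (Finset.mem_filter.mp hT).2
    have hT3 : T ≠ ⊥ := fun h => hA (le_bot_iff.mp (h ▸ hT2))
    have h0 := hμ T hT3
    have hmaps : ∀ U ∈ Finset.univ.filter (fun U : Subgroup Y => U ≤ T),
        U ⊔ A ∈ 𝒯.filter (fun T' => T' ≤ T) := by
      intro U hU
      have hU' : U ≤ T := (Finset.mem_filter.mp hU).2
      refine Finset.mem_filter.mpr ⟨Finset.mem_filter.mpr ⟨hcl U (hdown T hT1 U hU'), le_sup_right⟩,
        sup_le hU' hT2⟩
    rw [← Finset.sum_fiberwise_of_maps_to hmaps] at h0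
    have hsplit : ∀ T' ∈ 𝒯.filter (fun T' => T' ≤ T),
        ∑ U ∈ (Finset.univ.filter (fun U : Subgroup Y => U ≤ T)).filter (fun U => U ⊔ A = T'), μ U =
          ∑ U ∈ 𝒜.filter (fun U => U ⊔ A = T'), μ U := by
      intro T' hT'
      have hT'T : T' ≤ T := (Finset.mem_filter.mp hT').2
      apply Finset.sum_congr _ (fun _ _ => rfl)
      ext U
      simp only [Finset.mem_filter, Finset.mem_univ, true_and]
      constructor
      · rintro ⟨h1, h2⟩
        exact ⟨hdown T hT1 U h1, h2⟩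
      · rintro ⟨h1, h2⟩
        exact ⟨le_trans (h2 ▸ le_sup_left) hT'T, h2⟩
    rw [Finset.sum_congr rfl hsplit] at h0
    have hTmem : T ∈ 𝒯.filter (fun T' => T' ≤ T) := Finset.mem_filter.mpr ⟨hT, le_rfl⟩
    rw [← Finset.add_sum_erase _ _ hTmem] at h0
    have hrest : ∑ T' ∈ (𝒯.filter (fun T' => T' ≤ T)).erase T,
        ∑ U ∈ 𝒜.filter (fun U => U ⊔ A = T'), μ U = 0 := by
      apply Finset.sum_eq_zero
      intro T' hT'
      rw [Finset.mem_erase, Finset.mem_filter] at hT'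
      exact ih T' (lt_of_le_of_ne hT'.2.2 hT'.1) hT'.2.1
    rw [hrest, add_zero] at h0
    exact h0
  have hmaps : ∀ U ∈ 𝒜, U ⊔ A ∈ 𝒯 := fun U hU =>
    Finset.mem_filter.mpr ⟨hcl U hU, le_sup_right⟩
  rw [← Finset.sum_fiberwise_of_maps_to hmaps]
  exact Finset.sum_eq_zero hfib

end Mobius

variable {G : Type u} [Group G] {p : ℕ}

/-- `g` belongs to the subnormalizer of `H`. -/
def Sn (p : ℕ) (H : Subgroup G) (g : G) : Prop :=
  ∃ R : Subgroup G, IsPGroup p R ∧ H ≤ R ∧ g ∈ Subgroup.normalizer (R : Set G)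

section Quot

variable (H : Subgroup G)

local notation "N" => Subgroup.normalizer (H : Set G)

instance normal_sub : (H.subgroupOf (Subgroup.normalizer (H : Set G))).Normal :=
  (Subgroup.normal_subgroupOf_iff_le_normalizer Subgroup.le_normalizer).mpr le_rfl

/-- the projection from the normalizer -/
noncomputable abbrev piN : (Subgroup.normalizer (H : Set G)) →* (Subgroup.normalizer (H : Set G)) ⧸ (H.subgroupOf (Subgroup.normalizer (H : Set G))) :=
  QuotientGroup.mk' _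

/-- the full preimage of a subgroup of `N/H` -/
noncomputable def starS (U : Subgroup ((Subgroup.normalizer (H : Set G)) ⧸ (H.subgroupOf (Subgroup.normalizer (H : Set G))))) : Subgroup G :=
  (U.comap (piN H)).map (Subgroup.subtype _)

/-- the image of a subgroup in `N/H` -/
noncomputable def tildeS (R : Subgroup G) : Subgroup ((Subgroup.normalizer (H : Set G)) ⧸ (H.subgroupOf (Subgroup.normalizer (H : Set G)))) :=
  (R.subgroupOf _).map (piN H)

variable {H}

theorem mem_starS {U : Subgroup ((Subgroup.normalizer (H : Set G)) ⧸ (H.subgroupOf (Subgroup.normalizer (H : Set G))))} {x : G} :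
    x ∈ starS H U ↔ ∃ h : x ∈ Subgroup.normalizer (H : Set G), piN H ⟨x, h⟩ ∈ U := by
  constructor
  · rintro ⟨y, hy, rfl⟩
    exact ⟨y.2, hy⟩
  · rintro ⟨h, hx⟩
    exact ⟨⟨x, h⟩, hx, rfl⟩

theorem le_starS (U : Subgroup ((Subgroup.normalizer (H : Set G)) ⧸ (H.subgroupOf (Subgroup.normalizer (H : Set G))))) : H ≤ starS H U := by
  intro h hh
  rw [mem_starS]
  refine ⟨Subgroup.le_normalizer hh, ?_⟩
  have : piN H ⟨h, Subgroup.le_normalizer hh⟩ = 1 := by
    rw [QuotientGroup.mk'_apply, QuotientGroup.eq_one_iff]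
    exact hh
  rw [this]
  exact U.one_mem

theorem starS_mono {U V : Subgroup ((Subgroup.normalizer (H : Set G)) ⧸ (H.subgroupOf (Subgroup.normalizer (H : Set G))))} (h : U ≤ V) :
    starS H U ≤ starS H V := by
  intro x hx
  rw [mem_starS] at hx ⊢
  obtain ⟨h1, h2⟩ := hx
  exact ⟨h1, h h2⟩

theorem starS_bot : starS H ⊥ = H := by
  apply le_antisymm _ (le_starS _)
  intro x hx
  rw [mem_starS] at hx
  obtain ⟨h1, h2⟩ := hx
  rw [Subgroup.mem_bot, QuotientGroup.mk'_apply, QuotientGroup.eq_one_iff] at h2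
  exact h2

theorem starS_isPGroup [Fact p.Prime] (hH : IsPGroup p H) {U : Subgroup ((Subgroup.normalizer (H : Set G)) ⧸ (H.subgroupOf (Subgroup.normalizer (H : Set G))))} (hU : IsPGroup p U) :
    IsPGroup p (starS H U) := by
  rintro ⟨x, hx⟩
  obtain ⟨h1, h2⟩ := mem_starS.mp hx
  obtain ⟨a, ha⟩ := hU ⟨_, h2⟩
  have ha' : (piN H ⟨x, h1⟩) ^ p ^ a = 1 := by
    have := congrArg Subtype.val ha
    simpa using this
  have hmem : (⟨x, h1⟩ : Subgroup.normalizer (H : Set G)) ^ p ^ a ∈ H.subgroupOf (Subgroup.normalizer (H : Set G)) := by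
    rw [← map_pow, QuotientGroup.mk'_apply, QuotientGroup.eq_one_iff] at ha'
    exact ha'
  have hmem2 : x ^ p ^ a ∈ H := by
    rw [Subgroup.mem_subgroupOf] at hmem
    simpa using hmem
  obtain ⟨b, hb⟩ := hH ⟨_, hmem2⟩
  refine ⟨a + b, ?_⟩
  apply Subtype.ext
  have hb' : (x ^ p ^ a) ^ p ^ b = 1 := by
    have := congrArg Subtype.val hb
    simpa using this
  simp only [SubmonoidClass.mk_pow, Subgroup.mk_eq_one]
  rw [pow_add, pow_mul]
  exact hb'

theorem mem_tildeS {R : Subgroup G} (hHR : H ≤ R) (x : Subgroup.normalizer (H : Set G)) :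
    piN H x ∈ tildeS H R ↔ (x : G) ∈ R := by
  constructor
  · rintro ⟨y, hy, hyx⟩
    have h1 : y⁻¹ * x ∈ H.subgroupOf (Subgroup.normalizer (H : Set G)) := by
      exact QuotientGroup.eq.mp hyx
    have h2 : ((y : G))⁻¹ * x ∈ H := by
      rw [Subgroup.mem_subgroupOf] at h1
      simpa using h1
    have h3 : (y : G) ∈ R := Subgroup.mem_subgroupOf.mp hy
    have h4 := R.mul_mem h3 (hHR h2)
    simpa using h4
  · intro hx
    exact ⟨x, Subgroup.mem_subgroupOf.mpr hx, rfl⟩

theorem le_tildeS_iff {R : Subgroup G} (hHR : H ≤ R) (U : Subgroup ((Subgroup.normalizer (H : Set G)) ⧸ (H.subgroupOf (Subgroup.normalizer (H : Set G))))) :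
    U ≤ tildeS H R ↔ starS H U ≤ R := by
  constructor
  · intro h x hx
    obtain ⟨h1, h2⟩ := mem_starS.mp hx
    exact (mem_tildeS hHR ⟨x, h1⟩).mp (h h2)
  · intro h u hu
    obtain ⟨x, rfl⟩ := QuotientGroup.mk'_surjective _ u
    rw [mem_tildeS hHR]
    exact h (mem_starS.mpr ⟨x.2, hu⟩)

theorem starS_tildeS_le {R : Subgroup G} (hHR : H ≤ R) : starS H (tildeS H R) ≤ R :=
  (le_tildeS_iff hHR _).mp le_rfl

theorem tildeS_mono {R R' : Subgroup G} (h : R ≤ R') : tildeS H R ≤ tildeS H R' := by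
  rintro _ ⟨y, hy, rfl⟩
  exact ⟨y, Subgroup.mem_subgroupOf.mpr (h (Subgroup.mem_subgroupOf.mp hy)), rfl⟩

theorem tildeS_isPGroup {R : Subgroup G} (hR : IsPGroup p R) : IsPGroup p (tildeS H R) := by
  have : IsPGroup p (R.subgroupOf (Subgroup.normalizer (H : Set G))) := by
    have hinj : Function.Injective (fun x : R.subgroupOf (Subgroup.normalizer (H : Set G)) =>
        (⟨(x : (Subgroup.normalizer (H : Set G))), Subgroup.mem_subgroupOf.mp x.2⟩ : R)) := by
      intro a b h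
      have h2 := congrArg Subtype.val h
      exact Subtype.ext (Subtype.ext h2)
    exact IsPGroup.of_injective hR (MonoidHom.mk' _ (fun _ _ => rfl)) hinj
  exact this.map _

/-- transfer of subnormalizers to `N/H`. -/
theorem sn_starS_iff [Fact p.Prime] (hH : IsPGroup p H)
    (U : Subgroup ((Subgroup.normalizer (H : Set G)) ⧸ (H.subgroupOf (Subgroup.normalizer (H : Set G)))))
    (g : Subgroup.normalizer (H : Set G)) :
    Sn p (starS H U) (g : G) ↔ Sn p U (piN H g) := by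
  constructor
  · rintro ⟨R, hR, hUR, hg⟩
    have hHR : H ≤ R := le_trans (le_starS U) hUR
    refine ⟨tildeS H R, tildeS_isPGroup hR, (le_tildeS_iff hHR U).mpr hUR, ?_⟩
    rw [Subgroup.mem_normalizer_iff]
    intro y
    obtain ⟨x, rfl⟩ := QuotientGroup.mk'_surjective _ y
    have h1 : piN H g * piN H x * (piN H g)⁻¹ = piN H (g * x * g⁻¹) := by
      simp [map_mul, map_inv]
    change piN H x ∈ tildeS H R ↔ piN H g * piN H x * (piN H g)⁻¹ ∈ tildeS H R
    rw [h1, mem_tildeS hHR, mem_tildeS hHR]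
    exact Subgroup.mem_normalizer_iff.mp hg x
  · rintro ⟨R, hR, hUR, hg⟩
    haveI := ‹Fact p.Prime›
    refine ⟨starS H R, starS_isPGroup hH hR, starS_mono hUR, ?_⟩
    rw [Subgroup.mem_normalizer_iff]
    intro x
    constructor
    · intro hx
      obtain ⟨h1, h2⟩ := mem_starS.mp hx
      have hgn : (g : G) * x * (g : G)⁻¹ ∈ Subgroup.normalizer (H : Set G) :=
        Subgroup.mul_mem _ (Subgroup.mul_mem _ g.2 h1) (Subgroup.inv_mem _ g.2)
      refine mem_starS.mpr ⟨hgn, ?_⟩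
      have h3 : piN H ⟨(g : G) * x * (g : G)⁻¹, hgn⟩ = piN H g * piN H ⟨x, h1⟩ * (piN H g)⁻¹ := by
        rw [← map_inv, ← map_mul, ← map_mul]
        rfl
      rw [h3]
      exact (Subgroup.mem_normalizer_iff.mp hg _).mp h2
    · intro hx
      obtain ⟨h1, h2⟩ := mem_starS.mp hx
      have hgn : x ∈ Subgroup.normalizer (H : Set G) := by
        have := Subgroup.mul_mem _ (Subgroup.mul_mem _ (Subgroup.inv_mem _ g.2) h1) g.2
        simpa [mul_assoc] using this
      refine mem_starS.mpr ⟨hgn, ?_⟩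
      have h3 : piN H ⟨(g : G) * x * (g : G)⁻¹, h1⟩ = piN H g * piN H ⟨x, hgn⟩ * (piN H g)⁻¹ := by
        rw [← map_inv, ← map_mul, ← map_mul]
        rfl
      rw [h3] at h2
      exact (Subgroup.mem_normalizer_iff.mp hg _).mpr h2

/-- In a `p`-group, a proper subgroup has a bigger normalizer. -/
theorem tildeS_ne_bot [Finite G] [Fact p.Prime] {R : Subgroup G} (hR : IsPGroup p R) (hHR : H < R) :
    tildeS H R ≠ ⊥ := by
  haveI : Group.IsNilpotent R := hR.isNilpotent
  have hcond := normalizerCondition_of_isNilpotent (G := R)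
  have hlt : H.subgroupOf R < ⊤ := by
    rw [lt_top_iff_ne_top]
    intro h
    apply absurd hHR.2
    rw [not_not]
    exact Subgroup.subgroupOf_eq_top.mp h
  have h1 := hcond _ hlt
  obtain ⟨x, hx1, hx2⟩ := SetLike.exists_of_lt h1
  have hxH : (x : G) ∉ H := fun h => hx2 (Subgroup.mem_subgroupOf.mpr h)
  have hxN : (x : G) ∈ Subgroup.normalizer (H : Set G) := by
    rw [Subgroup.mem_normalizer_iff]
    intro h
    constructor
    · intro hh
      have hhR : h ∈ R := hHR.1 hh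
      have := (Subgroup.mem_normalizer_iff.mp hx1 ⟨h, hhR⟩).mp (Subgroup.mem_subgroupOf.mpr hh)
      exact Subgroup.mem_subgroupOf.mp this
    · intro hh
      have hhR : h ∈ R := by
        have h2 := R.mul_mem (R.mul_mem (R.inv_mem x.2) (hHR.1 hh)) x.2
        simpa [mul_assoc] using h2
      have := (Subgroup.mem_normalizer_iff.mp hx1 ⟨h, hhR⟩).mpr (Subgroup.mem_subgroupOf.mpr hh)
      exact Subgroup.mem_subgroupOf.mp this
  intro hbot
  have h2 : piN H ⟨x, hxN⟩ ∈ tildeS H R := (mem_tildeS hHR.1 ⟨x, hxN⟩).mpr x.2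
  rw [hbot, Subgroup.mem_bot, QuotientGroup.mk'_apply, QuotientGroup.eq_one_iff] at h2
  exact hxH h2

end Quot

end Cfsg.Agent.H19
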