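import Mathlib
import Cfsg.Agent.Lib.H19.Subnorm2

/-!
Casolo's count of the subnormalizer of a `p`-subgroup: the induction.
-/

set_option autoImplicit false

namespace Cfsg.Agent.H19

open Cfsg
open scoped Classical

universe u

theorem card_subtype_eq_sum {α : Type*} [Fintype α] (P : α → Prop) :
    (Nat.card {x // P x} : ℤ) = ∑ x, if P x then (1 : ℤ) else 0 := by
  rw [Nat.card_eq_fintype_card, Fintype.card_subtype, Finset.card_filter]
  push_cast
  rfl

section Step

variable {G : Type u} [Group G] [Finite G] {p : ℕ} [hp : Fact p.Prime]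

variable (H : Subgroup G) (hH : IsPGroup p H)

include hH in
theorem closure_sum_eq_zero
    [Fintype (Subgroup ((Subgroup.normalizer (H : Set G)) ⧸ (H.subgroupOf (Subgroup.normalizer (H : Set G)))))]
    (μ : Subgroup ((Subgroup.normalizer (H : Set G)) ⧸ (H.subgroupOf (Subgroup.normalizer (H : Set G)))) → ℤ)
    (hμ : ∀ A : Subgroup ((Subgroup.normalizer (H : Set G)) ⧸ (H.subgroupOf (Subgroup.normalizer (H : Set G)))), A ≠ ⊥ →
      ∑ U ∈ Finset.univ.filter (fun U => U ≤ A), μ U = 0)
    (g : G) (hg : g ∉ Subgroup.normalizer (H : Set G)) :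
    ∑ U ∈ (Finset.univ.filter (fun U : Subgroup ((Subgroup.normalizer (H : Set G)) ⧸ (H.subgroupOf (Subgroup.normalizer (H : Set G)))) => IsPGroup p U)).filter
      (fun U => Sn p (starS H U) g), μ U = 0 := by
  set 𝒜 := (Finset.univ.filter (fun U : Subgroup ((Subgroup.normalizer (H : Set G)) ⧸ (H.subgroupOf (Subgroup.normalizer (H : Set G)))) => IsPGroup p U)).filter
      (fun U => Sn p (starS H U) g) with h𝒜
  have hmem : ∀ U, U ∈ 𝒜 ↔ IsPGroup p U ∧ Sn p (starS H U) g := by
    intro U
    simp [h𝒜]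
  by_cases hSn : Sn p H g
  · -- the smallest `g`-invariant `p`-subgroup above `H`
    let F : Set (Subgroup G) := {R | IsPGroup p R ∧ H ≤ R ∧ g ∈ Subgroup.normalizer (R : Set G)}
    set Rg : Subgroup G := sInf F with hRg
    have hRgle : ∀ R ∈ F, Rg ≤ R := fun R hR => sInf_le hR
    have hHRg : H ≤ Rg := le_sInf (fun R hR => hR.2.1)
    obtain ⟨R0, hR0⟩ := hSn
    have hRgp : IsPGroup p Rg := IsPGroup.to_le hR0.1 (hRgle R0 hR0)
    have hgRg : g ∈ Subgroup.normalizer (Rg : Set G) := by
      rw [Subgroup.mem_normalizer_iff]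
      intro x
      simp only [SetLike.mem_coe, hRg, Subgroup.mem_sInf]
      constructor
      · intro h R hR
        exact (Subgroup.mem_normalizer_iff.mp hR.2.2 x).mp (h R hR)
      · intro h R hR
        exact (Subgroup.mem_normalizer_iff.mp hR.2.2 x).mpr (h R hR)
    have hlt : H < Rg := by
      refine lt_of_le_of_ne hHRg ?_
      intro h
      apply hg
      rw [h]
      exact hgRg
    set A := tildeS H Rg with hA
    have hAne : A ≠ ⊥ := tildeS_ne_bot hRgp hlt
    have hAp : IsPGroup p A := tildeS_isPGroup hRgp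
    have hA𝒜 : A ∈ 𝒜 := by
      rw [hmem]
      exact ⟨hAp, Rg, hRgp, starS_tildeS_le hHRg, hgRg⟩
    apply mobius_closure μ hμ 𝒜 _ A hA𝒜 hAne
    · intro U hU
      rw [hmem] at hU ⊢
      obtain ⟨_, R, hR, hUR, hgR⟩ := hU
      have hHR : H ≤ R := le_trans (le_starS U) hUR
      have hRF : R ∈ F := ⟨hR, hHR, hgR⟩
      have hTp : IsPGroup p (tildeS H R) := tildeS_isPGroup hR
      have hU1 : U ≤ tildeS H R := (le_tildeS_iff hHR U).mpr hUR
      have hA1 : A ≤ tildeS H R := tildeS_mono (hRgle R hRF)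
      have hsup : U ⊔ A ≤ tildeS H R := sup_le hU1 hA1
      exact ⟨IsPGroup.to_le hTp hsup, R, hR, (le_tildeS_iff hHR _).mp hsup, hgR⟩
    · intro U hU V hVU
      rw [hmem] at hU ⊢
      obtain ⟨hUp, R, hR, hUR, hgR⟩ := hU
      exact ⟨IsPGroup.to_le hUp hVU, R, hR, le_trans (starS_mono hVU) hUR, hgR⟩
  · have : 𝒜 = ∅ := by
      apply Finset.eq_empty_of_forall_notMem
      intro U hU
      rw [hmem] at hU
      obtain ⟨_, R, hR, hUR, hgR⟩ := hU
      exact hSn ⟨R, hR, le_trans (le_starS U) hUR, hgR⟩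
    rw [this, Finset.sum_empty]

/-- abbreviation for the induction statement -/
def CountStmt (p : ℕ) (X : Type u) [Group X] (T : Subgroup X) : Prop :=
  (Nat.card {g : X // Sn p T g} : ℤ) * Nat.card (Sylow p X) =
    (Nat.card {Q : Sylow p X // T ≤ (Q : Subgroup X)} : ℤ) * Nat.card X

/-- sums along a surjective homomorphism -/
theorem sum_comp_surj {A B : Type*} [Group A] [Group B] [Fintype A] [Fintype B] (φ : A →* B)
    (hφ : Function.Surjective φ) (f : B → ℤ) :
    ∑ a, f (φ a) = ((Finset.univ.filter (fun a => φ a = 1)).card : ℤ) * ∑ b, f b := by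
  rw [← Finset.sum_fiberwise (s := Finset.univ) (g := φ), Finset.mul_sum]
  apply Finset.sum_congr rfl
  intro b _
  have h1 : ∑ a ∈ Finset.univ.filter (fun a => φ a = b), f (φ a) =
      ∑ a ∈ Finset.univ.filter (fun a => φ a = b), f b :=
    Finset.sum_congr rfl (fun a ha => by rw [(Finset.mem_filter.mp ha).2])
  rw [h1, Finset.sum_const, nsmul_eq_mul]
  congr 2
  exact MonoidHom.card_fiber_eq_of_mem_range φ (hφ b) (hφ 1)

include hH in
theorem count_step (hbot : H ≠ ⊥) (hnS : ∀ Q : Sylow p G, H ≠ (Q : Subgroup G))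
    (IHY : ∀ U : Subgroup ((Subgroup.normalizer (H : Set G)) ⧸ (H.subgroupOf (Subgroup.normalizer (H : Set G)))),
      IsPGroup p U → CountStmt p _ U)
    (IHG : ∀ H' : Subgroup G, H < H' → IsPGroup p H' → CountStmt p G H') :
    CountStmt p G H := by
  classical
  letI : Fintype G := Fintype.ofFinite G
  letI : Fintype (Sylow p G) := Fintype.ofFinite _
  letI : Fintype ((Subgroup.normalizer (H : Set G))) := Fintype.ofFinite _
  letI : Fintype ((Subgroup.normalizer (H : Set G)) ⧸ (H.subgroupOf (Subgroup.normalizer (H : Set G)))) := Fintype.ofFinite _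
  letI : Fintype (Subgroup ((Subgroup.normalizer (H : Set G)) ⧸ (H.subgroupOf (Subgroup.normalizer (H : Set G))))) := Fintype.ofFinite _
  letI : Fintype (Sylow p ((Subgroup.normalizer (H : Set G)) ⧸ (H.subgroupOf (Subgroup.normalizer (H : Set G))))) := Fintype.ofFinite _
  obtain ⟨μ, hμ1, hμ⟩ := exists_mobius (Y := (Subgroup.normalizer (H : Set G)) ⧸ (H.subgroupOf (Subgroup.normalizer (H : Set G))))
  obtain ⟨PS, hPSmem⟩ : ∃ PS : Finset (Subgroup ((Subgroup.normalizer (H : Set G)) ⧸ (H.subgroupOf (Subgroup.normalizer (H : Set G))))),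
      ∀ U, U ∈ PS ↔ IsPGroup p U :=
    ⟨Finset.univ.filter (fun U => IsPGroup p U), fun U => by simp⟩
  -- sums over `p`-subgroups below a `p`-subgroup
  have hsumle : ∀ A : Subgroup ((Subgroup.normalizer (H : Set G)) ⧸ (H.subgroupOf (Subgroup.normalizer (H : Set G)))), IsPGroup p A → A ≠ ⊥ → ∀ (c : ℤ),
      ∑ U ∈ PS, μ U * (if U ≤ A then c else 0) = 0 := by
    intro A hAp hAne c
    have hset : PS.filter (fun U => U ≤ A) = Finset.univ.filter (fun U => U ≤ A) := by
      ext U
      simp only [Finset.mem_filter, hPSmem, Finset.mem_univ, true_and]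
      exact ⟨fun h => h.2, fun h => ⟨IsPGroup.to_le hAp h, h⟩⟩
    have h1 : ∑ U ∈ PS, μ U * (if U ≤ A then c else 0) =
        ∑ U ∈ PS.filter (fun U => U ≤ A), (μ U * c) := by
      rw [Finset.sum_filter]
      apply Finset.sum_congr rfl
      intro U _
      split_ifs <;> simp
    rw [h1, hset, ← Finset.sum_mul, hμ A hAne, zero_mul]
  -- the Sylow side
  have hSumB : ∑ U ∈ PS, μ U * (Nat.card {Q : Sylow p G // starS H U ≤ (Q : Subgroup G)} : ℤ) = 0 := by
    simp_rw [card_subtype_eq_sum, Finset.mul_sum]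
    rw [Finset.sum_comm]
    apply Finset.sum_eq_zero
    intro Q _
    by_cases hHQ : H ≤ (Q : Subgroup G)
    · have hlt : H < (Q : Subgroup G) := lt_of_le_of_ne hHQ (hnS Q)
      have hne := tildeS_ne_bot (p := p) Q.isPGroup' hlt
      have h1 := hsumle _ (tildeS_isPGroup Q.isPGroup') hne 1
      refine Eq.trans (Finset.sum_congr rfl ?_) h1
      intro U _
      simp only [le_tildeS_iff hHQ U]
    · apply Finset.sum_eq_zero
      intro U _
      rw [if_neg (fun h => hHQ (le_trans (le_starS U) h)), mul_zero]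
  -- `p` divides the order of `N/H`
  have hdvd : p ∣ Nat.card ((Subgroup.normalizer (H : Set G)) ⧸ (H.subgroupOf (Subgroup.normalizer (H : Set G)))) := by
    obtain ⟨Q, hQ⟩ := hH.exists_le_sylow
    have hlt : H < (Q : Subgroup G) := lt_of_le_of_ne hQ (hnS Q)
    have hne := tildeS_ne_bot (p := p) Q.isPGroup' hlt
    have hAp := tildeS_isPGroup (H := H) Q.isPGroup'
    obtain ⟨k, hk⟩ := IsPGroup.iff_card.mp hAp
    have hk0 : k ≠ 0 := by
      rintro rfl
      apply hne
      rw [pow_zero] at hk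
      exact Subgroup.card_eq_one.mp hk
    have h1 : p ∣ Nat.card (tildeS H (Q : Subgroup G)) := by
      rw [hk]; exact dvd_pow_self p hk0
    exact h1.trans (Subgroup.card_subgroup_dvd_card _)
  -- the local side
  have hSumY : ∑ U ∈ PS, μ U * (Nat.card {y : (Subgroup.normalizer (H : Set G)) ⧸ (H.subgroupOf (Subgroup.normalizer (H : Set G))) // Sn p U y} : ℤ) = 0 := by
    have hn : (Nat.card (Sylow p ((Subgroup.normalizer (H : Set G)) ⧸ (H.subgroupOf (Subgroup.normalizer (H : Set G))))) : ℤ) ≠ 0 := by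
      exact_mod_cast (Nat.card_pos (α := Sylow p ((Subgroup.normalizer (H : Set G)) ⧸ (H.subgroupOf (Subgroup.normalizer (H : Set G)))))).ne'
    apply (mul_eq_zero.mp _).resolve_right hn
    rw [Finset.sum_mul]
    have h1 : ∀ U ∈ PS, μ U * (Nat.card {y : (Subgroup.normalizer (H : Set G)) ⧸ (H.subgroupOf (Subgroup.normalizer (H : Set G))) // Sn p U y} : ℤ) *
        (Nat.card (Sylow p ((Subgroup.normalizer (H : Set G)) ⧸ (H.subgroupOf (Subgroup.normalizer (H : Set G))))) : ℤ) =
        (Nat.card ((Subgroup.normalizer (H : Set G)) ⧸ (H.subgroupOf (Subgroup.normalizer (H : Set G)))) : ℤ) * (μ U * (Nat.card {Q : Sylow p ((Subgroup.normalizer (H : Set G)) ⧸ (H.subgroupOf (Subgroup.normalizer (H : Set G)))) // U ≤ (Q : Subgroup _)} : ℤ)) := by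
      intro U hU
      have h2 := IHY U ((hPSmem U).mp hU)
      unfold CountStmt at h2
      rw [mul_assoc, h2]
      ring
    rw [Finset.sum_congr rfl h1, ← Finset.mul_sum]
    apply mul_eq_zero_of_right
    simp_rw [card_subtype_eq_sum, Finset.mul_sum]
    rw [Finset.sum_comm]
    apply Finset.sum_eq_zero
    intro Q _
    exact hsumle _ Q.isPGroup' (Q.ne_bot_of_dvd_card hdvd) 1
  have hSumA : ∑ U ∈ PS, μ U * (Nat.card {g : G // Sn p (starS H U) g} : ℤ) = 0 := by
    simp_rw [card_subtype_eq_sum, Finset.mul_sum]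
    rw [Finset.sum_comm]
    rw [← Fintype.sum_subtype_add_sum_subtype (fun g : G => g ∈ Subgroup.normalizer (H : Set G))]
    have h2 : ∑ g : {g : G // ¬ g ∈ Subgroup.normalizer (H : Set G)},
        ∑ U ∈ PS, μ U * (if Sn p (starS H U) (g : G) then (1 : ℤ) else 0) = 0 := by
      apply Finset.sum_eq_zero
      intro g _
      have h3 := closure_sum_eq_zero H hH μ hμ (g : G) g.2
      have hPSeq : PS = Finset.univ.filter (fun U : Subgroup ((Subgroup.normalizer (H : Set G)) ⧸ (H.subgroupOf (Subgroup.normalizer (H : Set G)))) => IsPGroup p U) := by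
        ext U
        simp [hPSmem]
      rw [← hPSeq, Finset.sum_filter] at h3
      refine Eq.trans (Finset.sum_congr rfl ?_) h3
      intro U _
      split_ifs <;> simp
    rw [h2, add_zero]
    have h3 : ∀ n : {g : G // g ∈ Subgroup.normalizer (H : Set G)},
        ∑ U ∈ PS, μ U * (if Sn p (starS H U) (n : G) then (1 : ℤ) else 0) =
        (fun y => ∑ U ∈ PS, μ U * (if Sn p U y then (1 : ℤ) else 0)) (piN H n) := by
      intro n
      apply Finset.sum_congr rfl
      intro U _
      congr 1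
      simp only [sn_starS_iff hH U n]
    rw [Finset.sum_congr rfl (fun n _ => h3 n)]
    have h4 := sum_comp_surj (piN H) (QuotientGroup.mk'_surjective _)
      (fun y => ∑ U ∈ PS, μ U * (if Sn p U y then (1 : ℤ) else 0))
    refine Eq.trans (by congr!) (Eq.trans h4 ?_)
    apply mul_eq_zero_of_right
    rw [Finset.sum_comm]
    have h5 := hSumY
    simp_rw [card_subtype_eq_sum, Finset.mul_sum] at h5
    exact h5
  -- conclusion
  have hD : ∑ U ∈ PS, μ U * ((Nat.card {g : G // Sn p (starS H U) g} : ℤ) * Nat.card (Sylow p G) -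
      (Nat.card {Q : Sylow p G // starS H U ≤ (Q : Subgroup G)} : ℤ) * Nat.card G) = 0 := by
    have h1 : ∀ U ∈ PS, μ U * ((Nat.card {g : G // Sn p (starS H U) g} : ℤ) * Nat.card (Sylow p G) -
        (Nat.card {Q : Sylow p G // starS H U ≤ (Q : Subgroup G)} : ℤ) * Nat.card G) =
        (Nat.card (Sylow p G) : ℤ) * (μ U * (Nat.card {g : G // Sn p (starS H U) g} : ℤ)) -
        (Nat.card G : ℤ) * (μ U * (Nat.card {Q : Sylow p G // starS H U ≤ (Q : Subgroup G)} : ℤ)) := by
      intro U _
      ring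
    rw [Finset.sum_congr rfl h1, Finset.sum_sub_distrib, ← Finset.mul_sum, ← Finset.mul_sum, hSumA,
      hSumB]
    simp
  have hbotmem : (⊥ : Subgroup ((Subgroup.normalizer (H : Set G)) ⧸ (H.subgroupOf (Subgroup.normalizer (H : Set G))))) ∈ PS := by
    rw [hPSmem]
    exact IsPGroup.of_card (n := 0) (by simp)
  rw [Finset.sum_eq_single_of_mem _ hbotmem] at hD
  · rw [hμ1, one_mul, starS_bot, sub_eq_zero] at hD
    exact hD
  · intro U hU hne
    have hUp := (hPSmem U).mp hU
    have hlt : H < starS H U := by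
      refine lt_of_le_of_ne (le_starS U) ?_
      intro h
      apply hne
      rw [eq_bot_iff]
      intro u hu
      obtain ⟨x, rfl⟩ := QuotientGroup.mk'_surjective _ u
      have h1 : (x : G) ∈ starS H U := mem_starS.mpr ⟨x.2, hu⟩
      rw [← h] at h1
      rw [Subgroup.mem_bot, QuotientGroup.mk'_apply, QuotientGroup.eq_one_iff]
      exact h1
    have h2 := IHG _ hlt (starS_isPGroup hH hUp)
    unfold CountStmt at h2
    rw [h2, sub_self, mul_zero]

end Step

variable {G : Type u} [Group G] [Finite G] {p : ℕ} [hp : Fact p.Prime]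

theorem count_bot : CountStmt p G (⊥ : Subgroup G) := by
  unfold CountStmt
  have h1 : Nat.card {g : G // Sn p (⊥ : Subgroup G) g} = Nat.card G :=
    Nat.card_congr (Equiv.subtypeUnivEquiv (fun g =>
      ⟨⊥, IsPGroup.of_card (n := 0) (by simp), le_rfl, by
        rw [Subgroup.mem_normalizer_iff]
        intro x
        simp⟩))
  have h2 : Nat.card {Q : Sylow p G // (⊥ : Subgroup G) ≤ (Q : Subgroup G)} = Nat.card (Sylow p G) :=
    Nat.card_congr (Equiv.subtypeUnivEquiv (fun Q => bot_le))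
  rw [h1, h2, mul_comm]

theorem count_sylow (Q : Sylow p G) : CountStmt p G (Q : Subgroup G) := by
  unfold CountStmt
  have h1 : Nat.card {g : G // Sn p (Q : Subgroup G) g} =
      Nat.card (Subgroup.normalizer ((Q : Subgroup G) : Set G)) := by
    apply Nat.card_congr
    apply Equiv.subtypeEquivRight
    intro g
    constructor
    · rintro ⟨R, hR, hQR, hg⟩
      have : R = (Q : Subgroup G) := Q.is_maximal' hR hQR
      rwa [this] at hg
    · intro hg
      exact ⟨Q, Q.isPGroup', le_rfl, hg⟩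
  have h2 : Nat.card {Q' : Sylow p G // (Q : Subgroup G) ≤ (Q' : Subgroup G)} = 1 := by
    rw [Nat.card_eq_one_iff_unique]
    refine ⟨⟨fun a b => ?_⟩, ⟨⟨Q, le_rfl⟩⟩⟩
    apply Subtype.ext
    apply Sylow.ext
    have e1 := Q.is_maximal' a.1.isPGroup' a.2
    have e2 := Q.is_maximal' b.1.isPGroup' b.2
    exact e1.trans e2.symm
  have h3 := Q.card_eq_index_normalizer
  have h4 := (Subgroup.normalizer ((Q : Subgroup G) : Set G)).card_mul_index
  rw [h1, h2, h3]
  norm_cast
  rw [one_mul]
  exact h4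

theorem count_main (p : ℕ) [hp : Fact p.Prime] : ∀ (n : ℕ) (G : Type u) [Group G] [Finite G],
    Nat.card G = n → ∀ H : Subgroup G, IsPGroup p H → CountStmt p G H := by
  intro n
  induction n using Nat.strong_induction_on with
  | _ n IH =>
  intro G _ _ hn H
  refine (wellFounded_gt (α := Subgroup G)).induction
    (C := fun H => IsPGroup p H → CountStmt p G H) H ?_
  intro H ih hH
  by_cases hbot : H = ⊥
  · rw [hbot]; exact count_bot
  by_cases hS : ∃ Q : Sylow p G, H = (Q : Subgroup G)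
  · obtain ⟨Q, rfl⟩ := hS
    exact count_sylow Q
  push_neg at hS
  refine count_step H hH hbot hS ?_ (fun H' hlt hp' => ih H' hlt hp')
  intro U hU
  refine IH _ ?_ _ rfl U hU
  have h1 := Subgroup.card_eq_card_quotient_mul_card_subgroup
    (H.subgroupOf (Subgroup.normalizer (H : Set G)))
  have h2 : Nat.card (H.subgroupOf (Subgroup.normalizer (H : Set G))) = Nat.card H :=
    Nat.card_congr (Subgroup.subgroupOfEquivOfLe Subgroup.le_normalizer).toEquiv
  rw [h2] at h1
  have h3 : 1 < Nat.card H := by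
    rw [Subgroup.one_lt_card_iff_ne_bot]
    exact hbot
  have h4 : Nat.card (Subgroup.normalizer (H : Set G)) ≤ Nat.card G :=
    Subgroup.card_le_card_group _
  have h5 : 0 < Nat.card ((Subgroup.normalizer (H : Set G)) ⧸ (H.subgroupOf (Subgroup.normalizer (H : Set G)))) :=
    Nat.card_pos
  rw [← hn]
  nlinarith

theorem card_of_fibers {T B : Type*} [Finite T] [Finite B] (f : T → B) (c : ℕ)
    (h : ∀ b, Nat.card {t // f t = b} = c) : Nat.card T = Nat.card B * c := by
  letI := Fintype.ofFinite B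
  rw [← Nat.card_congr (Equiv.sigmaFiberEquiv f), Nat.card_sigma]
  simp [h, Nat.card_eq_fintype_card]

theorem mem_inv_smul_sylow (Q : Sylow p G) (c y : G) :
    y ∈ ((c⁻¹ • Q : Sylow p G) : Subgroup G) ↔ c * y * c⁻¹ ∈ (Q : Subgroup G) := by
  rw [Sylow.coe_subgroup_smul, Subgroup.mem_pointwise_smul_iff_inv_smul_mem]
  simp [MulAut.smul_def]

/-- First double count. -/
theorem card_conj_in_sylow (H : Subgroup G) (P : Sylow p G) :
    Nat.card {x : G // H.map (MulAut.conj x).toMonoidHom ≤ (P : Subgroup G)} =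
      Nat.card {Q : Sylow p G // H ≤ (Q : Subgroup G)} *
        Nat.card (Subgroup.normalizer ((P : Subgroup G) : Set G)) := by
  classical
  have hmemT : ∀ x : G, H.map (MulAut.conj x).toMonoidHom ≤ (P : Subgroup G) ↔
      H ≤ ((x⁻¹ • P : Sylow p G) : Subgroup G) := by
    intro x
    constructor
    · intro h y hy
      rw [mem_inv_smul_sylow]
      exact h ⟨y, hy, rfl⟩
    · rintro h _ ⟨y, hy, rfl⟩
      exact (mem_inv_smul_sylow P x y).mp (h hy)
  refine card_of_fibers (fun x => (⟨x.1⁻¹ • P, (hmemT x.1).mp x.2⟩ :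
    {Q : Sylow p G // H ≤ (Q : Subgroup G)})) _ ?_
  rintro ⟨Q, hQ⟩
  obtain ⟨g, hg⟩ := MulAction.exists_smul_eq G P Q
  -- `Q = g • P`; the fibre is `N(P) g⁻¹`
  symm
  apply Nat.card_congr
  refine ⟨fun n => ⟨⟨(n : G) * g⁻¹, ?_⟩, ?_⟩, fun x => ⟨x.1.1 * g, ?_⟩, ?_, ?_⟩
  · rw [hmemT]
    have : (((n : G) * g⁻¹)⁻¹ • P : Sylow p G) = Q := by
      rw [mul_inv_rev, inv_inv, mul_smul]
      have h1 : ((n : G)⁻¹ • P : Sylow p G) = P :=
        Sylow.smul_eq_iff_mem_normalizer.mpr (Subgroup.inv_mem _ n.2)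
      rw [h1, hg]
    rw [this]; exact hQ
  · apply Subtype.ext
    change (((n : G) * g⁻¹)⁻¹ • P : Sylow p G) = Q
    rw [mul_inv_rev, inv_inv, mul_smul]
    have h1 : ((n : G)⁻¹ • P : Sylow p G) = P :=
      Sylow.smul_eq_iff_mem_normalizer.mpr (Subgroup.inv_mem _ n.2)
    rw [h1, hg]
  · have h0 : (x.1.1⁻¹ • P : Sylow p G) = Q := congrArg Subtype.val x.2
    have h1 : ((x.1.1 * g)⁻¹ • P : Sylow p G) = P := by
      rw [mul_inv_rev, mul_smul, h0, ← hg, inv_smul_smul]
    have := Sylow.smul_eq_iff_mem_normalizer.mp h1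
    have h2 := Subgroup.inv_mem _ this
    simpa using h2
  · intro n
    apply Subtype.ext
    simp
  · intro x
    apply Subtype.ext
    apply Subtype.ext
    simp

theorem map_conj_eq_of_mem_normalizer {H : Subgroup G} {n : G}
    (hn : n ∈ Subgroup.normalizer (H : Set G)) :
    H.map (MulAut.conj n).toMonoidHom = H := by
  ext y
  constructor
  · rintro ⟨h, hh, rfl⟩
    exact (Subgroup.mem_normalizer_iff.mp hn h).mp hh
  · intro hy
    have h1 : n⁻¹ * y * n ∈ H := by
      have h2 := (Subgroup.mem_normalizer_iff.mp hn (n⁻¹ * y * n)).mpr (by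
        have : n * (n⁻¹ * y * n) * n⁻¹ = y := by group
        simpa [this] using hy)
      exact h2
    exact ⟨_, h1, by simp [mul_assoc]⟩

theorem mem_normalizer_of_map_conj_eq {H : Subgroup G} {n : G}
    (hn : H.map (MulAut.conj n).toMonoidHom = H) : n ∈ Subgroup.normalizer (H : Set G) := by
  rw [Subgroup.mem_normalizer_iff]
  intro h
  constructor
  · intro hh
    have : n * h * n⁻¹ ∈ H.map (MulAut.conj n).toMonoidHom := ⟨h, hh, rfl⟩
    rwa [hn] at this
  · intro hh
    rw [← hn] at hh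
    obtain ⟨y, hy, hyh⟩ := hh
    have : y = h := by
      have h1 : n * y * n⁻¹ = n * h * n⁻¹ := hyh
      have h2 : n * y = n * h := mul_right_cancel h1
      exact mul_left_cancel h2
    rwa [this] at hy

/-- Second double count. -/
theorem card_conj_in_sylow' (H : Subgroup G) (P : Sylow p G) :
    Nat.card {x : G // H.map (MulAut.conj x).toMonoidHom ≤ (P : Subgroup G)} =
      Nat.card {K : Subgroup G // K ≤ (P : Subgroup G) ∧ ∃ g : G, K = H.map (MulAut.conj g).toMonoidHom} *
        Nat.card (Subgroup.normalizer (H : Set G)) := by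
  classical
  refine card_of_fibers (fun x => (⟨H.map (MulAut.conj x.1).toMonoidHom, x.2, x.1, rfl⟩ :
    {K : Subgroup G // K ≤ (P : Subgroup G) ∧ ∃ g : G, K = H.map (MulAut.conj g).toMonoidHom})) _ ?_
  rintro ⟨K, hKP, g, rfl⟩
  have hmap : ∀ u v : G, H.map (MulAut.conj (u * v)).toMonoidHom =
      (H.map (MulAut.conj v).toMonoidHom).map (MulAut.conj u).toMonoidHom := by
    intro u v
    rw [Subgroup.map_map]
    congr 1
    ext y
    simp [mul_assoc]
  symm
  apply Nat.card_congr
  refine ⟨fun n => ⟨⟨g * (n : G), ?_⟩, ?_⟩, fun x => ⟨g⁻¹ * x.1.1, ?_⟩, ?_, ?_⟩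
  · rw [hmap, map_conj_eq_of_mem_normalizer n.2]
    exact hKP
  · apply Subtype.ext
    change H.map (MulAut.conj (g * (n : G))).toMonoidHom = _
    rw [hmap, map_conj_eq_of_mem_normalizer n.2]
  · have h0 : H.map (MulAut.conj x.1.1).toMonoidHom = H.map (MulAut.conj g).toMonoidHom :=
      congrArg Subtype.val x.2
    apply mem_normalizer_of_map_conj_eq
    rw [hmap, h0, ← hmap]
    simp
    exact Subgroup.map_id H
  · intro n
    apply Subtype.ext
    simp
  · intro x
    apply Subtype.ext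
    apply Subtype.ext
    simp

end Cfsg.Agent.H19
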