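import Mathlib
import Cfsg.Agent.Lib.H19.Subnorm3
import Cfsg.Agent.Lib.H19.RankClass2

/-!
The subnormalizer in `p`-solvable groups.
-/

set_option autoImplicit false

namespace Cfsg.Agent.H19

open Cfsg
open scoped Classical Pointwise

universe u

variable {G : Type u} [Group G] [Finite G] {p : ℕ} [hp : Fact p.Prime]

omit hp [Finite G] in
theorem mem_of_pow_mem_of_coprime (L : Subgroup G) {y : G} {m : ℕ}
    (hc : m.Coprime (orderOf y)) (h : y ^ m ∈ L) : y ∈ L := by
  by_cases h1 : orderOf y = 1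
  · rw [orderOf_eq_one_iff] at h1
    rw [h1]; exact L.one_mem
  by_cases h0 : orderOf y = 0
  · rw [h0, Nat.coprime_zero_right] at hc
    rw [hc, pow_one] at h
    exact h
  obtain ⟨k, hk⟩ := Nat.exists_mul_mod_eq_one_of_coprime hc (by omega)
  have h2 : y = (y ^ m) ^ k := by
    rw [← pow_mul, ← pow_mod_orderOf y (m * k), hk.2, pow_one]
  rw [h2]
  exact L.pow_mem h k

variable (P : Sylow p G)

include P in
/-- `PL ∩ L' ≤ L` for a coprime factor. -/
theorem mem_of_mem_sup_of_coprime (L L' : Subgroup G) [hL : L.Normal]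
    (hc : (L.relIndex L').Coprime p) {t : G} (ht : t ∈ (P : Subgroup G) ⊔ L) (ht' : t ∈ L')
    (hLL' : L ≤ L') : t ∈ L := by
  have h1 : t ∈ (((P : Subgroup G) : Set G) * (L : Set G)) := by
    rw [← Subgroup.mul_normal]
    exact ht
  obtain ⟨a, ha, b, hb, rfl⟩ := h1
  have haL' : a ∈ L' := by
    have := L'.mul_mem ht' (L'.inv_mem (hLL' hb))
    simpa using this
  have haL : a ∈ L := by
    obtain ⟨k, hk⟩ := IsPGroup.iff_orderOf.mp P.isPGroup' ⟨a, ha⟩
    have hord : orderOf a = p ^ k := by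
      rw [← Subgroup.orderOf_mk a ha]
      exact hk
    apply mem_of_pow_mem_of_coprime L (m := L.relIndex L')
    · rw [hord]
      exact hc.pow_right k
    · exact Subgroup.pow_relIndex_mem L haL'
  exact L.mul_mem haL hb

/-- conjugating a `p`-subgroup of `PL'` into `P` by an element of `L'`. -/
theorem exists_conj_into (L' : Subgroup G) [hL' : L'.Normal] (K : Subgroup G) (hKp : IsPGroup p K)
    (hK : K ≤ (P : Subgroup G) ⊔ L') : ∃ l ∈ L', ∀ k ∈ K, l * k * l⁻¹ ∈ (P : Subgroup G) := by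
  set X := (P : Subgroup G) ⊔ L' with hX
  have hPX : (P : Subgroup G) ≤ X := le_sup_left
  let PX : Sylow p X := P.subtype hPX
  have hK' : IsPGroup p (K.subgroupOf X) := by
    have e : K.subgroupOf X ≃* K := Subgroup.subgroupOfEquivOfLe hK
    exact hKp.of_equiv e.symm
  obtain ⟨S, hS⟩ := hK'.exists_le_sylow
  obtain ⟨y, hy⟩ := MulAction.exists_smul_eq X S PX
  have h1 : (y : G) ∈ (((P : Subgroup G) : Set G) * (L' : Set G)) := by
    rw [← Subgroup.mul_normal]
    exact y.2
  obtain ⟨a, ha, l, hl, hal⟩ := h1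
  refine ⟨l, hl, ?_⟩
  intro k hk
  have hkS : (⟨k, hK hk⟩ : X) ∈ (S : Subgroup X) := hS (Subgroup.mem_subgroupOf.mpr hk)
  have h2 : y * ⟨k, hK hk⟩ * y⁻¹ ∈ (PX : Subgroup X) := by
    rw [← hy, Sylow.coe_subgroup_smul]
    exact ⟨_, hkS, rfl⟩
  have h3 : (y : G) * k * (y : G)⁻¹ ∈ (P : Subgroup G) := by
    have := h2
    rw [Sylow.coe_subtype, Subgroup.mem_subgroupOf] at this
    simpa using this
  have h4 : l * k * l⁻¹ = a⁻¹ * ((y : G) * k * (y : G)⁻¹) * a := by
    rw [← hal]; group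
  rw [h4]
  exact (P : Subgroup G).mul_mem ((P : Subgroup G).mul_mem ((P : Subgroup G).inv_mem ha) h3) ha

/-- the number of `x` with `H^x ≤ P L` -/
noncomputable def cCount (H : Subgroup G) (L : Subgroup G) : ℕ :=
  Nat.card {x : G // H.map (MulAut.conj x).toMonoidHom ≤ (P : Subgroup G) ⊔ L}

/-- the "centralizer" count -/
noncomputable def wCount (H L L' : Subgroup G) : ℕ :=
  Nat.card {u : G // u ∈ L' ∧ ∀ h ∈ H, h * u * h⁻¹ * u⁻¹ ∈ L}

theorem link_coprime (H : Subgroup G) (hH : IsPGroup p H) (L L' : Subgroup G) [hL : L.Normal]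
    [hL' : L'.Normal] (hLL' : L ≤ L') (hc : (L.relIndex L').Coprime p) :
    cCount P H L * Nat.card L' = cCount P H L' * wCount H L L' := by
  classical
  have hsup : (P : Subgroup G) ⊔ L ≤ (P : Subgroup G) ⊔ L' := sup_le_sup_left hLL' _
  -- the set of pairs
  let Q := {q : G × G // H.map (MulAut.conj q.1).toMonoidHom ≤ (P : Subgroup G) ⊔ L' ∧ q.2 ∈ L' ∧
    H.map (MulAut.conj (q.2 * q.1)).toMonoidHom ≤ (P : Subgroup G) ⊔ L}
  have hmapmul : ∀ (u v : G), H.map (MulAut.conj (u * v)).toMonoidHom =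
      (H.map (MulAut.conj v).toMonoidHom).map (MulAut.conj u).toMonoidHom := by
    intro u v
    rw [Subgroup.map_map]
    congr 1
    ext y
    simp [mul_assoc]
  have h1 : Nat.card Q = cCount P H L * Nat.card L' := by
    unfold cCount
    rw [← Nat.card_prod]
    apply Nat.card_congr
    refine ⟨fun q => (⟨q.1.2 * q.1.1, q.2.2.2⟩, ⟨q.1.2, q.2.2.1⟩),
      fun r => (⟨((r.2 : G)⁻¹ * (r.1 : G), (r.2 : G)), ?_, r.2.2, ?_⟩ : Q), ?_, ?_⟩
    · rw [hmapmul]
      rintro _ ⟨y, hy, rfl⟩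
      have hy' := hsup (r.1.2 hy)
      have hr : (r.2 : G)⁻¹ ∈ (P : Subgroup G) ⊔ L' := Subgroup.mem_sup_right (L'.inv_mem r.2.2)
      exact Subgroup.mul_mem _ (Subgroup.mul_mem _ hr hy') (Subgroup.inv_mem _ hr)
    · simpa using r.1.2
    · intro q
      apply Subtype.ext
      simp
    · intro r
      apply Prod.ext
      · apply Subtype.ext
        simp
      · rfl
  have h2 : Nat.card Q = cCount P H L' * wCount H L L' := by
    unfold cCount
    refine card_of_fibers (fun q : Q => (⟨q.1.1, q.2.1⟩ :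
      {x : G // H.map (MulAut.conj x).toMonoidHom ≤ (P : Subgroup G) ⊔ L'})) _ ?_
    rintro ⟨x, hx⟩
    have hKp : IsPGroup p (H.map (MulAut.conj x).toMonoidHom) := hH.map _
    obtain ⟨l, hl, hlk⟩ := exists_conj_into P L' _ hKp hx
    set z := l * x with hz
    have hzh : ∀ h ∈ H, z * h * z⁻¹ ∈ (P : Subgroup G) := by
      intro h hh
      have := hlk (x * h * x⁻¹) ⟨h, hh, rfl⟩
      have e : z * h * z⁻¹ = l * (x * h * x⁻¹) * l⁻¹ := by rw [hz]; group
      rw [e]; exact this
    have hzL' : ∀ v ∈ L', z * v * z⁻¹ ∈ L' := fun v hv => hL'.conj_mem v hv z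
    have hzL'i : ∀ v ∈ L', z⁻¹ * v * z ∈ L' := fun v hv => by
      have := hL'.conj_mem v hv z⁻¹
      simpa using this
    have hlx : l * x = z := rfl
    unfold wCount
    apply Nat.card_congr
    refine ⟨fun r => ⟨z⁻¹ * r.1.1.2 * l⁻¹ * z, ?_, ?_⟩, fun v => ⟨⟨(x, z * v.1 * z⁻¹ * l), hx, ?_, ?_⟩, ?_⟩, ?_, ?_⟩
    · have h1 : r.1.1.2 * l⁻¹ ∈ L' := L'.mul_mem r.1.2.2.1 (L'.inv_mem hl)
      have := hzL'i _ h1
      simpa [mul_assoc] using this
    · intro h hh
      set v := z⁻¹ * r.1.1.2 * l⁻¹ * z with hv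
      have hvL' : v ∈ L' := by
        have h1 : r.1.1.2 * l⁻¹ ∈ L' := L'.mul_mem r.1.2.2.1 (L'.inv_mem hl)
        have := hzL'i _ h1
        simpa [mul_assoc, hv] using this
      have hx1 : r.1.1.1 = x := congrArg Subtype.val r.2
      have hzv : z * v = r.1.1.2 * x := by
        rw [hv, hz]; group
      have h3 : (z * v) * h * (z * v)⁻¹ ∈ (P : Subgroup G) ⊔ L := by
        have := r.1.2.2.2 ⟨h, hh, rfl⟩
        rw [hx1] at this
        rw [hzv]
        have e : r.1.1.2 * x * h * (r.1.1.2 * x)⁻¹ = r.1.1.2 * (x * h * x⁻¹) * (r.1.1.2)⁻¹ := by group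
        rw [e]
        simpa using this
      have h4 : z * (v * h * v⁻¹ * h⁻¹) * z⁻¹ ∈ (P : Subgroup G) ⊔ L := by
        have e : z * (v * h * v⁻¹ * h⁻¹) * z⁻¹ =
            ((z * v) * h * (z * v)⁻¹) * (z * h * z⁻¹)⁻¹ := by group
        rw [e]
        exact Subgroup.mul_mem _ h3 (Subgroup.inv_mem _ (Subgroup.mem_sup_left (hzh h hh)))
      have hhL' : h * v⁻¹ * h⁻¹ ∈ L' := hL'.conj_mem _ (L'.inv_mem hvL') h
      have h5 : v * h * v⁻¹ * h⁻¹ ∈ L' := by
        have := L'.mul_mem hvL' hhL'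
        simpa [mul_assoc] using this
      have h6 : z * (v * h * v⁻¹ * h⁻¹) * z⁻¹ ∈ L := mem_of_mem_sup_of_coprime P L L' hc h4
        (hzL' _ h5) hLL'
      have h7 : v * h * v⁻¹ * h⁻¹ ∈ L := by
        have := hL.conj_mem _ h6 z⁻¹
        simpa [mul_assoc] using this
      have h8 := L.inv_mem h7
      have e : h * v * h⁻¹ * v⁻¹ = (v * h * v⁻¹ * h⁻¹)⁻¹ := by group
      rw [e]
      exact h8
    · exact L'.mul_mem (hzL' _ v.2.1) hl
    · have e : z * v.1 * z⁻¹ * l * x = z * v.1 := by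
        have : x = l⁻¹ * z := by rw [hz]; group
        rw [this]; group
      rw [e, hmapmul]
      rintro _ ⟨_, ⟨h, hh, rfl⟩, rfl⟩
      have hvh : (v.1 * h * v.1⁻¹ * h⁻¹) ∈ L := by
        have h1 := L.inv_mem (v.2.2 h hh)
        have e2 : h * v.1 * h⁻¹ * v.1⁻¹ = (v.1 * h * v.1⁻¹ * h⁻¹)⁻¹ := by group
        rw [e2, inv_inv] at h1
        exact h1
      have e3 : (MulAut.conj z).toMonoidHom ((MulAut.conj v.1).toMonoidHom h) =
          (z * (v.1 * h * v.1⁻¹ * h⁻¹) * z⁻¹) * (z * h * z⁻¹) := by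
        simp only [MulEquiv.coe_toMonoidHom, MulAut.conj_apply]
        group
      rw [e3]
      exact Subgroup.mul_mem _ (Subgroup.mem_sup_right (hL.conj_mem _ hvh z))
        (Subgroup.mem_sup_left (hzh h hh))
    · rfl
    · rintro ⟨⟨⟨a, u⟩, ha1, ha2, ha3⟩, ha4⟩
      have ha : a = x := congrArg Subtype.val ha4
      subst ha
      apply Subtype.ext
      apply Subtype.ext
      apply Prod.ext
      · rfl
      · simp only
        group
    · rintro ⟨v, hv1, hv2⟩
      apply Subtype.ext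
      simp only
      group
  rw [← h1, h2]

theorem link_pPower (H : Subgroup G) (L L' : Subgroup G) [hL : L.Normal]
    [hL' : L'.Normal] (hLL' : L ≤ L') {m : ℕ} (hm : L.relIndex L' = p ^ m) :
    cCount P H L * Nat.card L' = cCount P H L' * Nat.card L * L.relIndex L' := by
  have hle : L' ≤ (P : Subgroup G) ⊔ L := by
    let π := QuotientGroup.mk' L
    have hmapP : IsPGroup p (L'.map π) := by
      rintro ⟨_, l, hl, rfl⟩
      refine ⟨m, ?_⟩
      apply Subtype.ext
      have h1 : l ^ p ^ m ∈ L := by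
        rw [← hm]
        exact Subgroup.pow_relIndex_mem L hl
      change π l ^ p ^ m = 1
      rw [← map_pow]
      exact (QuotientGroup.eq_one_iff _).mpr h1
    haveI : (L'.map π).Normal := Subgroup.Normal.map hL' π (QuotientGroup.mk'_surjective L)
    have h2 := hmapP.le_sylow_of_normal (P.mapSurjective (QuotientGroup.mk'_surjective L))
    intro l hl
    have h3 : π l ∈ (P.mapSurjective (QuotientGroup.mk'_surjective L) : Subgroup _) :=
      h2 ⟨l, hl, rfl⟩
    rw [Sylow.coe_mapSurjective] at h3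
    obtain ⟨a, ha, hal⟩ := h3
    have h4 : a⁻¹ * l ∈ L := QuotientGroup.eq.mp hal
    have h5 : l = a * (a⁻¹ * l) := by group
    rw [h5]
    exact Subgroup.mul_mem _ (Subgroup.mem_sup_left ha) (Subgroup.mem_sup_right h4)
  have heq : (P : Subgroup G) ⊔ L' = (P : Subgroup G) ⊔ L :=
    le_antisymm (sup_le le_sup_left hle) (sup_le_sup_left hLL' _)
  have h1 : cCount P H L' = cCount P H L := by
    unfold cCount
    rw [heq]
  rw [h1, ← card_mul_relIndex_of_le hLL']
  ring

/-- the group of `u ∈ L'` centralising `H` modulo `L`. -/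
def wGroup (H L L' : Subgroup G) [hL : L.Normal] (hLL' : L ≤ L') : Subgroup G where
  carrier := {u : G | u ∈ L' ∧ ∀ h ∈ H, h * u * h⁻¹ * u⁻¹ ∈ L}
  one_mem' := by
    refine ⟨L'.one_mem, ?_⟩
    intro h _
    simp [L.one_mem]
  mul_mem' := by
    rintro a b ⟨ha, ha'⟩ ⟨hb, hb'⟩
    refine ⟨L'.mul_mem ha hb, ?_⟩
    intro h hh
    have e : h * (a * b) * h⁻¹ * (a * b)⁻¹ =
        (h * a * h⁻¹ * a⁻¹) * (a * (h * b * h⁻¹ * b⁻¹) * a⁻¹) := by group
    rw [e]
    exact L.mul_mem (ha' h hh) (hL.conj_mem _ (hb' h hh) a)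
  inv_mem' := by
    rintro a ⟨ha, ha'⟩
    refine ⟨L'.inv_mem ha, ?_⟩
    intro h hh
    have e : h * a⁻¹ * h⁻¹ * a⁻¹⁻¹ =
        a⁻¹ * (h * a * h⁻¹ * a⁻¹)⁻¹ * a⁻¹⁻¹ := by group
    rw [e]
    exact hL.conj_mem _ (L.inv_mem (ha' h hh)) a⁻¹

omit hp in
theorem card_dvd_wCount (H L L' : Subgroup G) [hL : L.Normal] (hLL' : L ≤ L') :
    Nat.card L ∣ wCount H L L' := by
  have hle : L ≤ wGroup H L L' hLL' := by
    intro u hu
    refine ⟨hLL' hu, ?_⟩
    intro h _
    have e : h * u * h⁻¹ * u⁻¹ = (h * u * h⁻¹) * u⁻¹ := rfl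
    rw [e]
    exact L.mul_mem (hL.conj_mem _ hu h) (L.inv_mem hu)
  have h1 := Subgroup.card_dvd_of_le hle
  have h2 : wCount H L L' = Nat.card (wGroup H L L' hLL') := rfl
  rw [h2]
  exact h1

/-- the chain computation. -/
theorem chain_count (H : Subgroup G) (hH : IsPGroup p H) :
    ∀ (n : ℕ) (M : Fin (n + 1) → Subgroup G), Monotone M → (∀ i, (M i).Normal) →
    (∀ i : Fin n, (∃ m : ℕ, (M i.castSucc).relIndex (M i.succ) = p ^ m) ∨
      ((M i.castSucc).relIndex (M i.succ)).Coprime p) →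
    ∃ a A : ℕ, A.Coprime p ∧ Nat.card (M (Fin.last n)) = Nat.card (M 0) * (p ^ a * A) ∧
      cCount P H (M 0) * A = cCount P H (M (Fin.last n)) *
        ∏ i : Fin n, (if ((M i.castSucc).relIndex (M i.succ)).Coprime p then
          Nat.card {u : G // u ∈ M i.succ ∧ ∀ h ∈ H, h * u * h⁻¹ * u⁻¹ ∈ M i.castSucc} /
            Nat.card (M i.castSucc)
          else 1) := by
  intro n
  induction n with
  | zero =>
    intro M _ _ _
    refine ⟨0, 1, Nat.coprime_one_left p, ?_, ?_⟩
    · have : Fin.last 0 = (0 : Fin 1) := rfl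
      simp [this]
    · have : Fin.last 0 = (0 : Fin 1) := rfl
      simp [this]
  | succ n ih =>
    intro M hmono hnormal hfac
    obtain ⟨a', A', hA', hcard', hcount'⟩ := ih (fun i => M i.succ)
      (fun i j hij => hmono (Fin.succ_le_succ_iff.mpr hij))
      (fun i => hnormal _)
      (fun i => by
        have := hfac i.succ
        rw [← Fin.succ_castSucc] at this
        exact this)
    haveI hN0 := hnormal 0
    haveI hN1 := hnormal 1
    have hle : M 0 ≤ M 1 := hmono (Fin.zero_le _)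
    have hcard0 : Nat.card (M 0) * (M 0).relIndex (M 1) = Nat.card (M 1) :=
      card_mul_relIndex_of_le hle
    have hpos0 : 0 < Nat.card (M 0) := Nat.card_pos
    have hcast : (0 : Fin n.succ).castSucc = (0 : Fin (n + 2)) := rfl
    have hsucc : (0 : Fin n.succ).succ = (1 : Fin (n + 2)) := rfl
    have hlast : (Fin.last n).succ = Fin.last (n + 1) := rfl
    have hzero' : (0 : Fin (n + 1)).succ = (1 : Fin (n + 2)) := rfl
    simp only [hlast, hzero'] at hcard' hcount'
    rw [Fin.prod_univ_succ]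
    have hprod : (∏ i : Fin n, (if ((M i.succ.castSucc).relIndex (M i.succ.succ)).Coprime p then
          Nat.card {u : G // u ∈ M i.succ.succ ∧ ∀ h ∈ H, h * u * h⁻¹ * u⁻¹ ∈ M i.succ.castSucc} /
            Nat.card (M i.succ.castSucc)
          else 1)) = ∏ i : Fin n, (if ((M i.castSucc.succ).relIndex (M i.succ.succ)).Coprime p then
          Nat.card {u : G // u ∈ M i.succ.succ ∧ ∀ h ∈ H, h * u * h⁻¹ * u⁻¹ ∈ M i.castSucc.succ} /
            Nat.card (M i.castSucc.succ)
          else 1) := by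
      apply Finset.prod_congr rfl
      intro i _
      rw [Fin.succ_castSucc]
    rw [hprod]
    rw [hcast, hsucc]
    by_cases hc : ((M 0).relIndex (M 1)).Coprime p
    · rw [if_pos hc]
      refine ⟨a', (M 0).relIndex (M 1) * A', Nat.Coprime.mul_left hc hA', ?_, ?_⟩
      · rw [hcard', ← hcard0]
        ring
      · have hl := link_coprime P H hH (M 0) (M 1) hle hc
        have hdvd := card_dvd_wCount H (M 0) (M 1) hle
        have hw : Nat.card {u : G // u ∈ M 1 ∧ ∀ h ∈ H, h * u * h⁻¹ * u⁻¹ ∈ M 0} =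
            wCount H (M 0) (M 1) := rfl
        rw [hw]
        obtain ⟨e, he⟩ := hdvd
        rw [he, Nat.mul_div_cancel_left _ hpos0]
        rw [he, ← hcard0] at hl
        have hl' : cCount P H (M 0) * (M 0).relIndex (M 1) = cCount P H (M 1) * e := by
          apply Nat.eq_of_mul_eq_mul_left hpos0
          linarith
        calc cCount P H (M 0) * ((M 0).relIndex (M 1) * A')
            = (cCount P H (M 0) * (M 0).relIndex (M 1)) * A' := by ring
          _ = cCount P H (M 1) * e * A' := by rw [hl']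
          _ = e * (cCount P H (M 1) * A') := by ring
          _ = _ := by rw [hcount']; ring
    · rw [if_neg hc]
      obtain ⟨m, hm⟩ : ∃ m : ℕ, (M 0).relIndex (M 1) = p ^ m := by
        rcases hfac 0 with h | h
        · exact h
        · exact absurd h hc
      refine ⟨a' + m, A', hA', ?_, ?_⟩
      · rw [hcard', ← hcard0, hm]
        ring
      · have hl := link_pPower P H (M 0) (M 1) hle hm
        have hr : 0 < (M 0).relIndex (M 1) := by
          rw [hm]
          exact pow_pos (hp.out.pos) m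
        have hpos1 : 0 < Nat.card (M 1) := Nat.card_pos
        have hl' : cCount P H (M 0) = cCount P H (M 1) := by
          apply Nat.eq_of_mul_eq_mul_right hpos1
          rw [hl, ← hcard0]
          ring
        rw [hl', hcount']
        ring

end Cfsg.Agent.H19
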