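import Mathlib
import Cfsg.Agent.Lib.H18.Syl

/-! Minimal supplements to normal subgroups (helper19). -/

set_option autoImplicit false

namespace Cfsg.Agent.H19

variable {G : Type*} [Group G]

/-- Existence of a minimal supplement. -/
theorem exists_minimal_supplement [Finite G] (N : Subgroup G) :
    ∃ H : Subgroup G, H ⊔ N = ⊤ ∧ ∀ L : Subgroup G, L ≤ H → L ⊔ N = ⊤ → L = H := by
  have hfin : ({L : Subgroup G | L ⊔ N = ⊤}).Finite := Set.toFinite _
  obtain ⟨H, hH⟩ := hfin.exists_minimal ⟨⊤, by simp⟩
  refine ⟨H, hH.prop, fun L hL hLN => le_antisymm hL ?_⟩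
  exact hH.le_of_le hLN hL

/-- In a minimal supplement `H` to the normal subgroup `N`, every prime dividing `|H ∩ N|` divides
the index of `N`. -/
theorem prime_dvd_index_of_minimal_supplement [Finite G] (N H : Subgroup G) [N.Normal]
    (hsup : H ⊔ N = ⊤) (hmin : ∀ L : Subgroup G, L ≤ H → L ⊔ N = ⊤ → L = H)
    {q : ℕ} (hq : q.Prime) (hd : q ∣ Nat.card (H ⊓ N : Subgroup G)) : q ∣ N.index := by
  classical
  haveI := Fact.mk hq
  by_contra hnd
  set K : Subgroup H := N.subgroupOf H with hK
  haveI hKn : K.Normal := Subgroup.normal_subgroupOf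
  have hKcard : Nat.card K = Nat.card (H ⊓ N : Subgroup G) := by
    rw [hK, H18.card_subgroupOf, inf_comm]
  have hKidx : K.index = N.index := by
    have h1 : K.index = N.relIndex H := rfl
    rw [h1, ← Subgroup.relIndex_sup_left, sup_comm, hsup, Subgroup.relIndex_top_right]
  -- key supplement fact
  have hsupp : ∀ L : Subgroup H, L ⊔ K = ⊤ → L = ⊤ := by
    intro L hL
    have hle : L.map H.subtype ≤ H := Subgroup.map_subtype_le L
    have hsup' : L.map H.subtype ⊔ N = ⊤ := by
      have h2 : H ≤ L.map H.subtype ⊔ N := by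
        intro h hh
        have : (⟨h, hh⟩ : H) ∈ L ⊔ K := by rw [hL]; exact Subgroup.mem_top _
        have h3 := Subgroup.mem_map_of_mem H.subtype this
        rw [Subgroup.map_sup] at h3
        have h4 : K.map H.subtype ≤ N := by
          rintro _ ⟨k, hk, rfl⟩
          exact hk
        exact (sup_le_sup_left h4 _) h3
      rw [eq_top_iff, ← hsup]
      exact sup_le h2 le_sup_right
    have hEq := hmin _ hle hsup'
    rw [eq_top_iff]
    intro x _
    have : (x : G) ∈ L.map H.subtype := by rw [hEq]; exact x.2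
    obtain ⟨y, hy, hyx⟩ := this
    have : y = x := Subtype.ext hyx
    rwa [← this]
  -- Sylow
  let Q : Sylow q K := default
  set Q' : Subgroup H := (Q : Subgroup K).map K.subtype with hQ'
  have hfrat : Subgroup.normalizer (Q' : Set H) ⊔ K = ⊤ := Sylow.normalizer_sup_eq_top Q
  have hnorm : Subgroup.normalizer (Q' : Set H) = ⊤ := hsupp _ hfrat
  haveI hQn : Q'.Normal := Subgroup.normalizer_eq_top_iff.mp hnorm
  have hQcard : Nat.card Q' = Nat.card Q :=
    Nat.card_congr ((Q : Subgroup K).equivMapOfInjective K.subtype K.subtype_injective).toEquiv.symm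
  have hQidx : Q'.index = (Q : Subgroup K).index * K.index := Subgroup.index_map_subtype _
  have hnd2 : ¬ q ∣ (Q : Subgroup K).index := Q.not_dvd_index
  have hcopidx : ¬ q ∣ Q'.index := by
    rw [hQidx, hKidx]
    intro h
    rcases (Nat.Prime.dvd_mul hq).1 h with h | h
    · exact hnd2 h
    · exact hnd h
  obtain ⟨k, hk⟩ := IsPGroup.iff_card.mp Q.2
  have hcop : Nat.Coprime (Nat.card Q') Q'.index := by
    rw [hQcard]
    have : Nat.card (Q : Subgroup K) = q ^ k := hk
    change Nat.Coprime (Nat.card (Q : Subgroup K)) _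
    rw [this]
    exact Nat.Coprime.pow_left k ((Nat.Prime.coprime_iff_not_dvd hq).2 hcopidx)
  obtain ⟨C, hC⟩ := Subgroup.exists_right_complement'_of_coprime hcop
  have hQ'K : Q' ≤ K := by
    rintro _ ⟨y, -, rfl⟩
    exact y.2
  have hCtop : C = ⊤ := by
    apply hsupp
    rw [eq_top_iff, ← hC.sup_eq_top, sup_comm]
    exact sup_le_sup_left hQ'K _
  have hQbot : Q' = ⊥ := by
    have := hC.disjoint
    rw [hCtop, disjoint_top] at this
    exact this
  -- contradiction with `q ∣ |K|`
  have hcard1 : Nat.card Q' = 1 := by rw [hQbot]; exact Nat.card_unique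
  have h5 : Nat.card (Q : Subgroup K) * (Q : Subgroup K).index = Nat.card K :=
    Subgroup.card_mul_index _
  have h6 : Nat.card (Q : Subgroup K) = 1 := by
    rw [← hcard1, hQcard]
  rw [h6, one_mul] at h5
  rw [← hKcard, ← h5] at hd
  exact hnd2 hd

end Cfsg.Agent.H19
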