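import Mathlib

/-!
Frobenius: the number of subgroups of order `p ^ β` is `≡ 1 mod p` (Wielandt's proof) (helper19).
-/

set_option autoImplicit false
set_option linter.style.haveILetI false

namespace Cfsg.Agent.H19

open scoped Pointwise

/-- `k`-subsets of `G`. -/
def PSet (G : Type*) (k : ℕ) := {S : Finset G // S.card = k}

section
variable {G : Type*} [Group G] {k : ℕ}

open Classical in
/-- Left multiplication on `k`-subsets. -/
noncomputable instance psetAction : MulAction G (PSet G k) where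
  smul g S := ⟨g • S.1, by rw [Finset.card_smul_finset]; exact S.2⟩
  one_smul S := Subtype.ext (one_smul G S.1)
  mul_smul g h S := Subtype.ext (mul_smul g h S.1)

open Classical in
theorem psetAction_coe (g : G) (S : PSet G k) : (g • S).1 = g • S.1 := rfl

instance [Finite G] : Finite (PSet G k) := by
  unfold PSet
  infer_instance

open Classical in
theorem stab_mem {S : PSet G k} {w : G} (hw : w ∈ MulAction.stabilizer G S) {s : G} (hs : s ∈ S.1) :
    w * s ∈ S.1 := by
  have h1 : w • S = S := hw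
  have h2 : w • S.1 = S.1 := congrArg Subtype.val h1
  rw [← h2]
  exact Finset.smul_mem_smul_finset hs

/-- The stabilizer acts freely on the subset. -/
theorem card_stab_dvd [Finite G] (S : PSet G k) : Nat.card (MulAction.stabilizer G S) ∣ k := by
  classical
  set W := MulAction.stabilizer G S with hW
  letI act : MulAction W ↥S.1 :=
    { smul := fun w s => ⟨w.1 * s.1, stab_mem w.2 s.2⟩
      one_smul := fun s => Subtype.ext (one_mul s.1)
      mul_smul := fun a b s => Subtype.ext (mul_assoc a.1 b.1 s.1) }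
  have hfree : ∀ b : ↥S.1, MulAction.stabilizer W b = ⊥ := by
    intro b
    rw [eq_bot_iff]
    intro w hw
    have h1 : w • b = b := hw
    have h2 : w.1 * b.1 = b.1 := congrArg Subtype.val h1
    rw [Subgroup.mem_bot]
    exact Subtype.ext (mul_eq_right.1 h2)
  have e := MulAction.selfEquivOrbitsQuotientProd (G := W) (X := ↥S.1) hfree
  have h3 := Nat.card_congr e
  rw [Nat.card_prod, Nat.card_eq_fintype_card, Fintype.card_coe, S.2] at h3
  rw [h3]
  exact dvd_mul_left _ _

/-- The finset of a subgroup. -/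
noncomputable def Kf [Fintype G] (K : Subgroup G) : Finset G := by
  classical exact Finset.univ.filter (· ∈ K)

theorem mem_Kf [Fintype G] {K : Subgroup G} {x : G} : x ∈ Kf K ↔ x ∈ K := by
  classical
  simp [Kf]

theorem card_Kf [Fintype G] (K : Subgroup G) : (Kf K).card = Nat.card K := by
  classical
  rw [Nat.card_eq_fintype_card, Fintype.card_subtype]
  simp [Kf]

open Classical in
theorem mem_smul_Kf [Fintype G] {K : Subgroup G} {g x : G} : x ∈ g • Kf K ↔ g⁻¹ * x ∈ K := by
  rw [Finset.mem_smul_finset]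
  constructor
  · rintro ⟨y, hy, rfl⟩
    simpa [smul_eq_mul] using mem_Kf.1 hy
  · intro h
    exact ⟨g⁻¹ * x, mem_Kf.2 h, by simp [smul_eq_mul]⟩

open Classical in
/-- A coset, as an element of `PSet`. -/
noncomputable def cosetP [Fintype G] (K : Subgroup G) (hK : Nat.card K = k) (g : G) : PSet G k :=
  ⟨g • Kf K, by rw [Finset.card_smul_finset, card_Kf, hK]⟩

theorem card_stab_cosetP [Fintype G] (K : Subgroup G) (hK : Nat.card K = k) (g : G) :
    Nat.card (MulAction.stabilizer G (cosetP K hK g)) = k := by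
  classical
  apply Nat.dvd_antisymm (card_stab_dvd _)
  have h1 : K.map (MulAut.conj g).toMonoidHom ≤ MulAction.stabilizer G (cosetP K hK g) := by
    rintro _ ⟨y, hy, rfl⟩
    show _ • _ = _
    apply Subtype.ext
    rw [psetAction_coe]
    ext x
    show x ∈ (g * y * g⁻¹) • (g • Kf K) ↔ x ∈ g • Kf K
    rw [Finset.mem_smul_finset, mem_smul_Kf]
    simp only [mem_smul_Kf, smul_eq_mul]
    constructor
    · rintro ⟨z, hz, rfl⟩
      have : g⁻¹ * (g * y * g⁻¹ * z) = y * (g⁻¹ * z) := by group
      rw [this]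
      exact K.mul_mem hy hz
    · intro hx
      refine ⟨(g * y * g⁻¹)⁻¹ * x, ?_, by group⟩
      have : g⁻¹ * ((g * y * g⁻¹)⁻¹ * x) = y⁻¹ * (g⁻¹ * x) := by group
      rw [this]
      exact K.mul_mem (K.inv_mem hy) hx
  have h2 : Nat.card (K.map (MulAut.conj g).toMonoidHom) = k := by
    rw [← hK]
    exact Nat.card_congr (K.equivMapOfInjective _ (MulAut.conj g).injective).toEquiv.symm
  have h3 := Subgroup.card_dvd_of_le h1
  rw [h2] at h3
  exact h3

/-- An element with a large stabilizer is a coset. -/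
theorem exists_cosetP_of_card_stab [Fintype G] (hk : 0 < k) (S : PSet G k)
    (hS : Nat.card (MulAction.stabilizer G S) = k) :
    ∃ (K : Subgroup G) (hK : Nat.card K = k) (g : G), S = cosetP K hK g := by
  classical
  obtain ⟨s, hs⟩ : S.1.Nonempty := Finset.card_pos.1 (by rw [S.2]; exact hk)
  set W := MulAction.stabilizer G S with hW
  let K : Subgroup G := W.map (MulAut.conj s⁻¹).toMonoidHom
  have hK : Nat.card K = k := by
    rw [← hS]
    exact Nat.card_congr (W.equivMapOfInjective _ (MulAut.conj s⁻¹).injective).toEquiv.symm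
  refine ⟨K, hK, s, ?_⟩
  apply Subtype.ext
  symm
  apply Finset.eq_of_subset_of_card_le
  · intro x hx
    have h1 : s⁻¹ * x ∈ K := mem_smul_Kf.1 hx
    obtain ⟨w, hw, hwx⟩ := h1
    simp only [MulEquiv.coe_toMonoidHom, MulAut.conj_apply, inv_inv] at hwx
    have h2 : x = w * s := by
      have : s * (s⁻¹ * x) = s * (s⁻¹ * w * s) := by rw [hwx]
      simpa [mul_assoc] using this
    rw [h2]
    exact stab_mem hw hs
  · rw [(cosetP K hK s).2, S.2]

open Classical in
theorem cosetP_inj [Fintype G] {K K' : Subgroup G} (hK : Nat.card K = k) (hK' : Nat.card K' = k)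
    {g g' : G} (h : cosetP K hK g = cosetP K' hK' g') : K = K' ∧ g⁻¹ * g' ∈ K := by
  have h1 : g • Kf K = g' • Kf K' := congrArg Subtype.val h
  have hmem : ∀ x : G, g⁻¹ * x ∈ K ↔ g'⁻¹ * x ∈ K' := by
    intro x
    rw [← mem_smul_Kf, ← mem_smul_Kf, h1]
  have h2 : g'⁻¹ * g ∈ K' := (hmem g).1 (by simp [K.one_mem])
  have h3 : g⁻¹ * g' ∈ K := (hmem g').2 (by simp [K'.one_mem])
  refine ⟨?_, h3⟩
  ext x
  constructor
  · intro hx
    have h4 : g⁻¹ * (g * x) ∈ K := by simpa using hx
    have h5 := (hmem _).1 h4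
    have h6 : g'⁻¹ * g * x ∈ K' := by rwa [mul_assoc]
    have h7 := K'.mul_mem (K'.inv_mem h2) h6
    simpa [mul_assoc] using h7
  · intro hx
    have h4 : g'⁻¹ * (g' * x) ∈ K' := by simpa using hx
    have h5 := (hmem _).2 h4
    have h6 : g⁻¹ * g' * x ∈ K := by rwa [mul_assoc]
    have h7 := K.mul_mem (K.inv_mem h3) h6
    simpa [mul_assoc] using h7

/-- Number of `k`-subsets with a stabilizer of order `k`. -/
theorem card_large_stab [Fintype G] (hk : 0 < k) :
    Nat.card {S : PSet G k // Nat.card (MulAction.stabilizer G S) = k} =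
      Nat.card {K : Subgroup G // Nat.card K = k} * (Nat.card G / k) := by
  classical
  have hidx : ∀ K : {K : Subgroup G // Nat.card K = k}, Nat.card (G ⧸ K.1) = Nat.card G / k := by
    intro K
    have h1 := K.1.card_mul_index
    rw [K.2] at h1
    rw [← h1, Nat.mul_div_cancel_left _ hk]
    rfl
  let Φ : (Σ K : {K : Subgroup G // Nat.card K = k}, G ⧸ K.1) →
      {S : PSet G k // Nat.card (MulAction.stabilizer G S) = k} :=
    fun z => ⟨cosetP z.1.1 z.1.2 z.2.out, card_stab_cosetP _ _ _⟩
  have hΦ : Function.Bijective Φ := by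
    constructor
    · rintro ⟨⟨K, hK⟩, q⟩ ⟨⟨K', hK'⟩, q'⟩ h
      have h1 : cosetP K hK q.out = cosetP K' hK' q'.out := congrArg Subtype.val h
      obtain ⟨h2, h3⟩ := cosetP_inj hK hK' h1
      subst h2
      have h4 : q = q' := by
        rw [← QuotientGroup.out_eq' q, ← QuotientGroup.out_eq' q']
        exact QuotientGroup.eq.2 h3
      subst h4
      rfl
    · rintro ⟨S, hS⟩
      obtain ⟨K, hK, g, rfl⟩ := exists_cosetP_of_card_stab hk S hS
      refine ⟨⟨⟨K, hK⟩, (g : G ⧸ K)⟩, ?_⟩
      apply Subtype.ext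
      apply Subtype.ext
      show (((g : G ⧸ K).out) • Kf K) = g • Kf K
      ext x
      rw [mem_smul_Kf, mem_smul_Kf]
      have h2 : g⁻¹ * (g : G ⧸ K).out ∈ K := by
        rw [← QuotientGroup.eq]
        exact (QuotientGroup.out_eq' (g : G ⧸ K)).symm
      constructor
      · intro hx
        have h3 := K.mul_mem h2 hx
        have h4 : g⁻¹ * (g : G ⧸ K).out * ((g : G ⧸ K).out⁻¹ * x) = g⁻¹ * x := by group
        rwa [h4] at h3
      · intro hx
        have h3 := K.mul_mem (K.inv_mem h2) hx
        have h4 : (g⁻¹ * (g : G ⧸ K).out)⁻¹ * (g⁻¹ * x) = (g : G ⧸ K).out⁻¹ * x := by group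
        rwa [h4] at h3
  rw [← Nat.card_congr (Equiv.ofBijective Φ hΦ), Nat.card_sigma, Finset.sum_congr rfl (fun K _ => hidx K),
    Finset.sum_const, smul_eq_mul, Finset.card_univ]
  congr 1
  exact Nat.card_eq_fintype_card.symm

theorem card_stab_smul [Finite G] (g : G) (S : PSet G k) :
    Nat.card (MulAction.stabilizer G (g • S)) = Nat.card (MulAction.stabilizer G S) := by
  rw [MulAction.stabilizer_smul_eq_stabilizer_map_conj]
  exact Nat.card_congr ((MulAction.stabilizer G S).equivMapOfInjective _ (MulAut.conj g).injective).toEquiv.symm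

/-- An action all of whose orbits have sizes divisible by `d` has size divisible by `d`. -/
theorem dvd_card_of_orbits {Y : Type*} [Group G] [MulAction G Y] [Finite Y] (d : ℕ)
    (h : ∀ y : Y, d ∣ Nat.card (MulAction.orbit G y)) : d ∣ Nat.card Y := by
  classical
  haveI := Fintype.ofFinite Y
  haveI : Fintype (MulAction.orbitRel.Quotient G Y) := Fintype.ofFinite _
  rw [Nat.card_congr (MulAction.selfEquivSigmaOrbits G Y), Nat.card_sigma]
  apply Finset.dvd_sum
  intro ω _
  exact h ω.out

/-- Subsets with a small stabilizer: the invariant part. -/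
def smallStab (G : Type*) [Group G] [Finite G] (k : ℕ) : SubMulAction G (PSet G k) where
  carrier := {S | Nat.card (MulAction.stabilizer G S) ≠ k}
  smul_mem' := by
    intro g S hS
    show Nat.card (MulAction.stabilizer G (g • S)) ≠ k
    rw [card_stab_smul]
    exact hS

end

section
variable {G : Type*} [Group G] [Finite G]

theorem pow_dvd_card_smallStab {p β : ℕ} (hp : p.Prime) (hdiv : p ^ β ∣ Nat.card G) :
    p ^ ((Nat.card G).factorization p - β + 1) ∣
      Nat.card {S : PSet G (p ^ β) // Nat.card (MulAction.stabilizer G S) ≠ p ^ β} := by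
  have hN0 : Nat.card G ≠ 0 := Nat.card_pos.ne'
  have hβα : β ≤ (Nat.card G).factorization p := (hp.pow_dvd_iff_le_factorization hN0).1 hdiv
  show _ ∣ Nat.card (smallStab G (p ^ β))
  apply dvd_card_of_orbits (G := G)
  intro y
  set S := y.1 with hS
  have hyS : Nat.card (MulAction.stabilizer G S) ≠ p ^ β := y.2
  have h1 : Nat.card (MulAction.orbit G y) = Nat.card (MulAction.orbit G S) := by
    apply Nat.card_congr
    refine ⟨fun z => ⟨z.1.1, ?_⟩, fun z => ⟨⟨z.1, ?_⟩, ?_⟩, ?_, ?_⟩
    · obtain ⟨g, hg⟩ := z.2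
      exact ⟨g, by rw [← hg]; rfl⟩
    · obtain ⟨g, hg⟩ := z.2
      rw [← hg]
      exact (smallStab G (p ^ β)).smul_mem g y.2
    · obtain ⟨g, hg⟩ := z.2
      refine ⟨g, Subtype.ext hg⟩
    · intro z; rfl
    · intro z; rfl
  rw [h1]
  have h2 : Nat.card (MulAction.orbit G S) * Nat.card (MulAction.stabilizer G S) = Nat.card G := by
    have h3 := (MulAction.stabilizer G S).card_mul_index
    rw [MulAction.index_stabilizer, ← Nat.card_coe_set_eq] at h3
    rw [mul_comm]; exact h3
  have h3 : Nat.card (MulAction.stabilizer G S) ∣ p ^ β := card_stab_dvd S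
  obtain ⟨j, hj, hj2⟩ := (Nat.dvd_prime_pow hp).1 h3
  have hjβ : j < β := by
    apply lt_of_le_of_ne hj
    rintro rfl
    exact hyS hj2
  set α := (Nat.card G).factorization p with hα
  have h4 : p ^ α ∣ Nat.card G := Nat.ordProj_dvd _ _
  rw [← h2, hj2] at h4
  have hαj : α = (α - j) + j := by omega
  rw [hαj, pow_add] at h4
  have h5 := Nat.dvd_of_mul_dvd_mul_right (pow_pos hp.pos j) h4
  exact (pow_dvd_pow p (by omega)).trans h5

theorem choose_modEq {p β : ℕ} (hp : p.Prime) (hdiv : p ^ β ∣ Nat.card G) :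
    (Nat.card G).choose (p ^ β) ≡ Nat.card {K : Subgroup G // Nat.card K = p ^ β} * (Nat.card G / p ^ β)
      [MOD p ^ ((Nat.card G).factorization p - β + 1)] := by
  classical
  haveI := Fintype.ofFinite G
  have hk : 0 < p ^ β := pow_pos hp.pos β
  have h1 : (Nat.card G).choose (p ^ β) = Nat.card (PSet G (p ^ β)) := by
    rw [Nat.card_eq_fintype_card (α := G)]
    have := Fintype.card_finset_len (α := G) (p ^ β)
    rw [← this, ← Nat.card_eq_fintype_card]
    rfl
  have h2 : Nat.card (PSet G (p ^ β)) =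
      Nat.card {S : PSet G (p ^ β) // Nat.card (MulAction.stabilizer G S) = p ^ β} +
      Nat.card {S : PSet G (p ^ β) // Nat.card (MulAction.stabilizer G S) ≠ p ^ β} := by
    rw [← Nat.card_sum]
    exact Nat.card_congr (Equiv.sumCompl _).symm
  rw [h1, h2, card_large_stab hk]
  obtain ⟨c, hc⟩ := pow_dvd_card_smallStab hp hdiv
  rw [hc]
  exact (Nat.modEq_iff_dvd' (Nat.le_add_right _ _)).2 (by simp) |>.symm

theorem card_subgroups_cyclic {Z : Type*} [Group Z] [Finite Z] [IsCyclic Z] {n : ℕ} (hn : n ∣ Nat.card Z)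
    (hnp : n = 1 ∨ ∃ (p β : ℕ), p.Prime ∧ n = p ^ β) : Nat.card {K : Subgroup Z // Nat.card K = n} = 1 := by
  classical
  haveI := Fintype.ofFinite Z
  have hn0 : 0 < n := Nat.pos_of_dvd_of_pos hn Nat.card_pos
  have huniq : ∀ H K : Subgroup Z, Nat.card H = n → Nat.card K = n → H = K := by
    have hsub : ∀ H : Subgroup Z, Nat.card H = n →
        Kf H = Finset.univ.filter (fun a : Z => a ^ n = 1) := by
      intro H hH
      apply Finset.eq_of_subset_of_card_le
      · intro x hx
        rw [Finset.mem_filter]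
        refine ⟨Finset.mem_univ _, ?_⟩
        have := pow_card_eq_one' (x := (⟨x, mem_Kf.1 hx⟩ : H))
        rw [hH] at this
        exact congrArg Subtype.val this
      · rw [card_Kf, hH]
        exact IsCyclic.card_pow_eq_one_le hn0
    intro H K hH hK
    ext x
    rw [← mem_Kf, ← mem_Kf (K := K), hsub H hH, hsub K hK]
  have hex : ∃ K : Subgroup Z, Nat.card K = n := by
    rcases hnp with rfl | ⟨p, β, hp, rfl⟩
    · exact ⟨⊥, by simp⟩
    · haveI := Fact.mk hp
      exact Sylow.exists_subgroup_card_pow_prime p hn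
  obtain ⟨K, hK⟩ := hex
  rw [Nat.card_eq_one_iff_unique]
  exact ⟨⟨fun a b => Subtype.ext (huniq _ _ a.2 b.2)⟩, ⟨⟨K, hK⟩⟩⟩

/-- **Frobenius' theorem**: the number of subgroups of order `p ^ β` is `1` modulo `p`. -/
theorem card_subgroups_modEq {p β : ℕ} (hp : p.Prime) (hdiv : p ^ β ∣ Nat.card G) :
    Nat.card {K : Subgroup G // Nat.card K = p ^ β} ≡ 1 [MOD p] := by
  have hN0 : Nat.card G ≠ 0 := Nat.card_pos.ne'
  set N := Nat.card G with hN
  haveI : NeZero N := ⟨hN0⟩
  have hZcard : Nat.card (Multiplicative (ZMod N)) = N := by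
    rw [Nat.card_eq_fintype_card, Fintype.card_multiplicative, ZMod.card]
  have h1 := choose_modEq (G := G) hp hdiv
  have h2 := choose_modEq (G := Multiplicative (ZMod N)) hp (by rw [hZcard]; exact hdiv)
  rw [hZcard, card_subgroups_cyclic (Z := Multiplicative (ZMod N)) (by rw [hZcard]; exact hdiv)
    (Or.inr ⟨p, β, hp, rfl⟩), one_mul] at h2
  rw [← hN] at h1
  have h3 := h1.symm.trans h2
  set α := N.factorization p with hα
  have hβα : β ≤ α := (hp.pow_dvd_iff_le_factorization hN0).1 hdiv
  set m := ordCompl[p] N with hm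
  have hmN : p ^ α * m = N := Nat.ordProj_mul_ordCompl_eq_self N p
  have hmcop : Nat.Coprime p m := Nat.coprime_ordCompl hp hN0
  have ht : N / p ^ β = p ^ (α - β) * m := by
    rw [← hmN]
    have : α = β + (α - β) := by omega
    conv_lhs => rw [this, pow_add, mul_assoc]
    exact Nat.mul_div_cancel_left _ (pow_pos hp.pos β)
  rw [ht] at h3
  have h4 : p ^ (α - β + 1) = p ^ (α - β) * p := pow_succ _ _
  rw [h4] at h3
  set r := Nat.card {K : Subgroup G // Nat.card K = p ^ β} with hr
  have h5 : r * (p ^ (α - β) * m) = p ^ (α - β) * (r * m) := by ring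
  rw [h5] at h3
  have h6 : r * m ≡ m [MOD p] := Nat.ModEq.mul_left_cancel' (pow_pos hp.pos _).ne' h3
  have h7 : r * m ≡ 1 * m [MOD p] := by rwa [one_mul]
  exact Nat.ModEq.cancel_right_of_coprime hmcop h7

end

end Cfsg.Agent.H19
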