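import Mathlib
import Cfsg.Agent.Lib.H01.Frobenius

/-!
Wielandt's generalisation of Frobenius' theorem, the character part: a normal subgroup `K` of `N`
such that `N \ K` is "trivially intersecting" and `K` is "controlled" gives a normal subgroup `M`
of `G` with `M ∩ N = K`.
-/

set_option autoImplicit false
set_option linter.unusedVariables false
set_option linter.unusedSectionVars false

namespace Cfsg.Agent.H19.WielF

open Cfsg Cfsg.Agent.H21 Cfsg.Agent.H01
open scoped ComplexConjugate Pointwise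

universe u

variable {G : Type u} [Group G]

structure Hyp (N K : Subgroup G) : Prop where
  le : K ≤ N
  nor : ∀ n ∈ N, ∀ k ∈ K, n * k * n⁻¹ ∈ K
  ti : ∀ x ∈ N, x ∉ K → ∀ g, g * x * g⁻¹ ∈ N → g * x * g⁻¹ ∉ K → g ∈ N
  ker : ∀ x ∈ K, ∀ g, g * x * g⁻¹ ∈ N → g * x * g⁻¹ ∈ K

section
variable [Fintype G] {N K : Subgroup G} [Fintype N]

theorem frobExt_eq (θ : N → ℂ) (g : G) :
    frobExt N θ g = indFun N (fun x => θ x - θ 1) g + θ 1 := by
  have h1 : indFun N (fun x => θ x - θ 1) g = indFun N θ g - θ 1 * indFun N (fun _ => 1) g := by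
    simp only [indFun]
    have h2 : ∀ y : G, extendByZero N (fun x => θ x - θ 1) y
        = extendByZero N θ y - θ 1 * extendByZero N (fun _ => 1) y := by
      intro y
      by_cases hy : y ∈ N
      · have a1 := extendByZero_coe N (fun x => θ x - θ 1) ⟨y, hy⟩
        have a2 := extendByZero_coe N θ ⟨y, hy⟩
        have a3 := extendByZero_coe N (fun _ => (1 : ℂ)) ⟨y, hy⟩
        simp only at a1 a2 a3
        rw [a1, a2, a3]
        ring
      · rw [extendByZero_of_not_mem N _ hy, extendByZero_of_not_mem N _ hy,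
          extendByZero_of_not_mem N _ hy]
        ring
    simp only [h2, Finset.sum_sub_distrib, ← Finset.mul_sum]
    ring
  rw [frobExt_apply, h1]

/-- Lemma A: values outside the conjugates of `N \ K`. -/
theorem frobExt_of_forall (θ : N → ℂ) (hθ : ∀ k : N, (k : G) ∈ K → θ k = θ 1) {x : G}
    (hx : ∀ g : G, g⁻¹ * x * g ∈ N → g⁻¹ * x * g ∈ K) : frobExt N θ x = θ 1 := by
  rw [frobExt_eq]
  have : indFun N (fun x => θ x - θ 1) x = 0 := by
    simp only [indFun]
    rw [Finset.sum_eq_zero, mul_zero]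
    intro y _
    by_cases hy : y⁻¹ * x * y ∈ N
    · have a1 := extendByZero_coe N (fun x => θ x - θ 1) ⟨_, hy⟩
      simp only at a1
      rw [a1, hθ _ (hx y hy)]
      ring
    · exact extendByZero_of_not_mem N _ hy
  rw [this, zero_add]

/-- Lemma B: values on `N \ K`. -/
theorem frobExt_of_not_mem (hyp : Hyp N K) (θ : N → ℂ) (hθ : IsClassFunction N θ)
    (x : N) (hx : (x : G) ∉ K) : frobExt N θ x = θ x := by
  classical
  rw [frobExt_eq]
  have hne : (Nat.card N : ℂ) ≠ 0 := by simp [Nat.card_pos.ne']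
  have key : ∀ y : G, extendByZero N (fun x => θ x - θ 1) (y⁻¹ * x * y)
      = extendByZero N (fun _ => θ x - θ 1) y := by
    intro y
    by_cases hy : y ∈ N
    · have h2 : y⁻¹ * (x : G) * y = ((⟨y, hy⟩⁻¹ * x * ⟨y, hy⟩ : N) : G) := by simp
      rw [h2]
      have a1 := extendByZero_coe N (fun x => θ x - θ 1) (⟨y, hy⟩⁻¹ * x * ⟨y, hy⟩)
      have a2 := extendByZero_coe N (fun _ => θ x - θ 1) ⟨y, hy⟩
      simp only at a1 a2
      rw [a1, a2]
      have h4 := hθ x (⟨y, hy⟩⁻¹)
      have h5 : (⟨y, hy⟩⁻¹ : N) * x * (⟨y, hy⟩⁻¹)⁻¹ = ⟨y, hy⟩⁻¹ * x * ⟨y, hy⟩ := by simp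
      rw [h5] at h4
      rw [h4]
    · rw [extendByZero_of_not_mem N _ hy, extendByZero_of_not_mem]
      intro hmem
      apply hy
      have hz : y⁻¹ * (x : G) * y ∉ K := by
        intro hk
        apply hx
        have := hyp.ker _ hk y (by
          have : y * (y⁻¹ * (x : G) * y) * y⁻¹ = x := by group
          rw [this]; exact x.2)
        have h2 : y * (y⁻¹ * (x : G) * y) * y⁻¹ = x := by group
        rwa [h2] at this
      have h6 := hyp.ti x x.2 hx y⁻¹ (by simpa using hmem) (by simpa using hz)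
      simpa using N.inv_mem h6
  have : indFun N (fun x => θ x - θ 1) x = θ x - θ 1 := by
    simp only [indFun, key]
    rw [sum_extendByZero_of_finite]
    simp only [Finset.sum_const, Finset.card_univ, nsmul_eq_mul]
    rw [← Nat.card_eq_fintype_card]
    field_simp
  rw [this]
  ring

theorem frobExt_restrict' (hyp : Hyp N K) (θ : N → ℂ) (hθ : IsClassFunction N θ)
    (hθK : ∀ k : N, (k : G) ∈ K → θ k = θ 1) : (fun h : N => frobExt N θ h) = θ := by
  funext h
  by_cases hK : (h : G) ∈ K
  · rw [hθK h hK]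
    apply frobExt_of_forall θ hθK
    intro g hg
    have h3 := hyp.ker _ hK g⁻¹ (by simpa using hg)
    simpa using h3
  · exact frobExt_of_not_mem hyp θ hθ h hK

theorem frobExt_norm' (θ : N → ℂ) (hres : (fun h : N => frobExt N θ h) = θ) :
    classInner (frobExt N θ) (frobExt N θ) = classInner θ θ := by
  have hcl := frobExt_isClass (H := N) θ
  have hone : IsClassFunction G (fun _ => (1 : ℂ)) := fun _ _ => rfl
  have h1 : classInner (frobExt N θ) (fun _ => (1 : ℂ)) = classInner θ (fun _ : N => (1 : ℂ)) := by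
    conv_lhs => rw [frobExt]
    rw [classInner_add_left, classInner_add_left, classInner_smul_left, classInner_smul_left,
      frobenius_reciprocity N θ _ hone, frobenius_reciprocity N _ _ hone, classInner_const_const,
      classInner_const_const]
    ring
  have h2 : classInner (fun _ => (1 : ℂ)) (frobExt N θ) = classInner (fun _ : N => (1 : ℂ)) θ := by
    rw [← classInner_comm_conj, h1, classInner_comm_conj]
  nth_rw 1 [frobExt]
  rw [classInner_add_left, classInner_add_left, classInner_smul_left, classInner_smul_left,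
    frobenius_reciprocity N θ _ hcl, frobenius_reciprocity N _ _ hcl, hres, h2]
  ring

variable [Fintype (IrrCharacter G)] [Fintype (IrrCharacter N)]

theorem frobExt_irr' (θ : N → ℂ) (hθ : IsIrrCharacter N θ)
    (hres : (fun h : N => frobExt N θ h) = θ) :
    IsIrrCharacter G (frobExt N θ) := by
  classical
  have hθc := isCharacter_of_irr hθ
  obtain ⟨d, hd, hd'⟩ := isCharacter_one_eq hθc
  apply isIrrCharacter_of_int_norm_one (frobExt_isClass _)
  · intro χ
    obtain ⟨a, ha⟩ := classInner_isNat (isCharacter_indFun N hθc) χ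
    obtain ⟨b, hb⟩ := classInner_isNat (isCharacter_indFun N (isCharacter_one (G := N))) χ
    obtain ⟨c, hc⟩ := classInner_isNat (isCharacter_one (G := G)) χ
    refine ⟨(a : ℤ) - d * b + d * c, ?_⟩
    rw [frobExt, classInner_add_left, classInner_add_left, classInner_smul_left,
      classInner_smul_left, ha, hb, hc, hd]
    push_cast
    ring
  · rw [frobExt_norm' θ hres]
    exact classInner_self_irr (⟨θ, hθ⟩ : IrrCharacter N)
  · have h1 := congrFun hres 1
    simp only [OneMemClass.coe_one] at h1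
    rw [h1, hd]
    have h2 : 0 < charDegree θ := irr_charDegree_pos hθ
    rw [hd'] at h2
    simpa using h2

end

/-- The count of the conjugates of `N \ K`. -/
theorem card_compl {N K M : Subgroup G} [Finite G] (hyp : Hyp N K)
    (hM : ∀ x, x ∈ M ↔ ∀ g : G, g⁻¹ * x * g ∈ N → g⁻¹ * x * g ∈ K) :
    Nat.card M = N.index * Nat.card K := by
  classical
  let D : Set G := (N : Set G) \ (K : Set G)
  let C : Set G := (M : Set G)ᶜ
  have hDmem : ∀ x, x ∈ D ↔ x ∈ N ∧ x ∉ K := fun x => Iff.rfl
  have hconjD : ∀ n ∈ N, ∀ d ∈ D, n * d * n⁻¹ ∈ D := by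
    intro n hn d hd
    refine ⟨N.mul_mem (N.mul_mem hn hd.1) (N.inv_mem hn), fun hk => hd.2 ?_⟩
    have := hyp.nor n⁻¹ (N.inv_mem hn) _ hk
    have h2 : n⁻¹ * (n * d * n⁻¹) * n⁻¹⁻¹ = d := by group
    rwa [h2] at this
  let f : (G ⧸ N) × D → C := fun p =>
    ⟨p.1.out * p.2 * p.1.out⁻¹, by
      intro hmem
      have hmem' : p.1.out * (p.2 : G) * p.1.out⁻¹ ∈ M := hmem
      have := (hM _).1 hmem' p.1.out (by
        have : p.1.out⁻¹ * (p.1.out * (p.2 : G) * p.1.out⁻¹) * p.1.out = p.2 := by group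
        rw [this]; exact p.2.2.1)
      have h3 : p.1.out⁻¹ * (p.1.out * (p.2 : G) * p.1.out⁻¹) * p.1.out = p.2 := by group
      rw [h3] at this
      exact p.2.2.2 this⟩
  have hf : Function.Bijective f := by
    constructor
    · rintro ⟨q, d⟩ ⟨q', d'⟩ h
      have h1 : q.out * (d : G) * q.out⁻¹ = q'.out * (d' : G) * q'.out⁻¹ := congrArg Subtype.val h
      have h2 : (q'.out⁻¹ * q.out) * (d : G) * (q'.out⁻¹ * q.out)⁻¹ = d' := by
        have : (q'.out⁻¹ * q.out) * (d : G) * (q'.out⁻¹ * q.out)⁻¹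
            = q'.out⁻¹ * (q.out * (d : G) * q.out⁻¹) * q'.out := by group
        rw [this, h1]; group
      have h3 := hyp.ti d d.2.1 d.2.2 (q'.out⁻¹ * q.out) (by rw [h2]; exact d'.2.1)
        (by rw [h2]; exact d'.2.2)
      have h4 : q' = q := by
        rw [← QuotientGroup.out_eq' q, ← QuotientGroup.out_eq' q']
        exact QuotientGroup.eq.2 h3
      subst h4
      have h5 : (d : G) = d' := by
        have : q'.out * (d : G) * q'.out⁻¹ = q'.out * (d' : G) * q'.out⁻¹ := h1
        simpa using this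
      exact Prod.ext rfl (Subtype.ext h5)
    · rintro ⟨x, hx⟩
      have hx' : x ∉ M := hx
      rw [hM] at hx'
      push Not at hx'
      obtain ⟨g, h1, h2⟩ := hx'
      let q : G ⧸ N := QuotientGroup.mk g
      have hq : g⁻¹ * q.out ∈ N := by
        have : (QuotientGroup.mk q.out : G ⧸ N) = QuotientGroup.mk g := QuotientGroup.out_eq' q
        exact QuotientGroup.eq.1 this.symm
      let n := g⁻¹ * q.out
      have hd : n⁻¹ * (g⁻¹ * x * g) * n⁻¹⁻¹ ∈ D := hconjD _ (N.inv_mem hq) _ ⟨h1, h2⟩
      refine ⟨(q, ⟨_, hd⟩), ?_⟩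
      apply Subtype.ext
      change q.out * (n⁻¹ * (g⁻¹ * x * g) * n⁻¹⁻¹) * q.out⁻¹ = x
      simp only [n]
      group
  have h1 : Nat.card C = N.index * Nat.card D := by
    rw [← Nat.card_congr (Equiv.ofBijective f hf), Nat.card_prod, Subgroup.index]
  have h2 : Nat.card D + Nat.card K = Nat.card N := by
    have := Set.ncard_diff_add_ncard_of_subset (s := (K : Set G)) (t := (N : Set G)) hyp.le
      (Set.toFinite _)
    have e1 : (K : Set G).ncard = Nat.card K := (Nat.card_coe_set_eq _).symm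
    have e2 : (N : Set G).ncard = Nat.card N := (Nat.card_coe_set_eq _).symm
    have e3 : ((N : Set G) \ (K : Set G)).ncard = Nat.card D := (Nat.card_coe_set_eq _).symm
    rw [e1, e2, e3] at this
    exact this
  have h3 : Nat.card M + Nat.card C = Nat.card G := by
    have := Set.ncard_add_ncard_compl (M : Set G) (Set.toFinite _) (Set.toFinite _)
    have e1 : (M : Set G).ncard = Nat.card M := (Nat.card_coe_set_eq _).symm
    have e2 : ((M : Set G)ᶜ).ncard = Nat.card C := (Nat.card_coe_set_eq _).symm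
    rw [e1, e2] at this
    exact this
  have h4 : Nat.card N * N.index = Nat.card G := N.card_mul_index
  rw [h1] at h3
  rw [← h4, ← h2] at h3
  have h5 : (Nat.card D + Nat.card K) * N.index = N.index * Nat.card D + N.index * Nat.card K := by
    ring
  omega

theorem main (N K : Subgroup G) [Finite G] (hyp : Hyp N K) :
    ∃ M : Subgroup G, M.Normal ∧ (∀ x, x ∈ M ↔ ∀ g : G, g⁻¹ * x * g ∈ N → g⁻¹ * x * g ∈ K) ∧
      Nat.card M = N.index * Nat.card K := by
  classical
  haveI : Fintype G := Fintype.ofFinite G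
  haveI : Fintype N := Fintype.ofFinite N
  haveI : Fintype (IrrCharacter G) := Fintype.ofFinite _
  haveI : Fintype (IrrCharacter N) := Fintype.ofFinite _
  let K' : Subgroup N := K.subgroupOf N
  haveI hK' : K'.Normal := by
    constructor
    intro a ha b
    exact hyp.nor b b.2 a ha
  let Q := N ⧸ K'
  haveI : Fintype Q := Fintype.ofFinite Q
  haveI : Fintype (IrrCharacter Q) := Fintype.ofFinite _
  let π : N →* Q := QuotientGroup.mk' K'
  have hπ : Function.Surjective π := QuotientGroup.mk'_surjective K'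
  have hπK : ∀ k : N, (k : G) ∈ K ↔ π k = 1 := by
    intro k
    exact (QuotientGroup.eq_one_iff (N := K') k).symm
  let θ : IrrCharacter Q → N → ℂ := fun χ => (χ : Q → ℂ) ∘ π
  have hθirr : ∀ χ : IrrCharacter Q, IsIrrCharacter N (θ χ) :=
    fun χ => isIrrCharacter_comp_of_surjective π hπ χ.2
  have hθK : ∀ (χ : IrrCharacter Q) (k : N), (k : G) ∈ K → θ χ k = θ χ 1 := by
    intro χ k hk
    simp only [θ, Function.comp_apply, map_one, (hπK k).1 hk]
  have hres : ∀ χ : IrrCharacter Q, (fun h : N => frobExt N (θ χ) h) = θ χ :=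
    fun χ => frobExt_restrict' hyp (θ χ) (isClassFunction_of_isCharacter (isCharacter_of_irr (hθirr χ)))
      (hθK χ)
  have hirr : ∀ χ : IrrCharacter Q, IsIrrCharacter G (frobExt N (θ χ)) :=
    fun χ => frobExt_irr' (θ χ) (hθirr χ) (hres χ)
  have hone : ∀ χ : IrrCharacter Q, frobExt N (θ χ) 1 = θ χ 1 := by
    intro χ
    have := congrFun (hres χ) 1
    simpa using this
  let M : Subgroup G := ⨅ χ : IrrCharacter Q, charKer (frobExt N (θ χ)) (isCharacter_of_irr (hirr χ))
  have hmem0 : ∀ x, x ∈ M ↔ ∀ χ : IrrCharacter Q, frobExt N (θ χ) x = frobExt N (θ χ) 1 := by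
    intro x
    simp [M, Subgroup.mem_iInf]
  have hmem : ∀ x, x ∈ M ↔ ∀ g : G, g⁻¹ * x * g ∈ N → g⁻¹ * x * g ∈ K := by
    intro x
    rw [hmem0]
    constructor
    · intro hx g hg
      by_contra hd
      set d : N := ⟨g⁻¹ * x * g, hg⟩ with hdd
      have hd1 : π d ≠ 1 := fun h => hd ((hπK d).2 h)
      have hall : ∀ χ : IrrCharacter Q, (χ : Q → ℂ) (π d) = (χ : Q → ℂ) 1 := by
        intro χ
        have h1 := hx χ
        have h2 := frobExt_isClass (H := N) (θ χ) x g⁻¹
        have h3 : g⁻¹ * x * g⁻¹⁻¹ = (d : G) := by simp [hdd]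
        rw [h3] at h2
        have h4 : frobExt N (θ χ) (d : G) = θ χ d := congrFun (hres χ) d
        rw [h2, h1, hone] at h4
        have h5 : θ χ 1 = (χ : Q → ℂ) 1 := by simp [θ]
        rw [h5] at h4
        exact h4.symm
      have h5 := sum_degree_mul_value_ne (G := Q) hd1
      have h6 := sum_degree_sq (G := Q)
      have h7 : ∑ χ : IrrCharacter Q, (charDegree (χ : Q → ℂ) : ℂ) * (χ : Q → ℂ) (π d) = Nat.card Q := by
        have h8 : ∀ χ : IrrCharacter Q, (charDegree (χ : Q → ℂ) : ℂ) * (χ : Q → ℂ) (π d) =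
            (((charDegree (χ : Q → ℂ)) ^ 2 : ℕ) : ℂ) := by
          intro χ
          rw [hall χ, one_eq_charDegree (isCharacter_of_irr χ.2)]
          push_cast
          ring
        simp only [h8]
        rw [← Nat.cast_sum, h6]
      rw [h7] at h5
      have h9 : (Nat.card Q : ℂ) ≠ 0 := by simp [Nat.card_pos.ne']
      exact absurd h5 h9
    · intro hx χ
      rw [hone, frobExt_of_forall (θ χ) (hθK χ) hx]
  have hMn : M.Normal := by
    apply Subgroup.normal_iInf_normal
    intro χ
    exact charKer_normal _ _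
  exact ⟨M, hMn, hmem, card_compl hyp hmem⟩

end Cfsg.Agent.H19.WielF
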