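import Mathlib
import Cfsg.Agent.Lib.H19.WielandtF
import Cfsg.Agent.Lib.H01.SZ
import Cfsg.Agent.Lib.H20.FrobSemi
import Cfsg.Prelude.Def_OddOrderLocal

/-!
Wielandt's theorem on TI Hall subgroups with a normal complement in the normalizer.
-/

set_option autoImplicit false
set_option linter.unusedVariables false
set_option linter.unusedSectionVars false

namespace Cfsg.Agent.H19.WielG

open Cfsg Cfsg.Agent.H01
open scoped Pointwise

universe u

variable {G : Type u} [Group G]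

/-- A group is not a union of two proper subgroups; partition form with Frobenius' theorem. -/
theorem partition {X : Type u} [Group X] [Finite X] (P : Set (Subgroup X))
    (ha : ∀ x, ∃ A ∈ P, x ∈ A)
    (hb : ∀ A ∈ P, ∀ B ∈ P, ∀ x, x ≠ 1 → x ∈ A → x ∈ B → A = B)
    (hc : ∀ A ∈ P, ∀ u : X, MulAut.conj u • A ∈ P)
    (hd : ∀ A ∈ P, ∀ z ∈ A, z ≠ 1 → ∀ u, u * z * u⁻¹ ∈ A → u ∈ A) : ⊤ ∈ P := by
  by_contra htop
  have hfc : ∀ A ∈ P, A ≠ ⊥ → IsFrobeniusComplement A := by
    intro A hA hbot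
    refine ⟨hbot, fun h => htop (h ▸ hA), ?_⟩
    intro g hg
    rw [eq_bot_iff]
    intro x hx
    rw [Subgroup.mem_inf] at hx
    obtain ⟨hx1, hx2⟩ := hx
    rw [mem_conj_smul_iff] at hx2
    rw [Subgroup.mem_bot]
    by_contra hne
    apply hg
    refine hd A hA _ hx2 ?_ g ?_
    · intro h1
      apply hne
      have : x = g * (g⁻¹ * x * g) * g⁻¹ := by group
      rw [this, h1]; group
    · have : g * (g⁻¹ * x * g) * g⁻¹ = x := by group
      rwa [this]
  have hnontriv : ∃ x : X, x ≠ 1 := by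
    by_contra h
    push Not at h
    obtain ⟨A, hA, _⟩ := ha 1
    apply htop
    convert hA
    symm
    rw [eq_top_iff]
    intro y _
    rw [h y]
    exact A.one_mem
  obtain ⟨x, hx⟩ := hnontriv
  obtain ⟨A, hA, hxA⟩ := ha x
  have hAb : A ≠ ⊥ := fun h => hx (by simpa [h] using hxA)
  obtain ⟨W, hW, hWn, hWc⟩ := frobenius_theorem A (hfc A hA hAb)
  have hWmem : ∀ z, z ∈ W ↔ (z = 1 ∨ ∀ g : X, z ∉ MulAut.conj g • A) := by
    intro z
    have := Set.ext_iff.1 hW z
    simpa [frobeniusKernel] using this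
  have hy : ∃ y ∈ W, y ≠ 1 := by
    by_contra h
    push Not at h
    have hWb : W = ⊥ := by
      rw [eq_bot_iff]
      intro y hy
      rw [Subgroup.mem_bot]
      exact h y hy
    have := hWc.sup_eq_top
    rw [hWb, bot_sup_eq] at this
    exact htop (this ▸ hA)
  obtain ⟨y, hyW, hy1⟩ := hy
  obtain ⟨A', hA', hyA'⟩ := ha y
  have hAb' : A' ≠ ⊥ := fun h => hy1 (by simpa [h] using hyA')
  obtain ⟨W', hW', hWn', hWc'⟩ := frobenius_theorem A' (hfc A' hA' hAb')
  have hWmem' : ∀ z, z ∈ W' ↔ (z = 1 ∨ ∀ g : X, z ∉ MulAut.conj g • A') := by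
    intro z
    have := Set.ext_iff.1 hW' z
    simpa [frobeniusKernel] using this
  have hself : ∀ (B : Subgroup X) (z : X), z ∈ B → z ∈ MulAut.conj (1 : X) • B := by
    intro B z hz
    rw [mem_conj_smul_iff]
    simpa using hz
  have hxW : x ∉ W := by
    rw [hWmem]
    push Not
    exact ⟨hx, 1, hself _ _ hxA⟩
  have hyW' : y ∉ W' := by
    rw [hWmem']
    push Not
    exact ⟨hy1, 1, hself _ _ hyA'⟩
  have hcover : ∀ z, z ∈ W ∨ z ∈ W' := by
    intro z
    by_contra hz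
    push Not at hz
    obtain ⟨h1, h2⟩ := hz
    rw [hWmem] at h1
    rw [hWmem'] at h2
    push Not at h1 h2
    obtain ⟨hz1, g, hg⟩ := h1
    obtain ⟨_, g', hg'⟩ := h2
    have heq := hb _ (hc A hA g) _ (hc A' hA' g') z hz1 hg hg'
    have hyW2 := (hWmem y).1 hyW
    rcases hyW2 with h | h
    · exact hy1 h
    · apply h (g'⁻¹ * g)
      have h3 : y ∈ MulAut.conj g'⁻¹ • (MulAut.conj g' • A') := by
        rw [mem_conj_smul_iff, mem_conj_smul_iff]
        simpa [mul_assoc] using hyA'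
      rw [← heq, ← conj_mul_smul] at h3
      exact h3
  rcases hcover x with h | h
  · exact hxW h
  · rcases hcover y with h' | h'
    · rcases hcover (x * y) with h'' | h''
      · exact hxW ((W.mul_mem_cancel_right h').1 h'')
      · exact hyW' ((W'.mul_mem_cancel_left h).1 h'')
    · exact hyW' h'

/-- The setup: `N = N_G(H)` is the direct product of `K` and `H`, orders coprime, `H` TI. -/
structure Setup (H K : Subgroup G) : Prop where
  ti : Cfsg.IsTISubset (H : Set G)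
  le : K ≤ Subgroup.normalizer (H : Set G)
  nor : ∀ n ∈ Subgroup.normalizer (H : Set G), ∀ k ∈ K, n * k * n⁻¹ ∈ K
  cop : (Nat.card K).Coprime (Nat.card H)
  dis : ∀ x, x ∈ K → x ∈ H → x = 1
  gen : ∀ x ∈ Subgroup.normalizer (H : Set G), ∃ k ∈ K, ∃ h ∈ H, x = k * h
  card : Nat.card K * Nat.card H = Nat.card (Subgroup.normalizer (H : Set G))

namespace Setup

variable {H K : Subgroup G} (hs : Setup H K)
include hs

theorem hle : H ≤ Subgroup.normalizer (H : Set G) := Subgroup.le_normalizer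

theorem nH {n h : G} (hn : n ∈ Subgroup.normalizer (H : Set G)) (hh : h ∈ H) : n * h * n⁻¹ ∈ H :=
  (Subgroup.mem_normalizer_iff.1 hn h).1 hh

theorem comm {k h : G} (hk : k ∈ K) (hh : h ∈ H) : k * h = h * k := by
  have h1 : k * h * k⁻¹ * h⁻¹ ∈ H := H.mul_mem (hs.nH (hs.le hk) hh) (H.inv_mem hh)
  have h2 : k * (h * k⁻¹ * h⁻¹) ∈ K := K.mul_mem hk (hs.nor h (hs.hle hh) _ (K.inv_mem hk))
  have h3 : k * h * k⁻¹ * h⁻¹ = 1 := hs.dis _ (by
    have : k * h * k⁻¹ * h⁻¹ = k * (h * k⁻¹ * h⁻¹) := by group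
    rw [this]; exact h2) h1
  have h4 : k * h * k⁻¹ = h := by
    have : k * h * k⁻¹ = (k * h * k⁻¹ * h⁻¹) * h := by group
    rw [this, h3, one_mul]
  calc k * h = (k * h * k⁻¹) * k := by group
    _ = h * k := by rw [h4]

theorem eq_one_of_pows [Finite G] {a b : ℕ} (hab : a.Coprime b) {x : G} (h1 : x ^ a = 1) (h2 : x ^ b = 1) :
    x = 1 := by
  have := (pow_gcd_eq_one).2 ⟨h1, h2⟩
  rwa [hab, pow_one] at this

theorem pow_K [Finite G] {k : G} (hk : k ∈ K) : k ^ Nat.card K = 1 := by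
  have h1 : (⟨k, hk⟩ : K) ^ Nat.card K = 1 := pow_card_eq_one'
  have h2 := congrArg Subtype.val h1
  rwa [Subgroup.coe_pow] at h2

theorem pow_H [Finite G] {h : G} (hh : h ∈ H) : h ^ Nat.card H = 1 := by
  have h1 : (⟨h, hh⟩ : H) ^ Nat.card H = 1 := pow_card_eq_one'
  have h2 := congrArg Subtype.val h1
  rwa [Subgroup.coe_pow] at h2

theorem mem_H_of_pow [Finite G] {x : G} (hx : x ∈ Subgroup.normalizer (H : Set G))
    (hp : x ^ Nat.card H = 1) : x ∈ H := by
  obtain ⟨k, hk, h, hh, rfl⟩ := hs.gen x hx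
  have hc : Commute k h := hs.comm hk hh
  rw [hc.mul_pow, hs.pow_H hh, mul_one] at hp
  have := hs.eq_one_of_pows hs.cop (hs.pow_K hk) hp
  rw [this, one_mul]
  exact hh

theorem mem_K_of_pow [Finite G] {x : G} (hx : x ∈ Subgroup.normalizer (H : Set G))
    (hp : x ^ Nat.card K = 1) : x ∈ K := by
  obtain ⟨k, hk, h, hh, rfl⟩ := hs.gen x hx
  have hc : Commute k h := hs.comm hk hh
  rw [hc.mul_pow, hs.pow_K hk, one_mul] at hp
  have := hs.eq_one_of_pows hs.cop hp (hs.pow_H hh)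
  rw [this, mul_one]
  exact hk

theorem pow_mem_H [Finite G] {x : G} (hx : x ∈ Subgroup.normalizer (H : Set G)) :
    x ^ Nat.card K ∈ H := by
  obtain ⟨k, hk, h, hh, rfl⟩ := hs.gen x hx
  have hc : Commute k h := hs.comm hk hh
  rw [hc.mul_pow, hs.pow_K hk, one_mul]
  exact H.pow_mem hh _

theorem hyp [Finite G] : WielF.Hyp (Subgroup.normalizer (H : Set G)) K where
  le := hs.le
  nor := hs.nor
  ti := by
    intro x hx hxK g hz hzK
    by_contra hg
    have hy := hs.pow_mem_H hx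
    have hy' := hs.pow_mem_H hz
    have h1 : (g * x * g⁻¹) ^ Nat.card K = g * x ^ Nat.card K * g⁻¹ := by
      simp [conj_pow]
    rw [h1] at hy'
    have := hs.ti g hg _ hy hy'
    exact hxK (hs.mem_K_of_pow hx this)
  ker := by
    intro x hx g hz
    apply hs.mem_K_of_pow hz
    have h1 : (g * x * g⁻¹) ^ Nat.card K = g * x ^ Nat.card K * g⁻¹ := by
      simp [conj_pow]
    rw [h1, hs.pow_K hx]
    simp

end Setup

end Cfsg.Agent.H19.WielG
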