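import Mathlib
import Cfsg.Agent.Lib.H19.WielandtG

set_option autoImplicit false
set_option linter.unusedVariables false
set_option linter.unusedSectionVars false

namespace Cfsg.Agent.H19.WielG

open Cfsg Cfsg.Agent.H01
open scoped Pointwise

universe u

variable {G : Type u} [Group G]

/-- The Frobenius group built from a section `U / R` with a fixed-point-free action of `H`. -/
theorem frob_of_section [Finite G] (H U R : Subgroup G) (hRU : R ≤ U)
    (hnorU : ∀ u ∈ U, ∀ z ∈ R, u * z * u⁻¹ ∈ R) (hne : ∃ u ∈ U, u ∉ R) (hH : H ≠ ⊥)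
    (hHU : ∀ h ∈ H, ∀ u ∈ U, h * u * h⁻¹ ∈ U) (hHR : ∀ h ∈ H, ∀ z ∈ R, h * z * h⁻¹ ∈ R)
    (hfree : ∀ h ∈ H, h ≠ 1 → ∀ u ∈ U, u⁻¹ * (h * u * h⁻¹) ∈ R → u ∈ R) :
    ∃ (F : Type u) (_ : Group F) (_ : Finite F) (C : Subgroup F),
      Cfsg.IsFrobeniusComplement C ∧ Nonempty (H ≃* C) := by
  classical
  let R' : Subgroup U := R.subgroupOf U
  haveI hR' : R'.Normal := by
    constructor
    intro a ha b
    exact hnorU b b.2 a ha
  let A := U ⧸ R'
  let ψ : H → U →* U := fun h =>
    { toFun := fun u => ⟨(h : G) * u * (h : G)⁻¹, hHU h h.2 u u.2⟩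
      map_one' := by
        apply Subtype.ext
        simp
      map_mul' := by
        intro a b
        apply Subtype.ext
        simp only [Subgroup.coe_mul]
        group }
  have hψ : ∀ (h : H) (u : U), ((ψ h u : U) : G) = (h : G) * u * (h : G)⁻¹ := fun _ _ => rfl
  have hψR : ∀ h : H, R' ≤ R'.comap (ψ h) := by
    intro h z hz
    exact hHR h h.2 z hz
  let Q : H → A →* A := fun h => QuotientGroup.map R' R' (ψ h) (hψR h)
  have hQ : ∀ (h : H) (u : U), Q h (QuotientGroup.mk u) = QuotientGroup.mk (ψ h u) := fun _ _ => rfl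
  letI : MulDistribMulAction H A :=
    { smul := fun h a => Q h a
      one_smul := by
        intro a
        induction a using QuotientGroup.induction_on with
        | H u =>
          change Q 1 (QuotientGroup.mk u) = _
          rw [hQ]
          congr 1
          apply Subtype.ext
          rw [hψ]
          simp
      mul_smul := by
        intro h h' a
        induction a using QuotientGroup.induction_on with
        | H u =>
          change Q (h * h') (QuotientGroup.mk u) = Q h (Q h' (QuotientGroup.mk u))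
          rw [hQ, hQ, hQ]
          congr 1
          apply Subtype.ext
          rw [hψ, hψ, hψ]
          simp only [Subgroup.coe_mul]
          group
      smul_mul := by
        intro h a b
        exact map_mul (Q h) a b
      smul_one := by
        intro h
        exact map_one (Q h) }
  let φ : H →* MulAut A := MulDistribMulAction.toMulAut H A
  have hφ : ∀ (h : H) (u : U), φ h (QuotientGroup.mk u) = QuotientGroup.mk (ψ h u) := fun _ _ => rfl
  haveI : Nontrivial H := (Subgroup.nontrivial_iff_ne_bot H).2 hH
  obtain ⟨u₀, hu₀, hu₀R⟩ := hne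
  haveI : Nontrivial A := by
    refine ⟨⟨QuotientGroup.mk ⟨u₀, hu₀⟩, 1, ?_⟩⟩
    intro h
    apply hu₀R
    exact (QuotientGroup.eq_one_iff (N := R') (⟨u₀, hu₀⟩ : U)).1 h
  haveI : Finite A := inferInstance
  have hfr := Cfsg.Agent.H20.frob_semidirect (A := A) (H := H) φ (by
    intro h hh a ha hfix
    induction a using QuotientGroup.induction_on with
    | H u =>
      rw [hφ] at hfix
      apply ha
      have h1 : (QuotientGroup.mk u : A) = QuotientGroup.mk (ψ h u) := hfix.symm
      have h2 := QuotientGroup.eq.1 h1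
      have h3 : (u : G) ∈ R := by
        refine hfree h h.2 (fun h' => hh (Subtype.ext h')) u u.2 ?_
        have h4 : ((u⁻¹ * ψ h u : U) : G) ∈ R := h2
        simpa [hψ] using h4
      exact (QuotientGroup.eq_one_iff (N := R') u).2 h3)
  haveI : Finite (SemidirectProduct A H φ) :=
    Finite.of_equiv _ (SemidirectProduct.equivProd (φ := φ)).symm
  refine ⟨SemidirectProduct A H φ, inferInstance, inferInstance, _, hfr, ⟨?_⟩⟩
  exact MonoidHom.ofInjective (SemidirectProduct.inr_injective (φ := φ))

namespace Setup

variable {H K : Subgroup G} (hs : Setup H K) [Finite G]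
include hs

theorem exists_M : ∃ M : Subgroup G, M.Normal ∧
    (∀ x, x ∈ M ↔ ∀ g : G, g⁻¹ * x * g ∈ Subgroup.normalizer (H : Set G) → g⁻¹ * x * g ∈ K) ∧
    M.IsComplement' H ∧ Nat.card M = (Subgroup.normalizer (H : Set G)).index * Nat.card K := by
  obtain ⟨M, hMn, hM, hMc⟩ := WielF.main (Subgroup.normalizer (H : Set G)) K hs.hyp
  refine ⟨M, hMn, hM, ?_, hMc⟩
  rw [Subgroup.isComplement'_iff_card_mul_and_disjoint]
  constructor
  · rw [hMc, mul_assoc, hs.card, Subgroup.index_mul_card]
  · rw [Subgroup.disjoint_def]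
    intro x hxM hxH
    have h1 := (hM x).1 hxM 1 (by simpa using hs.hle hxH)
    exact hs.dis x (by simpa using h1) hxH

theorem conj_mem_H_of_mem_N {h g : G} (hh : h ∈ H)
    (hg : g⁻¹ * h * g ∈ Subgroup.normalizer (H : Set G)) : g⁻¹ * h * g ∈ H := by
  apply hs.mem_H_of_pow hg
  have h1 : (g⁻¹ * h * g) ^ Nat.card H = g⁻¹ * h ^ Nat.card H * g := by
    have := conj_pow (a := g⁻¹) (b := h) (i := Nat.card H)
    simpa using this
  rw [h1, hs.pow_H hh]
  simp

theorem cop_index : (Nat.card H).Coprime (Subgroup.normalizer (H : Set G)).index := by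
  classical
  set N := Subgroup.normalizer (H : Set G) with hN
  let q₀ : G ⧸ N := QuotientGroup.mk 1
  have hq₀ : ∀ h : H, h • q₀ = q₀ := by
    intro h
    change QuotientGroup.mk ((h : G) * 1) = QuotientGroup.mk (1 : G)
    rw [QuotientGroup.eq]
    simpa using N.inv_mem (hs.hle h.2)
  let X : SubMulAction H (G ⧸ N) :=
    { carrier := {q | q ≠ q₀}
      smul_mem' := by
        intro h q hq hq2
        apply hq
        have : h⁻¹ • (h • q) = h⁻¹ • q₀ := by rw [hq2]
        rw [inv_smul_smul, hq₀] at this
        exact this }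
  have hdvd : Nat.card H ∣ Nat.card X := by
    apply card_dvd_of_free
    rintro h ⟨q, hq⟩ hfix
    have hfix' : h • q = q := congrArg Subtype.val hfix
    induction q using QuotientGroup.induction_on with
    | H g =>
      have h1 : (QuotientGroup.mk ((h : G) * g) : G ⧸ N) = QuotientGroup.mk g := hfix'
      have h2 := QuotientGroup.eq.1 h1
      have h3 : g⁻¹ * (h : G) * g ∈ N := by
        have := N.inv_mem h2
        simpa [mul_assoc] using this
      have h4 := hs.conj_mem_H_of_mem_N h.2 h3
      by_contra hne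
      have hg : g⁻¹ ∉ N := by
        intro hg
        apply hq
        have : g ∈ N := by simpa using N.inv_mem hg
        change QuotientGroup.mk g = QuotientGroup.mk (1 : G)
        rw [QuotientGroup.eq]
        simpa using N.inv_mem this
      have h5 := hs.ti g⁻¹ hg h h.2 (by simpa using h4)
      exact hne (Subtype.ext h5)
  have hcard : Nat.card X + 1 = N.index := by
    have h1 := Set.ncard_add_ncard_compl ({q₀} : Set (G ⧸ N)) (Set.toFinite _) (Set.toFinite _)
    rw [Set.ncard_singleton] at h1
    have h2 : (({q₀} : Set (G ⧸ N))ᶜ).ncard = Nat.card X := (Nat.card_coe_set_eq _).symm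
    rw [h2] at h1
    rw [Subgroup.index, ← h1]
    ring
  obtain ⟨c, hc⟩ := hdvd
  rw [← hcard, hc]
  simp

end Setup

end Cfsg.Agent.H19.WielG
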