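import Mathlib
import Cfsg.Agent.Lib.H19.WielandtH
import Cfsg.Agent.Lib.H01.SZ2

set_option autoImplicit false
set_option linter.unusedVariables false
set_option linter.unusedSectionVars false

namespace Cfsg.Agent.H19.WielG

open Cfsg Cfsg.Agent.H01
open scoped Pointwise

universe u

variable {G : Type u} [Group G]

namespace Setup

variable {H K M : Subgroup G} (hs : Setup H K) [Finite G]
include hs

theorem exists_conj_of_pow (hMn : M.Normal)
    (hM : ∀ x, x ∈ M ↔ ∀ g : G, g⁻¹ * x * g ∈ Subgroup.normalizer (H : Set G) → g⁻¹ * x * g ∈ K)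
    (hMc : Nat.card M = (Subgroup.normalizer (H : Set G)).index * Nat.card K)
    {x : G} (hx : x ^ Nat.card H = 1) : ∃ g : G, g⁻¹ * x * g ∈ H := by
  by_cases hxM : x ∈ M
  · have h1 : x ^ Nat.card M = 1 := by
      have h1 : (⟨x, hxM⟩ : M) ^ Nat.card M = 1 := pow_card_eq_one'
      have h2 := congrArg Subtype.val h1
      rwa [Subgroup.coe_pow] at h2
    have hcop : (Nat.card M).Coprime (Nat.card H) := by
      rw [hMc]
      exact Nat.Coprime.mul_left hs.cop_index.symm hs.cop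
    have := hs.eq_one_of_pows hcop h1 hx
    exact ⟨1, by simp [this, H.one_mem]⟩
  · rw [hM] at hxM
    push Not at hxM
    obtain ⟨g, h1, h2⟩ := hxM
    refine ⟨g, hs.mem_H_of_pow h1 ?_⟩
    have h3 : (g⁻¹ * x * g) ^ Nat.card H = g⁻¹ * x ^ Nat.card H * g := by
      have := conj_pow (a := g⁻¹) (b := x) (i := Nat.card H)
      simpa using this
    rw [h3, hx]
    simp

theorem conj_eq_of_mem {g g' x : G} (hx1 : x ≠ 1) (h1 : g⁻¹ * x * g ∈ H) (h2 : g'⁻¹ * x * g' ∈ H) :
    MulAut.conj g • H = MulAut.conj g' • H := by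
  have hw : g'⁻¹ * g ∈ Subgroup.normalizer (H : Set G) := by
    by_contra hw
    have h3 := hs.ti _ hw _ h1 (by
      have : g'⁻¹ * g * (g⁻¹ * x * g) * (g'⁻¹ * g)⁻¹ = g'⁻¹ * x * g' := by group
      rw [SetLike.mem_coe, this]; exact h2)
    apply hx1
    have h4 : x = g * (g⁻¹ * x * g) * g⁻¹ := by group
    rw [h4, h3]
    group
  ext y
  rw [mem_conj_smul_iff, mem_conj_smul_iff]
  have := Subgroup.mem_normalizer_iff.1 hw (g⁻¹ * y * g)
  have h5 : g'⁻¹ * g * (g⁻¹ * y * g) * (g'⁻¹ * g)⁻¹ = g'⁻¹ * y * g' := by group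
  rw [h5] at this
  exact this

theorem eq_conj_of_card (hMn : M.Normal)
    (hM : ∀ x, x ∈ M ↔ ∀ g : G, g⁻¹ * x * g ∈ Subgroup.normalizer (H : Set G) → g⁻¹ * x * g ∈ K)
    (hMc : Nat.card M = (Subgroup.normalizer (H : Set G)).index * Nat.card K)
    (X : Subgroup G) (hX : Nat.card X = Nat.card H) : ∃ g : G, X = MulAut.conj g • H := by
  classical
  have hpowX : ∀ x : X, (x : G) ^ Nat.card H = 1 := by
    intro x
    have h1 : x ^ Nat.card X = 1 := pow_card_eq_one'
    have h2 := congrArg Subtype.val h1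
    rw [Subgroup.coe_pow, hX] at h2
    exact h2
  let P : Set (Subgroup X) := {A | ∃ g : G, A = (MulAut.conj g • H).subgroupOf X}
  have htop : (⊤ : Subgroup X) ∈ P := by
    apply partition P
    · intro x
      obtain ⟨g, hg⟩ := hs.exists_conj_of_pow hMn hM hMc (hpowX x)
      refine ⟨_, ⟨g, rfl⟩, ?_⟩
      rw [Subgroup.mem_subgroupOf, mem_conj_smul_iff]
      exact hg
    · rintro A ⟨g, rfl⟩ B ⟨g', rfl⟩ x hx1 hxA hxB
      rw [Subgroup.mem_subgroupOf, mem_conj_smul_iff] at hxA hxB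
      rw [hs.conj_eq_of_mem (x := x) (fun h => hx1 (Subtype.ext h)) hxA hxB]
    · rintro A ⟨g, rfl⟩ u
      refine ⟨(u : G) * g, ?_⟩
      ext y
      rw [mem_conj_smul_iff, Subgroup.mem_subgroupOf, mem_conj_smul_iff, Subgroup.mem_subgroupOf,
        mem_conj_smul_iff]
      have : g⁻¹ * ((u⁻¹ * y * u : X) : G) * g = ((u : G) * g)⁻¹ * (y : G) * ((u : G) * g) := by
        simp only [Subgroup.coe_mul, Subgroup.coe_inv]
        group
      rw [this]
    · rintro A ⟨g, rfl⟩ z hz hz1 u hu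
      rw [Subgroup.mem_subgroupOf, mem_conj_smul_iff] at hz hu ⊢
      have hw : g⁻¹ * (u : G) * g ∈ Subgroup.normalizer (H : Set G) := by
        by_contra hw
        have h3 := hs.ti _ hw _ hz (by
          have : g⁻¹ * (u : G) * g * (g⁻¹ * (z : G) * g) * (g⁻¹ * (u : G) * g)⁻¹
              = g⁻¹ * ((u * z * u⁻¹ : X) : G) * g := by
            simp only [Subgroup.coe_mul, Subgroup.coe_inv]
            group
          rw [SetLike.mem_coe, this]; exact hu)
        apply hz1
        apply Subtype.ext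
        have h4 : (z : G) = g * (g⁻¹ * (z : G) * g) * g⁻¹ := by group
        rw [h4, h3]
        simp
      apply hs.mem_H_of_pow hw
      have h3 : (g⁻¹ * (u : G) * g) ^ Nat.card H = g⁻¹ * (u : G) ^ Nat.card H * g := by
        have := conj_pow (a := g⁻¹) (b := (u : G)) (i := Nat.card H)
        simpa using this
      rw [h3, hpowX u]
      simp
  obtain ⟨g, hg⟩ := htop
  refine ⟨g, ?_⟩
  have hle : X ≤ MulAut.conj g • H := Subgroup.subgroupOf_eq_top.1 hg.symm
  apply Subgroup.eq_of_le_of_card_ge hle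
  rw [card_conj_smul, hX]

/-- Existence of an `H`-invariant `r`-subgroup of `M` not inside `K`. -/
theorem exists_R (hMn : M.Normal)
    (hM : ∀ x, x ∈ M ↔ ∀ g : G, g⁻¹ * x * g ∈ Subgroup.normalizer (H : Set G) → g⁻¹ * x * g ∈ K)
    (hMcomp : M.IsComplement' H)
    (hMc : Nat.card M = (Subgroup.normalizer (H : Set G)).index * Nat.card K)
    (hN : Subgroup.normalizer (H : Set G) ≠ ⊤) :
    ∃ (r : ℕ) (R : Subgroup G), r.Prime ∧ IsPGroup r R ∧ R ≤ M ∧ ¬ R ≤ K ∧ ¬ r ∣ Nat.card H ∧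
      (∀ h ∈ H, ∀ x ∈ R, h * x * h⁻¹ ∈ R) := by
  classical
  set idx := (Subgroup.normalizer (H : Set G)).index with hidx
  have hidx1 : idx ≠ 1 := by
    intro h
    exact hN (Subgroup.index_eq_one.1 h)
  set r := idx.minFac with hr
  have hrp : r.Prime := Nat.minFac_prime hidx1
  have hrd : r ∣ idx := Nat.minFac_dvd idx
  have hrH : ¬ r ∣ Nat.card H := by
    intro h
    exact hrp.one_lt.ne' (Nat.eq_one_of_dvd_coprimes hs.cop_index h hrd)
  haveI : Fact r.Prime := ⟨hrp⟩
  haveI := hMn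
  let P : Sylow r M := Classical.arbitrary _
  let R0 : Subgroup G := (P : Subgroup M).map M.subtype
  have hFr := Sylow.normalizer_sup_eq_top P
  let Nd : Subgroup G := Subgroup.normalizer (R0 : Set G)
  have hFr' : Nd ⊔ M = ⊤ := hFr
  let M' : Subgroup Nd := M.subgroupOf Nd
  have hidxM' : M'.index = Nat.card H := by
    have h1 : M'.index = M.relIndex Nd := rfl
    rw [h1, ← Subgroup.relIndex_sup_right, hFr', Subgroup.relIndex_top_right]
    exact hMcomp.symm.index_eq_card
  have hcardM' : Nat.card M' ∣ Nat.card M := card_subgroupOf_dvd M Nd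
  have hcop : (Nat.card M).Coprime (Nat.card H) := by
    rw [hMc]
    exact Nat.Coprime.mul_left hs.cop_index.symm hs.cop
  have hcop' : (Nat.card M').Coprime M'.index := by
    rw [hidxM']
    exact Nat.Coprime.coprime_dvd_left hcardM' hcop
  obtain ⟨H', hH'⟩ := Subgroup.exists_right_complement'_of_coprime hcop'
  let X : Subgroup G := H'.map Nd.subtype
  have hXc : Nat.card X = Nat.card H := by
    have h1 : Nat.card X = Nat.card H' := Subgroup.card_map_of_injective Nd.subtype_injective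
    rw [h1, ← hidxM']
    exact hH'.symm.index_eq_card.symm
  obtain ⟨g, hg⟩ := hs.eq_conj_of_card hMn hM hMc X hXc
  have hXnorm : ∀ x ∈ X, ∀ y ∈ R0, x * y * x⁻¹ ∈ R0 := by
    rintro _ ⟨n, _, rfl⟩ y hy
    exact (Subgroup.mem_normalizer_iff.1 n.2 y).1 hy
  have hR0M : R0 ≤ M := Subgroup.map_subtype_le _
  have hcardR0 : Nat.card R0 = Nat.card (P : Subgroup M) :=
    Subgroup.card_map_of_injective M.subtype_injective
  refine ⟨r, MulAut.conj g⁻¹ • R0, hrp, ?_, ?_, ?_, hrH, ?_⟩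
  · rw [IsPGroup.iff_card]
    have h1 : IsPGroup r R0 := P.isPGroup'.map M.subtype
    obtain ⟨n, hn⟩ := IsPGroup.iff_card.1 h1
    exact ⟨n, by rw [card_conj_smul, hn]⟩
  · intro x hx
    rw [mem_conj_smul_iff] at hx
    have h1 := hMn.conj_mem _ (hR0M hx) g⁻¹
    have h2 : g⁻¹ * (g⁻¹⁻¹ * x * g⁻¹) * g⁻¹⁻¹ = x := by group
    rwa [h2] at h1
  · intro hle
    have h1 : Nat.card (MulAut.conj g⁻¹ • R0 : Subgroup G) ∣ Nat.card K :=
      Subgroup.card_dvd_of_le hle
    rw [card_conj_smul, hcardR0] at h1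
    obtain ⟨c, hc⟩ := h1
    have h2 : Nat.card (P : Subgroup M) * (P : Subgroup M).index = Nat.card M :=
      Subgroup.card_mul_index _
    rw [hMc, hc] at h2
    have h3 : (P : Subgroup M).index = idx * c := by
      have hpos : 0 < Nat.card (P : Subgroup M) := Nat.card_pos
      apply Nat.eq_of_mul_eq_mul_left hpos
      rw [h2]
      ring
    apply P.not_dvd_index
    rw [h3]
    exact hrd.mul_right c
  · intro h hh x hx
    rw [mem_conj_smul_iff] at hx ⊢
    have h1 : g * h * g⁻¹ ∈ X := by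
      rw [hg]
      exact conj_mem_conj_smul hh
    have h2 := hXnorm _ h1 _ hx
    have h3 : g⁻¹⁻¹ * (h * x * h⁻¹) * g⁻¹ = g * h * g⁻¹ * (g⁻¹⁻¹ * x * g⁻¹) * (g * h * g⁻¹)⁻¹ := by
      group
    rw [h3]
    exact h2

/-- Part (b): the Frobenius group. -/
theorem exists_frob (hnn : ¬ H.Normal) :
    ∃ (F : Type u) (_ : Group F) (_ : Finite F) (C : Subgroup F),
      Cfsg.IsFrobeniusComplement C ∧ Nonempty (H ≃* C) := by
  classical
  obtain ⟨M, hMn, hM, hMcomp, hMc⟩ := hs.exists_M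
  have hN : Subgroup.normalizer (H : Set G) ≠ ⊤ := fun h => hnn (Subgroup.normalizer_eq_top_iff.1 h)
  have hHb : H ≠ ⊥ := by
    rintro rfl
    exact hnn inferInstance
  obtain ⟨r, R, hrp, hRp, hRM, hRK, hrH, hRinv⟩ := hs.exists_R hMn hM hMcomp hMc hN
  haveI : Fact r.Prime := ⟨hrp⟩
  let R₁ : Subgroup G := R ⊓ K
  let U : Subgroup G := R ⊓ Subgroup.normalizer (R₁ : Set G)
  have hHR : ∀ h ∈ H, ∀ z ∈ R₁, h * z * h⁻¹ ∈ R₁ := by
    intro h hh z hz
    exact ⟨hRinv h hh z hz.1, hs.nor h (hs.hle hh) z hz.2⟩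
  have hnorU : ∀ u ∈ U, ∀ z ∈ R₁, u * z * u⁻¹ ∈ R₁ := by
    intro u hu z hz
    exact (Subgroup.mem_normalizer_iff.1 hu.2 z).1 hz
  have hRU : R₁ ≤ U := fun z hz => ⟨hz.1, Subgroup.le_normalizer hz⟩
  have hne : ∃ u ∈ U, u ∉ R₁ := by
    haveI : Group.IsNilpotent R := hRp.isNilpotent
    have hcond := normalizerCondition_of_isNilpotent (G := R)
    let S : Subgroup R := R₁.subgroupOf R
    have hS : S < ⊤ := by
      rw [lt_top_iff_ne_top]
      intro h
      apply hRK
      have := Subgroup.subgroupOf_eq_top.1 h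
      exact fun x hx => (this hx).2
    obtain ⟨u, hu, huS⟩ := SetLike.exists_of_lt (hcond S hS)
    refine ⟨u, ⟨u.2, ?_⟩, fun h => huS h⟩
    apply Subgroup.mem_normalizer_fintype
    intro z hz
    have h1 : (⟨z, hz.1⟩ : R) ∈ S := hz
    have h2 := (Subgroup.mem_normalizer_iff.1 hu _).1 h1
    exact h2
  have hHU : ∀ h ∈ H, ∀ u ∈ U, h * u * h⁻¹ ∈ U := by
    intro h hh u hu
    refine ⟨hRinv h hh u hu.1, ?_⟩
    apply Subgroup.mem_normalizer_fintype
    intro z hz
    have h1 := hHR h⁻¹ (H.inv_mem hh) z hz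
    have h2 := hnorU u hu _ h1
    have h3 := hHR h hh _ h2
    have h4 : h * (u * (h⁻¹ * z * h⁻¹⁻¹) * u⁻¹) * h⁻¹ = h * u * h⁻¹ * z * (h * u * h⁻¹)⁻¹ := by group
    rw [h4] at h3
    exact h3
  apply frob_of_section H U R₁ hRU hnorU hne hHb hHU hHR
  intro h hh hh1 u hu hw
  set w := u⁻¹ * (h * u * h⁻¹) with hwd
  have hcomm : Commute h w := (hs.comm hw.2 hh).symm
  have hu1 : h * u = u * w * h := by
    rw [hwd]; group
  have hpow : ∀ n : ℕ, h ^ n * u = u * w ^ n * h ^ n := by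
    intro n
    induction n with
    | zero => simp
    | succ n ih =>
      calc h ^ (n + 1) * u = h * (h ^ n * u) := by rw [pow_succ']; group
        _ = h * (u * w ^ n * h ^ n) := by rw [ih]
        _ = (h * u) * w ^ n * h ^ n := by group
        _ = u * w * h * w ^ n * h ^ n := by rw [hu1]
        _ = u * w * (h * w ^ n) * h ^ n := by group
        _ = u * w * (w ^ n * h) * h ^ n := by rw [(hcomm.pow_right n).eq]
        _ = u * w ^ (n + 1) * h ^ (n + 1) := by rw [pow_succ', pow_succ']; group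
  have hw1 : w ^ Nat.card H = 1 := by
    have := hpow (Nat.card H)
    rw [hs.pow_H hh, one_mul, mul_one] at this
    exact (mul_eq_left.1 this.symm)
  have hwR : w ^ Nat.card R = 1 := by
    have h1 : (⟨w, hw.1⟩ : R) ^ Nat.card R = 1 := pow_card_eq_one'
    have h2 := congrArg Subtype.val h1
    rwa [Subgroup.coe_pow] at h2
  have hcopR : (Nat.card H).Coprime (Nat.card R) := by
    obtain ⟨n, hn⟩ := IsPGroup.iff_card.1 hRp
    rw [hn]
    exact Nat.Coprime.pow_right n ((Nat.Prime.coprime_iff_not_dvd hrp).2 hrH).symm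
  have hw2 : w = 1 := hs.eq_one_of_pows hcopR hw1 hwR
  have hcu : u * h * u⁻¹ = h := by
    have h1 : h * u = u * h := by
      rw [hu1, hw2, mul_one]
    rw [← h1]
    group
  have huN : u ∈ Subgroup.normalizer (H : Set G) := by
    by_contra huN
    exact hh1 (hs.ti u huN h hh (by rw [hcu]; exact hh))
  have huK := (hM u).1 (hRM hu.1) 1 (by simpa using huN)
  exact ⟨hu.1, by simpa using huK⟩

end Setup

end Cfsg.Agent.H19.WielG
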