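import Mathlib
import Cfsg.Agent.Lib.H19.ZCoprime

/-! Coprime action on groups whose `p`-subgroups are all cyclic, main theorem (helper19). -/

set_option autoImplicit false
set_option linter.style.haveILetI false

universe u

namespace Cfsg.Agent.H19

open scoped commutatorElement

variable {Γ : Type u} [Group Γ] [Finite Γ]

theorem coprime_of_cyclic_inf {M M₀ C : Subgroup Γ} (hM₀M : M₀ ≤ M) (hCM : C ≤ M) (hcyc : CycP M)
    (hM₀ : IsCyclic M₀) (hN : C ≤ Subgroup.normalizer (M₀ : Set Γ)) (hinf : M₀ ⊓ C = ⊥) :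
    Nat.Coprime (Nat.card M₀) (Nat.card C) := by
  apply Nat.coprime_of_dvd
  intro r hr h1 h2
  haveI := Fact.mk hr
  obtain ⟨u, hu⟩ := exists_prime_orderOf_dvd_card' r h1
  obtain ⟨c, hc⟩ := exists_prime_orderOf_dvd_card' r h2
  have hu' : orderOf (u : Γ) = r := by rw [Subgroup.orderOf_coe, hu]
  have hc' : orderOf (c : Γ) = r := by rw [Subgroup.orderOf_coe, hc]
  have hcu : (c : Γ) * u * (c : Γ)⁻¹ ∈ M₀ := (Subgroup.mem_normalizer_iff.1 (hN c.2) u).1 u.2
  have hcuo : orderOf ((⟨(c : Γ) * u * (c : Γ)⁻¹, hcu⟩ : M₀) : Γ) = r := by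
    have h3 : (c : Γ) * u * (c : Γ)⁻¹ = (MulAut.conj (c : Γ)).toMonoidHom u := rfl
    show orderOf ((c : Γ) * u * (c : Γ)⁻¹) = r
    rw [h3, orderOf_injective _ (MulEquiv.injective _), hu']
  have h4 : (⟨(c : Γ) * u * (c : Γ)⁻¹, hcu⟩ : M₀) ∈ Subgroup.zpowers u := by
    apply mem_zpowers_of_orderOf_eq_prime hu
    rw [← Subgroup.orderOf_coe]
    exact hcuo
  have h5 : (c : Γ) * u * (c : Γ)⁻¹ ∈ Subgroup.zpowers (u : Γ) := by
    obtain ⟨i, hi⟩ := h4
    refine ⟨i, ?_⟩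
    have := congrArg Subtype.val hi
    simpa using this
  have h6 : (c : Γ) ∈ Subgroup.normalizer ((Subgroup.zpowers (u : Γ) : Subgroup Γ) : Set Γ) :=
    mem_normalizer_zpowers_of_conj_mem h5
  set Q : Subgroup Γ := Subgroup.zpowers (u : Γ) ⊔ Subgroup.zpowers (c : Γ) with hQ
  have hUp : IsPGroup r (Subgroup.zpowers (u : Γ)) :=
    isPGroup_zpowers_of_orderOf (k := 1) (by rw [hu', pow_one])
  have hCp : IsPGroup r (Subgroup.zpowers (c : Γ)) :=
    isPGroup_zpowers_of_orderOf (k := 1) (by rw [hc', pow_one])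
  have hQp : IsPGroup r Q := IsPGroup.to_sup_of_normal_left' hUp hCp (by
    rw [Subgroup.zpowers_le]; exact h6)
  have hQM : Q ≤ M := by
    apply sup_le
    · rw [Subgroup.zpowers_le]; exact hM₀M u.2
    · rw [Subgroup.zpowers_le]; exact hCM c.2
  haveI hQc : IsCyclic Q := hcyc r hr Q hQM hQp
  have huQ : (u : Γ) ∈ Q := (le_sup_left : Subgroup.zpowers (u : Γ) ≤ Q) (Subgroup.mem_zpowers _)
  have hcQ : (c : Γ) ∈ Q := (le_sup_right : Subgroup.zpowers (c : Γ) ≤ Q) (Subgroup.mem_zpowers _)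
  have h7 : (⟨c, hcQ⟩ : Q) ∈ Subgroup.zpowers (⟨u, huQ⟩ : Q) := by
    apply mem_zpowers_of_orderOf_eq_prime (r := r)
    · rw [← Subgroup.orderOf_coe]; exact hu'
    · rw [← Subgroup.orderOf_coe]; exact hc'
  obtain ⟨i, hi⟩ := h7
  have h8 : (u : Γ) ^ i = c := by
    have := congrArg Subtype.val hi
    simpa using this
  have h9 : (c : Γ) ∈ M₀ := by rw [← h8]; exact M₀.zpow_mem u.2 i
  have h10 : (c : Γ) ∈ M₀ ⊓ C := ⟨h9, c.2⟩
  rw [hinf, Subgroup.mem_bot] at h10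
  rw [h10, orderOf_one] at hc'
  exact hr.one_lt.ne hc'

/-- `(n c)^k = n_k c^k`. -/
theorem exists_pow_mul_eq {N : Subgroup Γ} {n c : Γ} (hn : n ∈ N)
    (hc : c ∈ Subgroup.normalizer (N : Set Γ)) (k : ℕ) : ∃ t ∈ N, (n * c) ^ k = t * c ^ k := by
  induction k with
  | zero => exact ⟨1, N.one_mem, by simp⟩
  | succ k ih =>
    obtain ⟨t, ht, h⟩ := ih
    refine ⟨t * (c ^ k * n * (c ^ k)⁻¹), N.mul_mem ht ?_, ?_⟩
    · exact (Subgroup.mem_normalizer_iff.1 (Subgroup.pow_mem _ hc k) n).1 hn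
    · rw [pow_succ, h]; group

/-- **Main induction**: if `X = [X, A]` then `X` is cyclic and `C_X(A) = 1`. -/
theorem star (A : Subgroup Γ) (n : ℕ) : ∀ X : Subgroup Γ, Nat.card X = n →
    A ≤ Subgroup.normalizer (X : Set Γ) → (Nat.card A).Coprime (Nat.card X) → CycP X → ⁅X, A⁆ = X →
    IsCyclic X ∧ X ⊓ Subgroup.centralizer (A : Set Γ) = ⊥ := by
  classical
  induction n using Nat.strong_induction_on with
  | _ n ih =>
  intro X hn hAX hcop hcyc hX
  by_cases h1 : Nat.card X = 1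
  · have hXb : X = ⊥ := Subgroup.card_eq_one.mp h1
    subst hXb
    exact ⟨inferInstance, bot_inf_eq _⟩
  set p := (Nat.card X).minFac with hpdef
  have hp : p.Prime := Nat.minFac_prime h1
  haveI : Fact p.Prime := ⟨hp⟩
  have hpd : p ∣ Nat.card X := Nat.minFac_dvd _
  let P' : Sylow p X := default
  obtain ⟨M', hM'n, hM'c⟩ := normal_complement_smallest hcyc.subtype
    (fun r hr hd => Nat.minFac_le_of_dvd hr.two_le hd) P'
  haveI := hM'n
  set M : Subgroup Γ := M'.map X.subtype with hM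
  set P : Subgroup Γ := (P' : Subgroup X).map X.subtype with hP
  have hMX : M ≤ X := Subgroup.map_subtype_le _
  have hPX : P ≤ X := Subgroup.map_subtype_le _
  have hMcard : Nat.card M = Nat.card M' :=
    Nat.card_congr (M'.equivMapOfInjective X.subtype X.subtype_injective).toEquiv.symm
  have hPcard : Nat.card P = Nat.card (P' : Subgroup X) :=
    Nat.card_congr ((P' : Subgroup X).equivMapOfInjective X.subtype X.subtype_injective).toEquiv.symm
  have hPidx : (P' : Subgroup X).index = Nat.card M' := hM'c.index_eq_card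
  have hM'idx : M'.index = Nat.card (P' : Subgroup X) := hM'c.symm.index_eq_card
  obtain ⟨k, hk⟩ := IsPGroup.iff_card.mp P'.2
  have hMcop : Nat.Coprime (Nat.card M) p := by
    rw [hMcard, ← hPidx]
    exact ((Nat.Prime.coprime_iff_not_dvd hp).2 P'.not_dvd_index).symm
  have hcards : Nat.card M * Nat.card P = Nat.card X := by
    rw [hMcard, hPcard]; exact hM'c.card_mul_card
  have hPne : Nat.card P ≠ 1 := by
    intro h2
    rw [hPcard] at h2
    have h3 := Subgroup.card_mul_index (P' : Subgroup X)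
    rw [h2, one_mul] at h3
    rw [← h3] at hpd
    exact P'.not_dvd_index hpd
  have hMlt : Nat.card M < Nat.card X := by
    rw [← hcards]
    have h2 : 1 < Nat.card P := by
      have : 0 < Nat.card P := Nat.card_pos
      omega
    have h3 : 0 < Nat.card M := Nat.card_pos
    nlinarith
  have hMord : ∀ x ∈ M, Nat.Coprime (orderOf x) p := fun x hx =>
    Nat.Coprime.coprime_dvd_left (Subgroup.orderOf_dvd_natCard M hx) hMcop
  have hmemM : ∀ x ∈ X, Nat.Coprime (orderOf x) p → x ∈ M := by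
    intro x hx hc
    let z : X := ⟨x, hx⟩
    have h5 : z ^ M'.index ∈ M' := Subgroup.pow_index_mem M' z
    have h6 : z ^ orderOf z ∈ M' := by rw [pow_orderOf_eq_one]; exact M'.one_mem
    have hz : z ∈ M' := by
      refine H15.mem_of_pow_mem_of_pow_mem h5 h6 ?_
      rw [hM'idx, hk, ← Subgroup.orderOf_coe z]
      exact (Nat.Coprime.pow_right k hc).symm
    exact ⟨z, hz, rfl⟩
  have hconjord : ∀ (g x : Γ), orderOf (g * x * g⁻¹) = orderOf x := by
    intro g x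
    have h1 : g * x * g⁻¹ = (MulAut.conj g).toMonoidHom x := rfl
    rw [h1]
    exact orderOf_injective _ (MulEquiv.injective _) x
  have hXnorm : X ≤ Subgroup.normalizer (M : Set Γ) := by
    intro x hx
    apply mem_normalizer_of_conj_le
    intro m hm
    apply hmemM _ (X.mul_mem (X.mul_mem hx (hMX hm)) (X.inv_mem hx))
    rw [hconjord]
    exact hMord m hm
  have hAM : A ≤ Subgroup.normalizer (M : Set Γ) := by
    intro a ha
    apply mem_normalizer_of_conj_le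
    intro m hm
    apply hmemM _ ((Subgroup.mem_normalizer_iff.1 (hAX ha) m).1 (hMX hm))
    rw [hconjord]
    exact hMord m hm
  have hdec : ∀ x ∈ X, ∃ m ∈ M, ∃ y ∈ P, x = m * y := by
    intro x hx
    obtain ⟨⟨m, y⟩, hmy⟩ := hM'c.2 ⟨x, hx⟩
    refine ⟨((m : X) : Γ), ⟨m, m.2, rfl⟩, ((y : X) : Γ), ⟨y, y.2, rfl⟩, ?_⟩
    have := congrArg Subtype.val hmy
    exact this.symm
  have hPp : IsPGroup p P := P'.2.map X.subtype
  have hPq : ∀ y ∈ P, y ^ Nat.card P = 1 := by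
    intro y hy
    have h2 : orderOf y ∣ Nat.card P := Subgroup.orderOf_dvd_natCard P hy
    exact orderOf_dvd_iff_pow_eq_one.1 h2
  haveI hPcyc : IsCyclic P := hcyc p hp P hPX hPp
  have hcopM : (Nat.card A).Coprime (Nat.card M) :=
    Nat.Coprime.coprime_dvd_right (Subgroup.card_dvd_of_le hMX) hcop
  have cycM : CycP M := hcyc.mono hMX
  have solvM : Group.IsSolvable M := cycM.isSolvable
  set M₀ : Subgroup Γ := ⁅M, A⁆ with hM₀
  have hM₀M : M₀ ≤ M := by
    rw [hM₀, Subgroup.commutator_le]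
    intro m hm a ha
    rw [commutatorElement_def]
    have e : m * a * m⁻¹ * a⁻¹ = m * (a * m⁻¹ * a⁻¹) := by group
    rw [e]
    exact M.mul_mem hm ((Subgroup.mem_normalizer_iff.1 (hAM ha) _).1 (M.inv_mem hm))
  have hAM₀ : A ≤ Subgroup.normalizer (M₀ : Set Γ) := fun a ha =>
    H01.mem_normalizer_commutator (hAM ha) (Subgroup.le_normalizer ha)
  have hfund : ⁅M₀, A⁆ = M₀ := H01.commutator_commutator_eq hAM hcopM (Or.inr solvM)
  have hsup : M₀ ⊔ (M ⊓ Subgroup.centralizer (A : Set Γ)) = M :=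
    H01.commutator_sup_centralizer hAM hcopM (Or.inr solvM)
  have hM₀lt : Nat.card M₀ < n := by
    rw [← hn]
    exact lt_of_le_of_lt (Nat.le_of_dvd Nat.card_pos (Subgroup.card_dvd_of_le hM₀M)) hMlt
  obtain ⟨cycM₀, hM₀C⟩ := ih _ hM₀lt M₀ rfl hAM₀
    (Nat.Coprime.coprime_dvd_right (Subgroup.card_dvd_of_le hM₀M) hcopM) (cycM.mono hM₀M) hfund
  set C₁ : Subgroup Γ := M ⊓ Subgroup.centralizer (A : Set Γ) with hC₁
  have hC₁N : C₁ ≤ Subgroup.normalizer (M₀ : Set Γ) := fun c hc => normalizes_commutator hc.1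
  have hM₀C₁ : M₀ ⊓ C₁ = ⊥ := by
    rw [eq_bot_iff]
    rintro z ⟨h2, -, h3⟩
    have h4 : z ∈ M₀ ⊓ Subgroup.centralizer (A : Set Γ) := ⟨h2, h3⟩
    rwa [hM₀C] at h4
  have hcopH : Nat.Coprime (Nat.card M₀) (Nat.card C₁) :=
    coprime_of_cyclic_inf hM₀M inf_le_left cycM cycM₀ hC₁N hM₀C₁
  have hdecM : ∀ m ∈ M, ∃ t ∈ M₀, ∃ c ∈ C₁, m = t * c := by
    intro m hm
    rw [← hsup] at hm
    exact H01.exists_mul_of_mem_sup hC₁N hm
  have hXM₀ : X ≤ Subgroup.normalizer (M₀ : Set Γ) := by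
    intro x hx
    apply mem_normalizer_of_conj_le
    intro y hy
    have hy' : x * y * x⁻¹ ∈ M := (Subgroup.mem_normalizer_iff.1 (hXnorm hx) y).1 (hM₀M hy)
    obtain ⟨t, ht, c, hc, hdecy⟩ := hdecM _ hy'
    set m := Nat.card M₀ with hm
    have h2 : (x * y * x⁻¹) ^ m = 1 := by
      rw [conj_pow]
      have : y ^ m = 1 := orderOf_dvd_iff_pow_eq_one.1 (Subgroup.orderOf_dvd_natCard M₀ hy)
      rw [this]; group
    obtain ⟨t', ht', h3⟩ := exists_pow_mul_eq ht (hC₁N hc) m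
    rw [← hdecy, h2] at h3
    have h4 : c ^ m = t'⁻¹ := by
      exact eq_inv_of_mul_eq_one_right h3.symm
    have h5 : c ^ m ∈ M₀ := by rw [h4]; exact M₀.inv_mem ht'
    have h6 : c ^ m ∈ M₀ ⊓ C₁ := ⟨h5, C₁.pow_mem hc m⟩
    rw [hM₀C₁, Subgroup.mem_bot] at h6
    have h7 : orderOf c ∣ m := orderOf_dvd_of_pow_eq_one h6
    have h8 : orderOf c ∣ Nat.card C₁ := Subgroup.orderOf_dvd_natCard C₁ hc
    have h9 : orderOf c = 1 := Nat.eq_one_of_dvd_coprimes hcopH h7 h8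
    rw [orderOf_eq_one_iff] at h9
    rw [hdecy, h9, mul_one]
    exact ht
  have hXC : X ≤ Subgroup.centralizer (M₀ : Set Γ) := by
    have h2 : ⁅X, A⁆ ≤ Subgroup.centralizer (M₀ : Set Γ) := by
      rw [Subgroup.commutator_le]
      intro x hx a ha
      exact commutator_mem_centralizer_of_cyclic cycM₀ (hXM₀ hx) (hAM₀ ha)
    rwa [hX] at h2
  -- `[X, M] ≤ M₀`
  let D : Subgroup Γ :=
    { carrier := {y | y ∈ X ∧ ∀ m ∈ M, y * m * y⁻¹ * m⁻¹ ∈ M₀}
      one_mem' := ⟨X.one_mem, fun m _ => by simpa using M₀.one_mem⟩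
      mul_mem' := by
        rintro y₁ y₂ ⟨h1, h1'⟩ ⟨h2, h2'⟩
        refine ⟨X.mul_mem h1 h2, fun m hm => ?_⟩
        have e : y₁ * y₂ * m * (y₁ * y₂)⁻¹ * m⁻¹ =
            y₁ * (y₂ * m * y₂⁻¹ * m⁻¹) * y₁⁻¹ * (y₁ * m * y₁⁻¹ * m⁻¹) := by group
        rw [e]
        exact M₀.mul_mem ((Subgroup.mem_normalizer_iff.1 (hXM₀ h1) _).1 (h2' m hm)) (h1' m hm)
      inv_mem' := by
        rintro y ⟨h1, h1'⟩
        refine ⟨X.inv_mem h1, fun m hm => ?_⟩
        have hm' : y⁻¹ * m * y ∈ M := by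
          have := (Subgroup.mem_normalizer_iff.1 (Subgroup.inv_mem _ (hXnorm h1)) m).1 hm
          simpa using this
        have h2 := M₀.inv_mem (h1' _ hm')
        have e : (y * (y⁻¹ * m * y) * y⁻¹ * (y⁻¹ * m * y)⁻¹)⁻¹ = y⁻¹ * m * y⁻¹⁻¹ * m⁻¹ := by group
        rw [e] at h2
        exact h2 }
  have hD : ∀ x ∈ X, ∀ m ∈ M, x * m * x⁻¹ * m⁻¹ ∈ M₀ := by
    have h2 : ⁅X, A⁆ ≤ D := by
      rw [Subgroup.commutator_le]
      intro x hx a ha
      refine ⟨?_, ?_⟩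
      · rw [commutatorElement_def]
        have e : x * a * x⁻¹ * a⁻¹ = x * (a * x⁻¹ * a⁻¹) := by group
        rw [e]
        exact X.mul_mem hx ((Subgroup.mem_normalizer_iff.1 (hAX ha) _).1 (X.inv_mem hx))
      · intro m hm
        rw [commutatorElement_def]
        have hinv : a⁻¹ ∈ A := A.inv_mem ha
        set m₁ : Γ := a⁻¹ * m * a with hm₁
        have hm₁M : m₁ ∈ M := by
          have := (Subgroup.mem_normalizer_iff.1 (hAM hinv) m).1 hm
          simpa [hm₁] using this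
        set m₂ : Γ := x⁻¹ * m₁ * x with hm₂
        have hm₂M : m₂ ∈ M := by
          have := (Subgroup.mem_normalizer_iff.1 (hXnorm (X.inv_mem hx)) m₁).1 hm₁M
          simpa [hm₂] using this
        have h3 : a * m₂ * a⁻¹ * m₂⁻¹ ∈ M₀ := by
          have h4 : ⁅m₂, a⁆ ∈ M₀ := Subgroup.commutator_mem_commutator hm₂M ha
          rw [commutatorElement_def] at h4
          have h5 := M₀.inv_mem h4
          have e : (m₂ * a * m₂⁻¹ * a⁻¹)⁻¹ = a * m₂ * a⁻¹ * m₂⁻¹ := by group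
          rwa [e] at h5
        have h4 : m₁ * m⁻¹ ∈ M₀ := by
          have h5 : ⁅m, a⁆ ∈ M₀ := Subgroup.commutator_mem_commutator hm ha
          rw [commutatorElement_def] at h5
          have h6 := (Subgroup.mem_normalizer_iff.1 (hAM₀ hinv) _).1 h5
          have e : a⁻¹ * (m * a * m⁻¹ * a⁻¹) * a⁻¹⁻¹ = m₁ * m⁻¹ := by rw [hm₁]; group
          rwa [e] at h6
        have e : x * a * x⁻¹ * a⁻¹ * m * (x * a * x⁻¹ * a⁻¹)⁻¹ * m⁻¹ =
            (x * (a * m₂ * a⁻¹ * m₂⁻¹) * x⁻¹) * (m₁ * m⁻¹) := by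
          rw [hm₂, hm₁]; group
        rw [e]
        exact M₀.mul_mem ((Subgroup.mem_normalizer_iff.1 (hXM₀ hx) _).1 h3) h4
    rw [hX] at h2
    exact fun x hx => (h2 hx).2
  -- quotient
  haveI hQn : (M₀.subgroupOf X).Normal := by
    constructor
    intro n' hn' g
    rw [Subgroup.mem_subgroupOf] at hn' ⊢
    exact (Subgroup.mem_normalizer_iff.1 (hXM₀ g.2) _).1 hn'
  set π := QuotientGroup.mk' (M₀.subgroupOf X) with hπ
  have hπ1 : ∀ z : X, π z = 1 ↔ (z : Γ) ∈ M₀ := by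
    intro z
    rw [hπ, QuotientGroup.mk'_apply, QuotientGroup.eq_one_iff, Subgroup.mem_subgroupOf]
  have hcen : ∀ (m : X), (m : Γ) ∈ M → ∀ z : X, Commute (π m) (π z) := by
    intro m hm z
    have h2 := hD _ z.2 _ hm
    have h3 : π (z * m * z⁻¹ * m⁻¹) = 1 := (hπ1 _).2 h2
    rw [map_mul, map_mul, map_mul, map_inv, map_inv, mul_inv_eq_one, mul_inv_eq_iff_eq_mul] at h3
    exact h3.symm
  obtain ⟨y₀, hy₀⟩ := hPcyc.exists_generator
  have hPcomm : ∀ y ∈ P, ∀ y' ∈ P, y * y' = y' * y := by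
    intro y hy y' hy'
    obtain ⟨i, hi⟩ := hy₀ ⟨y, hy⟩
    obtain ⟨j, hj⟩ := hy₀ ⟨y', hy'⟩
    have h2 : (y₀ ^ i) * (y₀ ^ j) = (y₀ ^ j) * (y₀ ^ i) :=
      ((Commute.refl y₀).zpow_left i |>.zpow_right j).eq
    have h3 := congrArg Subtype.val h2
    simp only [Subgroup.coe_mul] at h3
    have h4 : ((y₀ ^ i : P) : Γ) = y := congrArg Subtype.val hi
    have h5 : ((y₀ ^ j : P) : Γ) = y' := congrArg Subtype.val hj
    rwa [h4, h5] at h3
  have hπcomm : ∀ z z' : X, Commute (π z) (π z') := by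
    intro z z'
    obtain ⟨m, hm, y, hy, he⟩ := hdec z z.2
    obtain ⟨m', hm', y', hy', he'⟩ := hdec z' z'.2
    have hz : z = ⟨m, hMX hm⟩ * ⟨y, hPX hy⟩ := Subtype.ext he
    have hz' : z' = ⟨m', hMX hm'⟩ * ⟨y', hPX hy'⟩ := Subtype.ext he'
    rw [hz, hz', map_mul, map_mul]
    have h2 : Commute (π ⟨y, hPX hy⟩) (π ⟨y', hPX hy'⟩) := by
      show _ * _ = _ * _
      rw [← map_mul, ← map_mul]
      congr 1
      exact Subtype.ext (hPcomm y hy y' hy')
    apply Commute.mul_left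
    · apply Commute.mul_right
      · exact hcen _ hm _
      · exact hcen _ hm _
    · apply Commute.mul_right
      · exact (hcen _ hm' _).symm
      · exact h2
  set q := Nat.card P with hq
  let W : Subgroup Γ :=
    { carrier := {x | x ∈ X ∧ x ^ q ∈ M₀}
      one_mem' := ⟨X.one_mem, by simpa using M₀.one_mem⟩
      mul_mem' := by
        rintro x x' ⟨h2, h2'⟩ ⟨h3, h3'⟩
        refine ⟨X.mul_mem h2 h3, ?_⟩
        have h4 : π (⟨x, h2⟩ * ⟨x', h3⟩) ^ q = 1 := by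
          rw [map_mul, (hπcomm _ _).mul_pow, ← map_pow, ← map_pow, (hπ1 _).2 (by exact h2'),
            (hπ1 _).2 (by exact h3'), one_mul]
        rw [← map_pow, hπ1] at h4
        exact h4
      inv_mem' := by
        rintro x ⟨h2, h2'⟩
        refine ⟨X.inv_mem h2, ?_⟩
        rw [inv_pow]
        exact M₀.inv_mem h2' }
  have hWX : ∀ x ∈ X, ∀ w ∈ W, x * w * x⁻¹ ∈ W := by
    rintro x hx w ⟨h2, h3⟩
    refine ⟨X.mul_mem (X.mul_mem hx h2) (X.inv_mem hx), ?_⟩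
    rw [conj_pow]
    exact (Subgroup.mem_normalizer_iff.1 (hXM₀ hx) _).1 h3
  have hWA : ∀ a ∈ A, ∀ w ∈ W, a * w * a⁻¹ ∈ W := by
    rintro a ha w ⟨h2, h3⟩
    refine ⟨(Subgroup.mem_normalizer_iff.1 (hAX ha) _).1 h2, ?_⟩
    rw [conj_pow]
    exact (Subgroup.mem_normalizer_iff.1 (hAM₀ ha) _).1 h3
  have hM₀W : M₀ ≤ W := fun t ht => ⟨hMX (hM₀M ht), M₀.pow_mem ht q⟩
  have hPW : P ≤ W := fun y hy => ⟨hPX hy, by rw [hPq y hy]; exact M₀.one_mem⟩
  have hXW : X ≤ W := by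
    have h2 : ⁅X, A⁆ ≤ W := by
      rw [Subgroup.commutator_le]
      intro x hx a ha
      obtain ⟨m, hm, y, hy, rfl⟩ := hdec x hx
      have e : ⁅m * y, a⁆ = m * (y * (a * y⁻¹ * a⁻¹)) * m⁻¹ * ⁅m, a⁆ := by
        simp only [commutatorElement_def]; group
      rw [e]
      refine W.mul_mem (hWX m (hMX hm) _ (W.mul_mem (hPW hy) (hWA a ha _ (W.inv_mem (hPW hy))))) ?_
      exact hM₀W (Subgroup.commutator_mem_commutator hm ha)
    rwa [hX] at h2
  have hC₁bot : C₁ = ⊥ := by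
    rw [eq_bot_iff]
    intro c hc
    rw [Subgroup.mem_bot]
    have h2 : c ^ q ∈ M₀ := (hXW (hMX hc.1)).2
    have h3 : c ^ q ∈ M₀ ⊓ C₁ := ⟨h2, C₁.pow_mem hc q⟩
    rw [hM₀C₁, Subgroup.mem_bot] at h3
    have h4 : orderOf c ∣ q := orderOf_dvd_of_pow_eq_one h3
    have hq' : q = p ^ k := hPcard.trans hk
    have h5 : Nat.Coprime (orderOf c) (p ^ k) := Nat.Coprime.pow_right k (hMord c hc.1)
    rw [hq'] at h4
    have h6 : orderOf c = 1 := Nat.eq_one_of_dvd_coprimes h5 (dvd_refl _) h4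
    exact orderOf_eq_one_iff.mp h6
  have hMM₀ : M₀ = M := by
    rw [hC₁bot, sup_bot_eq] at hsup
    exact hsup
  have hcentral : ∀ x ∈ X, ∀ m ∈ M, x * m = m * x := by
    intro x hx m hm
    have h2 : m ∈ M₀ := by rw [hMM₀]; exact hm
    have := Subgroup.mem_centralizer_iff.1 (hXC hx) m h2
    exact this.symm
  have hab : ∀ x ∈ X, ∀ y ∈ X, x * y = y * x := by
    intro x hx x' hx'
    obtain ⟨m, hm, y, hy, rfl⟩ := hdec x hx
    obtain ⟨m', hm', y', hy', rfl⟩ := hdec x' hx'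
    have c1 : Commute m m' := (hcentral m (hMX hm) m' hm')
    have c2 : Commute y m' := (hcentral y (hPX hy) m' hm')
    have c3 : Commute m y' := (hcentral y' (hPX hy') m hm).symm
    have c4 : Commute y y' := hPcomm y hy y' hy'
    exact ((c1.mul_left c2).mul_right (c3.mul_left c4)).eq
  refine ⟨?_, inf_centralizer_eq_bot_of_abelian hab hAX hcop hX⟩
  -- cyclic
  have cycM' : IsCyclic M := by rw [← hMM₀]; exact cycM₀
  obtain ⟨u, hu⟩ := cycM'.exists_generator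
  have huo : orderOf (u : Γ) = Nat.card M := by
    rw [Subgroup.orderOf_coe]
    exact orderOf_eq_card_of_forall_mem_zpowers hu
  have hyo : orderOf (y₀ : Γ) = Nat.card P := by
    rw [Subgroup.orderOf_coe]
    exact orderOf_eq_card_of_forall_mem_zpowers hy₀
  refine isCyclic_of_commute_generators (g := (⟨u, hMX u.2⟩ : X)) (h := (⟨y₀, hPX y₀.2⟩ : X)) ?_ ?_ ?_
  · exact Subtype.ext (hab _ (hMX u.2) _ (hPX y₀.2))
  · rw [← Subgroup.orderOf_coe, ← Subgroup.orderOf_coe]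
    show Nat.Coprime (orderOf (u : Γ)) (orderOf (y₀ : Γ))
    rw [huo, hyo]
    obtain ⟨j, hj⟩ := IsPGroup.iff_card.mp hPp
    rw [hj]
    exact Nat.Coprime.pow_right j hMcop
  · rw [← Subgroup.orderOf_coe, ← Subgroup.orderOf_coe]
    show Nat.card X = orderOf (u : Γ) * orderOf (y₀ : Γ)
    rw [huo, hyo, hcards]

/-- The main theorem on `[X, A]`. -/
theorem commutator_structure {X A : Subgroup Γ} (hAX : A ≤ Subgroup.normalizer (X : Set Γ))
    (hcop : (Nat.card A).Coprime (Nat.card X)) (hcyc : CycP X) :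
    IsCyclic (⁅X, A⁆ : Subgroup Γ) ∧ (⁅X, A⁆ : Subgroup Γ) ⊓ Subgroup.centralizer (A : Set Γ) = ⊥ ∧
      Nat.Coprime (Nat.card (⁅X, A⁆ : Subgroup Γ)) (Nat.card (X ⊓ Subgroup.centralizer (A : Set Γ) : Subgroup Γ)) ∧
      (⁅X, A⁆ : Subgroup Γ) ⊔ (X ⊓ Subgroup.centralizer (A : Set Γ)) = X := by
  have solvX : Group.IsSolvable X := hcyc.isSolvable
  have hLX : ⁅X, A⁆ ≤ X := by
    rw [Subgroup.commutator_le]
    intro m hm a ha
    rw [commutatorElement_def]
    have e : m * a * m⁻¹ * a⁻¹ = m * (a * m⁻¹ * a⁻¹) := by group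
    rw [e]
    exact X.mul_mem hm ((Subgroup.mem_normalizer_iff.1 (hAX ha) _).1 (X.inv_mem hm))
  have hAL : A ≤ Subgroup.normalizer ((⁅X, A⁆ : Subgroup Γ) : Set Γ) := fun a ha =>
    H01.mem_normalizer_commutator (hAX ha) (Subgroup.le_normalizer ha)
  have hfund : ⁅⁅X, A⁆, A⁆ = ⁅X, A⁆ := H01.commutator_commutator_eq hAX hcop (Or.inr solvX)
  have hsup := H01.commutator_sup_centralizer hAX hcop (Or.inr solvX)
  obtain ⟨h1, h2⟩ := star A _ (⁅X, A⁆) rfl hAL
    (Nat.Coprime.coprime_dvd_right (Subgroup.card_dvd_of_le hLX) hcop) (hcyc.mono hLX) hfund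
  refine ⟨h1, h2, ?_, hsup⟩
  apply coprime_of_cyclic_inf hLX inf_le_left hcyc h1 (fun c hc => normalizes_commutator hc.1)
  rw [eq_bot_iff]
  rintro z ⟨h3, -, h4⟩
  have h5 : z ∈ (⁅X, A⁆ : Subgroup Γ) ⊓ Subgroup.centralizer (A : Set Γ) := ⟨h3, h4⟩
  rwa [h2] at h5

end Cfsg.Agent.H19
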